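import Mathlib

/-!
Finite groups in which every non-trivial element has one axis, the pointwise stabilisers of axes
having index at most two in their stabilisers: counting.
-/

set_option autoImplicit false

namespace Cfsg.Agent.H5

open scoped Pointwise

variable {G X : Type*} [Group G] [MulAction G X]

/-- An axis of every non-trivial element. -/
structure AxisData (ax : G → X) (Fx : X → Subgroup G) : Prop where
  mem_iff : ∀ (L : X) (g : G), g ∈ Fx L ↔ g = 1 ∨ ax g = L
  equiv : ∀ g h : G, g ≠ 1 → ax (h * g * h⁻¹) = h • ax g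
  stab : ∀ L : X, ∀ g ∈ Fx L, g • L = L
  two : ∀ L : X, ∀ g h : G, g • L = L → h • L = L → g ∉ Fx L → h ∉ Fx L → g * h ∈ Fx L

variable {ax : G → X} {Fx : X → Subgroup G} (hA : AxisData ax Fx)

include hA in
theorem AxisData.card_stabilizer [Finite G] (L : X) :
    Nat.card (MulAction.stabilizer G L) = Nat.card (Fx L) ∨
      Nat.card (MulAction.stabilizer G L) = 2 * Nat.card (Fx L) := by
  have hle : Fx L ≤ MulAction.stabilizer G L := fun g hg => hA.stab L g hg
  by_cases heq : MulAction.stabilizer G L ≤ Fx L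
  · exact Or.inl (congrArg (fun H : Subgroup G => Nat.card H) (le_antisymm heq hle))
  obtain ⟨s, hs, hsF⟩ := SetLike.not_le_iff_exists.1 heq
  right
  have hind : ((Fx L).subgroupOf (MulAction.stabilizer G L)).index = 2 := by
    rw [Subgroup.index_eq_two_iff]
    refine ⟨⟨s, hs⟩, fun b => ?_⟩
    simp only [Subgroup.mem_subgroupOf, Subgroup.coe_mul]
    by_cases hb : (b : G) ∈ Fx L
    · refine Or.inr ⟨hb, fun h0 => hsF ?_⟩
      have := mul_mem (inv_mem hb) h0
      rwa [inv_mul_cancel_left] at this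
    · exact Or.inl ⟨hA.two L _ _ b.2 hs hb hsF, hb⟩
  have h1 := Subgroup.index_mul_card ((Fx L).subgroupOf (MulAction.stabilizer G L))
  rw [hind, Nat.card_congr (Subgroup.subgroupOfEquivOfLe hle).toEquiv] at h1
  exact h1.symm

include hA in
theorem AxisData.card_smul (h : G) (L : X) : Nat.card (Fx (h • L)) = Nat.card (Fx L) := by
  symm
  refine Nat.card_congr
    { toFun := fun g => ⟨h * g * h⁻¹, ?_⟩
      invFun := fun g => ⟨h⁻¹ * g * h, ?_⟩
      left_inv := fun g => Subtype.ext (by simp [mul_assoc])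
      right_inv := fun g => Subtype.ext (by simp [mul_assoc]) }
  · rcases (hA.mem_iff L g).1 g.2 with h0 | h0
    · rw [h0]; simp
    by_cases hg1 : (g : G) = 1
    · rw [hg1]; simp
    rw [hA.mem_iff, hA.equiv _ _ hg1, h0]; exact Or.inr rfl
  · rcases (hA.mem_iff _ _).1 g.2 with h0 | h0
    · rw [h0]; simp
    by_cases hg1 : (g : G) = 1
    · rw [hg1]; simp
    have := hA.equiv (g : G) h⁻¹ hg1
    rw [inv_inv, h0, inv_smul_smul] at this
    rw [hA.mem_iff]; exact Or.inr this

include hA in
/-- A group with an axis of order at least four fixes it or is one of the two exceptions. -/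
theorem AxisData.classify [Finite G] [Finite X] (L₀ : X) (he : 4 ≤ Nat.card (Fx L₀)) :
    (∀ g : G, g • L₀ = L₀) ∨
      Nat.card G = 24 ∧ Nat.card (Fx L₀) = 4 ∧ (MulAction.orbit G L₀).ncard = 3 ∨
      Nat.card G = 60 ∧ Nat.card (Fx L₀) = 5 := by
  classical
  have := Fintype.ofFinite G
  have := Fintype.ofFinite X
  let ε : X → ℕ := fun L => Nat.card (Fx L)
  let m : X → ℕ := fun L => (MulAction.orbit G L).ncard
  have hN : ∀ L, Nat.card G = m L * ε L ∨ Nat.card G = 2 * (m L * ε L) := fun L => by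
    have h1 := Subgroup.index_mul_card (MulAction.stabilizer G L)
    rw [MulAction.index_stabilizer] at h1
    rcases hA.card_stabilizer L with h2 | h2 <;> rw [h2] at h1
    · exact Or.inl h1.symm
    · exact Or.inr (by rw [← h1]; ring)
  have hεpos : ∀ L, 1 ≤ ε L := fun L => Nat.card_pos
  have hmpos : ∀ L, 1 ≤ m L := fun L =>
    (Set.ncard_pos (Set.toFinite _)).2 ⟨L, MulAction.mem_orbit_self L⟩
  have htot : (∑ L : X, (ε L - 1)) + 1 = Nat.card G := by
    have hfib : ∀ L : X, ((Finset.univ.erase (1 : G)).filter fun g => ax g = L).card = ε L - 1 := by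
      intro L
      have : ((Finset.univ.erase (1 : G)).filter fun g => ax g = L) =
          (Finset.univ.filter fun g => g ∈ Fx L).erase 1 := by
        ext g
        simp only [Finset.mem_filter, Finset.mem_erase, Finset.mem_univ, true_and, hA.mem_iff]
        tauto
      rw [this, Finset.card_erase_of_mem (by simp), ← Fintype.card_subtype]
      simp [ε, Nat.card_eq_fintype_card]
    rw [← Finset.sum_congr rfl fun L _ => hfib L, ← Finset.card_eq_sum_card_fiberwise
      (fun g _ => Finset.mem_univ (ax g)), Finset.card_erase_of_mem (Finset.mem_univ _),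
      Finset.card_univ, Nat.card_eq_fintype_card]
    exact Nat.sub_add_cancel Fintype.card_pos
  -- removing orbits
  have hsplit : ∀ (S : Finset X), (∀ g : G, ∀ L ∈ S, g • L ∈ S) → ∀ L ∈ S,
      ∃ S' : Finset X, (∀ g : G, ∀ K ∈ S', g • K ∈ S') ∧
        ∑ K ∈ S, (ε K - 1) = m L * (ε L - 1) + ∑ K ∈ S', (ε K - 1) := by
    intro S hS L hL
    set O := (MulAction.orbit G L).toFinset with hO
    have hOS : O ⊆ S := fun K hK => by
      rw [hO, Set.mem_toFinset] at hK
      obtain ⟨g, rfl⟩ := hK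
      exact hS g L hL
    refine ⟨S \ O, fun g K hK => ?_, ?_⟩
    · simp only [Finset.mem_sdiff, hO, Set.mem_toFinset] at hK ⊢
      refine ⟨hS g K hK.1, fun h0 => hK.2 ?_⟩
      obtain ⟨g', hg'⟩ := h0
      exact ⟨g⁻¹ * g', by simp only at hg' ⊢; rw [mul_smul, hg', inv_smul_smul]⟩
    · rw [← Finset.sum_sdiff hOS, add_comm]
      congr 1
      rw [Finset.sum_congr rfl (fun K hK => ?_), Finset.sum_const, smul_eq_mul]
      · rw [hO, ← Set.ncard_eq_toFinset_card']
      · rw [hO, Set.mem_toFinset] at hK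
        obtain ⟨g, rfl⟩ := hK
        show Nat.card (Fx (g • L)) - 1 = _
        rw [hA.card_smul]
  have hpick : ∀ S : Finset X, (∀ g : G, ∀ L ∈ S, g • L ∈ S) → ∑ K ∈ S, (ε K - 1) ≠ 0 →
      ∃ a b, 2 ≤ b ∧ (Nat.card G = a * b ∨ Nat.card G = 2 * (a * b)) ∧
        ∃ S' : Finset X, (∀ g : G, ∀ K ∈ S', g • K ∈ S') ∧
          ∑ K ∈ S, (ε K - 1) = a * (b - 1) + ∑ K ∈ S', (ε K - 1) := by
    intro S hS hne
    obtain ⟨L, hL, hεL⟩ := Finset.exists_ne_zero_of_sum_ne_zero hne
    exact ⟨m L, ε L, by omega, hN L, hsplit S hS L hL⟩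
  have hquarter : ∀ {a b : ℕ}, 2 ≤ b → (Nat.card G = a * b ∨ Nat.card G = 2 * (a * b)) →
      Nat.card G ≤ 4 * (a * (b - 1)) := by
    intro a b hb hh
    obtain ⟨b, rfl⟩ : ∃ b', b = b' + 1 := ⟨b - 1, by omega⟩
    simp only [Nat.add_sub_cancel]
    rcases hh with hh | hh <;> rw [hh] <;> nlinarith
  obtain ⟨S₁, hS₁, hR⟩ := hsplit Finset.univ (fun g L _ => Finset.mem_univ _) L₀ (Finset.mem_univ _)
  rw [hR] at htot
  set R := ∑ K ∈ S₁, (ε K - 1) with hRdef
  obtain ⟨e, hee⟩ : ∃ e', ε L₀ = e' + 1 := ⟨ε L₀ - 1, by have := hεpos L₀; omega⟩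
  have he4 : 3 ≤ e := by
    have : 4 ≤ ε L₀ := he
    omega
  set M := m L₀ with hM
  have hfix : M = 1 → ∀ g : G, g • L₀ = L₀ := by
    intro h1 g
    obtain ⟨K, hK⟩ := Set.ncard_eq_one.1 h1
    have h2 : L₀ ∈ MulAction.orbit G L₀ := MulAction.mem_orbit_self _
    have h3 : g • L₀ ∈ MulAction.orbit G L₀ := MulAction.mem_orbit L₀ g
    rw [hK, Set.mem_singleton_iff] at h2 h3
    rw [h3, ← h2]
  by_cases hM1 : M = 1
  · exact Or.inl (hfix hM1)
  have hM2 : 2 ≤ M := by have := hmpos L₀; omega
  rw [hee, Nat.add_sub_cancel] at htot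
  rcases hN L₀ with hG | hG <;> rw [hee] at hG
  · exfalso
    have hR1 : R + 1 = M := by rw [hG] at htot; linarith
    obtain ⟨a, b, hb, hab, S', -, hsum⟩ := hpick S₁ hS₁ (by rw [← hRdef]; omega)
    have h4 := hquarter hb hab
    rw [← hRdef] at hsum
    have : a * (b - 1) ≤ R := by omega
    nlinarith
  change Nat.card G = 2 * (M * (e + 1)) at hG
  have hR2 : R + 1 = M * e + 2 * M := by rw [hG] at htot; linarith
  have hMe : M * 3 ≤ M * e := Nat.mul_le_mul_left M he4
  obtain ⟨a, b, hb, hab, S₂, hS₂, hsum⟩ := hpick S₁ hS₁ (by rw [← hRdef]; nlinarith)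
  rw [← hRdef] at hsum
  set R₂ := ∑ K ∈ S₂, (ε K - 1) with hR₂def
  obtain ⟨b, rfl⟩ : ∃ b', b = b' + 1 := ⟨b - 1, by omega⟩
  rw [Nat.add_sub_cancel] at hsum
  by_cases hR₂ : R₂ = 0
  · exfalso
    rcases hab with hab | hab
    · rcases Nat.lt_or_ge b 2 with hb2 | hb2
      · obtain rfl : b = 1 := by omega
        nlinarith
      · have : a * 3 ≤ a * (b + 1) := Nat.mul_le_mul_left a (by omega)
        nlinarith
    · nlinarith
  obtain ⟨a', b', hb', hab', S₃, hS₃, hsum'⟩ := hpick S₂ hS₂ hR₂
  rw [← hR₂def] at hsum'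
  obtain ⟨b', rfl⟩ : ∃ b'', b' = b'' + 1 := ⟨b' - 1, by omega⟩
  rw [Nat.add_sub_cancel] at hsum'
  by_cases hR₃ : ∑ K ∈ S₃, (ε K - 1) = 0
  swap
  · exfalso
    obtain ⟨a'', b'', hb'', hab'', S₄, -, hsum''⟩ := hpick S₃ hS₃ hR₃
    have h4 := hquarter hb hab
    have h4' := hquarter hb' hab'
    have h4'' := hquarter hb'' hab''
    rw [Nat.add_sub_cancel] at h4 h4'
    have : M * (e + 1) = M * e + M := by ring
    generalize a * b = t at *; generalize a' * b' = t' at *
    generalize a'' * (b'' - 1) = t'' at *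
    omega
  have h4 := hquarter hb hab
  have h4' := hquarter hb' hab'
  rw [Nat.add_sub_cancel] at h4 h4'
  rcases hab with hab | hab
  · exfalso
    have : a * 1 ≤ a * b := Nat.mul_le_mul_left a (by omega)
    nlinarith
  rcases hab' with hab' | hab'
  · exfalso
    have : a' * 1 ≤ a' * b' := Nat.mul_le_mul_left a' (by omega)
    nlinarith
  -- two orbits, both with halved stabilisers
  have e1 : a * (b + 1) = M * (e + 1) := by omega
  have e2 : a' * (b' + 1) = M * (e + 1) := by omega
  have e3 : a + a' + R = a * (b + 1) + a' * (b' + 1) := by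
    rw [hsum, hsum', hR₃]; ring
  rcases Nat.lt_or_ge b 2 with hb2 | hb2 <;> rcases Nat.lt_or_ge b' 2 with hb2' | hb2'
  · exfalso
    obtain rfl : b = 1 := by omega
    obtain rfl : b' = 1 := by omega
    nlinarith
  · obtain rfl : b = 1 := by omega
    rcases Nat.lt_or_ge b' 3 with hb3 | hb3
    · obtain rfl : b' = 2 := by omega
      have h6 : 6 * M ≤ M * (e + 1) + 6 := by nlinarith
      have h6' : M * (e + 1) + 6 = 6 * M := by nlinarith
      rcases Nat.lt_or_ge e 5 with he5 | he5
      · interval_cases e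
        · right; left
          have hM3 : M = 3 := by omega
          exact ⟨by omega, hee, hM3⟩
        · right; right
          have hM6 : M = 6 := by omega
          exact ⟨by omega, hee⟩
      · exfalso; nlinarith
    · exfalso
      have : a' * 4 ≤ a' * (b' + 1) := Nat.mul_le_mul_left a' (by omega)
      nlinarith
  · obtain rfl : b' = 1 := by omega
    rcases Nat.lt_or_ge b 3 with hb3 | hb3
    · obtain rfl : b = 2 := by omega
      have h6' : M * (e + 1) + 6 = 6 * M := by nlinarith
      rcases Nat.lt_or_ge e 5 with he5 | he5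
      · interval_cases e
        · right; left
          have hM3 : M = 3 := by omega
          exact ⟨by omega, hee, hM3⟩
        · right; right
          have hM6 : M = 6 := by omega
          exact ⟨by omega, hee⟩
      · exfalso; nlinarith
    · exfalso
      have : a * 4 ≤ a * (b + 1) := Nat.mul_le_mul_left a (by omega)
      nlinarith
  · exfalso
    have : a * 3 ≤ a * (b + 1) := Nat.mul_le_mul_left a (by omega)
    have : a' * 3 ≤ a' * (b' + 1) := Nat.mul_le_mul_left a' (by omega)
    nlinarith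

end Cfsg.Agent.H5
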