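import Cfsg.Agent.H5.FrameSphere
import Cfsg.Agent.H5.AxisCount

/-!
Finite groups of isometries of a three-dimensional space generated by three reflections: either a
root element, or a change of signs on the space, or a fixed angle between the reflecting vectors.
-/

set_option autoImplicit false
set_option maxHeartbeats 400000

namespace Cfsg.Agent.H5

open QuadraticMap hiding sq

variable {F V : Type*} [Field F] [AddCommGroup V] [Module F V] {Q : QuadraticForm F V}
  {M : Subgroup (orth Q)}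

/-- Three pairwise orthogonal anisotropic vectors. -/
structure Basis3 (Q : QuadraticForm F V) (a b r : V) : Prop where
  qa : Q a ≠ 0
  qb : Q b ≠ 0
  qr : Q r ≠ 0
  ab : polar Q a b = 0
  ar : polar Q a r = 0
  br : polar Q b r = 0

/-- The span of three vectors. -/
def span3 (F : Type*) {V : Type*} [Field F] [AddCommGroup V] [Module F V] (a b r : V) :
    Submodule F V :=
  Submodule.span F (Set.range ![a, b, r])

theorem mem_span3 {a b r x : V} :
    x ∈ span3 F a b r ↔ ∃ α β γ : F, x = α • a + β • b + γ • r := by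
  rw [span3, Submodule.mem_span_range_iff_exists_fun]
  refine ⟨fun ⟨φ, hφ⟩ => ⟨φ 0, φ 1, φ 2, by rw [← hφ, Fin.sum_univ_three]; rfl⟩, ?_⟩
  rintro ⟨α, β, γ, rfl⟩
  exact ⟨![α, β, γ], by rw [Fin.sum_univ_three]; rfl⟩

theorem combo_mem_span3 (a b r : V) (α β γ : F) : α • a + β • b + γ • r ∈ span3 F a b r :=
  mem_span3.2 ⟨α, β, γ, rfl⟩

theorem left_mem_span3 (a b r : V) : a ∈ span3 F a b r := mem_span3.2 ⟨1, 0, 0, by simp⟩

theorem mid_mem_span3 (a b r : V) : b ∈ span3 F a b r := mem_span3.2 ⟨0, 1, 0, by simp⟩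

theorem right_mem_span3 (a b r : V) : r ∈ span3 F a b r := mem_span3.2 ⟨0, 0, 1, by simp⟩

theorem refl_mem_fixPerp {W : Submodule F V} {v : V} (hv : v ∈ W) :
    refl Q v ∈ fixPerp (⊤ : Subgroup (orth Q)) W :=
  ⟨Subgroup.mem_top _, fun _ hy => refl_apply_of_ortho (mem_perp.1 hy v hv)⟩

variable {a b r : V} (hB : Basis3 Q a b r) (h2 : (2 : F) ≠ 0)

include hB h2 in
theorem Basis3.combo_eq_zero {α β γ : F} (h0 : α • a + β • b + γ • r = 0) :
    α = 0 ∧ β = 0 ∧ γ = 0 := by
  have e1 := congrArg (polar Q a) h0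
  have e2 := congrArg (polar Q b) h0
  have e3 := congrArg (polar Q r) h0
  simp [polar_add_right, polar_smul_right, polar_self', hB.ab, hB.ar, hB.br, polar_comm (⇑Q) b a,
    polar_comm (⇑Q) r a, polar_comm (⇑Q) r b, h2, hB.qa, hB.qb, hB.qr] at e1 e2 e3
  exact ⟨e1, e2, e3⟩

include hB h2 in
theorem Basis3.rad {x : V} (hx : x ∈ span3 F a b r)
    (h : ∀ y ∈ span3 F a b r, polar Q x y = 0) : x = 0 := by
  obtain ⟨α, β, γ, rfl⟩ := mem_span3.1 hx
  have e1 := h a (left_mem_span3 a b r)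
  have e2 := h b (mid_mem_span3 a b r)
  have e3 := h r (right_mem_span3 a b r)
  simp [polar_add_left, polar_smul_left, polar_self', hB.ab, hB.ar, hB.br, polar_comm (⇑Q) b a,
    polar_comm (⇑Q) r a, polar_comm (⇑Q) r b, h2, hB.qa, hB.qb, hB.qr] at e1 e2 e3
  rw [e1, e2, e3]; simp

include hB h2 in
theorem Basis3.finrank_eq : Module.finrank F (span3 F a b r) = 3 := by
  rw [span3, finrank_span_eq_card]
  · simp
  · rw [Fintype.linearIndependent_iff]
    intro φ hφ
    simp only [Fin.sum_univ_three] at hφ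
    obtain ⟨e1, e2, e3⟩ := hB.combo_eq_zero h2 (α := φ 0) (β := φ 1) (γ := φ 2) hφ
    intro i; fin_cases i <;> assumption

include hB h2 in
/-- The projection on the span, with orthogonal rest. -/
theorem Basis3.split (x : V) : ∃ w ∈ span3 F a b r, x - w ∈ perp Q (span3 F a b r) := by
  refine ⟨_, combo_mem_span3 a b r (polar Q a x / (2 * Q a)) (polar Q b x / (2 * Q b))
    (polar Q r x / (2 * Q r)), mem_perp.2 fun y hy => ?_⟩
  obtain ⟨α, β, γ, rfl⟩ := mem_span3.1 hy
  have := hB.qa; have := hB.qb; have := hB.qr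
  simp [polar_add_left, polar_smul_left, polar_sub_right, polar_add_right, polar_smul_right,
    polar_self', hB.ab, hB.ar, hB.br, polar_comm (⇑Q) b a, polar_comm (⇑Q) r a,
    polar_comm (⇑Q) r b]
  field_simp
  ring

include hB h2 in
/-- Isometries fixing the orthogonal space agree if they agree on the basis. -/
theorem Basis3.orth_ext {g g' : orth Q} (hg : g ∈ fixPerp (⊤ : Subgroup (orth Q)) (span3 F a b r))
    (hg' : g' ∈ fixPerp (⊤ : Subgroup (orth Q)) (span3 F a b r))
    (ha : (g : V ≃ₗ[F] V) a = (g' : V ≃ₗ[F] V) a) (hb : (g : V ≃ₗ[F] V) b = (g' : V ≃ₗ[F] V) b)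
    (hr : (g : V ≃ₗ[F] V) r = (g' : V ≃ₗ[F] V) r) : g = g' :=
  H5.orth_ext fun x => by
    obtain ⟨w, hw, hxw⟩ := hB.split h2 x
    obtain ⟨α, β, γ, rfl⟩ := mem_span3.1 hw
    rw [← sub_add_cancel x (α • a + β • b + γ • r)]
    simp only [map_add, map_smul, hg.2 _ hxw, hg'.2 _ hxw, ha, hb, hr]

variable [FiniteDimensional F V] (hQ : (polarBilin Q).Nondegenerate)

include hQ in
theorem fixPerp_maps {W : Submodule F V} {g : orth Q} (hg : g ∈ fixPerp (⊤ : Subgroup (orth Q)) W)
    {x : V} (hx : x ∈ W) : (g : V ≃ₗ[F] V) x ∈ W := by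
  rw [← perp_perp hQ W]
  refine mem_perp.2 fun y hy => ?_
  conv_lhs => rw [← hg.2 y hy]
  rw [orth_polar, polar_comm]
  exact mem_perp.1 hy x hx

/-- The change of signs on the span. -/
noncomputable def negOn (Q : QuadraticForm F V) (a b r : V) : orth Q :=
  refl Q a * (refl Q b * refl Q r)

omit [FiniteDimensional F V] in
theorem negOn_mem : negOn Q a b r ∈ fixPerp (⊤ : Subgroup (orth Q)) (span3 F a b r) :=
  mul_mem (refl_mem_fixPerp (left_mem_span3 a b r))
    (mul_mem (refl_mem_fixPerp (mid_mem_span3 a b r)) (refl_mem_fixPerp (right_mem_span3 a b r)))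

include hB in
omit [FiniteDimensional F V] in
theorem Basis3.negOn_apply {x : V} (hx : x ∈ span3 F a b r) :
    (negOn Q a b r : V ≃ₗ[F] V) x = -x := by
  obtain ⟨α, β, γ, rfl⟩ := mem_span3.1 hx
  simp only [negOn, orth_mul_apply, map_add, map_smul, neg_add]
  rw [refl_apply_of_ortho (v := r) (x := a) (by rw [polar_comm]; exact hB.ar),
    refl_apply_of_ortho (v := b) (x := a) (by rw [polar_comm]; exact hB.ab), refl_apply_self hB.qa,
    refl_apply_of_ortho (v := r) (x := b) (by rw [polar_comm]; exact hB.br), refl_apply_self hB.qb,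
    map_neg, refl_apply_of_ortho (v := a) (x := b) hB.ab, refl_apply_self hB.qr, map_neg, map_neg,
    refl_apply_of_ortho (v := b) (x := r) hB.br, refl_apply_of_ortho (v := a) (x := r) hB.ar]
  simp

include hB h2 hQ in
theorem Basis3.negOn_comm {g : orth Q}
    (hg : g ∈ fixPerp (⊤ : Subgroup (orth Q)) (span3 F a b r)) :
    g * negOn Q a b r = negOn Q a b r * g := by
  refine hB.orth_ext h2 (mul_mem hg negOn_mem) (mul_mem negOn_mem hg) ?_ ?_ ?_ <;>
    rw [orth_mul_apply, orth_mul_apply,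
      hB.negOn_apply (by first | exact left_mem_span3 a b r | exact mid_mem_span3 a b r | exact right_mem_span3 a b r),
      hB.negOn_apply (fixPerp_maps hQ hg
        (by first | exact left_mem_span3 a b r | exact mid_mem_span3 a b r | exact right_mem_span3 a b r)),
      map_neg]

include hB h2 hQ in
theorem Basis3.negOn_mul_self : negOn Q a b r * negOn Q a b r = 1 := by
  have key : ∀ x ∈ span3 F a b r,
      ((negOn Q a b r * negOn Q a b r : orth Q) : V ≃ₗ[F] V) x = x := fun x hx => by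
    rw [orth_mul_apply, hB.negOn_apply hx, map_neg, hB.negOn_apply hx, neg_neg]
  exact hB.orth_ext h2 (mul_mem negOn_mem negOn_mem) (one_mem _) (key a (left_mem_span3 a b r))
    (key b (mid_mem_span3 a b r)) (key r (right_mem_span3 a b r))

include hB hQ in
theorem Basis3.dick_negOn : dick (negOn Q a b r) = -1 := by
  rw [negOn, dick_refl_mul hQ hB.qa, dick_refl_mul hQ hB.qb, dick_refl hQ hB.qr]; simp

include hB h2 hQ in
/-- A rotation fixing two independent vectors of the span is trivial; others fix one line. -/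
theorem Basis3.axis {g : orth Q} (hg : g ∈ fixPerp (⊤ : Subgroup (orth Q)) (span3 F a b r))
    (hd : dick g = 1) (hg1 : g ≠ 1) :
    Module.finrank F ↥(fixer g ⊓ span3 F a b r) = 1 := by
  set W := span3 F a b r with hW
  have hWp : perp Q W ≤ fixer g := fun y hy => mem_fixer.2 (hg.2 y hy)
  have hsup : fixer g = (fixer g ⊓ W) ⊔ perp Q W := by
    refine le_antisymm (fun x hx => ?_) (sup_le inf_le_left hWp)
    obtain ⟨w, hw, hxw⟩ := hB.split h2 x
    rw [← add_sub_cancel w x]
    refine Submodule.add_mem_sup (Submodule.mem_inf.2 ⟨?_, hw⟩) hxw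
    have := (fixer g).sub_mem hx (hWp hxw)
    rwa [sub_sub_cancel] at this
  have hdisj : (fixer g ⊓ W) ⊓ perp Q W = ⊥ := by
    rw [eq_bot_iff]
    rintro x ⟨⟨-, hx⟩, hx'⟩
    exact hB.rad h2 hx fun y hy => by rw [polar_comm]; exact mem_perp.1 hx' y hy
  have h1 := Submodule.finrank_sup_add_finrank_inf_eq (fixer g ⊓ W) (perp Q W)
  rw [← hsup, hdisj, finrank_bot, add_zero] at h1
  have h3 := finrank_perp_add hQ W
  have h4 := hB.finrank_eq h2
  have h5 := rk_add_finrank_fixer g
  have h6 : Module.finrank F ↥(fixer g ⊓ W) ≤ 3 := by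
    rw [← h4]; exact Submodule.finrank_mono inf_le_right
  have h7 : Even (rk g) := by
    by_contra ho
    rw [dick, (Nat.not_even_iff_odd.1 ho).neg_one_pow] at hd
    exact absurd hd (by decide)
  have h8 : rk g ≠ 0 := fun h0 => hg1 (eq_one_of_rk_eq_zero h0)
  rw [← hW] at h4
  obtain ⟨k, hk⟩ := h7
  omega

include hB h2 hQ in
theorem Basis3.exists_partner {u : V} (hu : u ∈ span3 F a b r) (hu0 : u ≠ 0) (hqu : Q u = 0) :
    ∃ u' ∈ span3 F a b r, Q u' = 0 ∧ polar Q u u' = 1 := by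
  obtain ⟨w, hw, huw⟩ : ∃ w ∈ span3 F a b r, polar Q u w ≠ 0 := by
    by_contra hc
    push Not at hc
    exact hu0 (hB.rad h2 hu hc)
  refine ⟨(polar Q u w)⁻¹ • (w - (Q w / polar Q u w) • u),
    Submodule.smul_mem _ _ (Submodule.sub_mem _ hw (Submodule.smul_mem _ _ hu)), ?_, ?_⟩
  · rw [QuadraticMap.map_smul, map_sub_smul, hqu, polar_comm (⇑Q) w u]
    simp [huw]
  · simp [polar_smul_right, polar_sub_right, polar_self', hqu, huw]

variable [Finite F] [Finite V]

include hQ in
theorem dick_eq_one_of_mem_commutator (hn : 5 ≤ Module.finrank F V) {g : orth Q}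
    (hg : g ∈ commutator (orth Q)) : dick g = 1 :=
  ((mem_commutator_iff hQ (Or.inr (by omega))).1 hg).1

include hQ in
theorem dick_mul' (hn : 5 ≤ Module.finrank F V) (g g' : orth Q) :
    dick (g * g') = dick g * dick g' :=
  dick_mul hQ (by rw [reflGroup_eq_top hQ (Or.inr (by omega))]; trivial) g'

include hB h2 hQ in
/-- A rotation with a singular axis is a root element. -/
theorem Basis3.eq_eich (hn : 5 ≤ Module.finrank F V) {g : orth Q}
    (hg : g ∈ fixPerp (⊤ : Subgroup (orth Q)) (span3 F a b r)) (hd : dick g = 1) (hg1 : g ≠ 1)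
    {u : V} (hu : u ∈ span3 F a b r) (hu0 : u ≠ 0) (hgu : (g : V ≃ₗ[F] V) u = u) (hqu : Q u = 0) :
    ∃ y ∈ span3 F a b r, polar Q u y = 0 ∧ Q y ≠ 0 ∧ g = eich Q u y := by
  obtain ⟨u', hu', hqu', huu'⟩ := hB.exists_partner h2 hQ hu hu0 hqu
  set y := (g : V ≃ₗ[F] V) u' - u' with hy
  have hyW : y ∈ span3 F a b r := Submodule.sub_mem _ (fixPerp_maps hQ hg hu') hu'
  have huy : polar Q u y = 0 := by
    rw [hy, polar_sub_right]
    nth_rewrite 1 [← hgu]
    rw [orth_polar, sub_self]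
  have hQy : polar Q u' y + Q y = 0 := by
    have := orth_map g u'
    rw [show (g : V ≃ₗ[F] V) u' = u' + y by rw [hy]; abel, QuadraticMap.map_add (⇑Q), hqu'] at this
    linear_combination this
  set k := (eich Q u y)⁻¹ * g with hk
  have hke : g = eich Q u y * k := by rw [hk, mul_inv_cancel_left]
  have hem : eich Q u y ∈ fixPerp (⊤ : Subgroup (orth Q)) (span3 F a b r) :=
    ⟨Subgroup.mem_top _, fun v hv =>
      eich_apply_of_ortho hqu huy (mem_perp.1 hv u hu) (mem_perp.1 hv y hyW)⟩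
  have hkd : dick k = 1 := by
    have h1 := dick_mul' hQ hn (eich Q u y) k
    rwa [← hke, hd, dick_eq_one_of_mem_commutator hQ hn (eich_mem_commutator hQ hn u y), one_mul,
      eq_comm] at h1
  have hfu : (k : V ≃ₗ[F] V) u = u := by
    have h1 := congrArg ((eich Q u y)⁻¹ : orth Q).1 (eich_apply_self hqu huy)
    rw [orth_inv_apply_apply] at h1
    rw [hk, orth_mul_apply, hgu]
    exact h1.symm
  have hfu' : (k : V ≃ₗ[F] V) u' = u' := by
    have h1 : (eich Q u y : V ≃ₗ[F] V) u' = (g : V ≃ₗ[F] V) u' := by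
      rw [eich_apply hqu huy, huu', polar_comm (⇑Q) y u', one_smul, mul_one,
        show polar Q u' y = -Q y by linear_combination hQy]
      simp [hy]
    rw [hk, orth_mul_apply, ← h1, orth_inv_apply_apply]
  have hk1 : k = 1 := by
    by_contra hk1
    have h1 := hB.axis h2 hQ (mul_mem (inv_mem hem) hg) hkd hk1
    have hind : LinearIndependent F ![u, u'] := by
      refine LinearIndependent.pair_iff.2 fun s t hst => ?_
      have e1 := congrArg (polar Q u) hst
      have e2 := congrArg (polar Q u') hst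
      simp [polar_add_right, polar_smul_right, polar_self', hqu, hqu', huu',
        polar_comm (⇑Q) u' u] at e1 e2
      exact ⟨e2, e1⟩
    have h3 : Submodule.span F (Set.range ![u, u']) ≤ fixer k ⊓ span3 F a b r :=
      Submodule.span_le.2 (by
        rintro _ ⟨i, rfl⟩
        fin_cases i
        · exact Submodule.mem_inf.2 ⟨mem_fixer.2 hfu, hu⟩
        · exact Submodule.mem_inf.2 ⟨mem_fixer.2 hfu', hu'⟩)
    have h4 := Submodule.finrank_mono h3
    rw [finrank_span_eq_card hind, h1] at h4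
    simp at h4
  refine ⟨y, hyW, huy, fun hqy => hg1 ?_, by rw [hke, hk1, mul_one]⟩
  have hfix : y ∈ fixer g ⊓ span3 F a b r := by
    refine Submodule.mem_inf.2 ⟨mem_fixer.2 ?_, hyW⟩
    rw [hke, hk1, mul_one, eich_apply hqu huy, huy, polar_self', hqy]
    simp
  have hline : fixer g ⊓ span3 F a b r = Submodule.span F {u} :=
    (Submodule.eq_of_le_of_finrank_eq ((Submodule.span_singleton_le_iff_mem _ _).2
      (Submodule.mem_inf.2 ⟨mem_fixer.2 hgu, hu⟩)) (by rw [finrank_span_singleton hu0, hB.axis h2 hQ hg hd hg1])).symm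
  rw [hline] at hfix
  obtain ⟨t, ht⟩ := Submodule.mem_span_singleton.1 hfix
  rw [hke, hk1, mul_one, ← ht, ← zero_add (t • u), eich_add_smul hqu (polar_zero_right Q u),
    eich_zero]

include hB h2 hQ in
/-- The classification for a finite group of rotations without root elements. -/
theorem Basis3.classify (H : Subgroup (orth Q))
    (hHW : H ≤ fixPerp (⊤ : Subgroup (orth Q)) (span3 F a b r)) (hHd : ∀ g ∈ H, dick g = 1)
    (hno : ∀ g ∈ H, g ≠ 1 → ∀ x ∈ span3 F a b r, x ≠ 0 → (g : V ≃ₗ[F] V) x = x → Q x ≠ 0)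
    {g₀ : orth Q} (hg₀ : g₀ ∈ H) (h12 : g₀ * g₀ ≠ 1) (h13 : g₀ * g₀ * g₀ ≠ 1)
    {v : V} (hv : v ∈ span3 F a b r) (hv0 : v ≠ 0) (hgv : (g₀ : V ≃ₗ[F] V) v = v) :
    (∀ g ∈ H, (g : V ≃ₗ[F] V) v ∈ Submodule.span F {v}) ∨
      (Nat.card H = 24 ∧ ∀ w ∈ H, (w : V ≃ₗ[F] V) v ∉ Submodule.span F {v} →
        ∀ g ∈ H, (g : V ≃ₗ[F] V) v ∈ Submodule.span F {v} ∨
          (g : V ≃ₗ[F] V) v ∈ Submodule.span F {(w : V ≃ₗ[F] V) v} ∨
          (g : V ≃ₗ[F] V) v ∈ Submodule.span F {(g₀ : V ≃ₗ[F] V) ((w : V ≃ₗ[F] V) v)}) ∨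
      (Nat.card H = 60 ∧ g₀ ^ 5 = 1) := by
  classical
  have : Finite (V ≃ₗ[F] V) :=
    Finite.of_injective (fun g : V ≃ₗ[F] V => (g : V → V)) DFunLike.coe_injective
  have : Finite (Submodule F V) := Finite.of_injective _ SetLike.coe_injective
  let X := {L : Submodule F V // ∃ g ∈ H, g ≠ 1 ∧ fixer g ⊓ span3 F a b r = L}
  have hg01 : g₀ ≠ 1 := fun h0 => h12 (by rw [h0, mul_one])
  have haxis : ∀ {g}, g ∈ H → g ≠ 1 → Module.finrank F ↥(fixer g ⊓ span3 F a b r) = 1 :=
    fun {g} hg hg1 => hB.axis h2 hQ (hHW hg) (hHd g hg) hg1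
  have hspan : ∀ {g} {x : V}, g ∈ H → g ≠ 1 → x ∈ span3 F a b r → x ≠ 0 →
      (g : V ≃ₗ[F] V) x = x → fixer g ⊓ span3 F a b r = Submodule.span F {x} :=
    fun {g x} hg hg1 hxW hx0 hgx => (Submodule.eq_of_le_of_finrank_eq
      ((Submodule.span_singleton_le_iff_mem _ _).2 (Submodule.mem_inf.2 ⟨mem_fixer.2 hgx, hxW⟩))
      (by rw [finrank_span_singleton hx0, haxis hg hg1])).symm
  let L₀ : X := ⟨Submodule.span F {v}, g₀, hg₀, hg01, hspan hg₀ hg01 hv hv0 hgv⟩
  have hconj : ∀ g ∈ H, ∀ k ∈ H, fixer (k * g * k⁻¹) ⊓ span3 F a b r =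
      (fixer g ⊓ span3 F a b r).map ((k : V ≃ₗ[F] V) : V →ₗ[F] V) := by
    intro g hg k hk
    ext x
    simp only [Submodule.mem_inf, mem_fixer, Submodule.mem_map, LinearEquiv.coe_coe]
    constructor
    · rintro ⟨hx, hxW⟩
      refine ⟨((k⁻¹ : orth Q) : V ≃ₗ[F] V) x,
        ⟨?_, fixPerp_maps hQ (hHW (inv_mem hk)) hxW⟩, orth_apply_inv_apply k x⟩
      have := congrArg ((k⁻¹ : orth Q) : V ≃ₗ[F] V) hx
      rwa [orth_mul_apply, orth_mul_apply, orth_inv_apply_apply] at this
    · rintro ⟨y, ⟨hy, hyW⟩, rfl⟩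
      exact ⟨by rw [orth_mul_apply, orth_mul_apply, orth_inv_apply_apply, hy],
        fixPerp_maps hQ (hHW hk) hyW⟩
  letI : MulAction H X :=
    { smul := fun k L => ⟨L.1.map (((k : orth Q) : V ≃ₗ[F] V) : V →ₗ[F] V), by
        obtain ⟨g, hg, hg1, hL⟩ := L.2
        refine ⟨(k : orth Q) * g * (k : orth Q)⁻¹, mul_mem (mul_mem k.2 hg) (inv_mem k.2), fun h0 => hg1 ?_, ?_⟩
        · calc g = (k : orth Q)⁻¹ * (k * g * (k : orth Q)⁻¹) * k := by group
            _ = 1 := by rw [h0, mul_one, inv_mul_cancel]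
        · rw [hconj g hg k k.2, hL]⟩
      one_smul := fun L => Subtype.ext (Submodule.map_id L.1)
      mul_smul := fun k k' L => Subtype.ext (Submodule.map_comp _ _ L.1) }
  let ax : H → X := fun g => if hg : g = 1 then L₀ else
    ⟨fixer (g : orth Q) ⊓ span3 F a b r, g, g.2, fun h0 => hg (Subtype.ext h0), rfl⟩
  have hax : ∀ {g : H}, g ≠ 1 → (ax g).1 = fixer (g : orth Q) ⊓ span3 F a b r := fun hg => by
    simp [ax, hg]
  have hne : ∀ {g : H}, g ≠ 1 → (g : orth Q) ≠ 1 := fun hg h0 => hg (Subtype.ext h0)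
  have hgen : ∀ L : X, ∃ x ∈ span3 F a b r, x ≠ 0 ∧ Q x ≠ 0 ∧ L.1 = Submodule.span F {x} := by
    rintro ⟨L, g, hg, hg1, rfl⟩
    obtain ⟨x, hx, hx0⟩ := Submodule.exists_mem_ne_zero_of_ne_bot
      (p := fixer g ⊓ span3 F a b r) fun h0 => by
        have := haxis hg hg1
        rw [h0, finrank_bot] at this
        omega
    have hxf := mem_fixer.1 hx.1
    exact ⟨x, hx.2, hx0, hno g hg hg1 x hx.2 hx0 hxf, hspan hg hg1 hx.2 hx0 hxf⟩
  have hfixmem : ∀ (L : X) (g : H), g ≠ 1 →
      (ax g = L ↔ ∀ x ∈ L.1, ((g : orth Q) : V ≃ₗ[F] V) x = x) := by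
    intro L g hg
    refine ⟨fun he x hx => ?_, fun hfix => Subtype.ext ?_⟩
    · rw [← he, hax hg] at hx; exact mem_fixer.1 hx.1
    · obtain ⟨x, hxW, hx0, -, hL⟩ := hgen L
      rw [hax hg, hL, hspan g.2 (hne hg) hxW hx0 (hfix x (hL ▸ Submodule.mem_span_singleton_self x))]
  have hfixmem' : ∀ (L : X) (g : H), (g = 1 ∨ ax g = L) ↔
      ∀ x ∈ L.1, ((g : orth Q) : V ≃ₗ[F] V) x = x := by
    intro L g
    by_cases hg : g = 1
    · subst hg; simp
    · rw [or_iff_right hg]; exact hfixmem L g hg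
  let Fx : X → Subgroup H := fun L =>
    { carrier := {g | ∀ x ∈ L.1, ((g : orth Q) : V ≃ₗ[F] V) x = x}
      one_mem' := fun x _ => rfl
      mul_mem' := fun {g g'} hg hg' x hx => by
        rw [Subgroup.coe_mul, orth_mul_apply, hg' x hx, hg x hx]
      inv_mem' := fun {g} hg x hx => by
        rw [Subgroup.coe_inv]
        conv_lhs => rw [← hg x hx]
        rw [orth_inv_apply_apply] }
  have hA : AxisData ax Fx :=
    { mem_iff := fun L g => (hfixmem' L g).symm
      equiv := fun g k hg => Subtype.ext (by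
        have hk1 : k * g * k⁻¹ ≠ 1 := fun h0 => hg (by
          calc g = k⁻¹ * (k * g * k⁻¹) * k := by group
            _ = 1 := by rw [h0, mul_one, inv_mul_cancel])
        rw [hax hk1]
        show _ = (ax g).1.map _
        rw [hax hg]
        exact hconj g g.2 k k.2)
      stab := fun L g hg => Subtype.ext (by
        show L.1.map _ = L.1
        ext x
        rw [Submodule.mem_map]
        exact ⟨fun ⟨y, hy, he⟩ => by rw [← he, LinearEquiv.coe_coe, hg y hy]; exact hy,
          fun hx => ⟨x, hx, hg x hx⟩⟩)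
      two := fun L g k hgL hkL hg hk x hx => by
        obtain ⟨y, hyW, hy0, hqy, hL⟩ := hgen L
        have hsgn : ∀ g : H, g • L = L → g ∉ Fx L → ((g : orth Q) : V ≃ₗ[F] V) y = -y := by
          intro g hgL hg
          have h1 : ((g : orth Q) : V ≃ₗ[F] V) y ∈ L.1 := by
            have : (g • L).1 = L.1 := congrArg Subtype.val hgL
            rw [← this]
            exact ⟨y, hL ▸ Submodule.mem_span_singleton_self y, rfl⟩
          rw [hL, Submodule.mem_span_singleton] at h1
          obtain ⟨s, hs⟩ := h1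
          have h2 : s * s = 1 := by
            have := orth_map (g : orth Q) y
            rw [← hs, QuadraticMap.map_smul, smul_eq_mul] at this
            exact mul_right_cancel₀ hqy (by rw [this, one_mul])
          rcases mul_self_eq_one_iff.1 h2 with h' | h' <;> rw [h'] at hs
          · refine absurd (fun x hx => ?_) hg
            rw [hL, Submodule.mem_span_singleton] at hx
            obtain ⟨t, rfl⟩ := hx
            rw [map_smul, ← hs, one_smul]
          · rw [← hs, neg_one_smul]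
        rw [hL, Submodule.mem_span_singleton] at hx
        obtain ⟨t, rfl⟩ := hx
        rw [Subgroup.coe_mul, orth_mul_apply, map_smul, hsgn k hkL hk, map_smul, map_neg,
          hsgn g hgL hg, neg_neg] }
  let gH : H := ⟨g₀, hg₀⟩
  have hgF : gH ∈ Fx L₀ := fun x hx => by
    obtain ⟨t, rfl⟩ := Submodule.mem_span_singleton.1 hx
    rw [map_smul]; exact congrArg (t • ·) hgv
  have h4 : 4 ≤ Nat.card (Fx L₀) := by
    let f : Fin 4 → Fx L₀ := fun i => ⟨gH ^ (i : ℕ), pow_mem hgF i⟩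
    have hp : ∀ k : ℕ, 0 < k → k < 4 → g₀ ^ k ≠ 1 := fun k h1 h4 h0 => by
      interval_cases k
      · exact hg01 (by simpa using h0)
      · exact h12 (by rwa [pow_two] at h0)
      · exact h13 (by rwa [pow_three, ← mul_assoc] at h0)
    have hinj : Function.Injective f := by
      intro i j hij
      have h1 : g₀ ^ (i : ℕ) = g₀ ^ (j : ℕ) := congrArg (fun z : Fx L₀ => ((z : H) : orth Q)) hij
      by_contra hne
      rcases Nat.lt_or_gt_of_ne (Fin.val_ne_of_ne hne) with h' | h'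
      · refine hp (j - i) (by omega) (by omega) (mul_left_cancel (a := g₀ ^ (i : ℕ)) ?_)
        rw [← pow_add, Nat.add_sub_cancel' h'.le, ← h1, mul_one]
      · refine hp (i - j) (by omega) (by omega) (mul_left_cancel (a := g₀ ^ (j : ℕ)) ?_)
        rw [← pow_add, Nat.add_sub_cancel' h'.le, h1, mul_one]
    simpa using Nat.card_le_card_of_injective f hinj
  have hline : ∀ g : H, (g • L₀).1 = Submodule.span F {((g : orth Q) : V ≃ₗ[F] V) v} := fun g => by
    show (Submodule.span F {v}).map _ = _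
    rw [Submodule.map_span, Set.image_singleton]; rfl
  rcases hA.classify L₀ h4 with h | ⟨hc, -, hO⟩ | ⟨hc, he5⟩
  · refine Or.inl fun g hg => ?_
    have h' := congrArg Subtype.val (h ⟨g, hg⟩)
    rw [hline] at h'
    rw [← show Submodule.span F {(g : V ≃ₗ[F] V) v} = Submodule.span F {v} from h']
    exact Submodule.mem_span_singleton_self _
  swap
  · refine Or.inr (Or.inr ⟨hc, ?_⟩)
    have h5 : (⟨gH, hgF⟩ : Fx L₀) ^ Nat.card (Fx L₀) = 1 := pow_card_eq_one'
    rw [he5] at h5
    exact congrArg (fun z : Fx L₀ => ((z : H) : orth Q)) h5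
  refine Or.inr (Or.inl ⟨hc, fun w hw hwv g hg => ?_⟩)
  have hwne : (⟨w, hw⟩ : H) • L₀ ≠ L₀ := fun he => hwv (by
    have h' := congrArg Subtype.val he
    rw [hline] at h'
    rw [← show Submodule.span F {(w : V ≃ₗ[F] V) v} = Submodule.span F {v} from h']
    exact Submodule.mem_span_singleton_self _)
  have hgL : gH • L₀ = L₀ := hA.stab L₀ gH hgF
  have hRne : (gH * ⟨w, hw⟩ : H) • L₀ ≠ L₀ := fun he => hwne (by
    rw [mul_smul] at he
    exact MulAction.injective gH (he.trans hgL.symm))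
  have hRne' : (gH * ⟨w, hw⟩ : H) • L₀ ≠ (⟨w, hw⟩ : H) • L₀ := by
    intro he
    set x := (w : V ≃ₗ[F] V) v with hx
    have h' := congrArg Subtype.val he
    rw [hline, hline] at h'
    have h1 : (g₀ : V ≃ₗ[F] V) x ∈ Submodule.span F {x} := by
      rw [← show Submodule.span F {(g₀ : V ≃ₗ[F] V) x} = Submodule.span F {x} from h']
      exact Submodule.mem_span_singleton_self _
    obtain ⟨s, hs⟩ := Submodule.mem_span_singleton.1 h1
    have hxW : x ∈ span3 F a b r := fixPerp_maps hQ (hHW hw) hv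
    have hx0 : x ≠ 0 := fun h0 => hv0 ((w : V ≃ₗ[F] V).map_eq_zero_iff.1 h0)
    have hqx : Q x ≠ 0 := by rw [hx, orth_map]; exact hno g₀ hg₀ hg01 v hv hv0 hgv
    have hs2 : s * s = 1 := by
      have := orth_map g₀ x
      rw [← hs, QuadraticMap.map_smul, smul_eq_mul] at this
      exact mul_right_cancel₀ hqx (by rw [this, one_mul])
    have hfx : ((g₀ * g₀ : orth Q) : V ≃ₗ[F] V) x = x := by
      rw [orth_mul_apply, ← hs, map_smul, ← hs, smul_smul, hs2, one_smul]
    have hfv : ((g₀ * g₀ : orth Q) : V ≃ₗ[F] V) v = v := by rw [orth_mul_apply, hgv, hgv]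
    have e1 := hspan (mul_mem hg₀ hg₀) h12 hxW hx0 hfx
    rw [hspan (mul_mem hg₀ hg₀) h12 hv hv0 hfv] at e1
    exact hwv (e1 ▸ Submodule.mem_span_singleton_self x)
  have hgl : ∀ k : H, k • L₀ = (⟨g, hg⟩ : H) • L₀ → (g : V ≃ₗ[F] V) v ∈
      Submodule.span F {((k : orth Q) : V ≃ₗ[F] V) v} := fun k he => by
    have h' := congrArg Subtype.val he
    rw [hline, hline] at h'
    rw [h']
    exact Submodule.mem_span_singleton_self _
  have hsub : ({L₀, (⟨w, hw⟩ : H) • L₀, (gH * ⟨w, hw⟩ : H) • L₀} : Set X) ⊆ MulAction.orbit H L₀ :=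
    Set.insert_subset (MulAction.mem_orbit_self L₀)
      (Set.insert_subset (MulAction.mem_orbit L₀ _) (Set.singleton_subset_iff.2 (MulAction.mem_orbit L₀ _)))
  have hcard : ({L₀, (⟨w, hw⟩ : H) • L₀, (gH * ⟨w, hw⟩ : H) • L₀} : Set X).ncard = 3 :=
    Set.ncard_eq_three.2 ⟨_, _, _, hwne.symm, hRne.symm, hRne'.symm, rfl⟩
  have heq := Set.eq_of_subset_of_ncard_le hsub (by rw [hcard, hO]) (Set.toFinite _)
  have hg' := MulAction.mem_orbit L₀ (⟨g, hg⟩ : H)
  rw [← heq] at hg'
  rcases hg' with h' | h' | h'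
  · left
    have := hgl 1 (by rw [one_smul]; exact h'.symm)
    simpa using this
  · refine Or.inr (Or.inl ?_)
    have := hgl ⟨w, hw⟩ h'.symm
    exact this
  · refine Or.inr (Or.inr ?_)
    have := hgl (gH * ⟨w, hw⟩) h'.symm
    rwa [Subgroup.coe_mul, orth_mul_apply] at this

end Cfsg.Agent.H5
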