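import Cfsg.Agent.H5.StabNondeg

/-!
Orthogonal decompositions: components, and isometries permuting the members.
-/

set_option autoImplicit false

namespace Cfsg.Agent.H5

open QuadraticMap hiding sq

variable {F V : Type*} [Field F] [AddCommGroup V] [Module F V] {Q : QuadraticForm F V} {t k : ℕ}

/-- An orthogonal decomposition into pairwise isometric non-degenerate subspaces of dimension `k`. -/
structure OrthDec (Q : QuadraticForm F V) (k : ℕ) (D : Fin t → Submodule F V) : Prop where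
  nondeg : (polarBilin Q).Nondegenerate
  finrank_eq : ∀ i, Module.finrank F (D i) = k
  inf_perp : ∀ i, D i ⊓ perp Q (D i) = ⊥
  orth : ∀ {i j}, i ≠ j → D j ≤ perp Q (D i)
  iSup_eq : iSup D = ⊤
  isom : ∀ i j, ∃ φ : D i ≃ₗ[F] D j, ∀ x : D i, Q (φ x : V) = Q (x : V)

/-- The isometry permutes the members. -/
def PresD (D : Fin t → Submodule F V) (g : orth Q) : Prop :=
  ∀ i, ∃ j, ∀ x ∈ D i, (g : V ≃ₗ[F] V) x ∈ D j

omit [Module F V] in
theorem sum_single_zero {ι : Type*} [Fintype ι] [DecidableEq ι] (f : ι → V) (i : ι)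
    (h : ∀ j, j ≠ i → f j = 0) : ∑ j, f j = f i :=
  Finset.sum_eq_single i (fun j _ hj => h j hj) (by simp)

variable [FiniteDimensional F V] {D : Fin t → Submodule F V}

theorem OrthDec.isCompl (h : OrthDec Q k D) (i : Fin t) : IsCompl (D i) (perp Q (D i)) :=
  ⟨disjoint_iff.2 (h.inf_perp i), codisjoint_iff.2 (sup_perp_eq_top h.nondeg (h.inf_perp i))⟩

/-- The component in a member. -/
noncomputable def OrthDec.cmp (h : OrthDec Q k D) (i : Fin t) : V →ₗ[F] V :=
  (D i).subtype ∘ₗ Submodule.projectionOnto _ _ (h.isCompl i)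

theorem OrthDec.cmp_mem (h : OrthDec Q k D) (i : Fin t) (x : V) : h.cmp i x ∈ D i :=
  SetLike.coe_mem _

theorem OrthDec.cmp_same (h : OrthDec Q k D) {i : Fin t} {x : V} (hx : x ∈ D i) : h.cmp i x = x :=
  congrArg Subtype.val (Submodule.projectionOnto_apply_left (h.isCompl i) ⟨x, hx⟩)

theorem OrthDec.cmp_perp (h : OrthDec Q k D) {i : Fin t} {x : V} (hx : x ∈ perp Q (D i)) :
    h.cmp i x = 0 := by
  simp only [OrthDec.cmp, LinearMap.comp_apply, Submodule.subtype_apply, Submodule.coe_eq_zero]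
  exact (Submodule.projectionOnto_apply_eq_zero_iff (h.isCompl i)).mpr hx

theorem OrthDec.cmp_other (h : OrthDec Q k D) {i j : Fin t} (hij : i ≠ j) {x : V} (hx : x ∈ D j) :
    h.cmp i x = 0 :=
  h.cmp_perp (h.orth hij hx)

theorem OrthDec.sub_cmp_mem (h : OrthDec Q k D) (i : Fin t) (x : V) :
    x - h.cmp i x ∈ perp Q (D i) := by
  obtain ⟨w, hw, u, hu, rfl⟩ := exists_split h.nondeg (h.inf_perp i) x
  rw [map_add, h.cmp_same hw, h.cmp_perp hu, add_zero, add_sub_cancel_left]
  exact hu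

theorem OrthDec.polar_cmp (h : OrthDec Q k D) {i : Fin t} {u : V} (hu : u ∈ D i) (x : V) :
    polar Q u (h.cmp i x) = polar Q u x := by
  have h1 := mem_perp.1 (h.sub_cmp_mem i x) u hu
  rw [polar_sub_right, sub_eq_zero] at h1
  exact h1.symm

theorem OrthDec.polar_zero (h : OrthDec Q k D) {i j : Fin t} (hij : i ≠ j) {u v : V} (hu : u ∈ D i)
    (hv : v ∈ D j) : polar Q u v = 0 :=
  mem_perp.1 (h.orth hij hv) u hu

theorem OrthDec.eq_zero_of_perp (h : OrthDec Q k D) {x : V} (hx : ∀ i, x ∈ perp Q (D i)) : x = 0 := by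
  have htop : (⊤ : Submodule F V) ≤ perp Q (Submodule.span F {x}) := by
    rw [← h.iSup_eq]
    refine iSup_le fun i u hu => mem_perp_span.2 ?_
    rw [polar_comm]; exact mem_perp.1 (hx i) u hu
  exact H4.eq_zero_of_polar h.nondeg fun y => mem_perp_span.1 (htop trivial)

theorem OrthDec.sum_cmp (h : OrthDec Q k D) (x : V) : ∑ i, h.cmp i x = x := by
  classical
  refine (sub_eq_zero.1 (h.eq_zero_of_perp fun i => ?_)).symm
  have h1 : x - ∑ j, h.cmp j x = (x - h.cmp i x) - ∑ j ∈ Finset.univ.erase i, h.cmp j x := by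
    rw [← Finset.add_sum_erase _ _ (Finset.mem_univ i)]; abel
  rw [h1]
  exact sub_mem (h.sub_cmp_mem i x)
    (sum_mem fun j hj => h.orth (Finset.ne_of_mem_erase hj).symm (h.cmp_mem j x))

theorem OrthDec.ext_cmp (h : OrthDec Q k D) {x y : V} (he : ∀ i, h.cmp i x = h.cmp i y) : x = y := by
  rw [← h.sum_cmp x, ← h.sum_cmp y]
  exact Finset.sum_congr rfl fun i _ => he i

theorem OrthDec.mem_of_cmp (h : OrthDec Q k D) {x : V} {i : Fin t}
    (hx : ∀ j, j ≠ i → h.cmp j x = 0) : x ∈ D i := by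
  classical
  rw [← h.sum_cmp x, sum_single_zero _ i hx]
  exact h.cmp_mem i x

theorem OrthDec.exists_cmp_ne (h : OrthDec Q k D) {x : V} {i : Fin t} (hx : x ∉ D i) :
    ∃ j, j ≠ i ∧ h.cmp j x ≠ 0 := by
  by_contra hc
  push Not at hc
  exact hx (h.mem_of_cmp hc)

theorem OrthDec.eq_zero_of_mem (h : OrthDec Q k D) {i j : Fin t} (hij : i ≠ j) {x : V} (hi : x ∈ D i)
    (hj : x ∈ D j) : x = 0 := by
  rw [← h.cmp_same hi]
  exact h.cmp_other hij hj

theorem OrthDec.map_sum_eq (h : OrthDec Q k D) (c : Fin t → V) (hc : ∀ i, c i ∈ D i) :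
    Q (∑ i, c i) = ∑ i, Q (c i) := by
  classical
  suffices ∀ s : Finset (Fin t), Q (∑ i ∈ s, c i) = ∑ i ∈ s, Q (c i) from this _
  intro s
  induction s using Finset.induction with
  | empty => simp
  | @insert a s ha ih =>
    rw [Finset.sum_insert ha, Finset.sum_insert ha, QuadraticMap.map_add (⇑Q), ih,
      show polar Q (c a) (∑ i ∈ s, c i) = 0 from mem_perp.1
        (sum_mem fun j hj => h.orth (i := a) (j := j) (fun he => ha (he ▸ hj)) (hc j) : _ ∈ perp Q (D a)) (c a) (hc a),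
      add_zero]

theorem OrthDec.map_eq_sum (h : OrthDec Q k D) (x : V) : Q x = ∑ i, Q (h.cmp i x) := by
  rw [← h.map_sum_eq _ fun i => h.cmp_mem i x, h.sum_cmp]

/-- A reflection in a member vector fixes the other members pointwise. -/
theorem OrthDec.refl_fix (h : OrthDec Q k D) {i j : Fin t} (hij : i ≠ j) {v : V} (hv : v ∈ D i)
    {x : V} (hx : x ∈ D j) : (refl Q v : V ≃ₗ[F] V) x = x :=
  refl_apply_of_ortho (h.polar_zero hij hv hx)

theorem OrthDec.refl_maps (h : OrthDec Q k D) {i : Fin t} {v : V} (hv : v ∈ D i) (j : Fin t)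
    {x : V} (hx : x ∈ D j) : (refl Q v : V ≃ₗ[F] V) x ∈ D j := by
  by_cases hij : i = j
  · subst hij; rw [refl_apply]; exact sub_mem hx ((D i).smul_mem _ hv)
  · rw [h.refl_fix hij hv hx]; exact hx

theorem OrthDec.eich_maps (h : OrthDec Q k D) {i : Fin t} {e a : V} (he : e ∈ D i) (ha : a ∈ D i)
    (hq : Q e = 0) (hea : polar Q e a = 0) (j : Fin t) {x : V} (hx : x ∈ D j) :
    (eich Q e a : V ≃ₗ[F] V) x ∈ D j := by
  by_cases hij : i = j
  · subst hij
    rw [eich_apply hq hea]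
    exact sub_mem (sub_mem (add_mem hx ((D i).smul_mem _ ha)) ((D i).smul_mem _ he))
      ((D i).smul_mem _ he)
  · rw [eich_fix hq hea (h.polar_zero hij he hx) (h.polar_zero hij ha hx)]; exact hx

/-- Inside a member, the perp of a subspace. -/
theorem finrank_inf_perp_of_le (hQ : (polarBilin Q).Nondegenerate) {W K : Submodule F V}
    (hWU : W ⊓ perp Q W = ⊥) (hK : K ≤ W) :
    Module.finrank F ↥(W ⊓ perp Q K) + Module.finrank F K = Module.finrank F W := by
  have h1 : W ⊓ perp Q K = perp Q (perp Q W ⊔ K) := by rw [perp_sup, perp_perp hQ]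
  have h2 := finrank_perp_add hQ (perp Q W ⊔ K)
  have h3 := Submodule.finrank_sup_add_finrank_inf_eq (perp Q W) K
  have h4 : perp Q W ⊓ K = ⊥ := by
    rw [eq_bot_iff, ← hWU, inf_comm W]
    exact inf_le_inf_left _ hK
  have h5 := finrank_perp_add hQ W
  rw [h4, finrank_bot] at h3
  rw [h1]
  omega

/-- An additive subgroup invariant under the root elements of a non-degenerate space. -/
theorem addSubgroup_eq_of_invariant [Finite F] {W : Submodule F V}
    (hQ : (polarBilin Q).Nondegenerate) (hWU : W ⊓ perp Q W = ⊥) (h3 : 3 ≤ Module.finrank F W)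
    (X : AddSubgroup V) (hXW : ∀ x ∈ X, x ∈ W)
    (hinv : ∀ e ∈ W, ∀ a ∈ W, Q e = 0 → polar Q e a = 0 → ∀ x ∈ X, (eich Q e a : V ≃ₗ[F] V) x ∈ X)
    {x₀ : V} (hx₀ : x₀ ∈ X) (hx₀0 : x₀ ≠ 0) : ∀ w ∈ W, w ∈ X := by
  have key : ∀ e ∈ W, Q e = 0 → ∀ x ∈ X, polar Q e x ≠ 0 →
      (∀ s : F, s • e ∈ X) ∧ ∀ a ∈ W, polar Q e a = 0 → a ∈ X := by
    intro e he hqe x hx hne
    have he0 : e ≠ 0 := fun h => hne (by rw [h, polar_zero_left])
    obtain ⟨f, hf, hp⟩ := exists_partner hWU he he0 hqe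
    obtain ⟨hrad, hdim⟩ := pair_complement hQ hWU he hf hp
    obtain ⟨a₀, ha₀, ha₀0⟩ := Submodule.exists_mem_ne_zero_of_ne_bot (p := W ⊓ pperp Q e f)
      fun h => by rw [h, finrank_bot] at hdim; omega
    obtain ⟨b₀, hb₀, hab⟩ : ∃ b ∈ W ⊓ pperp Q e f, polar Q a₀ b ≠ 0 := by
      by_contra hcon
      push Not at hcon
      exact ha₀0 (eq_zero_of_mem_mem hrad ha₀
        (mem_perp.2 fun r hr => by rw [polar_comm]; exact hcon r hr))
    have hd : ∀ a ∈ W, polar Q e a = 0 →
        polar Q e x • a - polar Q a x • e - (Q a * polar Q e x) • e ∈ X := by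
      intro a ha hea
      have h := X.sub_mem (hinv e he a ha hqe hea x hx) hx
      rw [eich_apply hqe hea] at h
      convert h using 1
      abel
    have hline : ∀ s : F, s • e ∈ X := by
      intro s
      obtain ⟨hea, -⟩ := mem_pperp.1 ha₀.2
      obtain ⟨heb, -⟩ := mem_pperp.1 hb₀.2
      obtain ⟨r, hr⟩ : ∃ r, r = s / (polar Q a₀ b₀ * polar Q e x) := ⟨_, rfl⟩
      have hea' : polar Q e (r • a₀) = 0 := by rw [polar_smul_right, hea, smul_zero]
      have h := X.sub_mem (X.add_mem (hd _ (W.smul_mem r ha₀.1) hea') (hd b₀ hb₀.1 heb))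
        (hd (r • a₀ + b₀) (add_mem (W.smul_mem r ha₀.1) hb₀.1)
          (by rw [polar_add_right, hea', heb, add_zero]))
      convert h using 1
      simp only [QuadraticMap.map_add (⇑Q) (r • a₀) b₀, polar_add_left, polar_smul_left, smul_eq_mul]
      have hs : s = r * polar Q a₀ b₀ * polar Q e x := by rw [hr]; field_simp
      rw [hs]
      module
    refine ⟨hline, fun a ha hea => ?_⟩
    have ha' : (polar Q e x)⁻¹ • a ∈ W := W.smul_mem _ ha
    have hea' : polar Q e ((polar Q e x)⁻¹ • a) = 0 := by rw [polar_smul_right, hea, smul_zero]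
    have h := X.add_mem (hd _ ha' hea') (hline (polar Q ((polar Q e x)⁻¹ • a) x +
      Q ((polar Q e x)⁻¹ • a) * polar Q e x))
    convert h using 1
    rw [smul_smul, mul_inv_cancel₀ hne, add_smul, one_smul]
    abel
  obtain ⟨e, he, hqe, hne⟩ := exists_singular_polar_ne (Q := Q) (S := W) (y := x₀)
    (by rw [hWU, finrank_bot]; omega) (by
      by_contra hc
      push Not at hc
      exact hx₀0 (eq_zero_of_mem_mem hWU (hXW _ hx₀) (mem_perp.2 fun z hz => by
        rw [polar_comm]; exact hc z hz)))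
  rw [polar_comm] at hne
  obtain ⟨hline, hperp⟩ := key e he hqe x₀ hx₀ hne
  obtain ⟨f, hf, hp⟩ := exists_partner hWU he (fun h => hne (by rw [h, polar_zero_left])) hqe
  obtain ⟨hlinef, -⟩ := key f hf hp.right e (by simpa using hline 1)
    (by rw [polar_comm, hp.pair]; exact one_ne_zero)
  intro w hw
  have h := X.add_mem (hperp (w - polar Q e w • f) (sub_mem hw (W.smul_mem _ hf))
    (by rw [polar_sub_right, polar_smul_right, hp.pair, smul_eq_mul, mul_one, sub_self]))
    (hlinef (polar Q e w))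
  simpa using h

end Cfsg.Agent.H5
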