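import Cfsg.Agent.H5.DecMoved
import Cfsg.Agent.H5.OmegaCriterion

/-!
Reflection pairs in an overgroup of a decomposition stabiliser, and root elements crossing members.
-/

set_option autoImplicit false

namespace Cfsg.Agent.H5

open QuadraticMap hiding sq

variable {F V : Type*} [Field F] [AddCommGroup V] [Module F V] [FiniteDimensional F V]
  {Q : QuadraticForm F V} {t k : ℕ} {D : Fin t → Submodule F V} {M : Subgroup (orth Q)}

/-- The vectors whose reflection pairs with those of the members inside `M`. -/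
def InC (M : Subgroup (orth Q)) (D : Fin t → Submodule F V) (c : F) (z : V) : Prop :=
  Q z = c ∧ ∀ i, ∀ u ∈ D i, Q u = c → refl Q u * refl Q z ∈ M

/-- A root element of a member vector with a component outside the member. -/
def HasCross (M : Subgroup (orth Q)) (D : Fin t → Submodule F V) : Prop :=
  ∃ l, ∃ e ∈ D l, e ≠ 0 ∧ Q e = 0 ∧ ∃ c ∈ perp Q (D l), c ≠ 0 ∧ RootIn M e c

variable [Finite F] [Finite V] (h : OrthDec Q k D) (hn : 5 ≤ Module.finrank F V)
  (hM : ∀ g ∈ commutator (orth Q), PresD D g → g ∈ M)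

include h hn hM in
theorem rootIn_member {l : Fin t} {e a : V} (he : e ∈ D l) (ha : a ∈ D l) (hq : Q e = 0)
    (hea : polar Q e a = 0) : RootIn M e a :=
  ⟨hq, hea, hM _ (eich_mem_commutator h.nondeg hn e a) fun i => ⟨i, fun _ hx => h.eich_maps he ha hq hea i hx⟩⟩

include h hn hM in
theorem refl_pair_mem {i j : Fin t} {u v : V} (hu : u ∈ D i) (hv : v ∈ D j) (huv : Q u = Q v)
    (hq : Q u ≠ 0) : refl Q u * refl Q v ∈ M := by
  refine hM _ ?_ fun l => ⟨l, fun x hx => ?_⟩
  · have hh := (list_prod_mem_commutator_iff h.nondeg (Or.inr (by omega)) (vs := [u, v])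
      (by simp [← huv, hq])).2 ⟨by simp, by simp [← huv, IsSquare.mul_self]⟩
    simpa using hh
  · rw [orth_mul_apply]; exact h.refl_maps hu l (h.refl_maps hv l hx)

include h hn hM in
theorem inC_member {c : F} (hc : c ≠ 0) {i : Fin t} {v : V} (hv : v ∈ D i) (hqv : Q v = c) :
    InC M D c v :=
  ⟨hqv, fun _ _ hu hqu => refl_pair_mem h hn hM hu hv (hqu.trans hqv.symm) (by rw [hqu]; exact hc)⟩

omit [Finite F] [Finite V] [FiniteDimensional F V] in
theorem inC_pair {c : F} {i : Fin t} {u₀ : V} (hu₀ : u₀ ∈ D i) (hq₀ : Q u₀ = c) {x y : V}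
    (hx : InC M D c x) (hy : InC M D c y) : refl Q x * refl Q y ∈ M := by
  have := mul_mem (inv_mem (hx.2 i u₀ hu₀ hq₀)) (hy.2 i u₀ hu₀ hq₀)
  rwa [mul_inv_rev, refl_inv, refl_inv, mul_assoc, ← mul_assoc (refl Q u₀), refl_mul_self,
    one_mul] at this

omit [Finite F] [Finite V] [FiniteDimensional F V] in
theorem inC_refl {c : F} {i : Fin t} {u₀ : V} (hu₀ : u₀ ∈ D i) (hq₀ : Q u₀ = c) {x y : V}
    (hx : InC M D c x) (hy : InC M D c y) : InC M D c ((refl Q x : V ≃ₗ[F] V) y) := by
  refine ⟨by rw [orth_map, hy.1], fun j u hu hqu => ?_⟩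
  have := mul_mem (hx.2 j u hu hqu) (inC_pair hu₀ hq₀ hy hx)
  rw [← refl_conj, refl_inv]
  simpa [mul_assoc] using this

include h hn hM in
/-- A reflection pair vector with a suitable component yields a crossing root element. -/
theorem hasCross_of_inC (hk : 2 ≤ k) (ht : 2 ≤ t) {c : F} (hc : c ≠ 0) {z : V} (hz : InC M D c z)
    {l : Fin t} (hzl : z ∉ D l) {e : V} (he : e ∈ D l) (he0 : e ≠ 0) (hqe : Q e = 0)
    (hze : polar Q z e = 0) (hne : h.cmp l z ∉ Submodule.span F {e}) : HasCross M D := by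
  obtain ⟨z', hz', hz'e, hzz'⟩ := exists_detect h.nondeg (h.inf_perp l)
    ((Submodule.span_singleton_le_iff_mem _ _).2 he) (h.cmp_mem l z) hne
  rw [mem_perp_span] at hz'e
  rw [polar_comm, h.polar_cmp hz', polar_comm] at hzz'
  obtain ⟨m, hm⟩ : ∃ m : Fin t, m ≠ l := by
    haveI : Nontrivial (Fin t) := Fin.nontrivial_iff_two_le.2 ht
    exact exists_ne l
  obtain ⟨u, hu, hqu⟩ := exists_mem_norm_eq (h.inf_perp m) (by rw [h.finrank_eq]; exact hk) c
  have hQc : Q z = c := hz.1
  have hr := rootIn_member h hn hM he hz' hqe hz'e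
  have h1 := hr.conj (hz.2 m u hu hqu)
  rw [orth_mul_apply, orth_mul_apply, refl_apply_of_ortho hze,
    h.refl_fix hm hu he, refl_apply Q z, hQc, map_sub, map_smul, h.refl_fix hm hu hz'] at h1
  set r := c⁻¹ * polar Q z z' with hr'
  have hr0 : r ≠ 0 := mul_ne_zero (inv_ne_zero hc) hzz'
  set w := (refl Q u : V ≃ₗ[F] V) z with hw
  have hwl : h.cmp l w = h.cmp l z := by
    rw [hw, refl_apply, map_sub, map_smul, h.cmp_other (Ne.symm hm) hu, smul_zero, sub_zero]
  have hwn : w - h.cmp l w ≠ 0 := by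
    rw [hwl]
    intro h0
    refine hzl ?_
    have hz2 : (refl Q u : V ≃ₗ[F] V) z = (refl Q u : V ≃ₗ[F] V) (h.cmp l z) := by
      rw [h.refl_fix hm hu (h.cmp_mem l z)]; exact sub_eq_zero.1 h0
    rw [(refl Q u : V ≃ₗ[F] V).injective hz2]
    exact h.cmp_mem l z
  have hec : polar Q e (h.cmp l w) = 0 := by
    rw [hwl, h.polar_cmp he, polar_comm, hze]
  have h2 := h1.sub (rootIn_member h hn hM (a := z' - r • h.cmp l w) he
    (sub_mem hz' ((D l).smul_mem _ (h.cmp_mem l w))) hqe
    (by rw [polar_sub_right, hz'e, polar_smul_right, hec, smul_zero, sub_zero]))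
  refine ⟨l, e, he, he0, hqe, -(r • (w - h.cmp l w)),
    neg_mem (Submodule.smul_mem _ _ (h.sub_cmp_mem l w)),
    neg_ne_zero.2 (smul_ne_zero hr0 hwn), ?_⟩
  convert h2 using 1
  module

include h hn hM in
/-- Either a root element crosses, or a pairing vector lies outside every member. -/
theorem hasCross_or_inC (hk : 3 ≤ k) (ht : 2 ≤ t) (hk3 : k = 3 → 4 ≤ Nat.card F)
    (hfour : Nat.card F = 2 → k = 4 → ∀ i, ¬ ∃ U : Submodule F V, U ≤ D i ∧ (∀ u ∈ U, Q u = 0) ∧
      Module.finrank F U = 2) {g : orth Q} (hg : g ∈ M) (hgD : ¬ PresD D g) :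
    HasCross M D ∨ ∃ c : F, c ≠ 0 ∧ ∃ z, InC M D c z ∧ ∀ i, z ∉ D i := by
  have hgD' := hgD
  simp only [PresD, not_forall, not_exists] at hgD'
  obtain ⟨i, hi⟩ := hgD'
  set G := (D i).map ((g : V ≃ₗ[F] V) : V →ₗ[F] V) with hG
  have hmG : ∀ {x}, x ∈ G → ∃ y ∈ D i, (g : V ≃ₗ[F] V) y = x := fun hx => hx
  have hGd : Module.finrank F G = k := by
    rw [hG, LinearEquiv.finrank_map_eq, h.finrank_eq]
  have hGU : G ⊓ perp Q G = ⊥ := by
    rw [eq_bot_iff]
    rintro x ⟨hx, hx'⟩
    obtain ⟨y, hy, rfl⟩ := hmG hx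
    have hy0 : y = 0 := eq_zero_of_mem_mem (h.inf_perp i) hy (mem_perp.2 fun z hz => by
      have h' := mem_perp.1 hx' _ (Submodule.mem_map_of_mem (f := ((g : V ≃ₗ[F] V) : V →ₗ[F] V)) hz)
      rwa [LinearEquiv.coe_coe, orth_polar] at h')
    rw [hy0, map_zero]; exact Submodule.zero_mem _
  have hne : ∀ j, G ≠ D j := fun j hj => by
    obtain ⟨v, hv, hv'⟩ := hi j
    exact hv' (hj ▸ Submodule.mem_map_of_mem hv)
  obtain ⟨p, hp, b, hb, hqp, hpb, hx⟩ := exists_root_not_presD h hk hGd hGU hne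
  have hroot : RootIn M p b := by
    obtain ⟨p', hp', rfl⟩ := hmG hp
    obtain ⟨b', hb', rfl⟩ := hmG hb
    rw [orth_map] at hqp; rw [orth_polar] at hpb
    exact (rootIn_member h hn hM hp' hb' hqp hpb).conj hg
  set P := Submodule.span F {p} ⊔ Submodule.span F {b} with hP
  have hfix : ∀ {w}, w ∈ perp Q P → (eich Q p b : V ≃ₗ[F] V) w = w := by
    intro w hw
    rw [hP, perp_sup, Submodule.mem_inf, mem_perp_span, mem_perp_span] at hw
    exact eich_fix hqp hpb hw.1 hw.2
  by_cases hgood : ∃ m, ∃ w ∈ D m, w ∈ perp Q P ∧ Q w ≠ 0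
  · right
    obtain ⟨m, w, hw, hwP, hqw⟩ := hgood
    refine ⟨Q w, hqw, ?_⟩
    obtain ⟨i', v, hv, hqv, hout⟩ := exists_norm_moved h hk hk3 hfour hx hqw
    refine ⟨_, ⟨by rw [orth_map, hqv], fun j u hu hqu => ?_⟩, hout⟩
    have h1 := mul_mem (mul_mem hroot.2.2 (refl_pair_mem h hn hM hw hv hqv.symm hqw))
      (inv_mem hroot.2.2)
    have h2 := mul_mem (refl_pair_mem h hn hM hu hw hqu (by rw [hqu]; exact hqw)) h1
    have e1 : refl Q u * refl Q ((eich Q p b : V ≃ₗ[F] V) v) = refl Q u * refl Q w *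
        (eich Q p b * (refl Q w * refl Q v) * (eich Q p b)⁻¹) := by
      have hc1 : refl Q w = eich Q p b * refl Q w * (eich Q p b)⁻¹ := by
        rw [refl_conj, hfix hwP]
      rw [← refl_conj]
      conv_rhs => rw [show eich Q p b * (refl Q w * refl Q v) * (eich Q p b)⁻¹ =
        (eich Q p b * refl Q w * (eich Q p b)⁻¹) * (eich Q p b * refl Q v * (eich Q p b)⁻¹) by group,
        ← hc1]
      rw [mul_assoc (refl Q u), ← mul_assoc (refl Q w), refl_mul_self, one_mul]
    rw [e1]
    exact h2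
  · left
    push Not at hgood
    set l : Fin t := ⟨0, by omega⟩ with hl
    set S := D l ⊓ perp Q P with hS
    have hSs : ∀ s ∈ S, Q s = 0 := fun s hs => hgood l s hs.1 hs.2
    have hdim : k ≤ Module.finrank F S + 2 := finrank_inf_perp_pair h l p b
    obtain ⟨e, he, he0⟩ := Submodule.exists_mem_ne_zero_of_ne_bot (p := S) fun hb => by
      rw [hb, finrank_bot] at hdim; omega
    have h2S : ∀ m, 2 * Module.finrank F ↥(D m ⊓ perp Q P) ≤ k := by
      intro m
      have h1 := finrank_inf_perp_of_le (K := D m ⊓ perp Q P) h.nondeg (h.inf_perp m) inf_le_left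
      have h2 : Module.finrank F ↥(D m ⊓ perp Q P) ≤
          Module.finrank F ↥(D m ⊓ perp Q (D m ⊓ perp Q P)) :=
        Submodule.finrank_mono fun s hs => ⟨hs.1, le_perp_of_forall_eq_zero
          (W := D m ⊓ perp Q P) (fun y hy => hgood m y hy.1 hy.2) hs⟩
      rw [h.finrank_eq] at h1
      omega
    obtain ⟨a, ha, hae, haS⟩ : ∃ a ∈ D l, polar Q e a = 0 ∧ a ∉ S := by
      have h1 := finrank_inf_perp_of_le (K := Submodule.span F {e}) h.nondeg (h.inf_perp l)
        ((Submodule.span_singleton_le_iff_mem _ _).2 he.1)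
      rw [finrank_span_singleton he0, h.finrank_eq] at h1
      obtain ⟨a, ha, haS⟩ : ∃ a ∈ D l ⊓ perp Q (Submodule.span F {e}), a ∉ S := by
        refine SetLike.not_le_iff_exists.1 fun hle => ?_
        have := Submodule.finrank_mono hle
        have : 2 * Module.finrank F S ≤ k := h2S l
        omega
      exact ⟨a, ha.1, mem_perp_span.1 ha.2, haS⟩
    set c := (eich Q p b : V ≃ₗ[F] V) a - a with hc
    have hcP : c ∈ P := by
      rw [hc, eich_apply hqp hpb]
      have hre : ∀ y u v w : V, y + u - v - w - y = u - v - w := fun y u v w => by abel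
      rw [hre]
      exact sub_mem (sub_mem (Submodule.smul_mem _ _ (Submodule.mem_sup_right
        (Submodule.mem_span_singleton_self b))) (Submodule.smul_mem _ _ (Submodule.mem_sup_left
        (Submodule.mem_span_singleton_self p)))) (Submodule.smul_mem _ _ (Submodule.mem_sup_left
        (Submodule.mem_span_singleton_self p)))
    -- the root element moves `a`
    have hp0 : p ≠ 0 := fun h0 => hx (by
      rw [h0]; intro j; refine ⟨j, fun y hy => ?_⟩
      rw [eich_apply (by simp) (by simp)]; simpa using hy)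
    have hc0 : c ≠ 0 := by
      intro h0
      obtain ⟨q, hq⟩ : ∃ q, polar Q p q = 1 := exists_polar_eq_one h.nondeg hp0
      have hbp : b ∉ Submodule.span F {p} := fun hm => hx (by
        obtain ⟨s, rfl⟩ := Submodule.mem_span_singleton.1 hm
        intro j; refine ⟨j, fun y hy => ?_⟩
        rw [eich_apply hqp hpb, polar_smul_left, QuadraticMap.map_smul, hqp, smul_eq_mul, smul_zero,
          zero_mul, zero_smul, sub_zero, smul_smul, mul_comm, add_sub_cancel_right]
        exact hy)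
      rw [hc, eich_apply hqp hpb] at h0
      have h1 : polar Q p a • b = (polar Q b a + Q b * polar Q p a) • p := by
        rw [add_smul]; linear_combination (norm := abel) h0
      by_cases hpa : polar Q p a = 0
      · rw [hpa, zero_smul, mul_zero, add_zero, eq_comm, smul_eq_zero] at h1
        refine haS ⟨ha, ?_⟩
        show a ∈ perp Q P
        rw [hP, perp_sup, Submodule.mem_inf, mem_perp_span, mem_perp_span]
        exact ⟨hpa, h1.resolve_right hp0⟩
      · exact hbp (Submodule.mem_span_singleton.2 ⟨(polar Q p a)⁻¹ *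
          (polar Q b a + Q b * polar Q p a), by rw [mul_smul, ← h1, inv_smul_smul₀ hpa]⟩)
    have hcl : c ∉ D l := by
      intro hm
      obtain ⟨m, hml⟩ : ∃ m : Fin t, m ≠ l := by
        haveI : Nontrivial (Fin t) := Fin.nontrivial_iff_two_le.2 ht
        exact exists_ne l
      have h1 := finrank_inf_perp_of_cmp_eq_zero h m hc0 hcP (h.cmp_other hml hm)
      have h2 := h2S m
      rw [← hP] at h1
      omega
    have hr := rootIn_member h hn hM he.1 ha (hSs e he) hae
    have h0 := hr.conj hroot.2.2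
    rw [hfix he.2] at h0
    have h1 := h0.sub hr
    rw [← hc] at h1
    refine ⟨l, e, he.1, he0, hSs e he, c - h.cmp l c, h.sub_cmp_mem l c, ?_,
      h1.sub (rootIn_member h hn hM he.1 (h.cmp_mem l c) (hSs e he) ?_)⟩
    · intro h0
      exact hcl (by rw [sub_eq_zero.1 h0]; exact h.cmp_mem l c)
    · rw [h.polar_cmp he.1]; exact h1.2.1

end Cfsg.Agent.H5
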