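import Cfsg.Agent.H5.DecThree

/-!
A crossing root element generates `Ω` together with the stabiliser of a decomposition.
-/

set_option autoImplicit false

namespace Cfsg.Agent.H5

open QuadraticMap hiding sq

variable {F V : Type*} [Field F] [AddCommGroup V] [Module F V] [FiniteDimensional F V]
  {Q : QuadraticForm F V} {t k : ℕ} {D : Fin t → Submodule F V} {M : Subgroup (orth Q)}
  [Finite F] [Finite V]

/-- An element of `Ω` exchanging two members and fixing all the others pointwise. -/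
theorem exists_swap (h : OrthDec Q k D) (hn : 5 ≤ Module.finrank F V) (hk : 2 ≤ k) {m n : Fin t}
    (hmn : m ≠ n) :
    ∃ g ∈ commutator (orth Q), (∀ i, i ≠ m → i ≠ n → ∀ x ∈ D i, (g : V ≃ₗ[F] V) x = x) ∧
      ∀ i, ∀ x ∈ D i, (g : V ≃ₗ[F] V) x ∈ D (Equiv.swap m n i) := by
  obtain ⟨φ, hφ⟩ := h.isom m n
  have hφ' : ∀ y : D n, Q (φ.symm y : V) = Q (y : V) := fun y => by
    rw [← hφ, LinearEquiv.apply_symm_apply]
  let pm : V →ₗ[F] D m := (h.cmp m).codRestrict (D m) (h.cmp_mem m)
  let pn : V →ₗ[F] D n := (h.cmp n).codRestrict (D n) (h.cmp_mem n)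
  let S : V →ₗ[F] V := LinearMap.id - h.cmp m - h.cmp n
    + (D n).subtype ∘ₗ φ.toLinearMap ∘ₗ pm + (D m).subtype ∘ₗ φ.symm.toLinearMap ∘ₗ pn
  have hS : ∀ x, S x = x - h.cmp m x - h.cmp n x + (φ (pm x) : V) + (φ.symm (pn x) : V) := fun x => rfl
  have hr : ∀ x, x - h.cmp m x - h.cmp n x ∈ perp Q (D m) ∧
      x - h.cmp m x - h.cmp n x ∈ perp Q (D n) := fun x => by
    refine ⟨sub_mem (h.sub_cmp_mem m x) (h.orth hmn (h.cmp_mem n x)), ?_⟩
    rw [sub_right_comm]
    exact sub_mem (h.sub_cmp_mem n x) (h.orth (Ne.symm hmn) (h.cmp_mem m x))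
  have hSm : ∀ x, h.cmp m (S x) = (φ.symm (pn x) : V) := fun x => by
    rw [hS, map_add, map_add, h.cmp_perp (hr x).1, h.cmp_other hmn (φ (pm x)).2,
      h.cmp_same (φ.symm (pn x)).2, zero_add, zero_add]
  have hSn : ∀ x, h.cmp n (S x) = (φ (pm x) : V) := fun x => by
    rw [hS, map_add, map_add, h.cmp_perp (hr x).2, h.cmp_same (φ (pm x)).2,
      h.cmp_other (Ne.symm hmn) (φ.symm (pn x)).2, zero_add, add_zero]
  have hSS : ∀ x, S (S x) = x := fun x => by
    have e1 : pm (S x) = φ.symm (pn x) := Subtype.ext (hSm x)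
    have e2 : pn (S x) = φ (pm x) := Subtype.ext (hSn x)
    rw [hS (S x), hSm, hSn, e1, e2, φ.apply_symm_apply, φ.symm_apply_apply, hS x]
    change _ + (pn x : V) + (pm x : V) = x
    have e3 : (pn x : V) = h.cmp n x := rfl
    have e4 : (pm x : V) = h.cmp m x := rfl
    rw [e3, e4]
    abel
  have hSQ : ∀ x, Q (S x) = Q x := fun x => by
    have hsplit : ∀ r a b : V, r ∈ perp Q (D m) → r ∈ perp Q (D n) → a ∈ D m → b ∈ D n →
        Q (r + a + b) = Q r + Q a + Q b := fun r a b h1 h2 ha hb => by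
      rw [QuadraticMap.map_add (⇑Q), QuadraticMap.map_add (⇑Q), polar_add_left,
        h.polar_zero hmn ha hb, polar_comm (⇑Q) r a, mem_perp.1 h1 a ha, polar_comm (⇑Q) r b,
        mem_perp.1 h2 b hb]
      ring
    have e1 : Q (S x) = Q (x - h.cmp m x - h.cmp n x) + Q (pn x : V) + Q (pm x : V) := by
      rw [hS, add_right_comm, hsplit _ _ _ (hr x).1 (hr x).2 (φ.symm (pn x)).2 (φ (pm x)).2, hφ, hφ']
    have e2 := hsplit _ _ _ (hr x).1 (hr x).2 (h.cmp_mem m x) (h.cmp_mem n x)
    rw [show x - h.cmp m x - h.cmp n x + h.cmp m x + h.cmp n x = x by abel] at e2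
    rw [e1, e2, show (pn x : V) = h.cmp n x from rfl, show (pm x : V) = h.cmp m x from rfl]
    ring
  let s : orth Q := ⟨LinearEquiv.ofLinear S S (LinearMap.ext hSS) (LinearMap.ext hSS), hSQ⟩
  have hs : ∀ x, (s : V ≃ₗ[F] V) x = S x := fun _ => rfl
  have hfixo : ∀ i, i ≠ m → i ≠ n → ∀ x ∈ D i, S x = x := fun i him hin x hx => by
    have e1 : pm x = 0 := Subtype.ext (h.cmp_other (Ne.symm him) hx)
    have e2 : pn x = 0 := Subtype.ext (h.cmp_other (Ne.symm hin) hx)
    rw [hS, h.cmp_other (Ne.symm him) hx, h.cmp_other (Ne.symm hin) hx, e1, e2, map_zero, map_zero]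
    simp
  have hmap : ∀ i, ∀ x ∈ D i, S x ∈ D (Equiv.swap m n i) := by
    intro i x hx
    rcases eq_or_ne i m with rfl | him
    · rw [Equiv.swap_apply_left, hS, h.cmp_same hx, h.cmp_other (Ne.symm hmn) hx, sub_self, sub_zero,
        zero_add, show pn x = 0 from Subtype.ext (h.cmp_other (Ne.symm hmn) hx), map_zero]
      simp
    rcases eq_or_ne i n with rfl | hin
    · rw [Equiv.swap_apply_right, hS, h.cmp_same hx, h.cmp_other hmn hx, sub_zero, sub_self, zero_add,
        show pm x = 0 from Subtype.ext (h.cmp_other hmn hx), map_zero]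
      simp
    rw [Equiv.swap_apply_of_ne_of_ne him hin, hfixo i him hin x hx]
    exact hx
  obtain ⟨vs, hvs, hprod⟩ := exists_list_refl (g := s)
    (by rw [reflGroup_eq_top h.nondeg (Or.inr (by omega))]; trivial)
  have hprod0 : (vs.map fun v => Q v).prod ≠ 0 := List.prod_ne_zero (by
    simp only [List.mem_map, not_exists, not_and]
    exact fun v hv => hvs v hv)
  have hval : ∀ a : F, a ≠ 0 → ∃ u ∈ D n, Q u = a ∧ Q u ≠ 0 := fun a ha => by
    obtain ⟨u, hu, hqu⟩ := exists_mem_norm_eq (h.inf_perp n) (by rw [h.finrank_eq]; exact hk) a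
    exact ⟨u, hu, hqu, by rw [hqu]; exact ha⟩
  obtain ⟨us, hus, husn, heven, hsq⟩ : ∃ us : List V, (∀ u ∈ us, Q u ≠ 0) ∧ (∀ u ∈ us, u ∈ D n) ∧
      Even (us ++ vs).length ∧ IsSquare ((us ++ vs).map fun v => Q v).prod := by
    rcases Nat.even_or_odd vs.length with he | ho
    · obtain ⟨u, hu, hqu, hu0⟩ := hval 1 one_ne_zero
      obtain ⟨w, hw, hqw, hw0⟩ := hval _ hprod0
      refine ⟨[u, w], by simp [hu0, hw0], by simp [hu, hw], ?_, ?_⟩
      · simp only [List.cons_append, List.nil_append, List.length_cons]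
        exact he.add (by decide : Even 2)
      · simp only [List.cons_append, List.nil_append, List.map_cons, List.prod_cons, hqu, hqw, one_mul]
        exact IsSquare.mul_self _
    · obtain ⟨u, hu, hqu, hu0⟩ := hval _ hprod0
      refine ⟨[u], by simp [hu0], by simp [hu], ?_, ?_⟩
      · simp only [List.cons_append, List.nil_append, List.length_cons]
        exact ho.add_one
      · simp only [List.cons_append, List.nil_append, List.map_cons, List.prod_cons, hqu]
        exact IsSquare.mul_self _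
  set K := ((us.map (refl Q)).prod) with hK
  have hKD : ∀ i, ∀ x ∈ D i, (K : V ≃ₗ[F] V) x ∈ D i ∧ (i ≠ n → (K : V ≃ₗ[F] V) x = x) := by
    rw [hK]
    clear hsq heven hus hK K
    induction us with
    | nil => intro i x hx; simpa using hx
    | cons u us ih =>
      intro i x hx
      have hih := ih (fun w hw => husn w (List.mem_cons_of_mem _ hw)) i x hx
      rw [List.map_cons, List.prod_cons, orth_mul_apply]
      refine ⟨h.refl_maps (husn u List.mem_cons_self) i hih.1, fun hin => ?_⟩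
      rw [hih.2 hin, h.refl_fix (Ne.symm hin) (husn u List.mem_cons_self) hx]
  refine ⟨K * s, ?_, fun i him hin x hx => ?_, fun i x hx => ?_⟩
  · have := (list_prod_mem_commutator_iff h.nondeg (Or.inr (by omega)) (vs := us ++ vs) (by
      intro v hv; rcases List.mem_append.1 hv with hv | hv
      exacts [hus v hv, hvs v hv])).2 ⟨heven, hsq⟩
    rw [List.map_append, List.prod_append] at this
    rw [hK, hprod]
    exact this
  · rw [orth_mul_apply, hs, hfixo i him hin x hx, (hKD i x hx).2 hin]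
  · rw [orth_mul_apply, hs]; exact (hKD _ _ (hmap i x hx)).1

/-- An element of `Ω` carrying one member to another and fixing a third pointwise. -/
theorem exists_move (h : OrthDec Q k D) (hn : 5 ≤ Module.finrank F V) (hk : 2 ≤ k) {l m n : Fin t}
    (hml : m ≠ l) (hnl : n ≠ l) (hmn : m ≠ n) :
    ∃ g ∈ commutator (orth Q), PresD D g ∧ (∀ x ∈ D l, (g : V ≃ₗ[F] V) x = x) ∧
      ∀ y ∈ D n, ∃ x ∈ D m, (g : V ≃ₗ[F] V) x = y := by
  obtain ⟨g, hg, hfix, hmap⟩ := exists_swap h hn hk hmn
  refine ⟨g, hg, fun i => ⟨_, hmap i⟩, hfix l (Ne.symm hml) (Ne.symm hnl), fun y hy => ?_⟩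
  have hle : (D m).map ((g : V ≃ₗ[F] V) : V →ₗ[F] V) ≤ D n := by
    rintro _ ⟨x, hx, rfl⟩
    simpa using hmap m x hx
  obtain ⟨x, hx, hxy⟩ := (Submodule.eq_of_le_of_finrank_eq hle
    (by rw [LinearEquiv.finrank_map_eq, h.finrank_eq, h.finrank_eq])).ge hy
  exact ⟨x, hx, hxy⟩

variable (h : OrthDec Q k D) (hn : 5 ≤ Module.finrank F V)
  (hM : ∀ g ∈ commutator (orth Q), PresD D g → g ∈ M)

include h hn hM in
theorem commutator_le_of_hasCross (hk : 3 ≤ k) (hc : HasCross M D) : commutator (orth Q) ≤ M := by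
  obtain ⟨l, e, he, he0, hqe, c, hc, hc0, hec⟩ := hc
  let A : AddSubgroup V :=
    { carrier := {x | x ∈ perp Q (D l) ∧ RootIn M e x}
      zero_mem' := ⟨Submodule.zero_mem _, by simpa using hec.sub hec⟩
      add_mem' := fun hx hy => ⟨add_mem hx.1 hy.1, hx.2.add hy.2⟩
      neg_mem' := fun hx => ⟨neg_mem hx.1, hx.2.neg⟩ }
  have hcA : c ∈ A := ⟨hc, hec⟩
  obtain ⟨m, hml, hm⟩ := h.exists_cmp_ne (i := l) (x := c)
    fun hcl => hc0 (eq_zero_of_mem_mem (h.inf_perp l) hcl hc)
  -- root elements of the member act on the root group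
  have hh : ∀ e' ∈ D m, ∀ a ∈ D m, Q e' = 0 → polar Q e' a = 0 → ∀ x ∈ A,
      (eich Q e' a : V ≃ₗ[F] V) x ∈ A := by
    intro e' he' a ha hq hea x hx
    have hel : ∀ y ∈ D l, (eich Q e' a : V ≃ₗ[F] V) y = y := fun y hy =>
      eich_fix hq hea (h.polar_zero hml he' hy) (h.polar_zero hml ha hy)
    have h1 := hx.2.conj (rootIn_member h hn hM he' ha hq hea).2.2
    rw [hel e he] at h1
    refine ⟨mem_perp.2 fun y hy => ?_, h1⟩
    rw [← hel y hy, orth_polar]
    exact mem_perp.1 hx.1 y hy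
  have hDm : ∀ w ∈ D m, w ∈ A := by
    obtain ⟨x₀, hx₀, hx₀0⟩ : ∃ x₀, x₀ ∈ A ⊓ (D m).toAddSubgroup ∧ x₀ ≠ 0 := by
      by_contra hcon
      push Not at hcon
      have hfix : ∀ e' ∈ D m, ∀ a ∈ D m, Q e' = 0 → polar Q e' a = 0 →
          (eich Q e' a : V ≃ₗ[F] V) (h.cmp m c) = h.cmp m c := by
        intro e' he' a ha hq hea
        have hd : (eich Q e' a : V ≃ₗ[F] V) c - c =
            (eich Q e' a : V ≃ₗ[F] V) (h.cmp m c) - h.cmp m c := by
          have hf : (eich Q e' a : V ≃ₗ[F] V) (c - h.cmp m c) = c - h.cmp m c :=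
            eich_fix hq hea (mem_perp.1 (h.sub_cmp_mem m c) e' he')
              (mem_perp.1 (h.sub_cmp_mem m c) a ha)
          rw [map_sub] at hf
          linear_combination (norm := abel) hf
        refine sub_eq_zero.1 (hcon _ ⟨hd ▸ A.sub_mem (hh e' he' a ha hq hea c hcA) hcA, ?_⟩)
        show _ ∈ D m
        exact sub_mem (h.eich_maps he' ha hq hea m (h.cmp_mem m c)) (h.cmp_mem m c)
      have hall := addSubgroup_eq_of_invariant h.nondeg (h.inf_perp m) (by rw [h.finrank_eq]; exact hk)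
        (AddSubgroup.zmultiples (h.cmp m c))
        (fun x hx => by
          obtain ⟨z, rfl⟩ := AddSubgroup.mem_zmultiples_iff.1 hx
          exact zsmul_mem (h.cmp_mem m c) z)
        (fun e' he' a ha hq hea x hx => by
          obtain ⟨z, rfl⟩ := AddSubgroup.mem_zmultiples_iff.1 hx
          rw [map_zsmul, hfix e' he' a ha hq hea]
          exact hx)
        (AddSubgroup.mem_zmultiples _) hm
      have hle : D m ≤ Submodule.span F {h.cmp m c} := fun w hw => by
        obtain ⟨z, rfl⟩ := AddSubgroup.mem_zmultiples_iff.1 (hall w hw)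
        exact zsmul_mem (Submodule.mem_span_singleton_self _) z
      have h1 := Submodule.finrank_mono hle
      rw [finrank_span_singleton hm, h.finrank_eq] at h1
      omega
    intro w hw
    exact (addSubgroup_eq_of_invariant h.nondeg (h.inf_perp m) (by rw [h.finrank_eq]; exact hk)
      (A ⊓ (D m).toAddSubgroup) (fun x hx => hx.2)
      (fun e' he' a ha hq hea x hx => ⟨hh e' he' a ha hq hea x hx.1, h.eich_maps he' ha hq hea m hx.2⟩)
      hx₀ hx₀0 w hw).1
  have hDn : ∀ n, n ≠ l → ∀ w ∈ D n, w ∈ A := by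
    intro n hnl w hw
    by_cases hmn : m = n
    · subst hmn; exact hDm w hw
    obtain ⟨g, hg, hgD, hgl, hgn⟩ := exists_move h hn (by omega) hml hnl hmn
    obtain ⟨x, hx, rfl⟩ := hgn w hw
    have h1 := (hDm x hx).2.conj (hM g hg hgD)
    rw [hgl e he] at h1
    exact ⟨h.orth (Ne.symm hnl) hw, h1⟩
  have hA : ∀ u ∈ perp Q (D l), u ∈ A := by
    intro u hu
    rw [← h.sum_cmp u]
    refine sum_mem fun n _ => ?_
    by_cases hnl : n = l
    · subst hnl; rw [h.cmp_perp hu]; exact zero_mem A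
    · exact hDn n hnl _ (h.cmp_mem n u)
  have hfull : FullRoot M e := by
    refine ⟨hqe, fun x hx => ?_⟩
    obtain ⟨w, hw, u, hu, rfl⟩ := exists_split h.nondeg (h.inf_perp l) x
    have hew : polar Q e w = 0 := by
      rw [polar_add_right, mem_perp.1 hu e he, add_zero] at hx
      exact hx
    exact ((rootIn_member h hn hM he hw hqe hew).add (hA u hu).2).2.2
  obtain ⟨f, hf, hp⟩ := exists_partner (h.inf_perp l) he he0 hqe
  obtain ⟨hrad, hdim⟩ := pair_complement h.nondeg (h.inf_perp l) he hf hp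
  obtain ⟨a, ⟨haW, hap⟩, hQa⟩ := exists_anisotropic hrad (by rw [h.finrank_eq] at hdim; omega)
  obtain ⟨hea, hfa⟩ := mem_pperp.1 hap
  refine commutator_le_of_fullRoot h.nondeg hn hfull
    (hfull.conj (rootIn_member h hn hM hf haW hp.right hfa).2.2) ?_
  rw [eich_apply hp.right hfa, polar_comm (⇑Q) f e, hp.pair, polar_comm (⇑Q) a e, hea]
  simp [polar_add_right, polar_sub_right, polar_smul_right, polar_self', hqe, hea, hp.pair]
  exact hQa

include h hn hM in
/-- Decomposition stabilisers generate `Ω` with any further element, for members of dimension at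
least three. -/
theorem commutator_le_of_dec (hk : 3 ≤ k) (ht : 2 ≤ t) (hk3 : k = 3 → 5 ≤ Nat.card F)
    (hfour : Nat.card F = 2 → k = 4 → ∀ i, ¬ ∃ U : Submodule F V, U ≤ D i ∧ (∀ u ∈ U, Q u = 0) ∧
      Module.finrank F U = 2) {g : orth Q} (hg : g ∈ M) (hgD : ¬ PresD D g) :
    commutator (orth Q) ≤ M := by
  refine commutator_le_of_hasCross h hn hM hk ?_
  rcases hasCross_or_inC h hn hM hk ht (fun hk' => (by have := hk3 hk'; omega)) hfour hg hgD with
    hc | ⟨c, hc, z, hz, hout⟩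
  · exact hc
  · exact hasCross_of_out h hn hM hk ht hk3 hc hz hout

end Cfsg.Agent.H5
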