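import Cfsg.Agent.H5.DecBasic

/-!
A root element moving a decomposition, and a moved vector of prescribed norm.
-/

set_option autoImplicit false

namespace Cfsg.Agent.H5

open QuadraticMap hiding sq

variable {F V : Type*} [Field F] [AddCommGroup V] [Module F V] [FiniteDimensional F V]
  {Q : QuadraticForm F V} {t k : ℕ} {D : Fin t → Submodule F V}

theorem finrank_inf_perp_pair (h : OrthDec Q k D) (l : Fin t) (p b : V) :
    k ≤ Module.finrank F ↥(D l ⊓ perp Q (Submodule.span F {p} ⊔ Submodule.span F {b})) + 2 := by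
  have h1 := Submodule.finrank_sup_add_finrank_inf_eq (D l)
    (perp Q (Submodule.span F {p} ⊔ Submodule.span F {b}))
  have h2 : Module.finrank F ↥(D l ⊔ perp Q (Submodule.span F {p} ⊔ Submodule.span F {b})) ≤
      Module.finrank F V := Submodule.finrank_le _
  have h3 := finrank_perp_add h.nondeg (Submodule.span F {p} ⊔ Submodule.span F {b})
  have h4 : Module.finrank F ↥(Submodule.span F {p} ⊔ Submodule.span F {b}) ≤ 2 := by
    refine (Submodule.finrank_add_le_finrank_add_finrank _ _).trans ?_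
    have h5 : ∀ z : V, Module.finrank F (Submodule.span F {z}) ≤ 1 := fun z => by
      simpa using finrank_span_le_card ({z} : Set V)
    have := h5 p; have := h5 b; omega
  have := h.finrank_eq l
  omega

/-- A combination of the two vectors with no component in a member leaves a hyperplane fixed. -/
theorem finrank_inf_perp_of_cmp_eq_zero (h : OrthDec Q k D) (l : Fin t) {p b c : V} (hc0 : c ≠ 0)
    (hc : c ∈ Submodule.span F {p} ⊔ Submodule.span F {b}) (hl : h.cmp l c = 0) :
    k ≤ Module.finrank F ↥(D l ⊓ perp Q (Submodule.span F {p} ⊔ Submodule.span F {b})) + 1 := by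
  set P := Submodule.span F {p} ⊔ Submodule.span F {b} with hP
  have hcp : c ∈ perp Q (D l) := by
    have := h.sub_cmp_mem l c
    rwa [hl, sub_zero] at this
  have he : D l ⊓ perp Q P = perp Q (perp Q (D l) ⊔ P) := by rw [perp_sup (perp Q (D l)) P, perp_perp h.nondeg]
  have h1 := Submodule.finrank_sup_add_finrank_inf_eq (perp Q (D l)) P
  have h2 := finrank_perp_add h.nondeg (perp Q (D l) ⊔ P)
  have h3 := finrank_perp_add h.nondeg (D l)
  have h4 : Module.finrank F P ≤ 2 := by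
    refine (Submodule.finrank_add_le_finrank_add_finrank _ _).trans ?_
    have h5 : ∀ z : V, Module.finrank F (Submodule.span F {z}) ≤ 1 := fun z => by
      simpa using finrank_span_le_card ({z} : Set V)
    have := h5 p; have := h5 b; omega
  have h6 : 1 ≤ Module.finrank F ↥(perp Q (D l) ⊓ P) :=
    Submodule.one_le_finrank_iff.2 fun hb => hc0 (by
      have : c ∈ perp Q (D l) ⊓ P := ⟨hcp, hc⟩
      rwa [hb, Submodule.mem_bot] at this)
  rw [he]
  have := h.finrank_eq l
  omega

variable [Finite F]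

/-- A root element of a moved member which does not preserve the decomposition. -/
theorem exists_root_not_presD (h : OrthDec Q k D) (hk : 3 ≤ k) {G : Submodule F V}
    (hG : Module.finrank F G = k) (hGU : G ⊓ perp Q G = ⊥) (hne : ∀ j, G ≠ D j) :
    ∃ p ∈ G, ∃ b ∈ G, Q p = 0 ∧ polar Q p b = 0 ∧ ¬ PresD D (eich Q p b) := by
  by_contra hc
  push Not at hc
  have hfixm : ∀ p ∈ G, ∀ b ∈ G, Q p = 0 → polar Q p b = 0 → ∀ l, ∀ z ∈ D l,
      (eich Q p b : V ≃ₗ[F] V) z ∈ D l := by
    intro p hp b hb hqp hpb l z hz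
    obtain ⟨j, hj⟩ := hc p hp b hb hqp hpb l
    obtain ⟨v, ⟨hv, hvP⟩, hv0⟩ := Submodule.exists_mem_ne_zero_of_ne_bot
      (p := D l ⊓ perp Q (Submodule.span F {p} ⊔ Submodule.span F {b})) fun hb => by
        have := finrank_inf_perp_pair h l p b
        rw [hb, finrank_bot] at this
        omega
    rw [SetLike.mem_coe, perp_sup, Submodule.mem_inf, mem_perp_span, mem_perp_span] at hvP
    have hjl : j = l := by
      by_contra hjl
      have := hj v hv
      rw [eich_fix hqp hpb hvP.1 hvP.2] at this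
      exact hv0 (h.eq_zero_of_mem hjl this hv)
    exact hjl ▸ hj z hz
  have hX : ∀ l, D l ⊓ G = ⊥ := by
    intro l
    rw [eq_bot_iff]
    intro x hx
    by_contra hx0
    refine hne l (Submodule.eq_of_le_of_finrank_eq (fun w hw => ?_) (by rw [hG, h.finrank_eq]))
    exact (addSubgroup_eq_of_invariant h.nondeg hGU (by omega) (D l ⊓ G).toAddSubgroup
      (fun y hy => hy.2) (fun e he a ha hqe hea y hy => ⟨hfixm e he a ha hqe hea l y hy.1, by
        rw [eich_apply hqe hea]
        exact sub_mem (sub_mem (add_mem hy.2 (G.smul_mem _ ha)) (G.smul_mem _ he)) (G.smul_mem _ he)⟩)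
      hx (fun h0 => hx0 (by simpa using h0)) w hw).1
  obtain ⟨e, he, f, hf, hp⟩ := exists_pair_of_three hGU (by omega)
  obtain ⟨hrad, hdim⟩ := pair_complement h.nondeg hGU he hf hp
  obtain ⟨a, ha, hQa⟩ := exists_anisotropic hrad (by omega)
  obtain ⟨haG, hap⟩ := ha
  obtain ⟨hea, hfa⟩ := mem_pperp.1 hap
  have hall : ∀ z, (eich Q e a : V ≃ₗ[F] V) z = z := by
    intro z
    have hz : ∀ l, (eich Q e a : V ≃ₗ[F] V) (h.cmp l z) = h.cmp l z := by
      intro l
      have hm : (eich Q e a : V ≃ₗ[F] V) (h.cmp l z) - h.cmp l z ∈ D l ⊓ G := by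
        refine ⟨sub_mem (hfixm e he a haG hp.left hea l _ (h.cmp_mem l z)) (h.cmp_mem l z), ?_⟩
        rw [eich_apply hp.left hea]
        have hre : ∀ y u v w : V, y + u - v - w - y = u - v - w := fun y u v w => by abel
        rw [hre]
        exact sub_mem (sub_mem (G.smul_mem _ haG) (G.smul_mem _ he)) (G.smul_mem _ he)
      rw [hX l, Submodule.mem_bot, sub_eq_zero] at hm
      exact hm
    conv_lhs => rw [← h.sum_cmp z]
    rw [map_sum, Finset.sum_congr rfl fun l _ => hz l, h.sum_cmp]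
  have := congrArg (polar Q f) (hall f)
  rw [eich_apply hp.left hea, hp.pair] at this
  simp [polar_add_right, polar_sub_right, polar_smul_right, polar_self', hp.right, hfa,
    polar_comm (⇑Q) f e, hp.pair, polar_comm (⇑Q) a f] at this
  exact hQa this

/-- A value split between two orthogonal halves of a space. -/
theorem exists_norm_split {X Y : Submodule F V} (hX : X ⊓ perp Q X = ⊥) (hY : Y ⊓ perp Q Y = ⊥)
    (hX0 : X ≠ ⊥) (hY0 : Y ≠ ⊥) (hX2 : 2 ≤ Module.finrank F X) {c : F} (hc : c ≠ 0)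
    (hbig : 4 ≤ Nat.card F ∨ 4 ≤ Module.finrank F X + Module.finrank F Y)
    (hfour : Nat.card F = 2 → Module.finrank F X + Module.finrank F Y = 4 →
      (∃ a ∈ X, a ≠ 0 ∧ Q a = 0) ∨ ∃ b ∈ Y, b ≠ 0 ∧ Q b = 0) :
    ∃ a ∈ X, ∃ b ∈ Y, a ≠ 0 ∧ b ≠ 0 ∧ Q a + Q b = c := by
  by_cases hb : ∃ b ∈ Y, b ≠ 0 ∧ Q b ≠ c
  · obtain ⟨b, hb, hb0, hbc⟩ := hb
    obtain ⟨a, ha, hqa⟩ := exists_mem_norm_eq hX hX2 (c - Q b)
    exact ⟨a, ha, b, hb, fun h => hbc (by rw [h, QuadraticMap.map_zero] at hqa; linear_combination hqa),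
      hb0, by rw [hqa]; ring⟩
  push Not at hb
  -- every vector of `Y` has norm `c`
  obtain ⟨b, hbY, hb0⟩ := Submodule.exists_mem_ne_zero_of_ne_bot hY0
  haveI := Fintype.ofFinite F
  classical
  have hq : Nat.card F ≤ 3 := by
    by_contra hq
    obtain ⟨s, -, hs⟩ := Finset.exists_mem_notMem_of_card_lt_card (t := (Finset.univ : Finset F))
      (s := ({0, 1, -1} : Finset F)) (lt_of_le_of_lt Finset.card_le_three (by
        rw [Finset.card_univ, ← Nat.card_eq_fintype_card]; omega))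
    simp only [Finset.mem_insert, Finset.mem_singleton, not_or] at hs
    have h1 := hb _ (Y.smul_mem s hbY) (smul_ne_zero hs.1 hb0)
    rw [QuadraticMap.map_smul, hb b hbY hb0, smul_eq_mul] at h1
    have : s * s = 1 := mul_right_cancel₀ hc (by rw [h1, one_mul])
    rcases mul_self_eq_one_iff.1 this with h' | h'
    exacts [hs.2.1 h', hs.2.2 h']
  have hbig' : 4 ≤ Module.finrank F X + Module.finrank F Y := hbig.resolve_left (by omega)
  suffices ∃ a ∈ X, a ≠ 0 ∧ Q a = 0 by
    obtain ⟨a, ha, ha0, hqa⟩ := this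
    exact ⟨a, ha, b, hbY, ha0, hb0, by rw [hqa, hb b hbY hb0, zero_add]⟩
  by_cases h3 : 3 ≤ Module.finrank F X
  · obtain ⟨a, ha, -, ha0, hqa⟩ := exists_singular_not_mem (Q := Q) (S := X) (T := ⊥)
      (by rw [finrank_bot]; omega)
    exact ⟨a, ha, ha0, hqa⟩
  have hno : ¬ ∃ b ∈ Y, b ≠ 0 ∧ Q b = 0 := by
    rintro ⟨z, hz, hz0, hqz⟩
    exact hc ((hb z hz hz0).symm.trans hqz)
  have hY3 : ¬ 3 ≤ Module.finrank F Y := fun h3' => by
    obtain ⟨z, hz, -, hz0, hqz⟩ := exists_singular_not_mem (Q := Q) (S := Y) (T := ⊥)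
      (by rw [finrank_bot]; omega)
    exact hno ⟨z, hz, hz0, hqz⟩
  have hq2 : Nat.card F = 2 := by
    have h1 : 1 < Nat.card F := Finite.one_lt_card
    by_contra hq2
    obtain ⟨z, hz, hqz⟩ := exists_mem_norm_eq hY (by omega) (-c)
    by_cases hz0 : z = 0
    · rw [hz0, QuadraticMap.map_zero] at hqz; exact hc (by linear_combination hqz)
    · have h2 := hb z hz hz0
      rw [hqz] at h2
      have : (2 : F) * c = 0 := by linear_combination -h2
      have h20 : (2 : F) = 0 := (mul_eq_zero.1 this).resolve_right hc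
      haveI := CharTwo.of_one_ne_zero_of_two_eq_zero (R := F) one_ne_zero h20
      have := FiniteField.even_card_of_char_two (ringChar.eq F 2)
      rw [Nat.card_eq_fintype_card] at hq hq2 h1
      omega
  exact (hfour hq2 (by omega)).resolve_right hno

/-- An isometry not preserving the decomposition moves a member vector of any given norm outside. -/
theorem exists_norm_moved (h : OrthDec Q k D) (hk : 3 ≤ k) (hk3 : k = 3 → 4 ≤ Nat.card F)
    (hfour : Nat.card F = 2 → k = 4 → ∀ i, ¬ ∃ U : Submodule F V, U ≤ D i ∧ (∀ u ∈ U, Q u = 0) ∧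
      Module.finrank F U = 2) {x : orth Q} (hx : ¬ PresD D x) {c : F} (hc : c ≠ 0) :
    ∃ i, ∃ v ∈ D i, Q v = c ∧ ∀ j, (x : V ≃ₗ[F] V) v ∉ D j := by
  by_contra hcon
  push Not at hcon
  simp only [PresD, not_forall, not_exists] at hx
  obtain ⟨i, hi⟩ := hx
  have hWU := h.inf_perp i
  obtain ⟨v₀, hv₀, hqv₀⟩ := exists_mem_norm_eq hWU (by rw [h.finrank_eq]; omega) c
  have hv₀0 : v₀ ≠ 0 := fun h0 => hc (by rw [← hqv₀, h0, QuadraticMap.map_zero])
  obtain ⟨j₀, hj₀⟩ := hcon i v₀ hv₀ hqv₀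
  set X := D i ⊓ (D j₀).comap ((x : V ≃ₗ[F] V) : V →ₗ[F] V) with hXd
  set Y := D i ⊓ perp Q X with hYd
  have hSv : ∀ v ∈ D i, Q v = c → v ∈ X ∨ v ∈ Y := by
    intro v hv hqv
    obtain ⟨j, hj⟩ := hcon i v hv hqv
    by_cases hjj : j = j₀
    · exact Or.inl ⟨hv, hjj ▸ hj⟩
    · refine Or.inr ⟨hv, mem_perp.2 fun w hw => ?_⟩
      rw [← orth_polar x]
      exact h.polar_zero (Ne.symm hjj) hw.2 hj
  have hv₀X : v₀ ∈ X := ⟨hv₀, hj₀⟩
  -- the vectors of norm `c` span the member
  have hspan : D i ≤ X ⊔ Y := by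
    by_contra hle
    obtain ⟨y₀, hy₀, hy₀n⟩ := SetLike.not_le_iff_exists.1 hle
    obtain ⟨y, hy, hyp, hyne⟩ := exists_detect h.nondeg hWU (sup_le inf_le_left inf_le_left) hy₀ hy₀n
    have hy0 : ∀ v ∈ D i, Q v = c → polar Q v y = 0 := by
      intro v hv hqv
      rcases hSv v hv hqv with hm | hm
      · exact mem_perp.1 hyp v (Submodule.mem_sup_left hm)
      · exact mem_perp.1 hyp v (Submodule.mem_sup_right hm)
    have hynz : y ≠ 0 := fun h0 => hyne (by rw [h0, polar_zero_right])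
    obtain ⟨e, he, hqe, hne⟩ := exists_singular_polar_ne (Q := Q) (S := D i) (y := y)
      (by rw [hWU, finrank_bot, h.finrank_eq]; omega) ⟨y₀, hy₀, by rwa [polar_comm]⟩
    rw [polar_comm] at hne
    obtain ⟨f, hf, hp⟩ := exists_partner hWU he (fun h0 => hne (by rw [h0, polar_zero_left])) hqe
    obtain ⟨hrad, hdim⟩ := pair_complement h.nondeg hWU he hf hp
    have hv : ∀ a ∈ D i ⊓ pperp Q e f,
        polar Q e y + c * (polar Q f y + polar Q a y - Q a * polar Q e y) = 0 := by
      intro a ha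
      obtain ⟨h1, h2⟩ := mem_pperp.1 ha.2
      obtain ⟨e2, e3, e4⟩ : polar Q e a = 0 ∧ polar Q f a = 0 ∧ polar Q a e = 0 :=
        ⟨h1, h2, by rw [polar_comm]; exact h1⟩
      have hm : e + c • (f + a - Q a • e) ∈ D i :=
        add_mem he ((D i).smul_mem _ (sub_mem (add_mem hf ha.1) ((D i).smul_mem _ he)))
      have hq : Q (e + c • (f + a - Q a • e)) = c := by
        rw [map_add_smul, map_sub_smul, QuadraticMap.map_add (⇑Q), hp.left, hp.right, e3,
          polar_add_left, polar_sub_right, polar_add_right, polar_smul_right, hp.pair, e2, e4,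
          polar_self', hp.left, polar_comm (⇑Q) f e, hp.pair]
        simp
      have h0 := hy0 _ hm hq
      rw [polar_add_left, polar_smul_left, polar_sub_left, polar_add_left, polar_smul_left] at h0
      simpa [smul_eq_mul] using h0
    obtain ⟨a₀, ha₀, ha₀0⟩ := Submodule.exists_mem_ne_zero_of_ne_bot (p := D i ⊓ pperp Q e f)
      fun hb => by rw [hb, finrank_bot, h.finrank_eq] at hdim; omega
    obtain ⟨b₀, hb₀, hab⟩ : ∃ b ∈ D i ⊓ pperp Q e f, polar Q a₀ b ≠ 0 := by
      by_contra hcc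
      push Not at hcc
      exact ha₀0 (eq_zero_of_mem_mem hrad ha₀
        (mem_perp.2 fun r hr => by rw [polar_comm]; exact hcc r hr))
    have g0 := hv 0 (Submodule.zero_mem _)
    have g1 := hv a₀ ha₀
    have g2 := hv b₀ hb₀
    have g3 := hv (a₀ + b₀) (add_mem ha₀ hb₀)
    rw [QuadraticMap.map_zero, polar_zero_left] at g0
    rw [QuadraticMap.map_add (⇑Q), polar_add_left] at g3
    exact mul_ne_zero hc (mul_ne_zero hab hne) (by linear_combination g1 + g2 - g0 - g3)
  have hXY : X ⊓ Y = ⊥ := by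
    rw [eq_bot_iff]
    rintro w ⟨⟨hwi, hw⟩, hw'⟩
    refine eq_zero_of_mem_mem hWU hwi (mem_perp.2 fun z hz => ?_)
    obtain ⟨z₁, hz₁, z₂, hz₂, rfl⟩ := Submodule.mem_sup.1 (hspan hz)
    rw [polar_add_left, mem_perp.1 hw'.2 z₁ hz₁, polar_comm (⇑Q) z₂ w, mem_perp.1 hz₂.2 w ⟨hwi, hw⟩,
      add_zero]
  have hrad : ∀ {A B : Submodule F V}, A ⊔ B = D i → (∀ a ∈ A, ∀ b ∈ B, polar Q b a = 0) →
      A ⊓ perp Q A = ⊥ := by
    intro A B hAB hpol
    rw [eq_bot_iff]
    rintro w ⟨hw, hw'⟩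
    refine eq_zero_of_mem_mem hWU (hAB ▸ Submodule.mem_sup_left hw) (mem_perp.2 fun z hz => ?_)
    obtain ⟨z₁, hz₁, z₂, hz₂, rfl⟩ := Submodule.mem_sup.1 (hAB.symm ▸ hz : z ∈ A ⊔ B)
    rw [polar_add_left, mem_perp.1 hw' z₁ hz₁, hpol w hw z₂ hz₂, add_zero]
  have hsup : X ⊔ Y = D i := le_antisymm (sup_le inf_le_left inf_le_left) hspan
  have hXr : X ⊓ perp Q X = ⊥ := hrad hsup fun a ha b hb => by
    rw [polar_comm]; exact mem_perp.1 hb.2 a ha
  have hYr : Y ⊓ perp Q Y = ⊥ :=
    hrad (by rw [sup_comm, hsup]) fun b hb a ha => mem_perp.1 hb.2 a ha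
  have hX0 : X ≠ ⊥ := fun hb => hv₀0 (by rw [hb] at hv₀X; exact hv₀X)
  have hY0 : Y ≠ ⊥ := fun hb => by
    rw [hb, sup_bot_eq] at hsup
    obtain ⟨v, hv, hvn⟩ := hi j₀
    exact hvn (hsup.ge hv).2
  have hdims : Module.finrank F X + Module.finrank F Y = k := by
    have := Submodule.finrank_sup_add_finrank_inf_eq X Y
    rw [hsup, hXY, finrank_bot, h.finrank_eq] at this
    omega
  have hbig : 4 ≤ Nat.card F ∨ 4 ≤ Module.finrank F X + Module.finrank F Y := by
    by_cases h4 : k = 3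
    · exact Or.inl (hk3 h4)
    · exact Or.inr (by omega)
  have hplus : Nat.card F = 2 → Module.finrank F X + Module.finrank F Y = 4 →
      (∃ a ∈ X, a ≠ 0 ∧ Q a = 0) ∨ ∃ b ∈ Y, b ≠ 0 ∧ Q b = 0 := by
    intro hq h4
    by_contra hno
    push Not at hno
    obtain ⟨hnoX, hnoY⟩ := hno
    haveI := Fintype.ofFinite F
    haveI : Fact (Nat.Prime 2) := ⟨Nat.prime_two⟩
    haveI : CharP F 2 := charP_of_card_eq_prime (by rw [← Nat.card_eq_fintype_card, hq])
    have h2 : (2 : F) = 0 := CharP.cast_eq_zero F 2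
    have hone : ∀ s : F, s ≠ 0 → s = 1 := fun s hs => by
      have := FiniteField.pow_card_sub_one_eq_one s hs
      rw [← Nat.card_eq_fintype_card, hq] at this
      simpa using this
    -- a plane without singular vectors has two vectors of norm one and polar one
    have hpl : ∀ A : Submodule F V, A ⊓ perp Q A = ⊥ → A ≠ ⊥ → (∀ a ∈ A, a ≠ 0 → Q a ≠ 0) →
        ∃ a ∈ A, ∃ b ∈ A, Q a = 1 ∧ Q b = 1 ∧ polar Q a b = 1 := by
      intro A hA hA0 hns
      obtain ⟨a, ha, ha0⟩ := Submodule.exists_mem_ne_zero_of_ne_bot hA0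
      obtain ⟨b, hb, hne⟩ : ∃ b ∈ A, polar Q a b ≠ 0 := by
        by_contra hcc
        push Not at hcc
        exact ha0 (eq_zero_of_mem_mem hA ha
          (mem_perp.2 fun r hr => by rw [polar_comm]; exact hcc r hr))
      have hb0 : b ≠ 0 := fun h0 => hne (by rw [h0, polar_zero_right])
      exact ⟨a, ha, b, hb, hone _ (hns a ha ha0), hone _ (hns b hb hb0), hone _ hne⟩
    obtain ⟨a, ha, b, hb, qa, qb, pab⟩ := hpl X hXr hX0 hnoX
    obtain ⟨a', ha', b', hb', qa', qb', pab'⟩ := hpl Y hYr hY0 hnoY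
    have o : ∀ u ∈ X, ∀ w ∈ Y, polar Q u w = 0 := fun u hu w hw => mem_perp.1 hw.2 u hu
    refine hfour hq (by omega) i
      ⟨Submodule.span F {a + a'} ⊔ Submodule.span F {b + b'}, ?_, ?_, ?_⟩
    · exact sup_le ((Submodule.span_singleton_le_iff_mem _ _).2 (add_mem ha.1 ha'.1))
        ((Submodule.span_singleton_le_iff_mem _ _).2 (add_mem hb.1 hb'.1))
    · intro u hu
      obtain ⟨u₁, hu₁, u₂, hu₂, rfl⟩ := Submodule.mem_sup.1 hu
      obtain ⟨s, rfl⟩ := Submodule.mem_span_singleton.1 hu₁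
      obtain ⟨r, rfl⟩ := Submodule.mem_span_singleton.1 hu₂
      rw [map_smul_add_smul, QuadraticMap.map_add (⇑Q), QuadraticMap.map_add (⇑Q), polar_add_left,
        polar_add_right, polar_add_right, qa, qb, qa', qb', pab, pab', o a ha a' ha', o b hb b' hb',
        o a ha b' hb', polar_comm (⇑Q) a' b, o b hb a' ha']
      linear_combination (s * s + r * r + s * r) * h2
    · have hne : b + b' ∉ Submodule.span F {a + a'} := fun hm => by
        obtain ⟨s, hs⟩ := Submodule.mem_span_singleton.1 hm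
        have := congrArg (polar Q a) hs
        rw [polar_smul_right, polar_add_right, polar_add_right, polar_self', qa, o a ha a' ha',
          pab, o a ha b' hb', smul_eq_mul] at this
        exact one_ne_zero (α := F) (by linear_combination -this + s * h2)
      have ha0 : a + a' ≠ 0 := fun h0 => by
        have := congrArg (polar Q b) h0
        rw [polar_add_right, polar_comm (⇑Q) b a, pab, o b hb a' ha', add_zero, polar_zero_right]
          at this
        exact one_ne_zero this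
      rw [Submodule.finrank_sup_span_singleton hne, finrank_span_singleton ha0]
  have hfin : ∀ a ∈ X, ∀ b ∈ Y, a ≠ 0 → b ≠ 0 → Q a + Q b = c → False := by
    intro a ha b hb ha0 hb0 hab
    have hq : Q (a + b) = c := by
      rw [QuadraticMap.map_add (⇑Q), mem_perp.1 hb.2 a ha, add_zero, hab]
    rcases hSv _ (add_mem ha.1 hb.1) hq with hm | hm
    · have : b ∈ X ⊓ Y := ⟨by simpa using sub_mem hm ha, hb⟩
      rw [hXY, Submodule.mem_bot] at this
      exact hb0 this
    · have : a ∈ X ⊓ Y := ⟨ha, by simpa using sub_mem hm hb⟩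
      rw [hXY, Submodule.mem_bot] at this
      exact ha0 this
  by_cases hX2 : 2 ≤ Module.finrank F X
  · obtain ⟨a, ha, b, hb, ha0, hb0, hab⟩ := exists_norm_split hXr hYr hX0 hY0 hX2 hc hbig hplus
    exact hfin a ha b hb ha0 hb0 hab
  · obtain ⟨b, hb, a, ha, hb0, ha0, hab⟩ := exists_norm_split hYr hXr hY0 hX0 (by omega) hc
      (by rwa [add_comm]) (fun hq h4 => (hplus hq (by omega)).symm)
    exact hfin a ha b hb ha0 hb0 (by rw [add_comm]; exact hab)

end Cfsg.Agent.H5
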