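import Cfsg.Agent.H5.DecCross
import Cfsg.Agent.H4.Classify

/-!
Crossing root elements from a reflection pair vector, for members of dimension three and above.
-/

set_option autoImplicit false

namespace Cfsg.Agent.H5

open QuadraticMap hiding sq

/-- A conic has a point with both coordinates non-zero. -/
theorem exists_conic_point {F : Type*} [Field F] [Finite F] (h2 : (2 : F) ≠ 0) {A B γ : F}
    (hA : A ≠ 0) (hB : B ≠ 0) (hγ : γ ≠ 0) {T : F} (hT : T ≠ 0) (h1 : A * T ^ 2 ≠ B)
    (h1' : A * T ^ 2 ≠ -B) : ∃ x y : F, x ≠ 0 ∧ y ≠ 0 ∧ A * x ^ 2 + B * y ^ 2 = γ := by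
  haveI := Fintype.ofFinite F
  classical
  obtain ⟨x₀, y₀, hxy⟩ : ∃ x y : F, A * x ^ 2 + B * y ^ 2 = γ := by
    open Polynomial in
    obtain ⟨a, b, hab⟩ := FiniteField.exists_root_sum_quadratic
      (f := C A * X ^ 2 - C γ) (g := C B * X ^ 2)
      (by compute_degree! <;> simp [hA]) (by compute_degree! <;> simp [hB])
      (Nat.odd_iff.1 (by
        rw [Nat.odd_iff]
        refine FiniteField.odd_card_of_char_ne_two fun hc => h2 ?_
        haveI : CharP F 2 := (ringChar.eq_iff).1 hc
        exact CharTwo.two_eq_zero))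
    exact ⟨a, b, by simp at hab; linear_combination hab⟩
  have hden : A * T ^ 2 + B ≠ 0 := fun h => h1' (eq_neg_of_add_eq_zero_left h)
  have hnum : B - A * T ^ 2 ≠ 0 := sub_ne_zero.2 (Ne.symm h1)
  by_cases hx : x₀ = 0
  · subst hx
    have hy : y₀ ≠ 0 := fun h => hγ (by rw [← hxy, h]; ring)
    refine ⟨-2 * B * y₀ * T / (A * T ^ 2 + B), y₀ * (A * T ^ 2 - B) / (A * T ^ 2 + B),
      div_ne_zero (by simp [h2, hB, hy, hT]) hden,
      div_ne_zero (mul_ne_zero hy (sub_ne_zero.2 h1)) hden, ?_⟩
    field_simp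
    linear_combination (A * T ^ 2 + B) ^ 2 * hxy
  by_cases hy : y₀ = 0
  · subst hy
    refine ⟨x₀ * (B - A * T ^ 2) / (A * T ^ 2 + B), -2 * A * x₀ * T / (A * T ^ 2 + B),
      div_ne_zero (mul_ne_zero hx hnum) hden, div_ne_zero (by simp [h2, hA, hx, hT]) hden, ?_⟩
    field_simp
    linear_combination (A * T ^ 2 + B) ^ 2 * hxy
  exact ⟨x₀, y₀, hx, hy, hxy⟩

variable {F V : Type*} [Field F] [AddCommGroup V] [Module F V] [FiniteDimensional F V]
  {Q : QuadraticForm F V} {t k : ℕ} {D : Fin t → Submodule F V} {M : Subgroup (orth Q)}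

/-- A hyperbolic pair and a perpendicular vector of norm `d` in every member. -/
theorem exists_triples [Finite F] (h : OrthDec Q k D) (hk : k = 3) (ht : 2 ≤ t) :
    ∃ d : F, d ≠ 0 ∧ ∀ l, ∃ e ∈ D l, ∃ f ∈ D l, ∃ w ∈ D l, HypPair Q e f ∧ polar Q e w = 0 ∧
      polar Q f w = 0 ∧ Q w = d ∧ ∀ z ∈ D l, ∃ x y r : F, z = x • e + y • f + r • w := by
  set l₀ : Fin t := ⟨0, by omega⟩
  have h3 : ∀ l, 3 ≤ Module.finrank F (D l) := fun l => by rw [h.finrank_eq]; omega
  obtain ⟨e, he, f, hf, hp⟩ := exists_pair_of_three (h.inf_perp l₀) (h3 _)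
  obtain ⟨hrad, hdim⟩ := pair_complement h.nondeg (h.inf_perp l₀) he hf hp
  obtain ⟨w, ⟨hw, hwp⟩, hqw⟩ := exists_anisotropic hrad (by rw [h.finrank_eq] at hdim; omega)
  obtain ⟨hew, hfw⟩ := mem_pperp.1 hwp
  refine ⟨Q w, hqw, fun l => ?_⟩
  obtain ⟨φ, hφ⟩ := h.isom l₀ l
  have hb : ∀ a b : D l₀, polar Q (φ a : V) (φ b : V) = polar Q (a : V) (b : V) := fun a b => by
    simp only [QuadraticMap.polar]
    rw [← Submodule.coe_add, ← map_add, hφ, hφ, hφ, Submodule.coe_add]
  set e' := (φ ⟨e, he⟩ : V) with he'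
  set f' := (φ ⟨f, hf⟩ : V) with hf'
  set w' := (φ ⟨w, hw⟩ : V) with hw'
  have hp' : HypPair Q e' f' := ⟨by rw [hφ]; exact hp.left, by rw [hφ]; exact hp.right,
    by rw [hb]; exact hp.pair⟩
  have hew' : polar Q e' w' = 0 := by rw [hb]; exact hew
  have hfw' : polar Q f' w' = 0 := by rw [hb]; exact hfw
  have hqw' : Q w' = Q w := hφ _
  refine ⟨e', (φ _).2, f', (φ _).2, w', (φ _).2, hp', hew', hfw', hqw', fun z hz => ?_⟩
  have he'D : e' ∈ D l := (φ _).2
  have hf'D : f' ∈ D l := (φ _).2
  have hw'D : w' ∈ D l := (φ _).2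
  have hw0 : w' ≠ 0 := fun h0 => hqw (by rw [← hqw', h0, QuadraticMap.map_zero])
  have hK : Module.finrank F ↥(Submodule.span F {e'} ⊔ Submodule.span F {f'}) = 2 := by
    rw [Submodule.finrank_sup_span_singleton hp'.not_mem, finrank_span_singleton hp'.ne_zero]
  have h1 := finrank_inf_perp_of_le (K := Submodule.span F {e'} ⊔ Submodule.span F {f'}) h.nondeg
    (h.inf_perp l) (sup_le ((Submodule.span_singleton_le_iff_mem _ _).2 he'D)
      ((Submodule.span_singleton_le_iff_mem _ _).2 hf'D))
  rw [hK, h.finrank_eq] at h1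
  have hspan : Submodule.span F {w'} =
      D l ⊓ perp Q (Submodule.span F {e'} ⊔ Submodule.span F {f'}) := by
    refine Submodule.eq_of_le_of_finrank_le ((Submodule.span_singleton_le_iff_mem _ _).2
      ⟨hw'D, ?_⟩) (by rw [finrank_span_singleton hw0]; omega)
    show w' ∈ perp Q _
    rw [perp_sup, Submodule.mem_inf, mem_perp_span, mem_perp_span]
    exact ⟨hew', hfw'⟩
  have hu : z - polar Q f' z • e' - polar Q e' z • f' ∈
      D l ⊓ perp Q (Submodule.span F {e'} ⊔ Submodule.span F {f'}) := by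
    refine ⟨sub_mem (sub_mem hz ((D l).smul_mem _ he'D)) ((D l).smul_mem _ hf'D), ?_⟩
    obtain ⟨k1, k2⟩ := mem_pperp.1 (hp'.decomp z)
    show _ ∈ perp Q _
    rw [perp_sup, Submodule.mem_inf, mem_perp_span, mem_perp_span]
    exact ⟨k1, k2⟩
  rw [← hspan] at hu
  obtain ⟨r, hr⟩ := Submodule.mem_span_singleton.1 hu
  exact ⟨polar Q f' z, polar Q e' z, r, by rw [hr]; abel⟩

/-- A vector whose norm is a square multiple of `d` has a singular vector in its perp. -/
theorem exists_singular_perp_of_square {d μ x y r : F} {e f w : V} (hp : HypPair Q e f)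
    (hew : polar Q e w = 0) (hfw : polar Q f w = 0) (hqw : Q w = d) (hd : d ≠ 0)
    (hz : Q (x • e + y • f + r • w) = d * μ ^ 2) :
    ∃ X Y R : F, X • e + Y • f + R • w ≠ 0 ∧ Q (X • e + Y • f + R • w) = 0 ∧
      polar Q (x • e + y • f + r • w) (X • e + Y • f + R • w) = 0 := by
  have hq : ∀ a b c : F, Q (a • e + b • f + c • w) = a * b + c * c * d := fun a b c => by
    rw [QuadraticMap.map_add (⇑Q), map_smul_add_smul, QuadraticMap.map_smul, hp.left, hp.right,
      hp.pair, hqw]
    simp [polar_add_left, polar_smul_left, polar_smul_right, hew, hfw]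
  have hb : ∀ a b c a' b' c' : F,
      polar Q (a • e + b • f + c • w) (a' • e + b' • f + c' • w) =
        a * b' + b * a' + 2 * c * c' * d := fun a b c a' b' c' => by
    simp [polar_add_left, polar_add_right, polar_smul_left, polar_smul_right, polar_self', hp.left,
      hp.right, hp.pair, hqw, hew, hfw, polar_comm (⇑Q) f e, polar_comm (⇑Q) w e,
      polar_comm (⇑Q) w f]
    ring
  have hne : ∀ a b c : F, b ≠ 0 → a • e + b • f + c • w ≠ 0 := fun a b c hb0 h0 => hb0 (by
    have := congrArg (polar Q e) h0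
    simpa [polar_add_right, polar_smul_right, polar_self', hp.left, hp.pair, hew] using this)
  rw [hq] at hz
  by_cases hy : y = 0
  · refine ⟨1, 0, 0, by simpa using hp.ne_zero, by rw [hq]; simp, ?_⟩
    rw [hb, hy]; ring
  · refine ⟨(d * (μ - r)) ^ 2, -d * y ^ 2, d * (μ - r) * y, hne _ _ _
      (mul_ne_zero (neg_ne_zero.2 hd) (pow_ne_zero _ hy)), by rw [hq]; ring, ?_⟩
    rw [hb]
    linear_combination (-(d * y)) * hz

variable [Finite F] [Finite V] (h : OrthDec Q k D) (hn : 5 ≤ Module.finrank F V)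
  (hM : ∀ g ∈ commutator (orth Q), PresD D g → g ∈ M)

include h hn hM in
theorem hasCross_of_out (hk : 3 ≤ k) (ht : 2 ≤ t) (hk3 : k = 3 → 5 ≤ Nat.card F) {c : F}
    (hc : c ≠ 0) {z : V} (hz : InC M D c z) (hout : ∀ i, z ∉ D i) : HasCross M D := by
  have hsum : ∑ l, Q (h.cmp l z) = c := (h.map_eq_sum z).symm.trans hz.1
  obtain ⟨l, hl⟩ : ∃ l, Q (h.cmp l z) ≠ 0 := by
    by_contra hcc
    push Not at hcc
    exact hc (by rw [← hsum]; exact Finset.sum_eq_zero fun l _ => hcc l)
  have hl0 : h.cmp l z ≠ 0 := fun h0 => hl (by rw [h0, QuadraticMap.map_zero])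
  have hfin : ∀ {z : V}, InC M D c z → ∀ {l : Fin t}, z ∉ D l → ∀ {e : V}, e ∈ D l → e ≠ 0 → Q e = 0 →
      polar Q z e = 0 → Q (h.cmp l z) ≠ 0 → HasCross M D := by
    intro z hz l hzl e he he0 hqe hze hq
    refine hasCross_of_inC h hn hM (by omega) ht hc hz hzl he he0 hqe hze fun hm => hq ?_
    obtain ⟨s, hs⟩ := Submodule.mem_span_singleton.1 hm
    rw [← hs, QuadraticMap.map_smul, hqe, smul_zero]
  by_cases h4 : 4 ≤ k
  · have hS := finrank_inf_perp_of_le (K := Submodule.span F {h.cmp l z}) h.nondeg (h.inf_perp l)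
      ((Submodule.span_singleton_le_iff_mem _ _).2 (h.cmp_mem l z))
    rw [finrank_span_singleton hl0, h.finrank_eq] at hS
    obtain ⟨e, ⟨he, hep⟩, -, he0, hqe⟩ := exists_singular_not_mem (Q := Q)
      (S := D l ⊓ perp Q (Submodule.span F {h.cmp l z})) (T := ⊥) (by rw [finrank_bot]; omega)
    refine hfin hz (hout l) he he0 hqe ?_ hl
    rw [polar_comm, ← h.polar_cmp he, polar_comm]
    exact mem_perp_span.1 hep
  have hk' : k = 3 := by omega
  obtain ⟨d, hd, htr⟩ := exists_triples h hk' ht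
  haveI := Fintype.ofFinite F
  classical
  have h2 : (2 : F) ≠ 0 := by
    set i₀ : Fin t := ⟨0, by omega⟩
    exact (H4.isom_std_odd (Q := Q.restrict (D i₀)) (m := 1) (restrict_nondegenerate (h.inf_perp i₀))
      (by rw [h.finrank_eq]; omega)).1
  have hq5 : 5 ≤ Fintype.card F := by rw [← Nat.card_eq_fintype_card]; exact hk3 hk'
  have hgood : ∀ {z : V}, InC M D c z → ∀ {l : Fin t}, z ∉ D l → ∀ μ : F, μ ≠ 0 →
      Q (h.cmp l z) = d * μ ^ 2 → HasCross M D := by
    intro z hz l hzl μ hμ hq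
    obtain ⟨e, he, f, hf, w, hw, hp, hew, hfw, hqw, hco⟩ := htr l
    obtain ⟨x, y, r, hxy⟩ := hco _ (h.cmp_mem l z)
    rw [hxy] at hq
    obtain ⟨X, Y, R, hne, hqv, hbv⟩ := exists_singular_perp_of_square hp hew hfw hqw hd hq
    have hv : X • e + Y • f + R • w ∈ D l :=
      add_mem (add_mem ((D l).smul_mem _ he) ((D l).smul_mem _ hf)) ((D l).smul_mem _ hw)
    refine hfin hz hzl hv hne hqv ?_ (by rw [hxy, hq]; exact mul_ne_zero hd (pow_ne_zero _ hμ))
    rw [polar_comm, ← h.polar_cmp hv, polar_comm, hxy]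
    exact hbv
  -- changing components by the reflection in `z`
  have hmult : ∀ {z : V}, InC M D c z → ∀ {l : Fin t}, h.cmp l z ≠ 0 → ∀ r : F, r ≠ 0 →
      ∃ z', InC M D c z' ∧ Q (h.cmp l z') = c + r ^ 2 * (Q (h.cmp l z) - c) ∧
        (r * r * Q (h.cmp l z) ≠ c → h.cmp l z' ≠ 0) ∧
        ∀ m, m ≠ l → h.cmp m z' = -(r • h.cmp m z) := by
    intro z hz l hl0 r hr
    obtain ⟨v, hv, hqv, hvz⟩ : ∃ v ∈ D l, Q v = c ∧ polar Q v (h.cmp l z) = r * c := by
      set u := h.cmp l z with hu
      have huD : u ∈ D l := h.cmp_mem l z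
      by_cases hqu : Q u = 0
      · obtain ⟨f, hf, hp⟩ := exists_partner (h.inf_perp l) huD hl0 hqu
        refine ⟨r⁻¹ • u + (r * c) • f, add_mem ((D l).smul_mem _ huD) ((D l).smul_mem _ hf), ?_, ?_⟩
        · rw [map_smul_add_smul, hqu, hp.right, hp.pair]
          field_simp; ring
        · rw [polar_add_left, polar_smul_left, polar_smul_left, polar_self', hqu,
            polar_comm (⇑Q) f u, hp.pair]
          simp
      · have hS := finrank_inf_perp_of_le (K := Submodule.span F {u}) h.nondeg (h.inf_perp l)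
          ((Submodule.span_singleton_le_iff_mem _ _).2 huD)
        rw [finrank_span_singleton hl0, h.finrank_eq] at hS
        have hrad : (D l ⊓ perp Q (Submodule.span F {u})) ⊓
            perp Q (D l ⊓ perp Q (Submodule.span F {u})) = ⊥ := by
          rw [eq_bot_iff]
          rintro x ⟨⟨hxW, hxu⟩, hxP⟩
          refine eq_zero_of_mem_mem (h.inf_perp l) hxW (mem_perp.2 fun y hy => ?_)
          have hy' : y - (polar Q u y / (2 * Q u)) • u ∈ D l ⊓ perp Q (Submodule.span F {u}) :=
            ⟨sub_mem hy ((D l).smul_mem _ huD), mem_perp_span.2 (by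
              rw [polar_sub_right, polar_smul_right, polar_self', smul_eq_mul,
                div_mul_cancel₀ _ (mul_ne_zero h2 hqu), sub_self])⟩
          have := mem_perp.1 hxP _ hy'
          rw [polar_sub_left, polar_smul_left, mem_perp_span.1 hxu, smul_zero, sub_zero] at this
          exact this
        set σ := r * c / (2 * Q u) with hσ
        obtain ⟨w, ⟨hw, hwu⟩, hqw⟩ := exists_mem_norm_eq hrad (by omega) (c - σ * σ * Q u)
        rw [SetLike.mem_coe, mem_perp_span] at hwu
        refine ⟨σ • u + w, add_mem ((D l).smul_mem _ huD) hw, ?_, ?_⟩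
        · rw [QuadraticMap.map_add (⇑Q), QuadraticMap.map_smul, hqw, polar_smul_left, hwu]
          simp
        · rw [polar_add_left, polar_smul_left, polar_self', polar_comm (⇑Q) w u, hwu, add_zero,
            smul_eq_mul, hσ, div_mul_cancel₀ _ (mul_ne_zero h2 hqu)]
    refine ⟨(refl Q z : V ≃ₗ[F] V) v, inC_refl hv hqv hz (inC_member h hn hM hc hv hqv), ?_, ?_, ?_⟩
    · rw [refl_apply, hz.1, map_sub, map_smul, h.cmp_same hv, polar_comm, ← h.polar_cmp hv, hvz,
        map_sub_smul, hqv, hvz]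
      field_simp
      ring
    · intro hne h0
      rw [refl_apply, hz.1, map_sub, map_smul, h.cmp_same hv, polar_comm, ← h.polar_cmp hv, hvz,
        sub_eq_zero, mul_comm r c, ← mul_assoc, inv_mul_cancel₀ hc, one_mul] at h0
      exact hne (by rw [← hqv, h0, QuadraticMap.map_smul, smul_eq_mul])
    · intro m hm
      rw [refl_apply, hz.1, map_sub, map_smul, h.cmp_other hm hv, zero_sub, polar_comm,
        ← h.polar_cmp hv, hvz, mul_comm r c, ← mul_assoc, inv_mul_cancel₀ hc, one_mul]
  -- membership is never restored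
  have hstay : ∀ {z z' : V} {l m : Fin t} {r : F}, r ≠ 0 → m ≠ l → h.cmp m z ≠ 0 →
      h.cmp m z' = -(r • h.cmp m z) → z' ∉ D l := by
    intro z z' l m r hr hml hm he hz'
    rw [h.cmp_other hml hz', eq_comm, neg_eq_zero, smul_eq_zero] at he
    exact hm (he.resolve_left hr)
  obtain ⟨m, hml, hm⟩ := h.exists_cmp_ne (hout l)
  by_cases hg : ∃ μ : F, μ ≠ 0 ∧ Q (h.cmp l z) = d * μ ^ 2
  · obtain ⟨μ, hμ, hq⟩ := hg
    exact hgood hz (hout l) μ hμ hq
  -- solving the conic gives a good component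
  have hsolve : ∀ {z : V}, InC M D c z → ∀ {l m : Fin t}, m ≠ l → h.cmp m z ≠ 0 →
      h.cmp l z ≠ 0 → Q (h.cmp l z) ≠ c → ∀ T : F, T ≠ 0 → d * T ^ 2 ≠ c - Q (h.cmp l z) →
      d * T ^ 2 ≠ -(c - Q (h.cmp l z)) → HasCross M D := by
    intro z hz l m hml hm hl0 hne T hT h1 h1'
    obtain ⟨μ, r, hμ, hr, heq⟩ := exists_conic_point h2 hd (sub_ne_zero.2 (Ne.symm hne)) hc hT h1 h1'
    obtain ⟨z', hz', hq, hnz, hoth⟩ := hmult hz hl0 r hr
    exact hgood hz' (hstay hr hml hm (hoth m hml)) μ hμ (by rw [hq]; linear_combination -heq)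
  by_cases hq7 : 7 ≤ Fintype.card F
  · have hT : ∀ s : F, ∃ T : F, T ≠ 0 ∧ d * T ^ 2 ≠ s ∧ d * T ^ 2 ≠ -s := by
      intro s
      by_contra hcc
      push Not at hcc
      open Polynomial in
      have hP : ((X : F[X]) * (C d * X ^ 2 - C s) * (C d * X ^ 2 + C s)).natDegree = 5 := by
        have n1 : (C d * X ^ 2 - C s).natDegree = 2 := by compute_degree! <;> simp [hd]
        have n2 : (C d * X ^ 2 + C s).natDegree = 2 := by compute_degree! <;> simp [hd]
        have m1 : C d * X ^ 2 - C s ≠ 0 := fun h0 => by rw [h0] at n1; simp at n1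
        have m2 : C d * X ^ 2 + C s ≠ 0 := fun h0 => by rw [h0] at n2; simp at n2
        rw [natDegree_mul (mul_ne_zero X_ne_zero m1) m2, natDegree_mul X_ne_zero m1, natDegree_X, n1,
          n2]
      open Polynomial in
      have hroots : (Finset.univ : Finset F) ⊆
          ((X : F[X]) * (C d * X ^ 2 - C s) * (C d * X ^ 2 + C s)).roots.toFinset := by
        intro T _
        rw [Multiset.mem_toFinset, mem_roots (fun h0 => by rw [h0] at hP; simp at hP)]
        by_cases hT0 : T = 0
        · simp [hT0]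
        by_cases hT1 : d * T ^ 2 = s
        · simp [hT1]
        · simp [hcc T hT0 hT1]
      have := Finset.card_le_card hroots
      rw [Finset.card_univ] at this
      have := this.trans (Multiset.toFinset_card_le _) |>.trans (Polynomial.card_roots' _)
      omega
    -- a component of norm different from `c`
    by_cases hne : Q (h.cmp l z) = c
    · obtain ⟨r, hr, hr1⟩ : ∃ r : F, r ≠ 0 ∧ r ^ 2 ≠ 1 := by
        obtain ⟨r, -, hr⟩ := Finset.exists_mem_notMem_of_card_lt_card (t := (Finset.univ : Finset F))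
          (s := ({0, 1, -1} : Finset F)) (lt_of_le_of_lt Finset.card_le_three (by
            rw [Finset.card_univ]; omega))
        simp only [Finset.mem_insert, Finset.mem_singleton, not_or] at hr
        refine ⟨r, hr.1, fun h0 => ?_⟩
        rcases mul_self_eq_one_iff.1 (by rw [← h0, pow_two] : r * r = 1) with h' | h'
        exacts [hr.2.1 h', hr.2.2 h']
      obtain ⟨z', hz', hql, -, hoth⟩ := hmult hz hl0 r hr
      rw [hne, sub_self, mul_zero, add_zero] at hql
      have hl' : h.cmp l z' ≠ 0 := fun h0 => hc (by rw [← hql, h0, QuadraticMap.map_zero])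
      have hm' : h.cmp m z' ≠ 0 := by rw [hoth m hml]; exact neg_ne_zero.2 (smul_ne_zero hr hm)
      by_cases hmc : Q (h.cmp m z') = c
      · have hm2 : Q (h.cmp m z) ≠ c := fun h0 => by
          rw [hoth m hml, QuadraticMap.map_neg, QuadraticMap.map_smul, h0, smul_eq_mul] at hmc
          exact hr1 (mul_right_cancel₀ hc (by rw [one_mul]; linear_combination hmc))
        obtain ⟨T, hT0, hT1, hT2⟩ := hT (c - Q (h.cmp m z))
        exact hsolve hz (Ne.symm hml) hl0 hm hm2 T hT0 hT1 hT2
      · obtain ⟨T, hT0, hT1, hT2⟩ := hT (c - Q (h.cmp m z'))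
        exact hsolve hz' (Ne.symm hml) hl' hm' hmc T hT0 hT1 hT2
    · obtain ⟨T, hT0, hT1, hT2⟩ := hT (c - Q (h.cmp l z))
      exact hsolve hz hml hm hl0 hne T hT0 hT1 hT2
  -- five elements
  have hcard : Fintype.card F = 5 := by
    obtain ⟨p, n, hp, hpn⟩ : ∃ p n : ℕ, p.Prime ∧ Fintype.card F = p ^ n := by
      obtain ⟨p, hch⟩ := CharP.exists F
      obtain ⟨n, hp, hpn⟩ := FiniteField.card F p
      exact ⟨p, n, hp, hpn⟩
    have h6 : Fintype.card F ≠ 6 := fun h6 => by
      rw [h6] at hpn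
      have h1 : p ≤ 6 := by
        rcases n with _ | n
        · simp at hpn
        · exact Nat.le_of_dvd (by norm_num) (hpn ▸ dvd_pow_self p (by omega))
      have h2n : n ≤ 3 := by
        by_contra hn3
        have : 2 ^ 4 ≤ p ^ n := le_trans (Nat.pow_le_pow_left hp.two_le 4)
          (Nat.pow_le_pow_right hp.pos (by omega))
        omega
      interval_cases p <;> interval_cases n <;> revert hp hpn <;> decide
    omega
  haveI : Fact (Nat.Prime 5) := ⟨by norm_num⟩
  haveI : CharP F 5 := charP_of_card_eq_prime hcard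
  have h5 : (5 : F) = 0 := CharP.cast_eq_zero F 5
  have hclass : ∀ a : F, a ≠ 0 → a = d ∨ a = -d ∨ a = 2 * d ∨ a = -(2 * d) := by
    intro a ha
    have h4 := FiniteField.pow_card_sub_one_eq_one (a / d) (div_ne_zero ha hd)
    rw [hcard] at h4
    obtain ⟨u, hu⟩ : ∃ u, u = a / d := ⟨_, rfl⟩
    have hu4 : (u - 1) * (u + 1) * ((u - 2) * (u + 2)) = 0 := by
      rw [← hu] at h4
      linear_combination h4 - (u ^ 2 - 1) * h5
    have had : a = u * d := by rw [hu, div_mul_cancel₀ _ hd]
    rcases mul_eq_zero.1 hu4 with h' | h' <;> rcases mul_eq_zero.1 h' with h'' | h''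
    · exact Or.inl (by rw [had, sub_eq_zero.1 h'', one_mul])
    · exact Or.inr (Or.inl (by rw [had, eq_neg_of_add_eq_zero_left h'', neg_one_mul]))
    · exact Or.inr (Or.inr (Or.inl (by rw [had, sub_eq_zero.1 h''])))
    · exact Or.inr (Or.inr (Or.inr (by rw [had, eq_neg_of_add_eq_zero_left h'', neg_mul])))
  have hsq : ∀ a : F, a = d ∨ a = -d → ∃ μ : F, μ ≠ 0 ∧ a = d * μ ^ 2 := by
    rintro a (rfl | rfl)
    · exact ⟨1, one_ne_zero, by ring⟩
    · exact ⟨2, h2, by linear_combination -d * h5⟩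
  have hnon : ∀ {z : V} {l : Fin t}, InC M D c z → z ∉ D l → h.cmp l z ≠ 0 → Q (h.cmp l z) ≠ 0 →
      HasCross M D ∨ Q (h.cmp l z) = 2 * d ∨ Q (h.cmp l z) = -(2 * d) := by
    intro z l hz hzl _ hq
    rcases hclass _ hq with h' | h' | h' | h'
    · obtain ⟨μ, hμ, he⟩ := hsq _ (Or.inl h'); exact Or.inl (hgood hz hzl μ hμ he)
    · obtain ⟨μ, hμ, he⟩ := hsq _ (Or.inr h'); exact Or.inl (hgood hz hzl μ hμ he)
    · exact Or.inr (Or.inl h')
    · exact Or.inr (Or.inr h')
  have htwo : ∀ {z : V}, InC M D c z → ∀ {l m : Fin t}, m ≠ l → h.cmp m z ≠ 0 → h.cmp l z ≠ 0 →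
      c + 4 * (Q (h.cmp l z) - c) = d ∨ c + 4 * (Q (h.cmp l z) - c) = -d → HasCross M D := by
    intro z hz l m hml hm hl0 hval
    obtain ⟨z', hz', hq, hnz, hoth⟩ := hmult hz hl0 2 h2
    obtain ⟨μ, hμ, he⟩ := hsq _ hval
    exact hgood hz' (hstay h2 hml hm (hoth m hml)) μ hμ (by rw [hq]; linear_combination he)
  rcases hnon hz (hout l) hl0 hl with hdone | hl'
  · exact hdone
  -- a second anisotropic component, or a singular one
  by_cases hm2 : ∃ m, m ≠ l ∧ Q (h.cmp m z) ≠ 0
  swap
  · push Not at hm2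
    have hql : Q (h.cmp l z) = c := by
      rw [← hsum]; exact (sum_single_zero (fun j => Q (h.cmp j z)) l hm2).symm
    refine htwo hz (Ne.symm hml) hl0 hm ?_
    rw [hm2 m hml]
    rw [hql] at hl'
    rcases hl' with h' | h'
    · exact Or.inr (by linear_combination -3 * h' - d * h5)
    · exact Or.inl (by linear_combination -3 * h' + d * h5)
  clear hml hm m
  obtain ⟨m, hml, hqm⟩ := hm2
  have hm : h.cmp m z ≠ 0 := fun h0 => hqm (by rw [h0, QuadraticMap.map_zero])
  rcases hnon hz (hout m) hm hqm with hdone | hm'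
  · exact hdone
  rcases hclass c hc with hcd | hcd | hcd | hcd
  · rcases hl' with h' | h'
    swap
    · exact htwo hz hml hm hl0 (Or.inr (by linear_combination -3 * hcd + 4 * h' - 2 * d * h5))
    rcases hm' with h'' | h''
    swap
    · exact htwo hz (Ne.symm hml) hl0 hm (Or.inr (by linear_combination -3 * hcd + 4 * h'' - 2 * d * h5))
    obtain ⟨z', hz', hq, hnz, hoth⟩ := hmult hz hl0 2 h2
    have hq' : Q (h.cmp m z') = -(2 * d) := by
      rw [hoth m hml, QuadraticMap.map_neg, QuadraticMap.map_smul, h'', smul_eq_mul]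
      linear_combination 2 * d * h5
    have hl2 : h.cmp l z' ≠ 0 := hnz fun h0 => hd (by
      rw [h', hcd] at h0; linear_combination 3 * h0 - 4 * d * h5)
    exact htwo hz' (Ne.symm hml) hl2 (fun h0 => hd (by
      rw [h0, QuadraticMap.map_zero] at hq'
      linear_combination 3 * hq' - d * h5)) (Or.inr (by linear_combination -3 * hcd + 4 * hq' - 2 * d * h5))
  · rcases hl' with h' | h'
    · exact htwo hz hml hm hl0 (Or.inl (by linear_combination -3 * hcd + 4 * h' + 2 * d * h5))
    rcases hm' with h'' | h''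
    · exact htwo hz (Ne.symm hml) hl0 hm (Or.inl (by linear_combination -3 * hcd + 4 * h'' + 2 * d * h5))
    obtain ⟨z', hz', hq, hnz, hoth⟩ := hmult hz hl0 2 h2
    have hq' : Q (h.cmp m z') = 2 * d := by
      rw [hoth m hml, QuadraticMap.map_neg, QuadraticMap.map_smul, h'', smul_eq_mul]
      linear_combination -2 * d * h5
    have hl2 : h.cmp l z' ≠ 0 := hnz fun h0 => hd (by
      rw [h', hcd] at h0; linear_combination -3 * h0 - 4 * d * h5)
    exact htwo hz' (Ne.symm hml) hl2 (fun h0 => hd (by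
      rw [h0, QuadraticMap.map_zero] at hq'
      linear_combination -3 * hq' - d * h5)) (Or.inl (by linear_combination -3 * hcd + 4 * hq' + 2 * d * h5))
  all_goals
    -- `c` is `± 2 d`: reach a component of norm `-c`
    have hneg : ∀ {z : V}, InC M D c z → ∀ {l m : Fin t}, m ≠ l → h.cmp m z ≠ 0 →
        Q (h.cmp l z) = -c → HasCross M D := by
      intro z hz l m hml hm hq
      have hl0 : h.cmp l z ≠ 0 := fun h0 => hc (by
        rw [h0, QuadraticMap.map_zero] at hq; linear_combination hq)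
      obtain ⟨z₁, hz₁, hq₁, -, -⟩ := hmult hz hl0 2 h2
      set u := h.cmp l z with hu
      have huD : u ∈ D l := h.cmp_mem l z
      have hS := finrank_inf_perp_of_le (K := Submodule.span F {u}) h.nondeg (h.inf_perp l)
        ((Submodule.span_singleton_le_iff_mem _ _).2 huD)
      rw [finrank_span_singleton hl0, h.finrank_eq] at hS
      have hrad : (D l ⊓ perp Q (Submodule.span F {u})) ⊓
          perp Q (D l ⊓ perp Q (Submodule.span F {u})) = ⊥ := by
        rw [eq_bot_iff]
        rintro x ⟨⟨hxW, hxu⟩, hxP⟩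
        refine eq_zero_of_mem_mem (h.inf_perp l) hxW (mem_perp.2 fun y hy => ?_)
        have hy' : y - (polar Q u y / (2 * Q u)) • u ∈ D l ⊓ perp Q (Submodule.span F {u}) :=
          ⟨sub_mem hy ((D l).smul_mem _ huD), mem_perp_span.2 (by
            rw [polar_sub_right, polar_smul_right, polar_self', smul_eq_mul,
              div_mul_cancel₀ _ (mul_ne_zero h2 (by rw [hq]; exact neg_ne_zero.2 hc)), sub_self])⟩
        have := mem_perp.1 hxP _ hy'
        rw [polar_sub_left, polar_smul_left, mem_perp_span.1 hxu, smul_zero, sub_zero] at this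
        exact this
      obtain ⟨w, ⟨hw, hwu⟩, hqw⟩ := exists_mem_norm_eq hrad (by omega) (2 * c)
      rw [SetLike.mem_coe, mem_perp_span] at hwu
      set v := -u + w with hv
      have hvD : v ∈ D l := add_mem (neg_mem huD) hw
      have hqv : Q v = c := by
        rw [hv, QuadraticMap.map_add (⇑Q), QuadraticMap.map_neg, hq, hqw, polar_neg_left, hwu]
        ring
      have hvz : polar Q v z = 2 * c := by
        rw [← h.polar_cmp hvD, hv, polar_add_left, polar_neg_left, ← hu, polar_self', hq,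
          polar_comm (⇑Q) w u, hwu]
        ring
      have hC2 := inC_refl hvD hqv (inC_member h hn hM hc hvD hqv) hz
      have hC3 := inC_refl hvD hqv hz hC2
      set z₃ := (refl Q z : V ≃ₗ[F] V) ((refl Q v : V ≃ₗ[F] V) z) with hz₃
      have e3 : z₃ = (3 : F) • z - (2 : F) • v := by
        have e2 : (refl Q v : V ≃ₗ[F] V) z = z - (2 : F) • v := by
          rw [refl_apply, hqv, hvz, show c⁻¹ * (2 * c) = 2 by field_simp]
        rw [hz₃, e2, refl_apply, hz.1, polar_sub_right, polar_smul_right, polar_self', hz.1,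
          polar_comm (⇑Q) z v, hvz, smul_eq_mul,
          show c⁻¹ * (2 * c - 2 * (2 * c)) = -2 by field_simp; ring]
        module
      have hql : Q (h.cmp l z₃) = -(2 * c) := by
        rw [e3, map_sub, map_smul, map_smul, h.cmp_same hvD, ← hu, map_sub_smul, QuadraticMap.map_smul,
          hqv, hq, polar_smul_left, polar_comm (⇑Q) u v]
        have : polar Q v u = 2 * c := by rw [hu, h.polar_cmp hvD, hvz]
        rw [this, smul_eq_mul, smul_eq_mul]
        linear_combination (-(3 : F) * c) * h5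
      have hm3 : z₃ ∉ D l := fun hh => by
        have := h.cmp_other hml hh
        rw [e3, map_sub, map_smul, map_smul, h.cmp_other hml hvD, smul_zero, sub_zero,
          smul_eq_zero] at this
        exact hm (this.resolve_left fun h3 => one_ne_zero (α := F) (by linear_combination 2 * h3 - h5))
      obtain ⟨μ, hμ, he⟩ := hsq (-(2 * c)) (by
        first
          | exact Or.inl (by rw [hcd]; linear_combination -d * h5)
          | exact Or.inr (by rw [hcd]; linear_combination d * h5))
      exact hgood hC3 hm3 μ hμ (hql.trans he)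
    rcases hl' with h' | h' <;>
      first
      | exact hneg hz hml hm (by linear_combination h' + hcd)
      | (rcases hm' with h'' | h'' <;>
          first
          | exact hneg hz (Ne.symm hml) hl0 (by linear_combination h'' + hcd)
          | (obtain ⟨z', hz', hq, hnz, hoth⟩ := hmult hz hl0 2 h2
             refine hneg hz' (Ne.symm hml) (fun h0 => hc ?_) ?_
             · rw [h0, QuadraticMap.map_zero] at hq
               linear_combination -hq - 4 * h' + 4 * hcd
             · rw [hoth m hml, QuadraticMap.map_neg, QuadraticMap.map_smul, h'', smul_eq_mul, hcd]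
               first
                 | linear_combination 2 * d * h5
                 | linear_combination -2 * d * h5))

end Cfsg.Agent.H5
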