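import Cfsg.Agent.H5.DecTwoPlane

/-!
Vectors of a plane whose value equals their product with a given vector.
-/

set_option autoImplicit false

namespace Cfsg.Agent.H5

open QuadraticMap hiding sq

variable {F V : Type*} [Field F] [AddCommGroup V] [Module F V]

/-- Some vector of `W` has value `r` and product `r` with `u`, the zero vector for `r = 0`. -/
def Choice (Q : QuadraticForm F V) (W : Submodule F V) (u : V) (r : F) : Prop :=
  ∃ δ ∈ W, Q δ = r ∧ polar Q δ u = r ∧ (r = 0 → δ = 0)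

variable [Finite F] [FiniteDimensional F V] {Q : QuadraticForm F V} {W : Submodule F V}

/-- A non-zero choice in the class of a given value. -/
theorem GoodPlane.exists_choice_square (hQ : (polarBilin Q).Nondegenerate) (hW : GoodPlane Q W)
    {u : V} (hu : u ∈ W) (hu0 : u ≠ 0) {c : F} (hc : c ≠ 0) :
    ∃ r, r ≠ 0 ∧ IsSquare (r / c) ∧ Choice Q W u r := by
  obtain ⟨v, hv, hqv, hvu⟩ : ∃ v ∈ W, Q v = c ∧ polar Q v u ≠ 0 := by
    obtain ⟨v, hv, hqv⟩ := exists_mem_norm_eq hW.inf_perp (by rw [hW.finrank_eq]) c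
    by_cases hvu : polar Q v u = 0
    swap
    · exact ⟨v, hv, hqv, hvu⟩
    obtain ⟨y, -, -, -, -, hv', hind⟩ := hW.exists_nonorth hQ hv (by rwa [hqv])
    exact ⟨_, hv', by rw [orth_map, hqv], fun h0 => hu0 (hW.eq_zero hv hv'
      (fun h1 => hc (by rw [← hqv, h1, QuadraticMap.map_zero])) hind hu hvu h0)⟩
  refine ⟨polar Q v u * polar Q v u / c, div_ne_zero (mul_ne_zero hvu hvu) hc,
    ⟨polar Q v u / c, by field_simp⟩, (polar Q v u / c) • v, W.smul_mem _ hv, ?_, ?_, ?_⟩
  · rw [QuadraticMap.map_smul, hqv, smul_eq_mul]; field_simp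
  · rw [polar_smul_left, smul_eq_mul]; field_simp
  · exact fun h0 => absurd h0 (div_ne_zero (mul_ne_zero hvu hvu) hc)

omit [Finite F] in
/-- Every value is a choice against a singular vector. -/
theorem GoodPlane.choice_singular (hW : GoodPlane Q W) {u : V} (hu : u ∈ W) (hu0 : u ≠ 0)
    (hqu : Q u = 0) (r : F) : Choice Q W u r := by
  by_cases hr : r = 0
  · exact ⟨0, W.zero_mem, by simp [hr], by simp [hr], fun _ => rfl⟩
  obtain ⟨f, hf, hp⟩ := exists_partner hW.inf_perp hu hu0 hqu
  refine ⟨u + r • f, add_mem hu (W.smul_mem _ hf), ?_, ?_, fun h => absurd h hr⟩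
  · rw [map_add_smul, hqu, hp.right, hp.pair]; ring
  · rw [polar_add_left, polar_smul_left, polar_self', hqu, polar_comm (⇑Q) f u, hp.pair]; simp

/-- In odd characteristic more than half of the values are choices. -/
theorem GoodPlane.exists_choices (hQ : (polarBilin Q).Nondegenerate) (hW : GoodPlane Q W)
    (h2 : (2 : F) ≠ 0) {u : V} (hu : u ∈ W) (hu0 : u ≠ 0) :
    ∃ R : Finset F, Nat.card F < 2 * R.card ∧ ∀ r ∈ R, Choice Q W u r := by
  classical
  haveI := Fintype.ofFinite F
  rw [Nat.card_eq_fintype_card]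
  by_cases hqu : Q u = 0
  · refine ⟨Finset.univ, ?_, fun r _ => hW.choice_singular hu hu0 hqu r⟩
    rw [Finset.card_univ]
    have := Fintype.card_pos (α := F)
    omega
  obtain ⟨w, hw, hw0, huw⟩ := hW.exists_perp hQ hu hu0
  have hwi : ∀ s : F, w ≠ s • u := fun s hs => by
    rw [hs, polar_smul_right, polar_self', smul_eq_mul] at huw
    have : s = 0 := (mul_eq_zero.1 huw).resolve_right (mul_ne_zero h2 hqu)
    exact hw0 (by rw [hs, this, zero_smul])
  have hqw : Q w ≠ 0 := fun h =>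
    hw0 (hW.eq_zero hu hw hu0 hwi hw huw (by rw [polar_self', h, mul_zero]))
  set S := Finset.univ.image fun y : F => y * y with hS
  have hScard : Fintype.card F < 2 * S.card := by
    have h1 : (Finset.univ : Finset F).card ≤ 2 * S.card :=
      Finset.card_le_mul_card_image _ 2 fun s _ =>
        card_le_two_of_quad_roots (A := 1) (B := 0) (C := -s) (Or.inl one_ne_zero) fun y hy => by
          have := (Finset.mem_filter.1 hy).2
          linear_combination this
    have hodd : Fintype.card F % 2 = 1 := FiniteField.odd_card_of_char_ne_two fun hc => h2 (by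
      haveI : CharP F 2 := (ringChar.eq_iff).1 hc
      exact CharTwo.two_eq_zero)
    rw [Finset.card_univ] at h1
    omega
  set ψ : F → F := fun s => if Q u + s * Q w = 0 then 0 else 4 * Q u * Q u / (Q u + s * Q w) with hψ
  have hinj : Set.InjOn ψ (S : Set F) := by
    intro s _ s' _ hss
    simp only [hψ] at hss
    have h4 : (4 : F) * Q u * Q u ≠ 0 := by
      rw [show (4 : F) = 2 * 2 by norm_num]
      exact mul_ne_zero (mul_ne_zero (mul_ne_zero h2 h2) hqu) hqu
    refine mul_right_cancel₀ hqw ?_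
    by_cases e1 : Q u + s * Q w = 0 <;> by_cases e2 : Q u + s' * Q w = 0
    · linear_combination e1 - e2
    · rw [if_pos e1, if_neg e2] at hss; exact absurd hss.symm (div_ne_zero h4 e2)
    · rw [if_neg e1, if_pos e2] at hss; exact absurd hss (div_ne_zero h4 e1)
    · rw [if_neg e1, if_neg e2, div_eq_div_iff e1 e2] at hss
      linear_combination -(mul_left_cancel₀ h4 hss)
  refine ⟨S.image ψ, by rw [Finset.card_image_of_injOn hinj]; exact hScard, fun r hr => ?_⟩
  obtain ⟨s, hs, rfl⟩ := Finset.mem_image.1 hr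
  obtain ⟨y, -, rfl⟩ := Finset.mem_image.1 hs
  simp only [hψ]
  split_ifs with e
  · exact ⟨0, W.zero_mem, by simp, by simp, fun _ => rfl⟩
  have e1 : Q (u + y • w) = Q u + y * y * Q w := by rw [map_add_smul, huw]; ring
  generalize Q u + y * y * Q w = N at e e1 ⊢
  set σ := 2 * Q u / N with hσ
  refine ⟨σ • (u + y • w), W.smul_mem _ (add_mem hu (W.smul_mem _ hw)), ?_, ?_, fun h0 => ?_⟩
  · rw [QuadraticMap.map_smul, e1, hσ, smul_eq_mul]; field_simp; ring
  · rw [polar_smul_left, polar_add_left, polar_smul_left, polar_self', polar_comm (⇑Q) w u, huw, hσ]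
    simp only [smul_eq_mul]; field_simp; ring
  · exfalso
    rw [div_eq_zero_iff, show (4 : F) = 2 * 2 by norm_num] at h0
    exact h0.elim (mul_ne_zero (mul_ne_zero (mul_ne_zero h2 h2) hqu) hqu) e

/-- In characteristic two two isometric planes have a common non-zero choice. -/
theorem GoodPlane.exists_common_choice (hW : GoodPlane Q W) {W' : Submodule F V}
    (hW' : GoodPlane Q W') (φ : W' ≃ₗ[F] W) (hφ : ∀ x : W', Q (φ x : V) = Q (x : V))
    (hQ : (polarBilin Q).Nondegenerate) (h2 : (2 : F) = 0) {u u' : V} (hu : u ∈ W) (hu0 : u ≠ 0)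
    (hu' : u' ∈ W') (hu0' : u' ≠ 0) : ∃ r, r ≠ 0 ∧ Choice Q W u r ∧ Choice Q W' u' r := by
  classical
  haveI := Fintype.ofFinite F
  by_cases hqu : Q u = 0
  · obtain ⟨r, hr, -, hch⟩ := hW'.exists_choice_square hQ hu' hu0' one_ne_zero
    exact ⟨r, hr, hW.choice_singular hu hu0 hqu r, hch⟩
  by_cases hqu' : Q u' = 0
  · obtain ⟨r, hr, -, hch⟩ := hW.exists_choice_square hQ hu hu0 one_ne_zero
    exact ⟨r, hr, hch, hW'.choice_singular hu' hu0' hqu' r⟩
  haveI := CharTwo.of_one_ne_zero_of_two_eq_zero (R := F) one_ne_zero h2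
  -- normalised data of a plane
  have key : ∀ {U : Submodule F V}, GoodPlane Q U → ∀ {a b : V}, a ∈ U → b ∈ U → Q a ≠ 0 →
      polar Q a b = 1 → ∀ Y : F, Y ^ 2 + Y + Q a * Q b ≠ 0 →
      Choice Q U a (Q a / (Y ^ 2 + Y + Q a * Q b)) := by
    intro U hU a b ha hb hqa hab Y hY
    set r := Q a / (Y ^ 2 + Y + Q a * Q b) with hr
    refine ⟨r • ((Y / Q a) • a + b), U.smul_mem _ (add_mem (U.smul_mem _ ha) hb), ?_, ?_,
      fun h0 => absurd h0 (div_ne_zero hqa hY)⟩
    · have e1 : Q ((Y / Q a) • a + b) = (Y ^ 2 + Y + Q a * Q b) / Q a := by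
        rw [QuadraticMap.map_add (⇑Q), QuadraticMap.map_smul, polar_smul_left, hab]
        simp only [smul_eq_mul]
        field_simp
        ring
      rw [QuadraticMap.map_smul, e1, hr, smul_eq_mul]
      generalize Y ^ 2 + Y + Q a * Q b = N at hY ⊢
      field_simp
    · rw [polar_smul_left, polar_add_left, polar_smul_left, polar_self', h2, zero_mul, smul_zero,
        zero_add, polar_comm (⇑Q) b a, hab, smul_eq_mul, mul_one]
  have hnz : ∀ {U : Submodule F V}, GoodPlane Q U → ∀ {a b : V}, a ∈ U → b ∈ U → Q a ≠ 0 →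
      polar Q a b = 1 → Nat.card F < 7 → ∀ Y : F, Y ^ 2 + Y + Q a * Q b ≠ 0 := by
    intro U hU a b ha hb hqa hab hq Y h0
    have h1 : Q ((Y / Q a) • a + b) = 0 := by
      rw [QuadraticMap.map_add (⇑Q), QuadraticMap.map_smul, polar_smul_left, hab]
      simp only [smul_eq_mul]
      field_simp
      linear_combination h0
    have h3 := congrArg (polar Q a)
      ((hU.cases.resolve_right (by omega)).1 _ (add_mem (U.smul_mem _ ha) hb) h1)
    rw [polar_add_right, polar_smul_right, polar_self', h2, zero_mul, smul_zero, zero_add, hab,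
      polar_zero_right] at h3
    exact one_ne_zero h3
  obtain ⟨w, hw, huw⟩ := hW.exists_pair hu hu0
  obtain ⟨w', hw', huw'⟩ := hW'.exists_pair hu' hu0'
  set κ := Q u * Q w with hκ
  set κ' := Q u' * Q w' with hκ'
  -- the two planes have the same invariant
  obtain ⟨Y₀, hY₀⟩ : ∃ Y₀ : F, κ' = Y₀ ^ 2 + Y₀ + κ := by
    have hind : ∀ s : F, w ≠ s • u := fun s hs => by
      rw [hs, polar_smul_right, polar_self', h2, zero_mul, smul_zero] at huw
      exact zero_ne_one huw
    obtain ⟨α, β, e1⟩ := mem_pair_span hW.finrank_eq hu hw hu0 hind (φ ⟨u', hu'⟩).2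
    obtain ⟨γ, δ, e2⟩ := mem_pair_span hW.finrank_eq hu hw hu0 hind (φ ⟨w', hw'⟩).2
    have hp : polar Q (φ ⟨u', hu'⟩ : V) (φ ⟨w', hw'⟩ : V) = 1 := by
      rw [← huw']
      simp only [QuadraticMap.polar]
      rw [← Submodule.coe_add, ← map_add, hφ, hφ, hφ]
      rfl
    have q1 : Q (α • u + β • w) = Q u' := by rw [← e1, hφ]
    have q2 : Q (γ • u + δ • w) = Q w' := by rw [← e2, hφ]
    rw [e1, e2] at hp
    simp only [polar_add_left, polar_add_right, polar_smul_left, polar_smul_right, polar_self', huw,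
      polar_comm (⇑Q) w u, smul_eq_mul, h2, zero_mul, mul_zero, mul_one, zero_add, add_zero] at hp
    refine ⟨α * γ * Q u + β * δ * Q w + β * γ, ?_⟩
    rw [hκ', ← q1, ← q2, map_smul_add_smul, map_smul_add_smul, huw, hκ]
    linear_combination (α * γ * Q u + β * δ * Q w + β * γ + Q u * Q w * (α * δ + β * γ + 1)) * hp
      - (α * γ * Q u * β * γ + β * δ * Q w * β * γ + α * γ * Q u * β * δ * Q w
        + Q u * Q w * α * δ * β * γ + β ^ 2 * γ ^ 2) * h2
  set lam := Q u' / Q u with hlam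
  have hsq : IsSquare lam := FiniteField.isSquare_of_char_two (ringChar.eq F 2) _
  obtain ⟨μ, hμ⟩ := hsq
  suffices ∃ Y Y' : F, Y ^ 2 + Y + κ ≠ 0 ∧ Y' ^ 2 + Y' + κ' = lam * (Y ^ 2 + Y + κ) by
    obtain ⟨Y, Y', hY, hYY⟩ := this
    have hlam0 : lam ≠ 0 := div_ne_zero hqu' hqu
    have hY' : Y' ^ 2 + Y' + κ' ≠ 0 := by rw [hYY]; exact mul_ne_zero hlam0 hY
    refine ⟨Q u / (Y ^ 2 + Y + κ), div_ne_zero hqu hY, key hW hu hw hqu huw Y hY, ?_⟩
    convert key hW' hu' hw' hqu' huw' Y' hY' using 1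
    rw [hYY, hlam]
    field_simp
  by_cases hμ1 : μ = 1
  · obtain ⟨Y, hY⟩ : ∃ Y : F, Y ^ 2 + Y + κ ≠ 0 := by
      rcases le_or_gt 7 (Nat.card F) with h7 | h7
      · obtain ⟨Y, hY⟩ := exists_not_mem_of_card (card_le_two_of_quad_roots (A := (1 : F)) (B := 1)
          (C := κ) (Or.inl one_ne_zero)
          (s := Finset.univ.filter fun Y : F => 1 * Y ^ 2 + 1 * Y + κ = 0)
          fun x hx => (Finset.mem_filter.1 hx).2) (by omega : 2 < Nat.card F)
        simp only [Finset.mem_filter, Finset.mem_univ, true_and, one_mul] at hY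
        exact ⟨Y, hY⟩
      · exact ⟨0, hnz hW hu hw hqu huw h7 0⟩
    refine ⟨Y, Y + Y₀, hY, ?_⟩
    rw [hμ, hμ1, hY₀]
    linear_combination (Y * Y₀ + Y₀ ^ 2 + Y₀) * h2
  set Yf : F → F := fun m => (m ^ 2 + m + κ' + lam * κ) / (lam + μ) with hYf
  have hμ0 : μ ≠ 0 := fun h0 => hqu' (by
    rw [h0, mul_zero, hlam, div_eq_zero_iff] at hμ; exact hμ.resolve_right hqu)
  have hden : lam + μ ≠ 0 := by
    rw [hμ, show μ * μ + μ = μ * (μ + 1) by ring]
    exact mul_ne_zero hμ0 fun h0 => hμ1 (by linear_combination h0 - h2)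
  suffices ∃ m, Yf m ^ 2 + Yf m + κ ≠ 0 by
    obtain ⟨m, hm⟩ := this
    refine ⟨Yf m, μ * Yf m + m, hm, ?_⟩
    have hY : Yf m * (lam + μ) = m ^ 2 + m + κ' + lam * κ := by
      simp only [hYf]; rw [div_mul_cancel₀ _ hden]
    linear_combination hY + (μ * Yf m * m + m ^ 2 + m + κ' - Yf m * lam) * h2
      - Yf m ^ 2 * hμ
  rcases le_or_gt 7 (Nat.card F) with h7 | h7
  · by_contra hall
    push Not at hall
    have h1 : (Finset.univ : Finset F).card ≤ 2 * (Finset.univ.image Yf).card :=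
      Finset.card_le_mul_card_image _ 2 fun y _ =>
        card_le_two_of_quad_roots (A := 1) (B := 1) (C := κ' + lam * κ + y * (lam + μ))
          (Or.inl one_ne_zero) fun m hm => by
            have e := (Finset.mem_filter.1 hm).2
            simp only [hYf, div_eq_iff hden] at e
            linear_combination e + y * (lam + μ) * h2
    have h3 := card_le_two_of_quad_roots (A := (1 : F)) (B := 1) (C := κ) (Or.inl one_ne_zero)
      (s := Finset.univ.image Yf) fun y hy => by
        obtain ⟨m, -, rfl⟩ := Finset.mem_image.1 hy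
        linear_combination hall m
    rw [Finset.card_univ, ← Nat.card_eq_fintype_card] at h1
    omega
  · exact ⟨0, hnz hW hu hw hqu huw h7 _⟩

end Cfsg.Agent.H5
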