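import Cfsg.Agent.H5.DecTwoRoot

/-!
Decompositions into planes: the stabiliser and one more element generate `Ω`.
-/

set_option autoImplicit false

namespace Cfsg.Agent.H5

open QuadraticMap hiding sq

variable {F V : Type*} [Field F] [AddCommGroup V] [Module F V] {Q : QuadraticForm F V}
  {M : Subgroup (orth Q)}

theorem RootIn.of_smul {e a : V} {r : F} (ha : RootIn M e (r • a)) (hr : r ≠ 0) :
    RootIn M (r • e) a := by
  have hp : polar Q e a = 0 := by
    have := ha.2.1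
    rw [polar_smul_right, smul_eq_zero] at this
    exact this.resolve_left hr
  exact ⟨by rw [QuadraticMap.map_smul, ha.1, smul_zero], by rw [polar_smul_left, hp, smul_zero],
    by rw [eich_smul_smul ha.1 hp]; exact ha.2.2⟩

theorem RootIn.zero {e a : V} (ha : RootIn M e a) : RootIn M e 0 := by
  simpa using ha.sub ha

/-- A reflection pair gives a root element. -/
theorem rootIn_of_pair {η z : V} (hz : Q z ≠ 0) (hq : Q η = 0) (hp : polar Q z η = 0)
    (hm : refl Q z * refl Q (z - η) ∈ M) : RootIn M η ((-(Q z)⁻¹) • z) := by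
  have h1 : Q ((-(Q z)⁻¹) • η) = 0 := by rw [QuadraticMap.map_smul, hq, smul_zero]
  have h2 : polar Q ((-(Q z)⁻¹) • η) z = 0 := by
    rw [polar_smul_left, polar_comm, hp, smul_zero]
  refine RootIn.smul_left ⟨h1, h2, ?_⟩ (neg_ne_zero.2 (inv_ne_zero hz))
  rw [eich_eq_refl_mul_refl h1 h2 hz]
  convert hm using 3
  rw [smul_smul, mul_neg, mul_inv_cancel₀ hz, neg_one_smul, sub_eq_add_neg]

variable [FiniteDimensional F V] {t : ℕ} {D : Fin t → Submodule F V}
  [Finite F] [Finite V] (h : OrthDec Q 2 D) (hP : ∀ i, GoodPlane Q (D i))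
  (hn : 5 ≤ Module.finrank F V) (hM : ∀ g ∈ commutator (orth Q), PresD D g → g ∈ M)

include h hP hn hM in
/-- The root group of a seed contains a member. -/
theorem rootSeed_member {c : F} (hc : c ≠ 0) {d : Fin t} {z ε : V} (hs : RootSeed h M c d z ε) :
    ∀ x ∈ D d, RootIn M ε x := by
  classical
  obtain ⟨u₀, hu₀, hq₀⟩ := exists_mem_norm_eq (h.inf_perp d) (by rw [h.finrank_eq]) c
  have hroot : ∀ {y}, InC M D c y → InC M D c (y - ε) → polar Q y ε = 0 →
      RootIn M ε ((-c⁻¹) • y) := fun {y} hy hy' hp => by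
    have := rootIn_of_pair (by rw [hy.1]; exact hc) hs.sing hp (inC_pair hu₀ hq₀ hy hy')
    rwa [hy.1] at this
  have hd0 : ∀ {s}, s ∈ D d → polar Q s ε = 0 := fun hsD => by
    rw [← h.polar_cmp hsD, hs.perp, polar_zero_right]
  let KK : orth Q → Prop := fun k => (∀ x, h.cmp d x = 0 → (k : V ≃ₗ[F] V) x = x) ∧
    (∀ x ∈ D d, (k : V ≃ₗ[F] V) x ∈ D d) ∧ ∀ y, InC M D c y → InC M D c ((k : V ≃ₗ[F] V) y)
  have hKmul : ∀ {k k'}, KK k → KK k' → KK (k * k') := fun {k k'} hk hk' =>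
    ⟨fun x hx => by rw [orth_mul_apply, hk'.1 x hx, hk.1 x hx],
      fun x hx => by rw [orth_mul_apply]; exact hk.2.1 _ (hk'.2.1 x hx),
      fun y hy => by rw [orth_mul_apply]; exact hk.2.2 _ (hk'.2.2 y hy)⟩
  have hfix : ∀ {v}, v ∈ D d → ∀ x, h.cmp d x = 0 → (refl Q v : V ≃ₗ[F] V) x = x := fun hv x hx =>
    refl_apply_of_ortho (by rw [← h.polar_cmp hv, hx, polar_zero_right])
  have hKc : ∀ {v}, v ∈ D d → Q v = c → KK (refl Q v) := fun hv hqv =>
    ⟨hfix hv, fun x hx => h.refl_maps hv d hx,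
      fun y hy => inC_refl hu₀ hq₀ (inC_member h hn hM hc hv hqv) hy⟩
  let A : AddSubgroup V :=
    { carrier := {x | x ∈ D d ∧ RootIn M ε ((-c⁻¹) • x)}
      zero_mem' := ⟨Submodule.zero_mem _, by
        rw [smul_zero]; exact (hroot hs.inC hs.inC' hs.polar_z).zero⟩
      add_mem' := fun hx hy => ⟨add_mem hx.1 hy.1, by rw [smul_add]; exact hx.2.add hy.2⟩
      neg_mem' := fun hx => ⟨neg_mem hx.1, by rw [smul_neg]; exact hx.2.neg⟩ }
  have hAN : ∀ {s}, s ∈ D d → Q s ≠ 0 → ¬ IsSquare (Q s / c) →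
      (∀ x ∈ A, (refl Q s : V ≃ₗ[F] V) x ∈ A) ∧ ∀ k, KK k → KK (refl Q s * k * refl Q s) := by
    intro s hsD hqs hns
    obtain ⟨i, hid, u, hu, hqu, hpu⟩ := hs.mix _ hqs hns
    have hmem := refl_pair_mem h hn hM hsD hu hqu.symm hqs
    have hmem' := refl_pair_mem h hn hM hu hsD hqu (by rw [hqu]; exact hqs)
    have hPD : ∀ a b : V, (a ∈ D d ∨ a ∈ D i) → (b ∈ D d ∨ b ∈ D i) →
        PresD D (refl Q a * refl Q b) := fun a b ha hb j => ⟨j, fun x hx => by
      rw [orth_mul_apply]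
      rcases ha with ha | ha <;> rcases hb with hb | hb <;>
        exact h.refl_maps ha j (h.refl_maps hb j hx)⟩
    refine ⟨fun x hx => ⟨h.refl_maps hsD d hx.1, ?_⟩, fun k hk => ?_⟩
    · have h1 := hx.2.conj hmem
      rw [orth_mul_apply, orth_mul_apply, refl_apply_of_ortho hpu, refl_apply_of_ortho (hd0 hsD),
        map_smul, h.refl_fix hid hu hx.1, map_smul] at h1
      exact h1
    · have hu0 : h.cmp d u = 0 := h.cmp_other (Ne.symm hid) hu
      have hcomm : k * refl Q u = refl Q u * k := by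
        have := refl_conj k u
        rw [hk.1 u hu0] at this
        calc k * refl Q u = k * refl Q u * k⁻¹ * k := by group
          _ = refl Q u * k := by rw [this]
      have e : refl Q s * k * refl Q s = refl Q s * refl Q u * k * (refl Q u * refl Q s) := by
        rw [mul_assoc (refl Q s) (refl Q u) k, ← hcomm]
        simp [mul_assoc, ← mul_assoc (refl Q u) (refl Q u), refl_mul_self]
      refine ⟨fun x hx => ?_, fun x hx => ?_, fun y hy => ?_⟩
      · rw [orth_mul_apply, orth_mul_apply, hfix hsD x hx, hk.1 x hx, hfix hsD x hx]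
      · rw [orth_mul_apply, orth_mul_apply]
        exact h.refl_maps hsD d (hk.2.1 _ (h.refl_maps hsD d hx))
      · rw [e, orth_mul_apply, orth_mul_apply]
        exact inC_conj h hn hM hmem (hPD s u (Or.inl hsD) (Or.inr hu)) hc hu₀ hq₀
          (hk.2.2 _ (inC_conj h hn hM hmem' (hPD u s (Or.inr hu) (Or.inl hsD)) hc hu₀ hq₀ hy))
  let Y : AddSubgroup V :=
    { carrier := {y | y ∈ D d ∧ ∀ k, KK k → (k : V ≃ₗ[F] V) y - y ∈ A}
      zero_mem' := ⟨Submodule.zero_mem _, fun k _ => by rw [map_zero, sub_zero]; exact A.zero_mem⟩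
      add_mem' := fun {a b} ha hb => ⟨add_mem ha.1 hb.1, fun k hk => by
        rw [map_add, add_sub_add_comm]; exact A.add_mem (ha.2 k hk) (hb.2 k hk)⟩
      neg_mem' := fun {a} ha => ⟨neg_mem ha.1, fun k hk => by
        have := A.neg_mem (ha.2 k hk)
        convert this using 1
        rw [map_neg]; abel⟩ }
  have hzY : h.cmp d z ∈ Y := by
    refine ⟨h.cmp_mem d z, fun k hk => ⟨sub_mem (hk.2.1 _ (h.cmp_mem d z)) (h.cmp_mem d z), ?_⟩⟩
    have hkz : (k : V ≃ₗ[F] V) z - z = (k : V ≃ₗ[F] V) (h.cmp d z) - h.cmp d z := by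
      have := hk.1 (z - h.cmp d z) (by rw [map_sub, h.cmp_same (h.cmp_mem d z), sub_self])
      rw [map_sub] at this
      linear_combination (norm := abel) this
    have hε : (k : V ≃ₗ[F] V) ε = ε := hk.1 ε hs.perp
    have h2' := hk.2.2 _ hs.inC'
    rw [map_sub, hε] at h2'
    have h1 := hroot (hk.2.2 _ hs.inC) h2' (by rw [← hε, orth_polar, hs.polar_z])
    rw [← hkz, smul_sub]
    exact h1.sub (hroot hs.inC hs.inC' hs.polar_z)
  have hYall : ∀ y ∈ D d, y ∈ Y := by
    refine (hP d).addSubgroup_eq h.nondeg Y (fun y hy => hy.1) (fun s hsD hqs y hy => ?_) hzY hs.cmp_ne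
    refine ⟨h.refl_maps hsD d hy.1, fun k hk => ?_⟩
    by_cases hsq : IsSquare (Q s / c)
    · obtain ⟨r, hr⟩ := hsq
      have hr0 : r ≠ 0 := fun h0 => by
        rw [h0, mul_zero, div_eq_zero_iff] at hr
        exact hr.elim hqs hc
      have hK : KK (refl Q s) := by
        rw [← refl_smul (Q := Q) (inv_ne_zero hr0) s]
        refine hKc ((D d).smul_mem _ hsD) ?_
        rw [QuadraticMap.map_smul, smul_eq_mul]
        field_simp at hr ⊢
        linear_combination hr
      have := A.sub_mem (hy.2 _ (hKmul hk hK)) (hy.2 _ hK)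
      rwa [orth_mul_apply, sub_sub_sub_cancel_right] at this
    · obtain ⟨hA, hconj⟩ := hAN hsD hqs hsq
      have := hA _ (hy.2 _ (hconj k hk))
      rwa [orth_mul_apply, orth_mul_apply, map_sub, ← orth_mul_apply, refl_mul_self] at this
  intro x hx
  obtain ⟨v, hv, hqv⟩ := exists_mem_norm_eq (h.inf_perp d) (by rw [h.finrank_eq]) c
  obtain ⟨w, -, -, -, -, hv', hind⟩ := (hP d).exists_nonorth h.nondeg hv (by rwa [hqv])
  have hline : ∀ {v}, v ∈ D d → Q v = c → ∀ r : F, r • v ∈ A := by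
    intro v hv hqv r
    have hv0 : v ≠ 0 := fun h0 => hc (by rw [← hqv, h0, QuadraticMap.map_zero])
    obtain ⟨y, hy, hvy⟩ := (hP d).exists_pair hv hv0
    have := (hYall _ ((D d).smul_mem (-(r * c)) hy)).2 _ (hKc hv hqv)
    rw [refl_apply, hqv, polar_smul_right, hvy, smul_eq_mul, mul_one, sub_sub_cancel_left,
      mul_neg, neg_smul, neg_neg, mul_comm r c, ← mul_assoc, inv_mul_cancel₀ hc, one_mul] at this
    exact this
  obtain ⟨α, β, hx'⟩ := mem_pair_span (h.finrank_eq d) hv hv'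
    (fun h0 => hc (by rw [← hqv, h0, QuadraticMap.map_zero])) hind ((D d).smul_mem (-c) hx)
  have h1 : (-c) • x ∈ A := hx'.symm ▸ A.add_mem (hline hv hqv α) (hline hv' (by rw [orth_map, hqv]) β)
  have h2 := h1.2
  rwa [smul_smul, neg_mul_neg, inv_mul_cancel₀ hc, one_smul] at h2

include h hP hn hM in
/-- A seed leads to a full root group and all of `Ω`. -/
theorem commutator_le_of_rootSeed (ht : 5 ≤ t) {c : F} (hc : c ≠ 0) {d : Fin t} {z ε : V}
    (hs : RootSeed h M c d z ε) : commutator (orth Q) ≤ M := by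
  classical
  have hR := rootSeed_member h hP hn hM hc hs
  obtain ⟨a, hqa⟩ := hs.anis
  have had : a ≠ d := fun he => hqa (by rw [he, hs.perp, QuadraticMap.map_zero])
  obtain ⟨b, hba, hb⟩ : ∃ b, b ≠ a ∧ h.cmp b ε ≠ 0 := by
    by_contra hcon
    push Not at hcon
    have hεa : ε = h.cmp a ε := by
      conv_lhs => rw [← h.sum_cmp ε, sum_single_zero _ a fun j hj => hcon j hj]
    exact hqa (by rw [← hεa]; exact hs.sing)
  have hbd : b ≠ d := fun he => hb (he ▸ hs.perp)
  obtain ⟨n, -, hnn⟩ := Finset.exists_mem_notMem_of_card_lt_card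
    (t := (Finset.univ : Finset (Fin t))) (s := ({a, b, d} : Finset (Fin t)))
    (lt_of_le_of_lt Finset.card_le_three (by simp; omega))
  simp only [Finset.mem_insert, Finset.mem_singleton, not_or] at hnn
  obtain ⟨hna, hnb, hnd⟩ := hnn
  obtain ⟨w, hw, hqw, hwε⟩ := (hP a).exists_anis_polar (h.cmp_mem a ε)
    (fun h0 => hqa (by rw [h0, QuadraticMap.map_zero]))
  rw [polar_comm, h.polar_cmp hw] at hwε
  set r := (Q w)⁻¹ * polar Q w ε with hr
  have hr0 : r ≠ 0 := mul_ne_zero (inv_ne_zero hqw) hwε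
  set q := -(r * r * Q w) with hqd
  have hq0 : q ≠ 0 := neg_ne_zero.2 (mul_ne_zero (mul_ne_zero hr0 hr0) hqw)
  obtain ⟨v, hv, hqv⟩ := exists_mem_norm_eq (h.inf_perp d) (by rw [h.finrank_eq]) q
  have hv0 : v ≠ 0 := fun h0 => hq0 (by rw [← hqv, h0, QuadraticMap.map_zero])
  obtain ⟨x', hx', hqx', hvx'⟩ := (hP d).exists_anis_polar hv hv0
  set x := (q / polar Q v x') • x' with hxd
  have hx : x ∈ D d := (D d).smul_mem _ hx'
  have hvx : polar Q v x = q := by
    rw [hxd, polar_smul_right, smul_eq_mul, div_mul_cancel₀ _ hvx']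
  have hqx : Q x ≠ 0 := by
    rw [hxd, QuadraticMap.map_smul]
    exact mul_ne_zero (mul_ne_zero (div_ne_zero hq0 hvx') (div_ne_zero hq0 hvx')) hqx'
  have hxv : Q (x - v) = Q x := by
    rw [map_sub', polar_comm (⇑Q) x v, hvx, hqv]; ring
  have hD0 : ∀ {y}, y ∈ D d → polar Q y ε = 0 := fun hy => by
    rw [← h.polar_cmp hy, hs.perp, polar_zero_right]
  have hA1 : RootIn M ((Q x)⁻¹ • ε) x :=
    RootIn.of_smul (hR _ ((D d).smul_mem _ hx)) (inv_ne_zero hqx)
  have hA2 : RootIn M ((Q x)⁻¹ • ε) (x - v) :=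
    RootIn.of_smul (hR _ ((D d).smul_mem _ (sub_mem hx hv))) (inv_ne_zero hqx)
  have m1 : refl Q x * refl Q (x + ε) ∈ M := by
    have := hA1.2.2
    rwa [eich_eq_refl_mul_refl hA1.1 hA1.2.1 hqx, smul_smul, mul_inv_cancel₀ hqx, one_smul] at this
  obtain ⟨w', hw', hqw'⟩ := exists_mem_norm_eq (h.inf_perp d) (by rw [h.finrank_eq]) (Q w)
  have hsM := refl_pair_mem h hn hM hw hw' hqw'.symm hqw
  set ε₂ := (refl Q w : V ≃ₗ[F] V) ε with hε₂
  have hA3 : ∀ y ∈ D d, RootIn M ε₂ y := by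
    intro y hy
    have h1 := (hR _ (h.refl_maps hw' d hy)).conj hsM
    rw [orth_mul_apply, orth_mul_apply, refl_apply_of_ortho (hD0 hw'),
      ← orth_mul_apply (refl Q w') (refl Q w'), refl_mul_self] at h1
    rw [← hε₂] at h1
    have e : (refl Q w : V ≃ₗ[F] V) y = y := h.refl_fix had hw hy
    change RootIn M ε₂ ((refl Q w : V ≃ₗ[F] V) y) at h1
    rwa [e] at h1
  have hA4 : RootIn M ((Q x)⁻¹ • ε₂) (x - v) :=
    RootIn.of_smul (hA3 _ ((D d).smul_mem _ (sub_mem hx hv))) (inv_ne_zero hqx)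
  have m2 : refl Q (x - v) * refl Q (x - v + ε₂) ∈ M := by
    have := hA4.2.2
    rwa [eich_eq_refl_mul_refl hA4.1 hA4.2.1 (by rw [hxv]; exact hqx), hxv, smul_smul,
      mul_inv_cancel₀ hqx, one_smul] at this
  have m3 : refl Q x * refl Q (x - v) ∈ M := refl_pair_mem h hn hM hx (sub_mem hx hv) hxv.symm hqx
  set η := v + r • w with hη
  have hdiff : ε₂ = ε - r • w := by rw [hε₂, refl_apply, ← hr]
  have hz12 : x + ε - η = x - v + ε₂ := by rw [hη, hdiff]; abel
  have mz : refl Q (x + ε) * refl Q (x + ε - η) ∈ M := by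
    have := mul_mem (mul_mem (inv_mem m1) m3) m2
    rw [mul_inv_rev, refl_inv, refl_inv] at this
    rw [hz12]
    simpa [mul_assoc, ← mul_assoc (refl Q x) (refl Q x),
      ← mul_assoc (refl Q (x - v)) (refl Q (x - v)), refl_mul_self] using this
  have hvw : polar Q v w = 0 := h.polar_zero (Ne.symm had) hv hw
  have hqη : Q η = 0 := by rw [hη, map_add_smul, hvw, hqv, hqd]; ring
  have hz1 : Q (x + ε) = Q x := by
    rw [QuadraticMap.map_add (⇑Q), hs.sing, hD0 hx, add_zero, add_zero]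
  have hpz : polar Q (x + ε) η = 0 := by
    rw [hη, polar_add_left, polar_add_right, polar_add_right, polar_comm (⇑Q) x v, hvx,
      polar_comm (⇑Q) ε v, hD0 hv, polar_smul_right, polar_smul_right,
      h.polar_zero (Ne.symm had) hx hw, smul_zero, add_zero, zero_add, smul_eq_mul, hqd,
      polar_comm (⇑Q) ε w, hr]
    field_simp
    ring
  have hzη := rootIn_of_pair (by rw [hz1]; exact hqx) hqη hpz mz
  rw [hz1] at hzη
  set z₁ := (-(Q x)⁻¹) • (x + ε) with hz₁
  have hηcmp : ∀ i, i ≠ a → i ≠ d → h.cmp i η = 0 := fun i hia hid => by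
    rw [hη, map_add, map_smul, h.cmp_other hid hv, h.cmp_other hia hw, smul_zero, add_zero]
  have hηperp : ∀ {i} {y}, i ≠ a → i ≠ d → y ∈ D i → polar Q y η = 0 := fun hia hid hy => by
    rw [← h.polar_cmp hy, hηcmp _ hia hid, polar_zero_right]
  -- the member of `b`
  let A : AddSubgroup V :=
    { carrier := {y | RootIn M η y}
      zero_mem' := hzη.zero
      add_mem' := fun hx hy => hx.add hy
      neg_mem' := fun hx => hx.neg }
  have hAb : ∀ y ∈ D b, y ∈ A := by
    obtain ⟨s₁, hs₁, s₂, hs₂, hqs₁, hs12, -, hind⟩ := exists_rot h hP b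
    have hfix : ∀ {s}, s ∈ D b → (refl Q s : V ≃ₗ[F] V) η = η := fun hsb =>
      refl_apply_of_ortho (hηperp hba hbd hsb)
    have hX0 : ((refl Q s₁ * refl Q s₂ : orth Q) : V ≃ₗ[F] V) (h.cmp b z₁) - h.cmp b z₁ ∈ A := by
      have h1 := hzη.conj (refl_pair_mem h hn hM hs₁ hs₂ hs12 hqs₁)
      rw [orth_mul_apply, hfix hs₂, hfix hs₁] at h1
      have h2 := h1.sub hzη
      show RootIn M η _
      convert h2 using 1
      have e : ((refl Q s₁ * refl Q s₂ : orth Q) : V ≃ₗ[F] V) (z₁ - h.cmp b z₁) = z₁ - h.cmp b z₁ := by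
        rw [orth_mul_apply, refl_apply_of_ortho (v := s₂) (mem_perp.1 (h.sub_cmp_mem b z₁) _ hs₂),
          refl_apply_of_ortho (v := s₁) (mem_perp.1 (h.sub_cmp_mem b z₁) _ hs₁)]
      rw [map_sub] at e
      linear_combination (norm := abel) -e
    have hb0 : h.cmp b z₁ ≠ 0 := by
      rw [hz₁, map_smul, map_add, h.cmp_other hbd hx, zero_add]
      exact smul_ne_zero (neg_ne_zero.2 (inv_ne_zero hqx)) hb
    intro y hy
    refine ((hP b).addSubgroup_eq h.nondeg (A ⊓ (D b).toAddSubgroup) (fun y hy => hy.2)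
      (fun s hsb hqs y hy => ⟨?_, h.refl_maps hsb b hy.2⟩) ⟨hX0, ?_⟩ ?_ y hy).1
    · obtain ⟨s', hs', hqs'⟩ := exists_mem_norm_eq (h.inf_perp n) (by rw [h.finrank_eq]) (Q s)
      have h1 := RootIn.conj (refl_pair_mem h hn hM hsb hs' hqs'.symm hqs) (show RootIn M η y from hy.1)
      rw [orth_mul_apply, orth_mul_apply, refl_apply_of_ortho (hηperp hna hnd hs'), hfix hsb,
        h.refl_fix hnb hs' hy.2] at h1
      exact h1
    · show _ ∈ D b
      rw [orth_mul_apply]
      exact sub_mem (h.refl_maps hs₁ b (h.refl_maps hs₂ b (h.cmp_mem b z₁))) (h.cmp_mem b z₁)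
    · intro h0
      rw [sub_eq_zero, orth_mul_apply] at h0
      exact hb0 ((hP b).rot_fix hs₁ hs₂ hqs₁ (hs12 ▸ hqs₁) hind (h.cmp_mem b z₁) h0)
  have hAout : ∀ u, h.cmp a u = 0 → h.cmp d u = 0 → u ∈ A := by
    intro u hua hud
    rw [← h.sum_cmp u]
    refine sum_mem fun i _ => ?_
    by_cases hia : i = a
    · subst hia; rw [hua]; exact A.zero_mem
    by_cases hid : i = d
    · subst hid; rw [hud]; exact A.zero_mem
    by_cases hib : i = b
    · subst hib; exact hAb _ (h.cmp_mem i u)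
    obtain ⟨g, hg, hfix, hmap⟩ := exists_swap h hn le_rfl hib
    have hgη : (g : V ≃ₗ[F] V) η = η := by
      rw [hη, map_add, map_smul, hfix d (Ne.symm hid) (Ne.symm hbd) v hv,
        hfix a (Ne.symm hia) (Ne.symm hba) w hw]
    have hgu : (g : V ≃ₗ[F] V) (h.cmp i u) ∈ D b := by
      simpa using hmap i _ (h.cmp_mem i u)
    have h1 := RootIn.conj (inv_mem (hM g hg fun j => ⟨_, hmap j⟩)) (hAb _ hgu)
    rwa [orth_inv_apply_apply, show ((g⁻¹ : orth Q) : V ≃ₗ[F] V) η = η by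
      conv_lhs => rw [← hgη]
      rw [orth_inv_apply_apply]] at h1
  -- the members of `a` and `d`
  obtain ⟨g₁, hg₁, hfix₁, hmap₁⟩ := exists_swap h hn le_rfl (Ne.symm hba)
  obtain ⟨g₂, hg₂, hfix₂, hmap₂⟩ := exists_swap h hn le_rfl (Ne.symm hnd)
  set g := g₁ * g₂ with hgd
  have hgM : g ∈ M := mul_mem (hM g₁ hg₁ fun j => ⟨_, hmap₁ j⟩) (hM g₂ hg₂ fun j => ⟨_, hmap₂ j⟩)
  have hga : ∀ y ∈ D a, (g : V ≃ₗ[F] V) y ∈ D b := fun y hy => by
    rw [hgd, orth_mul_apply, hfix₂ a had (Ne.symm hna) y hy]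
    simpa using hmap₁ a y hy
  have hgd' : ∀ y ∈ D d, (g : V ≃ₗ[F] V) y ∈ D n := fun y hy => by
    have h1 := hmap₂ d y hy
    rw [Equiv.swap_apply_left] at h1
    rw [hgd, orth_mul_apply, hfix₁ n hna hnb _ h1]
    exact h1
  set η' := ((g⁻¹ : orth Q) : V ≃ₗ[F] V) η with hη'
  have hback : ∀ y u, polar Q y (((g⁻¹ : orth Q) : V ≃ₗ[F] V) u) =
      polar Q ((g : V ≃ₗ[F] V) y) u := fun y u => by
    conv_rhs => rw [← orth_apply_inv_apply g u, orth_polar]
  have hzero : ∀ u, (∀ y ∈ D b, polar Q y u = 0) → (∀ y ∈ D n, polar Q y u = 0) →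
      h.cmp a (((g⁻¹ : orth Q) : V ≃ₗ[F] V) u) = 0 ∧
      h.cmp d (((g⁻¹ : orth Q) : V ≃ₗ[F] V) u) = 0 := fun u hub hun =>
    ⟨h.cmp_perp (mem_perp.2 fun y hy => by rw [hback]; exact hub _ (hga y hy)),
      h.cmp_perp (mem_perp.2 fun y hy => by rw [hback]; exact hun _ (hgd' y hy))⟩
  obtain ⟨hη'a, hη'd⟩ := hzero η (fun y hy => hηperp hba hbd hy) (fun y hy => hηperp hna hnd hy)
  obtain ⟨x₀', hx₀', hvx₀⟩ := (hP d).exists_pair hv hv0
  set x₀ := ((g⁻¹ : orth Q) : V ≃ₗ[F] V) x₀' with hx₀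
  obtain ⟨hx₀a, hx₀d⟩ := hzero x₀' (fun y hy => h.polar_zero hbd hy hx₀')
    (fun y hy => h.polar_zero hnd hy hx₀')
  have hη'x₀ : polar Q η' x₀ = 1 := by
    rw [hη', hx₀, orth_polar, hη, polar_add_left, polar_smul_left, hvx₀, h.polar_zero had hw hx₀',
      smul_zero, add_zero]
  have hW : ∀ y₁ ∈ D a, ∀ y₂ ∈ D d, polar Q η (y₁ + y₂) = 0 → y₁ + y₂ ∈ A := by
    intro y₁ hy₁ y₂ hy₂ hp
    set y := y₁ + y₂ with hy
    have hperpW : ∀ {u}, h.cmp a u = 0 → h.cmp d u = 0 → polar Q y u = 0 := fun hua hud => by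
      rw [hy, polar_add_left, ← h.polar_cmp hy₁, ← h.polar_cmp hy₂, hua, hud, polar_zero_right,
        polar_zero_right, add_zero]
    have hgy : (g : V ≃ₗ[F] V) y ∈ A := hAout _
      (by rw [hy, map_add, map_add, h.cmp_other (Ne.symm hba) (hga _ hy₁),
        h.cmp_other (Ne.symm hna) (hgd' _ hy₂), add_zero])
      (by rw [hy, map_add, map_add, h.cmp_other (Ne.symm hbd) (hga _ hy₁),
        h.cmp_other (Ne.symm hnd) (hgd' _ hy₂), add_zero])
    have hroot := RootIn.conj (inv_mem hgM) (show RootIn M η _ from hgy)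
    rw [orth_inv_apply_apply, ← hη'] at hroot
    have hηη' : polar Q η' η = 0 := by
      rw [hη, polar_add_right, polar_smul_right, polar_comm (⇑Q) η' v, polar_comm (⇑Q) η' w,
        ← h.polar_cmp hv, ← h.polar_cmp hw, hη'a, hη'd, polar_zero_right, polar_zero_right,
        smul_zero, add_zero]
    have h1 := RootIn.conj hroot.2.2 (hAout x₀ hx₀a hx₀d : RootIn M η x₀)
    rw [eich_fix hroot.1 hroot.2.1 hηη' (by rw [polar_comm]; exact hp),
      eich_apply hroot.1 hroot.2.1, hη'x₀, hperpW hx₀a hx₀d] at h1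
    have h2 : x₀ - Q y • η' ∈ A := hAout _ (by rw [map_sub, map_smul, hx₀a, hη'a]; simp)
      (by rw [map_sub, map_smul, hx₀d, hη'd]; simp)
    have h3 := A.sub_mem (show _ ∈ A from h1) h2
    convert h3 using 1
    simp only [one_smul, zero_smul, sub_zero, mul_one]
    abel
  have hfull : FullRoot M η := by
    refine ⟨hqη, fun u hu => (show RootIn M η u from ?_).2.2⟩
    have e : u = (h.cmp a u + h.cmp d u) + (u - h.cmp a u - h.cmp d u) := by abel
    have hrest : ∀ i, i = a ∨ i = d → h.cmp i (u - h.cmp a u - h.cmp d u) = 0 := by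
      rintro i (rfl | rfl) <;> rw [map_sub, map_sub, h.cmp_same (h.cmp_mem _ u)]
      · rw [h.cmp_other had (h.cmp_mem d u), sub_self, sub_zero]
      · rw [h.cmp_other (Ne.symm had) (h.cmp_mem a u), sub_zero, sub_self]
    rw [e]
    refine A.add_mem (hW _ (h.cmp_mem a u) _ (h.cmp_mem d u) ?_)
      (hAout _ (hrest a (Or.inl rfl)) (hrest d (Or.inr rfl)))
    rw [← hu]
    conv_rhs => rw [e]
    rw [polar_add_right (Q := Q) η (h.cmp a u + h.cmp d u),
      polar_eq_zero_of_disjoint h (x := η) (y := u - h.cmp a u - h.cmp d u) fun i => by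
        by_cases hi : i = a ∨ i = d
        · exact Or.inr (hrest i hi)
        · push Not at hi; exact Or.inl (hηcmp i hi.1 hi.2),
      add_zero]
  obtain ⟨u', hu', hqu'⟩ := exists_mem_norm_eq (h.inf_perp n) (by rw [h.finrank_eq]) (Q x')
  refine commutator_le_of_fullRoot h.nondeg hn hfull
    (hfull.conj (refl_pair_mem h hn hM hx' hu' hqu'.symm hqx')) ?_
  rw [orth_mul_apply, refl_apply_of_ortho (hηperp hna hnd hu'), hη, map_add, map_smul,
    h.refl_fix (Ne.symm had) hx' hw, refl_apply]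
  simp only [polar_add_left, polar_add_right, polar_sub_right, polar_smul_left, polar_smul_right,
    polar_self', hvw, polar_comm (⇑Q) w v, polar_comm (⇑Q) x' v, h.polar_zero had hw hx', hqv,
    smul_eq_mul, hqd]
  intro h0
  refine mul_ne_zero (inv_ne_zero hqx') (mul_ne_zero hvx' hvx') ?_
  linear_combination -h0

include h hP hn hM in
/-- Decomposition stabilisers generate `Ω` with any further element, for planes. -/
theorem commutator_le_of_dec_two (ht : 5 ≤ t) {g : orth Q} (hg : g ∈ M) (hgD : ¬ PresD D g) :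
    commutator (orth Q) ≤ M := by
  obtain ⟨c, hc, z, hz, hout⟩ :=
    exists_inC_out h hP hn hM (fixesAnis_of_not_presD h hP hn hM ht hg hgD)
  obtain ⟨d, z', ε, hs⟩ := exists_rootSeed h hP hn hM ht hc hz hout
  exact commutator_le_of_rootSeed h hP hn hM ht hc hs

end Cfsg.Agent.H5
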