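import Cfsg.Agent.H5.DecTwoSeed
import Cfsg.Agent.H5.DecFull

/-!
Decompositions into planes: enlarging the support of a pairing vector.
-/

set_option autoImplicit false

namespace Cfsg.Agent.H5

open QuadraticMap hiding sq

variable {F V : Type*} [Field F] [AddCommGroup V] [Module F V] [FiniteDimensional F V]
  {Q : QuadraticForm F V} {t k : ℕ} {D : Fin t → Submodule F V} {M : Subgroup (orth Q)}

/-- Components of the image under an isometry permuting the members. -/
theorem OrthDec.cmp_map (h : OrthDec Q k D) {g : H5.orth Q} {σ : Equiv.Perm (Fin t)}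
    (hg : ∀ i, ∀ x ∈ D i, (g : V ≃ₗ[F] V) x ∈ D (σ i)) (i : Fin t) (x : V) :
    h.cmp (σ i) ((g : V ≃ₗ[F] V) x) = (g : V ≃ₗ[F] V) (h.cmp i x) := by
  classical
  conv_lhs => rw [← h.sum_cmp x]
  rw [map_sum, map_sum, Finset.sum_eq_single i (fun j _ hj => h.cmp_other
    (fun he => hj (σ.injective he).symm) (hg j _ (h.cmp_mem j x))) (by simp)]
  exact h.cmp_same (hg i _ (h.cmp_mem i x))

/-- A member reflection changes one component only. -/
theorem OrthDec.cmp_refl (h : OrthDec Q k D) {i j : Fin t} (hij : j ≠ i) {v : V} (hv : v ∈ D i)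
    (x : V) : h.cmp j ((refl Q v : V ≃ₗ[F] V) x) = h.cmp j x := by
  rw [refl_apply, map_sub, map_smul, h.cmp_other hij hv, smul_zero, sub_zero]

variable [Finite F] [Finite V] (h : OrthDec Q 2 D) (hP : ∀ i, GoodPlane Q (D i))
  (hn : 5 ≤ Module.finrank F V) (hM : ∀ g ∈ commutator (orth Q), PresD D g → g ∈ M)

include h hn hM in
/-- Removing a component vector of square class. -/
theorem inC_sub_single {c : F} (hc : c ≠ 0) {y : V} (hy : InC M D c y) {l : Fin t} {δ : V}
    (hδ : δ ∈ D l) (hqδ : Q δ ≠ 0) (hsq : IsSquare (Q δ / c)) (hp : polar Q δ y = Q δ) :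
    InC M D c (y - δ) := by
  obtain ⟨s, hs⟩ := hsq
  have hs0 : s ≠ 0 := fun h0 => by
    rw [h0, mul_zero, div_eq_zero_iff] at hs
    exact hs.elim hqδ hc
  have hq : Q (s⁻¹ • δ) = c := by
    rw [QuadraticMap.map_smul, smul_eq_mul]
    field_simp at hs ⊢
    linear_combination hs
  have hmem : s⁻¹ • δ ∈ D l := (D l).smul_mem _ hδ
  have h1 := inC_refl hmem hq (inC_member h hn hM hc hmem hq) hy
  rw [refl_smul (inv_ne_zero hs0), refl_apply, hp, inv_mul_cancel₀ hqδ, one_smul] at h1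
  exact h1

include h hn hM in
/-- Removing two component vectors of non-square class. -/
theorem inC_sub_pair {c : F} (hc : c ≠ 0) {i : Fin t} {u₀ : V} (hu₀ : u₀ ∈ D i) (hq₀ : Q u₀ = c)
    {y : V} (hy : InC M D c y) {l l' : Fin t} {δ δ' : V} (hδ : δ ∈ D l) (hδ' : δ' ∈ D l')
    (hqδ : Q δ ≠ 0) (hqδ' : Q δ' ≠ 0) (hns : ¬ IsSquare (Q δ / c)) (hns' : ¬ IsSquare (Q δ' / c)) :
    InC M D c ((refl Q δ : V ≃ₗ[F] V) ((refl Q δ' : V ≃ₗ[F] V) y)) := by
  have hk : refl Q δ * refl Q δ' ∈ commutator (orth Q) := by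
    have hh := (list_prod_mem_commutator_iff h.nondeg (Or.inr (by omega)) (vs := [δ, δ'])
      (by simp [hqδ, hqδ'])).2 ⟨by simp, by
        obtain ⟨s, hs⟩ := H4.isSquare_mul_of_not hns hns'
        refine ⟨s * c, ?_⟩
        simp only [List.map_cons, List.map_nil, List.prod_cons, List.prod_nil, mul_one]
        field_simp at hs
        linear_combination hs⟩
    simpa using hh
  have hD : PresD D (refl Q δ * refl Q δ') := fun j => ⟨j, fun x hx => by
    rw [orth_mul_apply]; exact h.refl_maps hδ j (h.refl_maps hδ' j hx)⟩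
  exact inC_conj h hn hM (hM _ hk hD) hD hc hu₀ hq₀ hy

include h hP hn hM in
/-- A pairing vector with four non-zero components. -/
theorem exists_inC_four (ht : 5 ≤ t) {c : F} (hc : c ≠ 0) {z : V} (hz : InC M D c z)
    (hout : ∀ i, z ∉ D i) :
    ∃ z', InC M D c z' ∧ ∃ s : Finset (Fin t), 4 ≤ s.card ∧ ∀ i ∈ s, h.cmp i z' ≠ 0 := by
  classical
  obtain ⟨supp, hsupp⟩ : ∃ f : V → Finset (Fin t), f = fun x =>
      Finset.univ.filter fun i => h.cmp i x ≠ 0 := ⟨_, rfl⟩
  have hmem : ∀ {x i}, i ∈ supp x ↔ h.cmp i x ≠ 0 := by simp [hsupp]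
  have h2 : ∀ {x}, Q x ≠ 0 → (∀ i, x ∉ D i) → 2 ≤ (supp x).card := by
    intro x hqx hx
    by_contra hlt
    obtain ⟨a, ha⟩ : ∃ a, h.cmp a x ≠ 0 := by
      by_contra hc'
      push Not at hc'
      exact hx ⟨0, by omega⟩ (by
        rw [← h.sum_cmp x, Finset.sum_eq_zero fun i _ => hc' i]; exact Submodule.zero_mem _)
    refine hx a (h.mem_of_cmp fun j hj => ?_)
    by_contra hj'
    exact hj (Finset.card_le_one.1 (by omega : (supp x).card ≤ 1) j (hmem.2 hj') a (hmem.2 ha))
  have step : ∀ {x}, InC M D c x → ∀ a, Q (h.cmp a x) ≠ 0 → ∀ (g : orth Q) (σ : Equiv.Perm (Fin t)),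
      g ∈ M → (∀ i, ∀ y ∈ D i, (g : V ≃ₗ[F] V) y ∈ D (σ i)) → σ a = a →
      (∀ y ∈ D a, (g : V ≃ₗ[F] V) y = y) → (∀ i, i ≠ a → h.cmp i x ≠ 0 → h.cmp (σ i) x = 0) →
      ((supp x).card < t) →
      ∃ x', InC M D c x' ∧ ∀ i, h.cmp i x ≠ 0 → h.cmp i x' ≠ 0 ∧ h.cmp (σ i) x' ≠ 0 := by
    intro x hx a hqa g σ hgM hgD hσa hga hdis hlt
    obtain ⟨p, -, hp⟩ := Finset.exists_mem_notMem_of_card_lt_card
      (t := (Finset.univ : Finset (Fin t))) (s := supp x) (by simpa using hlt)
    rw [hmem, not_not] at hp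
    obtain ⟨v, hv, hqv, hav, hne, hyD, hind⟩ := (hP a).exists_nonorth h.nondeg (h.cmp_mem a x) hqa
    obtain ⟨w, hw, hqw⟩ := exists_mem_norm_eq (h.inf_perp p) (by rw [h.finrank_eq]) (Q v)
    have hpa : p ≠ a := fun he => hqa (by rw [← he, hp, QuadraticMap.map_zero])
    obtain ⟨i₀, u₀, hu₀, hq₀⟩ : ∃ i, ∃ u ∈ D i, Q u = c :=
      ⟨a, exists_mem_norm_eq (h.inf_perp a) (by rw [h.finrank_eq]) c⟩
    have hpair := refl_pair_mem h hn hM hv hw hqw.symm hqv
    have hPD : PresD D (g * (refl Q v * refl Q w)) := fun i => ⟨σ i, fun y hy => by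
      rw [orth_mul_apply, orth_mul_apply]; exact hgD i _ (h.refl_maps hv i (h.refl_maps hw i hy))⟩
    have hy := inC_conj h hn hM (mul_mem hgM hpair) hPD hc hu₀ hq₀ hx
    set y₁ := ((refl Q v * refl Q w : orth Q) : V ≃ₗ[F] V) x with hy₁
    have hwx : polar Q w x = 0 := by rw [← h.polar_cmp hw, hp, polar_zero_right]
    have hy₁a : h.cmp a y₁ = (refl Q v : V ≃ₗ[F] V) (h.cmp a x) := by
      rw [hy₁, orth_mul_apply, refl_apply_of_ortho hwx, refl_apply, map_sub, map_smul, h.cmp_same hv,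
        refl_apply, h.polar_cmp hv]
    have hy₁o : ∀ i, i ≠ a → h.cmp i y₁ = h.cmp i x := by
      intro i hi
      rw [hy₁, orth_mul_apply, h.cmp_refl hi hv, refl_apply_of_ortho hwx]
    rw [orth_mul_apply, ← hy₁] at hy
    set y := (g : V ≃ₗ[F] V) y₁ with hyd
    have hyc : ∀ i, h.cmp (σ i) y = (g : V ≃ₗ[F] V) (h.cmp i y₁) := fun i => h.cmp_map hgD i y₁
    have hya : h.cmp a y = (refl Q v : V ≃ₗ[F] V) (h.cmp a x) := by
      have e := hyc a
      rw [hσa] at e
      rw [e, hga _ (h.cmp_mem a y₁), hy₁a]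
    have hyz : ∀ i, i ≠ a → h.cmp i x ≠ 0 → h.cmp i y = 0 := by
      intro i hi hix
      have e := hyc (σ.symm i)
      rw [Equiv.apply_symm_apply] at e
      rw [e]
      have hj : σ.symm i ≠ a := fun he => hi (by rw [← σ.apply_symm_apply i, he, hσa])
      have hz0 : h.cmp (σ.symm i) x = 0 := by
        by_contra hne'
        exact hix (by simpa using hdis _ hj hne')
      rw [hy₁o _ hj, hz0, map_zero]
    have hzy : polar Q x y = polar Q (h.cmp a x) (h.cmp a y) := by
      conv_lhs => rw [← h.sum_cmp x]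
      rw [← QuadraticMap.polarBilin_apply_apply, map_sum, LinearMap.sum_apply,
        Finset.sum_eq_single a (fun i _ hi => ?_) (by simp)]
      · rw [QuadraticMap.polarBilin_apply_apply, h.polar_cmp (h.cmp_mem a x)]
      · rw [QuadraticMap.polarBilin_apply_apply, ← h.polar_cmp (h.cmp_mem i x)]
        by_cases h0 : h.cmp i x = 0
        · rw [h0, polar_zero_left]
        · rw [hyz i hi h0, polar_zero_right]
    set lam := c⁻¹ * polar Q x y with hlam
    have hlam0 : lam ≠ 0 := by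
      rw [hlam, hzy, hya]; exact mul_ne_zero (inv_ne_zero hc) hne
    refine ⟨_, inC_refl hu₀ hq₀ hx hy, fun i hix => ?_⟩
    have hcmp : ∀ j, h.cmp j ((refl Q x : V ≃ₗ[F] V) y) = h.cmp j y - lam • h.cmp j x := fun j => by
      rw [refl_apply, hx.1, map_sub, map_smul, hlam]
    rcases eq_or_ne i a with rfl | hia
    · have : h.cmp i ((refl Q x : V ≃ₗ[F] V) y) ≠ 0 := by
        rw [hcmp, hya, sub_ne_zero]; exact hind lam
      exact ⟨this, hσa.symm ▸ this⟩
    refine ⟨by rw [hcmp, hyz i hia hix, zero_sub, neg_ne_zero]; exact smul_ne_zero hlam0 hix, ?_⟩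
    rw [hcmp, hdis i hia hix, smul_zero, sub_zero, hyc, hy₁o i hia]
    exact fun h0 => hix ((g : V ≃ₗ[F] V).injective (by rw [h0, map_zero]))
  -- from two to three components
  have hanis : ∀ {x}, InC M D c x → ∃ a, Q (h.cmp a x) ≠ 0 := fun {x} hx => by
    by_contra hc'
    push Not at hc'
    exact hc (by rw [← hx.1, h.map_eq_sum]; exact Finset.sum_eq_zero fun i _ => hc' i)
  have grow1 : ∀ {x}, InC M D c x → 2 ≤ (supp x).card → (supp x).card < t →
      ∃ x', InC M D c x' ∧ 3 ≤ (supp x').card := by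
    intro x hx hx2 hlt
    obtain ⟨a, ha⟩ := hanis hx
    obtain ⟨l, hl, hla⟩ := Finset.exists_mem_ne (by omega : 1 < (supp x).card) a
    obtain ⟨n, -, hnn⟩ := Finset.exists_mem_notMem_of_card_lt_card
      (t := (Finset.univ : Finset (Fin t))) (s := supp x) (by simpa using hlt)
    have hln : l ≠ n := fun he => hnn (he ▸ hl)
    have hax : a ∈ supp x := hmem.2 fun h0 => ha (by rw [h0, QuadraticMap.map_zero])
    have hna : n ≠ a := fun he => hnn (he ▸ hax)
    by_cases h3 : 3 ≤ (supp x).card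
    · exact ⟨x, hx, h3⟩
    have hsub : ({a, l} : Finset (Fin t)) = supp x := Finset.eq_of_subset_of_card_le
      (by simp [Finset.insert_subset_iff, hax, hl])
      (by rw [Finset.card_pair (Ne.symm hla)]; omega)
    obtain ⟨g, hg, hfix, hmap⟩ := exists_swap h hn le_rfl hln
    obtain ⟨x', hx', hin⟩ := step hx a ha g (Equiv.swap l n)
      (hM g hg fun i => ⟨_, hmap i⟩) hmap (Equiv.swap_apply_of_ne_of_ne (Ne.symm hla) (Ne.symm hna))
      (hfix a (Ne.symm hla) (Ne.symm hna)) (fun i hia hix => by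
        have : i ∈ ({a, l} : Finset (Fin t)) := hsub ▸ hmem.2 hix
        rcases Finset.mem_insert.1 this with rfl | h'
        · exact absurd rfl hia
        · rw [Finset.mem_singleton.1 h', Equiv.swap_apply_left]
          exact not_not.1 (mt hmem.2 hnn)) hlt
    refine ⟨x', hx', ?_⟩
    have h3' : ({a, l, n} : Finset (Fin t)) ⊆ supp x' := by
      simp only [Finset.insert_subset_iff, Finset.singleton_subset_iff, hmem]
      refine ⟨(hin a (hmem.1 hax)).1, (hin l (hmem.1 hl)).1, ?_⟩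
      have := (hin l (hmem.1 hl)).2
      rwa [Equiv.swap_apply_left] at this
    have := Finset.card_le_card h3'
    rwa [Finset.card_eq_three.2 ⟨a, l, n, Ne.symm hla, Ne.symm hna, hln, rfl⟩] at this
  -- from three to five components
  have grow2 : ∀ {x}, InC M D c x → (supp x).card = 3 →
      ∃ x', InC M D c x' ∧ 4 ≤ (supp x').card := by
    intro x hx h3
    obtain ⟨a, ha⟩ := hanis hx
    have hax : a ∈ supp x := hmem.2 fun h0 => ha (by rw [h0, QuadraticMap.map_zero])
    obtain ⟨l, m, hlm, he⟩ := Finset.card_eq_two.1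
      (show ((supp x).erase a).card = 2 by rw [Finset.card_erase_of_mem hax, h3])
    have hl : l ∈ (supp x).erase a := by rw [he]; simp
    have hm : m ∈ (supp x).erase a := by rw [he]; simp
    rw [Finset.mem_erase] at hl hm
    obtain ⟨n, -, hnn⟩ := Finset.exists_mem_notMem_of_card_lt_card
      (t := (Finset.univ : Finset (Fin t))) (s := supp x) (by simp; omega)
    obtain ⟨n', -, hnn'⟩ := Finset.exists_mem_notMem_of_card_lt_card
      (t := (Finset.univ : Finset (Fin t))) (s := insert n (supp x))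
      (by rw [Finset.card_insert_of_notMem hnn]; simp; omega)
    simp only [Finset.mem_insert, not_or] at hnn'
    have hln : l ≠ n := fun e => hnn (e ▸ hl.2)
    have hmn : m ≠ n' := fun e => hnn'.2 (e ▸ hm.2)
    have hln' : l ≠ n' := fun e => hnn'.2 (e ▸ hl.2)
    have hmn' : m ≠ n := fun e => hnn (e ▸ hm.2)
    have hna : n ≠ a := fun e => hnn (e ▸ hax)
    have hna' : n' ≠ a := fun e => hnn'.2 (e ▸ hax)
    obtain ⟨g, hg, hfix, hmap⟩ := exists_swap h hn le_rfl hln
    obtain ⟨g', hg', hfix', hmap'⟩ := exists_swap h hn le_rfl hmn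
    set σ : Equiv.Perm (Fin t) := (Equiv.swap m n').trans (Equiv.swap l n) with hσ
    have hσl : σ l = n := by
      rw [hσ, Equiv.trans_apply, Equiv.swap_apply_of_ne_of_ne hlm hln', Equiv.swap_apply_left]
    have hσm : σ m = n' := by
      rw [hσ, Equiv.trans_apply, Equiv.swap_apply_left,
        Equiv.swap_apply_of_ne_of_ne (Ne.symm hln') hnn'.1]
    obtain ⟨x', hx', hin⟩ := step hx a ha (g * g') σ
      (mul_mem (hM g hg fun i => ⟨_, hmap i⟩) (hM g' hg' fun i => ⟨_, hmap' i⟩))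
      (fun i y hy => by rw [orth_mul_apply]; exact hmap _ _ (hmap' i y hy))
      (by rw [hσ, Equiv.trans_apply, Equiv.swap_apply_of_ne_of_ne (Ne.symm hm.1) (Ne.symm hna'),
        Equiv.swap_apply_of_ne_of_ne (Ne.symm hl.1) (Ne.symm hna)])
      (fun y hy => by
        rw [orth_mul_apply, hfix' a (Ne.symm hm.1) (Ne.symm hna') y hy,
          hfix a (Ne.symm hl.1) (Ne.symm hna) y hy])
      (fun i hia hix => by
        have : i ∈ ({l, m} : Finset (Fin t)) := he ▸ Finset.mem_erase.2 ⟨hia, hmem.2 hix⟩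
        rcases Finset.mem_insert.1 this with rfl | h'
        · rw [hσl]; exact not_not.1 (mt hmem.2 hnn)
        · rw [Finset.mem_singleton.1 h', hσm]; exact not_not.1 (mt hmem.2 hnn'.2))
      (by omega)
    refine ⟨x', hx', ?_⟩
    have h4 : insert n (supp x) ⊆ supp x' := by
      intro i hi
      rcases Finset.mem_insert.1 hi with rfl | hi
      · have := (hin l (hmem.1 hl.2)).2; rw [hσl] at this; exact hmem.2 this
      · exact hmem.2 (hin i (hmem.1 hi)).1
    have := Finset.card_le_card h4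
    rw [Finset.card_insert_of_notMem hnn] at this
    omega
  have hfin : ∀ {x}, InC M D c x → 4 ≤ (supp x).card →
      ∃ z', InC M D c z' ∧ ∃ s : Finset (Fin t), 4 ≤ s.card ∧ ∀ i ∈ s, h.cmp i z' ≠ 0 :=
    fun hx h4 => ⟨_, hx, _, h4, fun i hi => hmem.1 hi⟩
  have hz2 := h2 (by rw [hz.1]; exact hc) hout
  by_cases h4 : 4 ≤ (supp z).card
  · exact hfin hz h4
  obtain ⟨x, hx, hx3⟩ := grow1 hz hz2 (by omega)
  by_cases h4' : 4 ≤ (supp x).card
  · exact hfin hx h4'
  obtain ⟨y, hy, hy4⟩ := grow2 hx (by omega)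
  exact hfin hy hy4

end Cfsg.Agent.H5
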