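import Cfsg.Agent.H5.DecTwoPlane

/-!
Products of two reflections preserving a decomposition into planes.
-/

set_option autoImplicit false

namespace Cfsg.Agent.H5

open QuadraticMap hiding sq

variable {F V : Type*} [Field F] [AddCommGroup V] [Module F V] [FiniteDimensional F V]
  {Q : QuadraticForm F V} {t : ℕ} {D : Fin t → Submodule F V}

theorem eq_of_polar_eq (hQ : (polarBilin Q).Nondegenerate) {x y : V}
    (h : ∀ z, polar Q x z = polar Q y z) : x = y :=
  sub_eq_zero.1 (H4.eq_zero_of_polar hQ fun z => by rw [polar_sub_left, h z, sub_self])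

theorem OrthDec.polar_ext (h : OrthDec Q 2 D) {x y : V}
    (he : ∀ l, ∀ v ∈ D l, polar Q x v = polar Q y v) : x = y := by
  refine sub_eq_zero.1 (h.eq_zero_of_perp fun l => mem_perp.2 fun v hv => ?_)
  rw [polar_comm, polar_sub_left, he l v hv, sub_self]

omit [FiniteDimensional F V] in
theorem refl_mul_refl_apply {a b : V} (hq : Q a = Q b) (v : V) :
    ((refl Q a * refl Q b : orth Q) : V ≃ₗ[F] V) v = v - ((Q b)⁻¹ * polar Q a v) • a -
      ((Q b)⁻¹ * polar Q b v) • (b - ((Q b)⁻¹ * polar Q a b) • a) := by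
  rw [orth_mul_apply, refl_apply Q b, map_sub, map_smul, refl_apply, refl_apply, hq]

omit [FiniteDimensional F V] in
theorem refl_mul_refl_sub_mem {a b : V} (hq : Q a = Q b) (v : V) :
    ((refl Q a * refl Q b : orth Q) : V ≃ₗ[F] V) v - v ∈
      Submodule.span F {a} ⊔ Submodule.span F {b} := by
  have e : ∀ A B : V, v - A - B - v = -(A + B) := fun A B => by abel
  rw [refl_mul_refl_apply hq, e]
  exact neg_mem (add_mem (Submodule.mem_sup_left (Submodule.smul_mem _ _
    (Submodule.mem_span_singleton_self a))) (Submodule.smul_mem _ _ (sub_mem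
      (Submodule.mem_sup_right (Submodule.mem_span_singleton_self b))
      (Submodule.mem_sup_left (Submodule.smul_mem _ _ (Submodule.mem_span_singleton_self a))))))

/-- The identity forced when a reflection pair fixes each member. -/
theorem pair_identity (h : OrthDec Q 2 D) {a b : V} (hq : Q a = Q b) (hb : Q b ≠ 0)
    (hfix : ∀ l, ∀ v ∈ D l, ((refl Q a * refl Q b : orth Q) : V ≃ₗ[F] V) v ∈ D l) {l r : Fin t}
    (hlr : l ≠ r) {v w : V} (hv : v ∈ D l) (hw : w ∈ D r) :
    polar Q a v * polar Q a w + polar Q b v * polar Q b w =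
      (Q b)⁻¹ * polar Q a b * (polar Q b v * polar Q a w) := by
  have h1 := h.polar_zero (Ne.symm hlr) hw (sub_mem (hfix l v hv) hv)
  rw [refl_mul_refl_apply hq] at h1
  simp only [sub_eq_add_neg, polar_add_right, polar_neg_right, polar_smul_right, smul_eq_mul,
    polar_comm (⇑Q) w a, polar_comm (⇑Q) w b, polar_comm (⇑Q) w v] at h1
  field_simp at h1 ⊢
  linear_combination -h1

/-- A reflection pair moving a member lies in that member and its image. -/
theorem pair_moved (h : OrthDec Q 2 D) {a b : V} (hq : Q a = Q b) {l p : Fin t} (hlp : p ≠ l)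
    (hmap : ∀ v ∈ D l, ((refl Q a * refl Q b : orth Q) : V ≃ₗ[F] V) v ∈ D p) :
    ∀ y ∈ Submodule.span F {a} ⊔ Submodule.span F {b},
      ∃ v ∈ D l, y = ((refl Q a * refl Q b : orth Q) : V ≃ₗ[F] V) v - v := by
  set x := (refl Q a * refl Q b : orth Q) with hx
  set G := Submodule.span F {a} ⊔ Submodule.span F {b} with hG
  have hres : ∀ v, (x : V ≃ₗ[F] V) v - v ∈ G := refl_mul_refl_sub_mem hq
  let L : D l →ₗ[F] G := ((dLin x).comp (D l).subtype).codRestrict G fun v => hres v
  have hinj : Function.Injective L := (injective_iff_map_eq_zero L).2 fun v hv => by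
    have h1 : (x : V ≃ₗ[F] V) (v : V) - (v : V) = 0 := congrArg Subtype.val hv
    exact Subtype.ext (h.eq_zero_of_mem (Ne.symm hlp) v.2
      (by simpa [sub_eq_zero.1 h1] using hmap v v.2))
  have hdim : Module.finrank F G ≤ 2 := by
    refine (Submodule.finrank_add_le_finrank_add_finrank _ _).trans ?_
    have h5 : ∀ z : V, Module.finrank F (Submodule.span F {z}) ≤ 1 := fun z => by
      simpa using finrank_span_le_card ({z} : Set V)
    have := h5 a; have := h5 b; omega
  have hdim' : Module.finrank F (D l) = Module.finrank F G := by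
    have := LinearMap.finrank_le_finrank_of_injective hinj
    rw [h.finrank_eq] at this ⊢
    omega
  intro y hy
  obtain ⟨v, hv⟩ := ((LinearMap.injective_iff_surjective_of_finrank_eq_finrank hdim').1 hinj) ⟨y, hy⟩
  exact ⟨v, v.2, (congrArg Subtype.val hv).symm⟩

/-- A rotation preserving the decomposition has a member as its plane. -/
theorem rotation_member (h : OrthDec Q 2 D) {a b : V} (hq : Q a = Q b) (hb : Q b ≠ 0)
    (hind : ∀ s : F, b ≠ s • a) (hab : polar Q a b ≠ 0)
    (hP : PresD D (refl Q a * refl Q b)) : ∃ m, a ∈ D m ∧ b ∈ D m := by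
  set x := (refl Q a * refl Q b : orth Q) with hx
  by_cases hfix : ∀ l, ∀ v ∈ D l, (x : V ≃ₗ[F] V) v ∈ D l
  · have hid : ∀ {l r : Fin t}, l ≠ r → ∀ {v w : V}, v ∈ D l → w ∈ D r →
        polar Q b v * polar Q a w = polar Q a v * polar Q b w := by
      intro l r hlr v w hv hw
      have h1 := pair_identity h hq hb hfix hlr hv hw
      have h2 := pair_identity h hq hb hfix (Ne.symm hlr) hw hv
      refine mul_left_cancel₀ (mul_ne_zero (inv_ne_zero hb) hab) ?_
      linear_combination h2 - h1
    by_cases hex : ∃ l, ∃ v ∈ D l, ∃ v' ∈ D l,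
        polar Q b v * polar Q a v' ≠ polar Q a v * polar Q b v'
    · obtain ⟨l, v, hv, v', hv', hne⟩ := hex
      have hz : ∀ r, r ≠ l → ∀ w ∈ D r, polar Q a w = 0 ∧ polar Q b w = 0 := by
        intro r hr w hw
        have e1 := hid (Ne.symm hr) hv hw
        have e2 := hid (Ne.symm hr) hv' hw
        refine ⟨?_, ?_⟩
        · refine (mul_eq_zero.1 (?_ : (polar Q b v * polar Q a v' - polar Q a v * polar Q b v') *
            polar Q a w = 0)).resolve_left (sub_ne_zero.2 hne)
          linear_combination polar Q a v' * e1 - polar Q a v * e2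
        · refine (mul_eq_zero.1 (?_ : (polar Q b v * polar Q a v' - polar Q a v * polar Q b v') *
            polar Q b w = 0)).resolve_left (sub_ne_zero.2 hne)
          linear_combination polar Q b v' * e1 - polar Q b v * e2
      have hcmp : ∀ c : V, (∀ r, r ≠ l → ∀ w ∈ D r, polar Q c w = 0) → c ∈ D l := fun c hc =>
        h.mem_of_cmp fun r hr => h.cmp_perp (mem_perp.2 fun w hw => by
          rw [polar_comm]; exact hc r hr w hw)
      exact ⟨l, hcmp a fun r hr w hw => (hz r hr w hw).1, hcmp b fun r hr w hw => (hz r hr w hw).2⟩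
    · exfalso
      push Not at hex
      have hall : ∀ l, ∀ v ∈ D l, ∀ y, polar Q b v * polar Q a y = polar Q a v * polar Q b y := by
        intro l v hv y
        rw [← h.sum_cmp y, ← QuadraticMap.polarBilin_apply_apply, ← QuadraticMap.polarBilin_apply_apply,
          ← QuadraticMap.polarBilin_apply_apply, ← QuadraticMap.polarBilin_apply_apply, map_sum,
          map_sum, Finset.mul_sum, Finset.mul_sum]
        refine Finset.sum_congr rfl fun r _ => ?_
        simp only [QuadraticMap.polarBilin_apply_apply]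
        by_cases hlr : l = r
        · exact hex l v hv _ (hlr ▸ h.cmp_mem r y)
        · exact hid hlr hv (h.cmp_mem r y)
      obtain ⟨y, hy⟩ : ∃ y, polar Q a y = 1 := exists_polar_eq_one h.nondeg fun h0 => hab
        (by rw [h0, polar_zero_left])
      refine hind (polar Q b y) (h.polar_ext fun l v hv => ?_)
      rw [polar_smul_left, smul_eq_mul]
      have := hall l v hv y
      rw [hy, mul_one] at this
      rw [this]; ring
  · exfalso
    push Not at hfix
    obtain ⟨l, v₀, hv₀, hnot⟩ := hfix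
    obtain ⟨p, hp⟩ := hP l
    have hpl : p ≠ l := fun he => hnot (he ▸ hp v₀ hv₀)
    have hG := pair_moved h hq hpl hp
    rw [← hx] at hG
    have hres : ∀ v, (x : V ≃ₗ[F] V) v - v ∈ Submodule.span F {a} ⊔ Submodule.span F {b} :=
      refl_mul_refl_sub_mem hq
    have hinv : ∀ v ∈ D l, (x : V ≃ₗ[F] V) ((x : V ≃ₗ[F] V) v) = v := by
      intro v hv
      by_cases hv0 : v = 0
      · simp [hv0]
      obtain ⟨r, hr⟩ := hP p
      have hw := hp v hv
      have hrp : r ≠ p := by
        intro hrp
        obtain ⟨v', hv', he⟩ := hG _ (hres ((x : V ≃ₗ[F] V) v))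
        have e1 := congrArg (h.cmp l) he
        rw [map_sub, map_sub, h.cmp_other (Ne.symm hpl) hw, h.cmp_other (Ne.symm hpl) (hrp ▸ hr _ hw),
          h.cmp_same hv', h.cmp_other (Ne.symm hpl) (hp v' hv'), sub_zero, zero_sub, eq_comm,
          neg_eq_zero] at e1
        rw [e1, map_zero, sub_zero, sub_eq_zero] at he
        exact hv0 (h.eq_zero_of_mem (Ne.symm hpl) hv (by
          have := (x : V ≃ₗ[F] V).injective he
          rw [← this]; exact hw))
      obtain ⟨v', hv', he⟩ := hG _ (hres ((x : V ≃ₗ[F] V) v))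
      have e1 := congrArg (h.cmp p) he
      rw [map_sub, map_sub, h.cmp_other (Ne.symm hrp) (hr _ hw), h.cmp_same hw, h.cmp_other hpl hv',
        h.cmp_same (hp v' hv'), sub_zero, zero_sub, ← map_neg] at e1
      have e2 := (x : V ≃ₗ[F] V).injective e1
      rw [← e2, map_neg, sub_neg_eq_add, neg_add_eq_sub, sub_eq_sub_iff_add_eq_add] at he
      linear_combination (norm := abel) he
    obtain ⟨v, hv, ha⟩ := hG a (Submodule.mem_sup_left (Submodule.mem_span_singleton_self a))
    have hxx : (x : V ≃ₗ[F] V) ((x : V ≃ₗ[F] V) a) = a := by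
      rw [ha, map_sub, map_sub, hinv v hv]
    set s := (Q b)⁻¹ * polar Q a b with hs
    have hs0 : s ≠ 0 := mul_ne_zero (inv_ne_zero hb) hab
    have hxa : (x : V ≃ₗ[F] V) a = (s * s - 1) • a - s • b := by
      rw [hx, refl_mul_refl_apply hq, polar_self', hq, polar_comm (⇑Q) b a, ← hs,
        show (Q b)⁻¹ * (2 * Q b) = 2 by field_simp]
      module
    have hxb : (x : V ≃ₗ[F] V) b = s • a - b := by
      rw [hx, refl_mul_refl_apply hq, polar_self', ← hs,
        show (Q b)⁻¹ * (2 * Q b) = 2 by field_simp]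
      module
    rw [hxa, map_sub, map_smul, map_smul, hxa, hxb] at hxx
    have hlin : ∀ A B : F, A • a + B • b = 0 → A = 0 ∧ B = 0 := by
      intro A B hAB
      have hB : B = 0 := by
        by_contra hB
        exact hind (-(B⁻¹ * A)) (by
          rw [neg_smul, mul_smul, eq_neg_of_add_eq_zero_left hAB, smul_neg, neg_neg,
            inv_smul_smul₀ hB])
      refine ⟨?_, hB⟩
      rw [hB, zero_smul, add_zero, smul_eq_zero] at hAB
      exact hAB.resolve_right fun h0 => hab (by rw [h0, polar_zero_left])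
    obtain ⟨eA, eB⟩ := hlin ((s * s - 1) * (s * s - 1) - s * s - 1) (-((s * s - 1) * s) + s) (by
      rw [← sub_eq_zero] at hxx
      rw [← hxx]; module)
    have e2 : s * s = 2 := mul_left_cancel₀ hs0 (by linear_combination -eB)
    have h20 : (2 : F) = 0 := by linear_combination -eA + (s * s - 1) * e2
    rw [h20] at e2
    exact hs0 (mul_self_eq_zero.1 e2)

/-- An orthogonal reflection pair preserving the decomposition misses a member. -/
theorem exists_member_perp_of_pair (h : OrthDec Q 2 D) (ht : 3 ≤ t) {a b : V} (hq : Q a = Q b)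
    (hb : Q b ≠ 0) (hind : ∀ s : F, b ≠ s • a) (hab : polar Q a b = 0)
    (hP : PresD D (refl Q a * refl Q b)) : ∃ m, h.cmp m a = 0 := by
  classical
  set x := (refl Q a * refl Q b : orth Q) with hx
  by_cases hfix : ∀ l, ∀ v ∈ D l, (x : V ≃ₗ[F] V) v ∈ D l
  · by_contra hcon
    push Not at hcon
    have hid : ∀ {l r : Fin t}, l ≠ r → ∀ {v w : V}, v ∈ D l → w ∈ D r →
        polar Q a v * polar Q a w + polar Q b v * polar Q b w = 0 := by
      intro l r hlr v w hv hw
      rw [pair_identity h hq hb hfix hlr hv hw, hab, mul_zero, zero_mul]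
    have href : ∀ m, ∃ w ∈ D m, polar Q a w = 1 := by
      intro m
      obtain ⟨w, hw, hne⟩ : ∃ w ∈ D m, polar Q a w ≠ 0 := by
        by_contra hc
        push Not at hc
        exact hcon m (h.cmp_perp (mem_perp.2 fun w hw => by rw [polar_comm]; exact hc w hw))
      exact ⟨(polar Q a w)⁻¹ • w, (D m).smul_mem _ hw,
        by rw [polar_smul_right, smul_eq_mul, inv_mul_cancel₀ hne]⟩
    choose w hw hw1 using href
    have hprod : ∀ {i j : Fin t}, i ≠ j → polar Q b (w i) * polar Q b (w j) = -1 := fun {i j} hij => by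
      have := hid hij (hw i) (hw j)
      rw [hw1, hw1, one_mul] at this
      linear_combination this
    obtain ⟨i, j, r, hij, hir, hjr⟩ : ∃ i j r : Fin t, i ≠ j ∧ i ≠ r ∧ j ≠ r :=
      ⟨⟨0, by omega⟩, ⟨1, by omega⟩, ⟨2, by omega⟩, by simp, by simp, by simp⟩
    set β := polar Q b (w i) with hβ
    have hb0 : β ≠ 0 := fun h0 => by
      have := hprod hij; rw [← hβ, h0, zero_mul] at this; exact one_ne_zero (neg_eq_zero.1 this.symm)
    have ej : polar Q b (w j) = β := by
      have h1 := hprod (Ne.symm hir); have h2 := hprod (Ne.symm hij); have h3 := hprod hjr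
      have h4 := hprod hir; have h5 := hprod hij
      rw [← hβ] at h4 h5
      have hr0 : polar Q b (w r) ≠ 0 := fun h0 => by
        rw [h0, mul_zero] at h4; exact one_ne_zero (neg_eq_zero.1 h4.symm)
      exact mul_right_cancel₀ hr0 (by rw [h3, h4])
    have hβ2 : β * β = -1 := by
      have := hprod hij; rw [← hβ, ej] at this; exact this
    refine hind β (h.polar_ext fun l v hv => ?_)
    rw [polar_smul_left, smul_eq_mul]
    rcases eq_or_ne l i with rfl | hli
    · have := hid hij hv (hw j)
      rw [hw1, mul_one, ej] at this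
      linear_combination -β * this + polar Q b v * hβ2
    · have := hid hli hv (hw i)
      rw [hw1, mul_one, ← hβ] at this
      linear_combination -β * this + polar Q b v * hβ2
  · push Not at hfix
    obtain ⟨l, v₀, hv₀, hnot⟩ := hfix
    obtain ⟨p, hp⟩ := hP l
    have hpl : p ≠ l := fun he => hnot (he ▸ hp v₀ hv₀)
    obtain ⟨v, hv, ha⟩ := pair_moved h hq hpl hp a
      (Submodule.mem_sup_left (Submodule.mem_span_singleton_self a))
    obtain ⟨m, -, hm⟩ := Finset.exists_mem_notMem_of_card_lt_card (t := (Finset.univ : Finset (Fin t)))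
      (s := ({l, p} : Finset (Fin t))) (lt_of_le_of_lt Finset.card_le_two (by simp; omega))
    simp only [Finset.mem_insert, Finset.mem_singleton, not_or] at hm
    exact ⟨m, by rw [ha, map_sub, h.cmp_other hm.2 (hp v hv), h.cmp_other hm.1 hv, sub_zero]⟩

variable [Finite F]

/-- Uniform values on perps inside the members. -/
theorem exists_perp_value (h : OrthDec Q 2 D) (hP : ∀ i, GoodPlane Q (D i)) (ht : 1 ≤ t) :
    ∃ d : F, d ≠ 0 ∧ ∀ l, ∀ z ∈ D l, ∃ u ∈ D l, polar Q z u = 0 ∧ Q u = d * Q z ∧ (z ≠ 0 → u ≠ 0) := by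
  by_cases h2 : (2 : F) = 0
  · exact ⟨1, one_ne_zero, fun l z hz => ⟨z, hz, by rw [polar_self', h2, zero_mul], (one_mul _).symm, id⟩⟩
  set l₀ : Fin t := ⟨0, ht⟩
  obtain ⟨u, hu, hqu⟩ := exists_anisotropic (hP l₀).inf_perp (by rw [h.finrank_eq]; omega)
  have hu0 : u ≠ 0 := fun h0 => hqu (by rw [h0, QuadraticMap.map_zero])
  obtain ⟨w, hw, hw0, huw⟩ := (hP l₀).exists_perp h.nondeg hu hu0
  have hwi : ∀ s : F, w ≠ s • u := fun s hs => by
    rw [hs, polar_smul_right, polar_self', smul_eq_mul] at huw
    have : s = 0 := (mul_eq_zero.1 huw).resolve_right (mul_ne_zero h2 hqu)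
    exact hw0 (by rw [hs, this, zero_smul])
  have hqw : Q w ≠ 0 := fun h0 =>
    hw0 ((hP l₀).eq_zero hu hw hu0 hwi hw huw (by rw [polar_self', h0, mul_zero]))
  refine ⟨Q u * Q w, mul_ne_zero hqu hqw, fun l z hz => ?_⟩
  obtain ⟨φ, hφ⟩ := h.isom l₀ l
  set u' := (φ ⟨u, hu⟩ : V) with hu'
  set w' := (φ ⟨w, hw⟩ : V) with hw'
  have qu : Q u' = Q u := hφ _
  have qw : Q w' = Q w := hφ _
  have huw' : polar Q u' w' = 0 := by
    rw [hu', hw', ← huw]
    simp only [QuadraticMap.polar]
    rw [← Submodule.coe_add, ← map_add, hφ, hφ, hφ]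
    rfl
  obtain ⟨α, β, hab⟩ : ∃ α β : F, z = α • u' + β • w' := by
    obtain ⟨α, β, hab⟩ := mem_pair_span (h.finrank_eq l₀) hu hw hu0 hwi (φ.symm ⟨z, hz⟩).2
    exact ⟨α, β, by
      have : (⟨z, hz⟩ : D l) = α • φ ⟨u, hu⟩ + β • φ ⟨w, hw⟩ := by
        apply φ.symm.injective
        apply Subtype.ext
        simp [hab]
      exact congrArg Subtype.val this⟩
  refine ⟨(-(β * Q w)) • u' + (α * Q u) • w',
    add_mem ((D l).smul_mem _ (φ _).2) ((D l).smul_mem _ (φ _).2), ?_, ?_, ?_⟩
  · rw [hab]
    simp [polar_add_left, polar_add_right, polar_smul_left, polar_smul_right, polar_self', qu, qw,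
      huw', polar_comm (⇑Q) w' u']
    ring
  · rw [hab, map_smul_add_smul, map_smul_add_smul, qu, qw, huw']
    ring
  · intro hz0 h0
    have e1 := congrArg (polar Q u') h0
    have e2 := congrArg (polar Q w') h0
    simp [polar_add_right, polar_smul_right, polar_self', qu, qw, huw', polar_comm (⇑Q) w' u', h2,
      hqu, hqw] at e1 e2
    exact hz0 (by rw [hab, e1, e2]; simp)

end Cfsg.Agent.H5
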