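import Cfsg.Agent.H5.DecBasic
import Mathlib.FieldTheory.Finite.Basic

/-!
Facts about non-degenerate planes used for decompositions into planes.
-/

set_option autoImplicit false

namespace Cfsg.Agent.H5

open QuadraticMap hiding sq

variable {F : Type*} [Field F] [Finite F]

omit [Finite F] in
/-- A non-zero polynomial of degree at most two has at most two roots. -/
theorem card_le_two_of_quad_roots {A B C : F} (h : A ≠ 0 ∨ B ≠ 0 ∨ C ≠ 0) {s : Finset F}
    (hs : ∀ x ∈ s, A * x ^ 2 + B * x + C = 0) : s.card ≤ 2 := by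
  by_contra hcard
  obtain ⟨x, hx, y, hy, z, hz, hxy, hxz, hyz⟩ := Finset.two_lt_card.1 (by omega : 2 < s.card)
  have h1 : A * (x + y) + B = 0 := mul_left_cancel₀ (sub_ne_zero.2 hxy)
    (by linear_combination hs x hx - hs y hy)
  have h2 : A * (x + z) + B = 0 := mul_left_cancel₀ (sub_ne_zero.2 hxz)
    (by linear_combination hs x hx - hs z hz)
  have hA : A = 0 := mul_left_cancel₀ (sub_ne_zero.2 hyz) (by linear_combination h1 - h2)
  have hB : B = 0 := by rw [hA] at h1; simpa using h1
  have hC : C = 0 := by have := hs x hx; rw [hA, hB] at this; simpa using this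
  rcases h with h | h | h <;> exact h ‹_›

/-- A field element outside a small set. -/
theorem exists_not_mem_of_card {s : Finset F} {m : ℕ} (hs : s.card ≤ m) (hm : m < Nat.card F) :
    ∃ x, x ∉ s := by
  haveI := Fintype.ofFinite F
  by_contra hc
  push Not at hc
  have := Finset.card_le_card (s := Finset.univ) (t := s) fun x _ => hc x
  rw [Finset.card_univ, ← Nat.card_eq_fintype_card] at this
  omega

variable {V : Type*} [AddCommGroup V] [Module F V] {Q : QuadraticForm F V}

/-- A non-degenerate plane, anisotropic over a field of order other than three, or over a field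
of order at least seven. -/
structure GoodPlane (Q : QuadraticForm F V) (W : Submodule F V) : Prop where
  inf_perp : W ⊓ perp Q W = ⊥
  finrank_eq : Module.finrank F W = 2
  cases : ((∀ x ∈ W, Q x = 0 → x = 0) ∧ Nat.card F ≠ 3) ∨ 7 ≤ Nat.card F

variable [FiniteDimensional F V] {W : Submodule F V}

omit [Finite F] in
theorem mem_pair_span (h2 : Module.finrank F W = 2) {u v : V} (hu : u ∈ W) (hv : v ∈ W)
    (hu0 : u ≠ 0) (hind : ∀ s : F, v ≠ s • u) {x : V} (hx : x ∈ W) :
    ∃ α β : F, x = α • u + β • v := by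
  have hnm : v ∉ Submodule.span F {u} := fun hm => by
    obtain ⟨s, hs⟩ := Submodule.mem_span_singleton.1 hm
    exact hind s hs.symm
  have he : Submodule.span F {u} ⊔ Submodule.span F {v} = W := by
    refine Submodule.eq_of_le_of_finrank_eq (sup_le ((Submodule.span_singleton_le_iff_mem _ _).2 hu)
      ((Submodule.span_singleton_le_iff_mem _ _).2 hv)) ?_
    rw [Submodule.finrank_sup_span_singleton hnm, finrank_span_singleton hu0, h2]
  rw [← he] at hx
  obtain ⟨p, hp, r, hr, rfl⟩ := Submodule.mem_sup.1 hx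
  obtain ⟨α, rfl⟩ := Submodule.mem_span_singleton.1 hp
  obtain ⟨β, rfl⟩ := Submodule.mem_span_singleton.1 hr
  exact ⟨α, β, rfl⟩

omit [Finite F] in
theorem GoodPlane.eq_zero (hW : GoodPlane Q W) {u v : V} (hu : u ∈ W) (hv : v ∈ W) (hu0 : u ≠ 0)
    (hind : ∀ s : F, v ≠ s • u) {x : V} (hx : x ∈ W) (h1 : polar Q u x = 0)
    (h2 : polar Q v x = 0) : x = 0 := by
  refine eq_zero_of_mem_mem hW.inf_perp hx (mem_perp.2 fun w hw => ?_)
  obtain ⟨α, β, rfl⟩ := mem_pair_span hW.finrank_eq hu hv hu0 hind hw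
  simp [polar_add_left, polar_smul_left, h1, h2]

omit [Finite F] in
theorem GoodPlane.exists_pair (hW : GoodPlane Q W) {u : V} (hu : u ∈ W) (hu0 : u ≠ 0) :
    ∃ w ∈ W, polar Q u w = 1 := by
  obtain ⟨w, hw, hne⟩ : ∃ w ∈ W, polar Q u w ≠ 0 := by
    by_contra hc
    push Not at hc
    exact hu0 (eq_zero_of_mem_mem hW.inf_perp hu
      (mem_perp.2 fun r hr => by rw [polar_comm]; exact hc r hr))
  exact ⟨(polar Q u w)⁻¹ • w, W.smul_mem _ hw,
    by rw [polar_smul_right, smul_eq_mul, inv_mul_cancel₀ hne]⟩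

omit [Finite F] in
theorem GoodPlane.exists_perp (hQ : (polarBilin Q).Nondegenerate) (hW : GoodPlane Q W) {u : V}
    (hu : u ∈ W) (hu0 : u ≠ 0) : ∃ w ∈ W, w ≠ 0 ∧ polar Q u w = 0 := by
  have h1 := finrank_inf_perp_of_le (K := Submodule.span F {u}) hQ hW.inf_perp
    ((Submodule.span_singleton_le_iff_mem _ _).2 hu)
  rw [finrank_span_singleton hu0, hW.finrank_eq] at h1
  obtain ⟨w, hw, hw0⟩ := Submodule.exists_mem_ne_zero_of_ne_bot
    (p := W ⊓ perp Q (Submodule.span F {u})) fun hb => by rw [hb, finrank_bot] at h1; omega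
  exact ⟨w, hw.1, hw0, mem_perp_span.1 hw.2⟩

/-- An anisotropic vector pairing with a given one. -/
theorem GoodPlane.exists_anis_polar (hW : GoodPlane Q W) {u : V} (hu : u ∈ W) (hu0 : u ≠ 0) :
    ∃ x ∈ W, Q x ≠ 0 ∧ polar Q u x ≠ 0 := by
  classical
  by_cases hself : 2 * Q u = 0
  swap
  · exact ⟨u, hu, fun h => hself (by rw [h, mul_zero]), by rwa [polar_self']⟩
  obtain ⟨w, hw, huw⟩ := hW.exists_pair hu hu0
  rcases hW.cases with ⟨hanis, -⟩ | h7
  · exact ⟨w, hw, fun h => by rw [hanis w hw h, polar_zero_right] at huw; exact zero_ne_one huw,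
      by rw [huw]; exact one_ne_zero⟩
  haveI := Fintype.ofFinite F
  obtain ⟨y, hy⟩ := exists_not_mem_of_card (card_le_two_of_quad_roots (A := Q u) (B := 1) (C := Q w)
    (Or.inr (Or.inl one_ne_zero))
    (s := Finset.univ.filter fun y => Q u * y ^ 2 + 1 * y + Q w = 0)
    fun x hx => (Finset.mem_filter.1 hx).2) (by omega : 2 < Nat.card F)
  simp only [Finset.mem_filter, Finset.mem_univ, true_and] at hy
  refine ⟨w + y • u, add_mem hw (W.smul_mem _ hu), fun h => hy ?_, ?_⟩
  · rw [map_add_smul, polar_comm (⇑Q) w u, huw] at h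
    linear_combination h
  · rw [polar_add_right, polar_smul_right, polar_self', huw, hself, smul_zero, add_zero]
    exact one_ne_zero

/-- A second, independent and non-orthogonal vector of the same value. -/
theorem GoodPlane.exists_nonorth (hQ : (polarBilin Q).Nondegenerate) (hW : GoodPlane Q W) {u : V}
    (hu : u ∈ W) (hqu : Q u ≠ 0) :
    ∃ x ∈ W, Q x ≠ 0 ∧ polar Q u x ≠ 0 ∧ polar Q u ((refl Q x : V ≃ₗ[F] V) u) ≠ 0 ∧
      (refl Q x : V ≃ₗ[F] V) u ∈ W ∧ ∀ s : F, (refl Q x : V ≃ₗ[F] V) u ≠ s • u := by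
  classical
  haveI := Fintype.ofFinite F
  have hu0 : u ≠ 0 := fun h => hqu (by rw [h, QuadraticMap.map_zero])
  have hfin : ∀ {x : V}, x ∈ W → (∀ s : F, x ≠ s • u) → Q x ≠ 0 → polar Q u x ≠ 0 →
      2 * Q u * Q x ≠ polar Q u x * polar Q u x →
      ∃ x ∈ W, Q x ≠ 0 ∧ polar Q u x ≠ 0 ∧ polar Q u ((refl Q x : V ≃ₗ[F] V) u) ≠ 0 ∧
        (refl Q x : V ≃ₗ[F] V) u ∈ W ∧ ∀ s : F, (refl Q x : V ≃ₗ[F] V) u ≠ s • u := by
    intro x hx hxi hqx hux hne
    refine ⟨x, hx, hqx, hux, ?_, ?_, ?_⟩
    · rw [refl_apply, polar_sub_right, polar_smul_right, polar_self', polar_comm (⇑Q) x u,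
        smul_eq_mul, sub_ne_zero]
      intro h
      refine hne ?_
      rw [h]
      field_simp
    · rw [refl_apply]; exact sub_mem hu (W.smul_mem _ hx)
    · intro s h
      rw [refl_apply] at h
      have hc : (Q x)⁻¹ * polar Q x u ≠ 0 :=
        mul_ne_zero (inv_ne_zero hqx) (by rwa [polar_comm])
      refine hxi (((Q x)⁻¹ * polar Q x u)⁻¹ * (1 - s)) ?_
      have h1 : ((Q x)⁻¹ * polar Q x u) • x = (1 - s) • u := by
        rw [sub_smul, one_smul, ← h, sub_sub_cancel]
      rw [mul_smul, ← h1, inv_smul_smul₀ hc]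
  by_cases h2 : (2 : F) = 0
  · obtain ⟨x, hx, hqx, hux⟩ := hW.exists_anis_polar hu hu0
    refine hfin hx (fun s hs => hux ?_) hqx hux ?_
    · rw [hs, polar_smul_right, polar_self', h2, zero_mul, smul_zero]
    · rw [h2, zero_mul, zero_mul]
      exact (mul_ne_zero hux hux).symm
  obtain ⟨w, hw, hw0, huw⟩ := hW.exists_perp hQ hu hu0
  have hwi : ∀ s : F, w ≠ s • u := fun s hs => by
    rw [hs, polar_smul_right, polar_self', smul_eq_mul] at huw
    have : s = 0 := (mul_eq_zero.1 huw).resolve_right (mul_ne_zero h2 hqu)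
    exact hw0 (by rw [hs, this, zero_smul])
  have hqw : Q w ≠ 0 := fun h =>
    hw0 (hW.eq_zero hu hw hu0 hwi hw huw (by rw [polar_self', h, mul_zero]))
  suffices ∃ τ : F, τ ≠ 0 ∧ Q u * τ ^ 2 ≠ Q w ∧ Q u * τ ^ 2 ≠ -Q w by
    obtain ⟨τ, hτ, h1, h1'⟩ := this
    have hux : polar Q u (w + τ • u) = 2 * Q u * τ := by
      rw [polar_add_right, huw, polar_smul_right, polar_self', smul_eq_mul]; ring
    have hqx : Q (w + τ • u) = Q w + Q u * τ ^ 2 := by
      rw [map_add_smul, polar_comm (⇑Q) w u, huw]; ring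
    refine hfin (x := w + τ • u) (add_mem hw (W.smul_mem _ hu)) (fun s hs => ?_) ?_ ?_ ?_
    · exact hwi (s - τ) (by rw [sub_smul, ← hs, add_sub_cancel_right])
    · rw [hqx]; exact fun h => h1' (by linear_combination h)
    · rw [hux]; exact mul_ne_zero (mul_ne_zero h2 hqu) hτ
    · rw [hux, hqx]
      intro h
      refine h1 (mul_left_cancel₀ (mul_ne_zero h2 hqu) ?_)
      linear_combination -h
  rcases le_or_gt 7 (Nat.card F) with h7 | h7
  · have hcard : ((Finset.univ.filter fun τ : F => Q u * τ ^ 2 + 0 * τ + -Q w = 0) ∪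
        (Finset.univ.filter fun τ : F => Q u * τ ^ 2 + 0 * τ + Q w = 0) ∪ {0}).card ≤ 5 := by
      have e1 := card_le_two_of_quad_roots (A := Q u) (B := 0) (C := -Q w) (Or.inl hqu)
        (s := Finset.univ.filter fun τ => Q u * τ ^ 2 + 0 * τ + -Q w = 0)
        fun x hx => (Finset.mem_filter.1 hx).2
      have e2 := card_le_two_of_quad_roots (A := Q u) (B := 0) (C := Q w) (Or.inl hqu)
        (s := Finset.univ.filter fun τ => Q u * τ ^ 2 + 0 * τ + Q w = 0)
        fun x hx => (Finset.mem_filter.1 hx).2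
      refine (Finset.card_union_le _ _).trans ?_
      have e3 := Finset.card_union_le (Finset.univ.filter fun τ : F => Q u * τ ^ 2 + 0 * τ + -Q w = 0)
        (Finset.univ.filter fun τ : F => Q u * τ ^ 2 + 0 * τ + Q w = 0)
      rw [Finset.card_singleton]
      omega
    obtain ⟨τ, hτ⟩ := exists_not_mem_of_card hcard (by omega)
    simp only [Finset.mem_union, Finset.mem_filter, Finset.mem_univ, true_and,
      Finset.mem_singleton, not_or] at hτ
    exact ⟨τ, hτ.2, fun h => hτ.1.1 (by linear_combination h),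
      fun h => hτ.1.2 (by linear_combination h)⟩
  obtain ⟨hanis, hq3⟩ := hW.cases.resolve_right (by omega)
  have h5 : Nat.card F = 5 := by
    have hodd : Fintype.card F % 2 = 1 := FiniteField.odd_card_of_char_ne_two fun hc => h2 (by
      haveI : CharP F 2 := (ringChar.eq_iff).1 hc
      exact CharTwo.two_eq_zero)
    have h1 : 1 < Nat.card F := Finite.one_lt_card
    rw [← Nat.card_eq_fintype_card] at hodd
    omega
  have h50 : (5 : F) = 0 := by
    have := Nat.cast_card_eq_zero F
    rw [← Nat.card_eq_fintype_card, h5] at this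
    simpa using this
  refine ⟨1, one_ne_zero, fun h => ?_, fun h => ?_⟩
  · have h0 : Q (w + (2 : F) • u) = 0 := by
      rw [map_add_smul, polar_comm (⇑Q) w u, huw]
      linear_combination Q u * h50 - h
    exact hwi (-2) ((eq_neg_of_add_eq_zero_left
      (hanis _ (add_mem hw (W.smul_mem _ hu)) h0)).trans (neg_smul (2 : F) u).symm)
  · have h0 : Q (w + (1 : F) • u) = 0 := by
      rw [map_add_smul, polar_comm (⇑Q) w u, huw]
      linear_combination h
    exact hwi (-1) ((eq_neg_of_add_eq_zero_left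
      (hanis _ (add_mem hw (W.smul_mem _ hu)) h0)).trans (neg_smul (1 : F) u).symm)

omit [Finite F] in
/-- A product of two reflections in independent vectors of a plane fixes no vector of it. -/
theorem GoodPlane.rot_fix (hW : GoodPlane Q W) {u v : V} (hu : u ∈ W) (hv : v ∈ W) (hqu : Q u ≠ 0)
    (hqv : Q v ≠ 0) (hind : ∀ s : F, v ≠ s • u) {x : V} (hx : x ∈ W)
    (hfix : (refl Q u : V ≃ₗ[F] V) ((refl Q v : V ≃ₗ[F] V) x) = x) : x = 0 := by
  have hu0 : u ≠ 0 := fun h => hqu (by rw [h, QuadraticMap.map_zero])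
  have h1 : (refl Q v : V ≃ₗ[F] V) x = (refl Q u : V ≃ₗ[F] V) x := by
    conv_rhs => rw [← hfix, ← orth_mul_apply, refl_mul_self]
    rfl
  rw [refl_apply, refl_apply, sub_right_inj] at h1
  have hb : (Q v)⁻¹ * polar Q v x = 0 := by
    by_contra hb
    exact hind (((Q v)⁻¹ * polar Q v x)⁻¹ * ((Q u)⁻¹ * polar Q u x))
      (by rw [mul_smul, ← h1, inv_smul_smul₀ hb])
  rw [hb, zero_smul, eq_comm, smul_eq_zero] at h1
  refine hW.eq_zero hu hv hu0 hind hx ?_ ?_
  · simpa [hqu] using h1.resolve_right hu0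
  · simpa [hqv] using hb

/-- An additive subgroup of a plane invariant under its reflections is trivial or everything. -/
theorem GoodPlane.addSubgroup_eq (hQ : (polarBilin Q).Nondegenerate) (hW : GoodPlane Q W)
    (X : AddSubgroup V) (hXW : ∀ x ∈ X, x ∈ W)
    (hinv : ∀ v ∈ W, Q v ≠ 0 → ∀ x ∈ X, (refl Q v : V ≃ₗ[F] V) x ∈ X)
    {x₀ : V} (hx₀ : x₀ ∈ X) (hx₀0 : x₀ ≠ 0) : ∀ w ∈ W, w ∈ X := by
  classical
  haveI := Fintype.ofFinite F
  let K : Subring F :=
    { carrier := {s | ∀ x ∈ X, s • x ∈ X}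
      one_mem' := fun x hx => by rw [one_smul]; exact hx
      mul_mem' := fun {a b} ha hb x hx => by rw [mul_smul]; exact ha _ (hb x hx)
      zero_mem' := fun x _ => by rw [zero_smul]; exact X.zero_mem
      add_mem' := fun {a b} ha hb x hx => by rw [add_smul]; exact X.add_mem (ha x hx) (hb x hx)
      neg_mem' := fun {a} ha x hx => by rw [neg_smul]; exact X.neg_mem (ha x hx) }
  have hinvK : ∀ k ∈ K, k⁻¹ ∈ K := by
    intro k hk
    by_cases hk0 : k = 0
    · rw [hk0, inv_zero]; exact K.zero_mem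
    have h1 : k⁻¹ = k ^ (Fintype.card F - 2) := by
      refine inv_eq_of_mul_eq_one_right ?_
      rw [← pow_succ', show Fintype.card F - 2 + 1 = Fintype.card F - 1 by
        have : 1 < Fintype.card F := Fintype.one_lt_card; omega]
      exact FiniteField.pow_card_sub_one_eq_one k hk0
    rw [h1]; exact pow_mem hk _
  have hτ : ∀ u ∈ W, ∀ v ∈ W, Q u ≠ 0 → Q v ≠ 0 → (∀ s : F, v ≠ s • u) →
      (Q u * Q v)⁻¹ * (polar Q u v * polar Q u v) ∈ K := by
    intro u hu v hv hqu hqv hind
    have hu0 : u ≠ 0 := fun h => hqu (by rw [h, QuadraticMap.map_zero])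
    have hmem : (Q u * Q v)⁻¹ * (polar Q u v * polar Q u v) - 2 ∈ K := by
      intro x hx
      obtain ⟨α, β, hab⟩ := mem_pair_span hW.finrank_eq hu hv hu0 hind (hXW x hx)
      have h := X.add_mem (hinv u hu hqu _ (hinv v hv hqv x hx))
        (hinv v hv hqv _ (hinv u hu hqu x hx))
      convert h using 1
      rw [hab]
      simp only [map_add, map_smul, refl_apply, map_sub, polar_self', polar_comm (⇑Q) v u]
      match_scalars <;> field_simp <;> ring
    have h2 : (2 : F) ∈ K := by rw [← one_add_one_eq_two]; exact K.add_mem K.one_mem K.one_mem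
    simpa using K.add_mem hmem h2
  have hall : ∀ s : F, s ∈ K := by
    obtain ⟨u, hu, hqu⟩ := exists_anisotropic hW.inf_perp (by rw [hW.finrank_eq]; omega)
    have hu0 : u ≠ 0 := fun h => hqu (by rw [h, QuadraticMap.map_zero])
    by_cases h2 : (2 : F) = 0
    · obtain ⟨w, hw, huw⟩ := hW.exists_pair hu hu0
      have hind : ∀ s y : F, w + y • u ≠ s • u := fun s y h => by
        have := congrArg (polar Q u) h
        rw [polar_add_right, polar_smul_right, polar_smul_right, huw, polar_self', h2, zero_mul,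
          smul_zero, smul_zero, add_zero] at this
        exact one_ne_zero this
      have hval : ∀ y : F, Q (w + y • u) = Q w + y + Q u * y ^ 2 := fun y => by
        rw [map_add_smul, polar_comm (⇑Q) w u, huw]; ring
      have hK : ∀ Y : F, Q u * Q w + Y + Y ^ 2 ∈ K := by
        intro Y
        have e : Q u * Q w + Y + Y ^ 2 = Q u * Q (w + (Y / Q u) • u) := by
          rw [hval]; field_simp
        rw [e]
        by_cases h0 : Q (w + (Y / Q u) • u) = 0
        · rw [h0, mul_zero]; exact K.zero_mem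
        have h1 := hτ u hu _ (add_mem hw (W.smul_mem _ hu)) hqu h0 fun s => hind s _
        rw [polar_add_right, polar_smul_right, huw, polar_self', h2, zero_mul, smul_zero, add_zero,
          mul_one, mul_one] at h1
        simpa using hinvK _ h1
      have h0 : Q u * Q w ∈ K := by simpa using hK 0
      have hsq : ∀ Y : F, Y + Y ^ 2 ∈ K := fun Y => by
        have h := K.sub_mem (hK Y) h0
        rwa [show Q u * Q w + Y + Y ^ 2 - Q u * Q w = Y + Y ^ 2 by ring] at h
      by_cases hk : ∃ k ∈ K, k ≠ 0 ∧ k ≠ 1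
      · obtain ⟨k, hk, hk0, hk1⟩ := hk
        have hne : k * k - k ≠ 0 := by
          rw [show k * k - k = k * (k - 1) by ring]
          exact mul_ne_zero hk0 (sub_ne_zero.2 hk1)
        have hd : ∀ Y : F, Y ^ 2 ∈ K := fun Y => by
          have := K.sub_mem (hsq (k * Y)) (K.mul_mem hk (hsq Y))
          have e : k * Y + (k * Y) ^ 2 - k * (Y + Y ^ 2) = (k * k - k) * Y ^ 2 := by ring
          rw [e] at this
          have h' := K.mul_mem (hinvK _ (K.sub_mem (K.mul_mem hk hk) hk)) this
          rwa [inv_mul_cancel_left₀ hne] at h'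
        intro Y
        simpa using K.sub_mem (hsq Y) (hd Y)
      push Not at hk
      intro s
      by_contra hs
      have hs01 : s ≠ 0 ∧ s ≠ 1 :=
        ⟨fun h => hs (h ▸ K.zero_mem), fun h => hs (h ▸ K.one_mem)⟩
      have hroot : ∀ Y : F, Y ≠ 0 → Y ≠ 1 → Y + Y ^ 2 = 1 := by
        intro Y hY0 hY1
        refine hk _ (hsq Y) fun h => ?_
        have : Y * (Y + 1) = 0 := by linear_combination h
        rcases mul_eq_zero.1 this with h' | h'
        exacts [hY0 h', hY1 (by linear_combination h' - h2)]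
      have hq : Nat.card F ≤ 4 := by
        have hsub : (Finset.univ : Finset F) ⊆
            (Finset.univ.filter fun Y : F => 1 * Y ^ 2 + 1 * Y + -1 = 0) ∪ {0, 1} := by
          intro Y _
          by_cases hY : Y = 0 ∨ Y = 1
          · exact Finset.mem_union_right _ (by simpa using hY)
          · push Not at hY
            exact Finset.mem_union_left _ (Finset.mem_filter.2 ⟨Finset.mem_univ _,
              by linear_combination hroot Y hY.1 hY.2⟩)
        have := (Finset.card_le_card hsub).trans (Finset.card_union_le _ _)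
        have e1 := card_le_two_of_quad_roots (A := (1 : F)) (B := 1) (C := -1) (Or.inl one_ne_zero)
          (s := Finset.univ.filter fun Y : F => 1 * Y ^ 2 + 1 * Y + -1 = 0)
          fun x hx => (Finset.mem_filter.1 hx).2
        have e2 : ({0, 1} : Finset F).card ≤ 2 := Finset.card_le_two
        rw [Finset.card_univ, ← Nat.card_eq_fintype_card] at this
        omega
      obtain ⟨hanis, -⟩ := hW.cases.resolve_right (by omega)
      rcases eq_or_ne (Q u * Q w) 0 with h' | h'
      · have hw0 := hanis w hw ((mul_eq_zero.1 h').resolve_left hqu)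
        rw [hw0, polar_zero_right] at huw
        exact zero_ne_one huw
      · have hc := hk _ h0 h'
        have hz : Q u * Q (w + (s / Q u) • u) = 0 := by
          rw [hval]; field_simp
          linear_combination hc + hroot s hs01.1 hs01.2 + h2
        exact hind 0 _ ((hanis _ (add_mem hw (W.smul_mem _ hu))
          ((mul_eq_zero.1 hz).resolve_left hqu)).trans (zero_smul F u).symm)
    · obtain ⟨w, hw, hw0, huw⟩ := hW.exists_perp hQ hu hu0
      have hwi : ∀ s : F, w ≠ s • u := fun s hs => by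
        rw [hs, polar_smul_right, polar_self', smul_eq_mul] at huw
        have : s = 0 := (mul_eq_zero.1 huw).resolve_right (mul_ne_zero h2 hqu)
        exact hw0 (by rw [hs, this, zero_smul])
      have hqw : Q w ≠ 0 := fun h =>
        hw0 (hW.eq_zero hu hw hu0 hwi hw huw (by rw [polar_self', h, mul_zero]))
      have h4 : (4 : F) ∈ K := natCast_mem K 4
      have hey : ∀ y : F, Q w / Q u * y ^ 2 ∈ K := by
        intro y
        rcases eq_or_ne y 0 with rfl | hy
        · simpa using K.zero_mem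
        have hval : Q (u + y • w) = Q u + Q w * y ^ 2 := by
          rw [map_add_smul, huw]; ring
        by_cases h0 : Q (u + y • w) = 0
        · have e : Q w / Q u * y ^ 2 = -1 := by
            rw [hval] at h0
            field_simp
            linear_combination h0
          rw [e]; exact K.neg_mem K.one_mem
        have h1 := hτ u hu _ (add_mem hu (W.smul_mem _ hw)) hqu h0 fun s hs => hwi (y⁻¹ * (s - 1))
          (by rw [mul_smul, sub_smul, one_smul, ← hs, add_sub_cancel_left, inv_smul_smul₀ hy])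
        have h4' : (4 : F) ≠ 0 := by
          rw [show (4 : F) = 2 * 2 by norm_num]; exact mul_ne_zero h2 h2
        have h3 := K.sub_mem (K.mul_mem h4 (hinvK _ h1)) K.one_mem
        rw [polar_add_right, polar_smul_right, huw, smul_zero, add_zero, polar_self', hval] at h3
        rw [hval] at h0
        convert h3 using 1
        field_simp
        ring
      have he : Q w / Q u ∈ K := by simpa using hey 1
      have hsq : ∀ y : F, y ^ 2 ∈ K := fun y => by
        have h := K.mul_mem (hinvK _ he) (hey y)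
        rwa [inv_mul_cancel_left₀ (div_ne_zero hqw hqu)] at h
      intro y
      have h2K : (2 : F) ∈ K := natCast_mem K 2
      have h := K.mul_mem (hinvK _ h2K)
        (K.sub_mem (K.sub_mem (hsq (y + 1)) (hsq y)) K.one_mem)
      convert h using 1
      field_simp
      ring
  -- the subgroup is a subspace invariant under the reflections
  by_contra hcon
  push Not at hcon
  obtain ⟨w, hw, hwX⟩ := hcon
  have hline : ∀ x ∈ X, ∃ s : F, x = s • x₀ := by
    intro x hx
    by_contra hn
    push Not at hn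
    obtain ⟨α, β, rfl⟩ := mem_pair_span hW.finrank_eq (hXW _ hx₀) (hXW x hx) hx₀0 hn hw
    exact hwX (X.add_mem (hall α _ hx₀) (hall β _ hx))
  obtain ⟨u, hu, hqu⟩ := exists_anisotropic hW.inf_perp (by rw [hW.finrank_eq]; omega)
  obtain ⟨x, hx, hqx, hux, hnon, hvW, hind⟩ := hW.exists_nonorth hQ hu hqu
  have hu0 : u ≠ 0 := fun h => hqu (by rw [h, QuadraticMap.map_zero])
  set v := (refl Q x : V ≃ₗ[F] V) u with hv
  have hqv : Q v ≠ 0 := by rw [hv, orth_map]; exact hqu
  have heig : ∀ a ∈ W, Q a ≠ 0 → (∃ s : F, a = s • x₀) ∨ polar Q a x₀ = 0 := by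
    intro a ha hqa
    by_cases hp : polar Q a x₀ = 0
    · exact Or.inr hp
    obtain ⟨s, hs⟩ := hline _ (X.sub_mem hx₀ (hinv a ha hqa _ hx₀))
    rw [refl_apply, sub_sub_cancel] at hs
    refine Or.inl ⟨((Q a)⁻¹ * polar Q a x₀)⁻¹ * s, ?_⟩
    rw [mul_smul, ← hs, inv_smul_smul₀ (mul_ne_zero (inv_ne_zero hqa) hp)]
  rcases heig u hu hqu with ⟨s, hs⟩ | hs <;> rcases heig v hvW hqv with ⟨r, hr⟩ | hr
  · have hs0 : s ≠ 0 := fun h => hu0 (by rw [hs, h, zero_smul])
    exact hind (r * s⁻¹) (by rw [hr, hs, smul_smul, mul_assoc, inv_mul_cancel₀ hs0, mul_one])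
  · exact hnon (by rw [hs, polar_smul_left, polar_comm (⇑Q) x₀ v, hr, smul_zero])
  · exact hnon (by rw [hr, polar_smul_right, hs, smul_zero])
  · exact hx₀0 (hW.eq_zero hu hvW hu0 hind (hXW _ hx₀) hs hr)

end Cfsg.Agent.H5
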