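import Cfsg.Agent.H5.DecTwoGrow
import Cfsg.Agent.H5.DecTwoChoice

/-!
Decompositions into planes: a root element built from a pairing vector.
-/

set_option autoImplicit false

namespace Cfsg.Agent.H5

open QuadraticMap hiding sq

variable {F V : Type*} [Field F] [AddCommGroup V] [Module F V] [FiniteDimensional F V]
  {Q : QuadraticForm F V} {t : ℕ} {D : Fin t → Submodule F V} {M : Subgroup (orth Q)}

/-- A pairing vector `z` and its translate by a singular vector avoiding the member `d`. -/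
structure RootSeed (h : OrthDec Q 2 D) (M : Subgroup (orth Q)) (c : F) (d : Fin t) (z ε : V) :
    Prop where
  inC : InC M D c z
  inC' : InC M D c (z - ε)
  sing : Q ε = 0
  polar_z : polar Q z ε = 0
  perp : h.cmp d ε = 0
  cmp_ne : h.cmp d z ≠ 0
  anis : ∃ a, Q (h.cmp a ε) ≠ 0
  mix : ∀ γ : F, γ ≠ 0 → ¬ IsSquare (γ / c) →
    ∃ i, i ≠ d ∧ ∃ u ∈ D i, Q u = γ ∧ polar Q u ε = 0

/-- Vectors with disjoint supports are orthogonal. -/
theorem polar_eq_zero_of_disjoint {k : ℕ} (h : OrthDec Q k D) {x y : V}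
    (hd : ∀ i, h.cmp i x = 0 ∨ h.cmp i y = 0) : polar Q x y = 0 := by
  conv_lhs => rw [← h.sum_cmp x]
  rw [← QuadraticMap.polarBilin_apply_apply, map_sum, LinearMap.sum_apply]
  refine Finset.sum_eq_zero fun i _ => ?_
  rw [QuadraticMap.polarBilin_apply_apply]
  rcases hd i with h0 | h0
  · rw [h0, polar_zero_left]
  · rw [← h.polar_cmp (h.cmp_mem i x), h0, polar_zero_right]

variable [Finite F] [Finite V] (h : OrthDec Q 2 D) (hP : ∀ i, GoodPlane Q (D i))
  (hn : 5 ≤ Module.finrank F V) (hM : ∀ g ∈ commutator (orth Q), PresD D g → g ∈ M)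

include h hP hn hM in
/-- Three components give an almost complete translate. -/
theorem exists_triple_step (h2 : (2 : F) ≠ 0) {c : F} (hc : c ≠ 0) {z : V} (hz : InC M D c z)
    {a b e : Fin t} (hab : a ≠ b) (hae : a ≠ e) (hbe : b ≠ e) (ha : h.cmp a z ≠ 0)
    (hb : h.cmp b z ≠ 0) (he : h.cmp e z ≠ 0) :
    ∃ ε₀ δ : V, ∃ l, (l = a ∨ l = b) ∧ δ ∈ D l ∧
      (∀ i, i ≠ a → i ≠ b → i ≠ e → h.cmp i ε₀ = 0) ∧ Q (ε₀ + δ) = 0 ∧
      polar Q z (ε₀ + δ) = 0 ∧ Q (h.cmp e (ε₀ + δ)) ≠ 0 ∧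
      IsSquare (Q (h.cmp e (ε₀ + δ)) / c) ∧
      (δ = 0 ∨ (Q δ ≠ 0 ∧ ¬ IsSquare (Q δ / c) ∧ polar Q δ z = Q δ ∧ h.cmp l ε₀ = 0)) ∧
      ∀ y, InC M D c y → h.cmp a y = h.cmp a z → h.cmp b y = h.cmp b z → h.cmp e y = h.cmp e z →
        InC M D c (y - ε₀) := by
  classical
  haveI := Fintype.ofFinite F
  obtain ⟨re, hre, hsq, δe, hδe, qe, pe, -⟩ :=
    (hP e).exists_choice_square h.nondeg (h.cmp_mem e z) he hc
  obtain ⟨Ra, hRa, hchA⟩ := (hP a).exists_choices h.nondeg h2 (h.cmp_mem a z) ha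
  obtain ⟨Rb, hRb, hchB⟩ := (hP b).exists_choices h.nondeg h2 (h.cmp_mem b z) hb
  obtain ⟨ra, hra, hrb⟩ : ∃ ra ∈ Ra, -re - ra ∈ Rb := by
    by_contra hcon
    push Not at hcon
    have hd : Disjoint Ra (Rb.image fun r => -re - r) := Finset.disjoint_left.2 fun x hx hx' => by
      obtain ⟨r, hr, rfl⟩ := Finset.mem_image.1 hx'
      exact hcon _ hx (by rwa [sub_sub_cancel])
    have h1 := Finset.card_le_univ (Ra ∪ Rb.image fun r => -re - r)
    rw [Finset.card_union_of_disjoint hd,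
      Finset.card_image_of_injective _ (fun x y hxy => sub_right_inj.1 hxy),
      ← Nat.card_eq_fintype_card] at h1
    omega
  obtain ⟨δa, hδa, qa, pa, za⟩ := hchA ra hra
  obtain ⟨δb, hδb, qb, pb, zb⟩ := hchB _ hrb
  set rb := -re - ra with hrbd
  rw [h.polar_cmp hδa] at pa
  rw [h.polar_cmp hδb] at pb
  rw [h.polar_cmp hδe] at pe
  have pab := h.polar_zero hab hδa hδb
  have pae := h.polar_zero hae hδa hδe
  have pbe := h.polar_zero hbe hδb hδe
  have hsum : Q (δa + δb + δe) = 0 := by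
    rw [QuadraticMap.map_add (⇑Q), QuadraticMap.map_add (⇑Q), polar_add_left, pab, pae, pbe, qa, qb,
      qe, hrbd]
    ring
  have hpz : polar Q z (δa + δb + δe) = 0 := by
    rw [polar_add_right, polar_add_right, polar_comm (⇑Q) z δa, polar_comm (⇑Q) z δb,
      polar_comm (⇑Q) z δe, pa, pb, pe, hrbd]
    ring
  have hca : ∀ i, i ≠ a → h.cmp i δa = 0 := fun i hi => h.cmp_other hi hδa
  have hcb : ∀ i, i ≠ b → h.cmp i δb = 0 := fun i hi => h.cmp_other hi hδb
  have hce : ∀ i, i ≠ e → h.cmp i δe = 0 := fun i hi => h.cmp_other hi hδe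
  have hee : h.cmp e (δa + δb + δe) = δe := by
    rw [map_add, map_add, hca e (Ne.symm hae), hcb e (Ne.symm hbe), h.cmp_same hδe, zero_add,
      zero_add]
  have hqe : Q (h.cmp e (δa + δb + δe)) ≠ 0 := by rw [hee, qe]; exact hre
  have hsqe : IsSquare (Q (h.cmp e (δa + δb + δe)) / c) := by rw [hee, qe]; exact hsq
  -- removal of the single vectors
  have hpol : ∀ {l : Fin t} {δ : V}, δ ∈ D l → ∀ {y}, h.cmp l y = h.cmp l z →
      polar Q δ y = polar Q δ z := fun hδ y hy => by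
    rw [← h.polar_cmp hδ, hy, h.polar_cmp hδ]
  have hstep : ∀ {y}, InC M D c y → h.cmp e y = h.cmp e z → InC M D c (y - δe) := fun hy hye =>
    inC_sub_single h hn hM hc hy hδe (by rw [qe]; exact hre) (by rw [qe]; exact hsq)
      (by rw [hpol hδe hye, pe, qe])
  have hone : ∀ {l : Fin t} {δ : V} {r : F}, δ ∈ D l → Q δ = r → polar Q δ z = r → (r = 0 → δ = 0) →
      (r = 0 ∨ IsSquare (r / c)) → ∀ {y}, InC M D c y → h.cmp l y = h.cmp l z →
      InC M D c (y - δ) := by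
    intro l δ r hδ hq hp hz0 hr y hy hyl
    by_cases h0 : r = 0
    · rw [hz0 h0, sub_zero]; exact hy
    · exact inC_sub_single h hn hM hc hy hδ (by rw [hq]; exact h0)
        (by rw [hq]; exact hr.resolve_left h0) (by rw [hpol hδ hyl, hp, hq])
  obtain ⟨u₀, hu₀, hq₀⟩ := exists_mem_norm_eq (h.inf_perp e) (by rw [h.finrank_eq]) c
  by_cases hA : ra = 0 ∨ IsSquare (ra / c) <;> by_cases hB : rb = 0 ∨ IsSquare (rb / c)
  · refine ⟨δa + δb + δe, 0, a, Or.inl rfl, Submodule.zero_mem _, fun i hia hib hie => ?_,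
      by rwa [add_zero], by rwa [add_zero], by rwa [add_zero], by rwa [add_zero], Or.inl rfl,
      fun y hy ya yb ye => ?_⟩
    · rw [map_add, map_add, hca i hia, hcb i hib, hce i hie, add_zero, add_zero]
    · have h1 := hone hδa qa pa za hA (hstep hy ye)
        (by rw [map_sub, hce a hae, sub_zero, ya])
      have h3 := hone hδb qb pb zb hB h1
        (by rw [map_sub, map_sub, hce b hbe, hca b (Ne.symm hab), sub_zero, sub_zero, yb])
      convert h3 using 1; abel
  · push Not at hB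
    refine ⟨δa + δe, δb, b, Or.inr rfl, hδb, fun i hia hib hie => ?_, ?_, ?_, ?_, ?_,
      Or.inr ⟨by rw [qb]; exact hB.1, by rw [qb]; exact hB.2, by rw [pb, qb], ?_⟩,
      fun y hy ya yb ye => ?_⟩
    · rw [map_add, hca i hia, hce i hie, add_zero]
    · rw [add_right_comm]; exact hsum
    · rw [add_right_comm]; exact hpz
    · rw [add_right_comm]; exact hqe
    · rw [add_right_comm]; exact hsqe
    · rw [map_add, hca b (Ne.symm hab), hce b hbe, add_zero]
    · have h1 := hone hδa qa pa za hA (hstep hy ye) (by rw [map_sub, hce a hae, sub_zero, ya])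
      convert h1 using 1; abel
  · push Not at hA
    refine ⟨δb + δe, δa, a, Or.inl rfl, hδa, fun i hia hib hie => ?_, ?_, ?_, ?_, ?_,
      Or.inr ⟨by rw [qa]; exact hA.1, by rw [qa]; exact hA.2, by rw [pa, qa], ?_⟩,
      fun y hy ya yb ye => ?_⟩
    · rw [map_add, hcb i hib, hce i hie, add_zero]
    · rw [add_comm, ← add_assoc]; exact hsum
    · rw [add_comm (δb + δe), ← add_assoc]; exact hpz
    · rw [add_comm (δb + δe), ← add_assoc]; exact hqe
    · rw [add_comm (δb + δe), ← add_assoc]; exact hsqe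
    · rw [map_add, hcb a hab, hce a hae, add_zero]
    · have h1 := hone hδb qb pb zb hB (hstep hy ye) (by rw [map_sub, hce b hbe, sub_zero, yb])
      convert h1 using 1; abel
  · push Not at hA hB
    refine ⟨δa + δb + δe, 0, a, Or.inl rfl, Submodule.zero_mem _, fun i hia hib hie => ?_,
      by rwa [add_zero], by rwa [add_zero], by rwa [add_zero], by rwa [add_zero], Or.inl rfl,
      fun y hy ya yb ye => ?_⟩
    · rw [map_add, map_add, hca i hia, hcb i hib, hce i hie, add_zero, add_zero]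
    · have h1 := inC_sub_pair h hn hM hc hu₀ hq₀ (hstep hy ye) hδa hδb (by rw [qa]; exact hA.1)
        (by rw [qb]; exact hB.1) (by rw [qa]; exact hA.2) (by rw [qb]; exact hB.2)
      have e1 : polar Q δb (y - δe) = rb := by
        rw [polar_sub_right, pbe, sub_zero, hpol hδb yb, pb]
      have e2 : polar Q δa (y - δe - δb) = ra := by
        rw [polar_sub_right, polar_sub_right, pae, pab, sub_zero, sub_zero, hpol hδa ya, pa]
      rw [refl_apply Q δb, qb, e1, inv_mul_cancel₀ hB.1, one_smul, refl_apply, qa, e2,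
        inv_mul_cancel₀ hA.1, one_smul] at h1
      convert h1 using 1; abel

include h hP hn hM in
/-- A root seed from a pairing vector outside every member. -/
theorem exists_rootSeed (ht : 5 ≤ t) {c : F} (hc : c ≠ 0) {z : V} (hz : InC M D c z)
    (hout : ∀ i, z ∉ D i) : ∃ d z ε, RootSeed h M c d z ε := by
  classical
  haveI := Fintype.ofFinite F
  obtain ⟨z, hz, s, hs4, hs⟩ := exists_inC_four h hP hn hM ht hc hz hout
  obtain ⟨a, ha, b, hb, e, he, hab, hae, hbe⟩ := Finset.two_lt_card.1 (by omega : 2 < s.card)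
  obtain ⟨d, hd, hdn⟩ := Finset.exists_mem_notMem_of_card_lt_card (t := s)
    (s := ({a, b, e} : Finset (Fin t))) (lt_of_le_of_lt Finset.card_le_three (by omega))
  simp only [Finset.mem_insert, Finset.mem_singleton, not_or] at hdn
  obtain ⟨hda, hdb, hde⟩ := hdn
  have hmix0 : ∀ {ε : V} {d p : Fin t}, p ≠ d → h.cmp p ε = 0 → ∀ γ : F, γ ≠ 0 → ¬ IsSquare (γ / c) →
      ∃ i, i ≠ d ∧ ∃ u ∈ D i, Q u = γ ∧ polar Q u ε = 0 := by
    intro ε d p hpd hp γ _ _
    obtain ⟨u, hu, hqu⟩ := exists_mem_norm_eq (h.inf_perp p) (by rw [h.finrank_eq]) γ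
    exact ⟨p, hpd, u, hu, hqu, by rw [← h.polar_cmp hu, hp, polar_zero_right]⟩
  by_cases h2 : (2 : F) = 0
  · haveI := CharTwo.of_one_ne_zero_of_two_eq_zero (R := F) one_ne_zero h2
    have hall : ∀ x : F, IsSquare x :=
      fun x => FiniteField.isSquare_of_char_two (ringChar.eq F 2) x
    obtain ⟨φ, hφ⟩ := h.isom b a
    obtain ⟨r, hr, ⟨δa, hδa, qa, pa, -⟩, ⟨δb, hδb, qb, pb, -⟩⟩ := (hP a).exists_common_choice
      (hP b) φ hφ h.nondeg h2 (h.cmp_mem a z) (hs a ha) (h.cmp_mem b z) (hs b hb)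
    rw [h.polar_cmp hδa] at pa
    rw [h.polar_cmp hδb] at pb
    have pab := h.polar_zero hab hδa hδb
    refine ⟨d, z, δa + δb, hz, ?_, ?_, ?_, ?_, hs d hd, ⟨a, ?_⟩, fun γ _ hns => absurd (hall _) hns⟩
    · have h1 := inC_sub_single h hn hM hc hz hδa (by rw [qa]; exact hr) (hall _) (by rw [pa, qa])
      have h3 := inC_sub_single h hn hM hc h1 hδb (by rw [qb]; exact hr) (hall _)
        (by rw [polar_sub_right, polar_comm (⇑Q) δb δa, pab, sub_zero, pb, qb])
      rw [← sub_sub]; exact h3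
    · rw [QuadraticMap.map_add (⇑Q), qa, qb, pab]; linear_combination r * h2
    · rw [polar_add_right, polar_comm (⇑Q) z δa, polar_comm (⇑Q) z δb, pa, pb]
      linear_combination r * h2
    · rw [map_add, h.cmp_other hda hδa, h.cmp_other hdb hδb, add_zero]
    · rw [map_add, h.cmp_same hδa, h.cmp_other hab hδb, add_zero, qa]; exact hr
  by_cases hfull : ∀ i, h.cmp i z ≠ 0
  swap
  · push Not at hfull
    obtain ⟨p, hp⟩ := hfull
    have hpn : ∀ i ∈ s, p ≠ i := fun i hi hpi => hs i hi (hpi ▸ hp)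
    obtain ⟨ε₀, δ, l, hl, hδ, h0, hq, hpz, hqe, -, hδ', hrem⟩ :=
      exists_triple_step h hP hn hM h2 hc hz hab hae hbe (hs a ha) (hs b hb) (hs e he)
    have hls : l ∈ s := by rcases hl with rfl | rfl <;> assumption
    have hε : ∀ i, i ≠ a → i ≠ b → i ≠ e → h.cmp i (ε₀ + δ) = 0 := fun i h1 h3 h4 => by
      rw [map_add, h0 i h1 h3 h4, h.cmp_other ?_ hδ, add_zero]
      rcases hl with rfl | rfl <;> assumption
    have hpε : h.cmp p (ε₀ + δ) = 0 := hε p (hpn a ha) (hpn b hb) (hpn e he)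
    refine ⟨d, z, ε₀ + δ, hz, ?_, hq, hpz, hε d hda hdb hde, hs d hd, ⟨e, hqe⟩,
      hmix0 (hpn d hd) hpε⟩
    have h1 := hrem z hz rfl rfl rfl
    rcases hδ' with rfl | ⟨hqδ, hns, hpδ, hlε⟩
    · rwa [add_zero]
    obtain ⟨u, hu, hqu⟩ := exists_mem_norm_eq (h.inf_perp p) (by rw [h.finrank_eq]) (Q δ)
    obtain ⟨u₀, hu₀, hq₀⟩ := exists_mem_norm_eq (h.inf_perp p) (by rw [h.finrank_eq]) c
    have h3 := inC_sub_pair h hn hM hc hu₀ hq₀ h1 hδ hu hqδ (by rw [hqu]; exact hqδ) hns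
      (by rw [hqu]; exact hns)
    have e1 : polar Q u (z - ε₀) = 0 := by
      rw [← h.polar_cmp hu, map_sub, hp, h0 p (hpn a ha) (hpn b hb) (hpn e he), sub_zero,
        polar_zero_right]
    rw [refl_apply_of_ortho e1, refl_apply, polar_sub_right, hpδ, ← h.polar_cmp hδ ε₀, hlε,
      polar_zero_right, sub_zero, inv_mul_cancel₀ hqδ, one_smul, sub_sub] at h3
    exact h3
  -- every component is non-zero
  obtain ⟨d₀, hd₀, hperp⟩ := exists_perp_value h hP (by omega)
  have hpair : ∀ a b : Fin t, ∃ r : F, r ≠ 0 ∧ ∃ δ ∈ D a, ∃ δ' ∈ D b, Q δ = r ∧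
      polar Q δ z = r ∧ Q δ' = -r ∧ polar Q δ' z = -r := by
    intro a b
    suffices ∃ r : F, r ≠ 0 ∧ Choice Q (D a) (h.cmp a z) r ∧ Choice Q (D b) (h.cmp b z) (-r) by
      obtain ⟨r, hr, ⟨δ, hδ, q₁, p₁, -⟩, ⟨δ', hδ', q₂, p₂, -⟩⟩ := this
      rw [h.polar_cmp hδ] at p₁
      rw [h.polar_cmp hδ'] at p₂
      exact ⟨r, hr, δ, hδ, δ', hδ', q₁, p₁, q₂, p₂⟩
    by_cases hqa : Q (h.cmp a z) = 0
    · obtain ⟨r, hr, -, hch⟩ := (hP b).exists_choice_square h.nondeg (h.cmp_mem b z) (hfull b) hc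
      exact ⟨-r, neg_ne_zero.2 hr, (hP a).choice_singular (h.cmp_mem a z) (hfull a) hqa _,
        by rwa [neg_neg]⟩
    by_cases hqb : Q (h.cmp b z) = 0
    · obtain ⟨r, hr, -, hch⟩ := (hP a).exists_choice_square h.nondeg (h.cmp_mem a z) (hfull a) hc
      exact ⟨r, hr, hch, (hP b).choice_singular (h.cmp_mem b z) (hfull b) hqb _⟩
    have hchoice : ∀ l, Q (h.cmp l z) ≠ 0 → ∀ x : F, 1 + d₀ * x ^ 2 ≠ 0 →
        Choice Q (D l) (h.cmp l z) (4 * Q (h.cmp l z) / (1 + d₀ * x ^ 2)) := by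
      intro l hql x hx
      obtain ⟨w, hw, huw, hqw, -⟩ := hperp l _ (h.cmp_mem l z)
      set u := h.cmp l z
      refine ⟨(2 / (1 + d₀ * x ^ 2)) • (u + x • w), (D l).smul_mem _ (add_mem (h.cmp_mem l z)
        ((D l).smul_mem _ hw)), ?_, ?_, fun h0 => absurd h0 (div_ne_zero ?_ hx)⟩
      · rw [QuadraticMap.map_smul, map_add_smul, hqw, huw, smul_eq_mul]
        field_simp
        ring
      · rw [polar_smul_left, polar_add_left, polar_smul_left, polar_self', polar_comm (⇑Q) w u, huw]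
        simp only [smul_eq_mul]
        ring
      · rw [show (4 : F) = 2 * 2 by norm_num]
        exact mul_ne_zero (mul_ne_zero h2 h2) hql
    set A := Q (h.cmp a z)
    set B := Q (h.cmp b z)
    suffices ∃ x y : F, 1 + d₀ * x ^ 2 ≠ 0 ∧ 1 + d₀ * y ^ 2 ≠ 0 ∧
        A * (1 + d₀ * y ^ 2) + B * (1 + d₀ * x ^ 2) = 0 by
      obtain ⟨x, y, hx, hy, hxy⟩ := this
      refine ⟨_, div_ne_zero ?_ hx, hchoice a hqa x hx, ?_⟩
      · rw [show (4 : F) = 2 * 2 by norm_num]
        exact mul_ne_zero (mul_ne_zero h2 h2) hqa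
      · convert hchoice b hqb y hy using 1
        rw [← neg_div, div_eq_div_iff hx hy]
        linear_combination (-4) * hxy
    by_cases hi : ∃ i : F, 1 + d₀ * i ^ 2 = 0
    · obtain ⟨i, hi⟩ := hi
      have h7 : 7 ≤ Nat.card F := by
        refine (hP a).cases.resolve_left fun hanis => ?_
        obtain ⟨w, hw, huw, hqw, -⟩ := hperp a _ (h.cmp_mem a z)
        have h0 := hanis.1 _ (add_mem (h.cmp_mem a z) ((D a).smul_mem i hw)) (by
          rw [map_add_smul, hqw, huw]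
          linear_combination A * hi)
        have h1 := congrArg (polar Q (h.cmp a z)) h0
        rw [polar_add_right, polar_smul_right, huw, smul_zero, add_zero, polar_self',
          polar_zero_right] at h1
        exact mul_ne_zero h2 hqa h1
      have hi0 : i ≠ 0 := by rintro rfl; simp at hi
      have hb5 : (({0, 1, -A / B} : Finset F) ∪
          Finset.univ.filter fun m => B * m ^ 2 + 0 * m + A = 0).card ≤ 5 := by
        refine (Finset.card_union_le _ _).trans ?_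
        have := Finset.card_le_three (a := (0 : F)) (b := 1) (c := -A / B)
        have := card_le_two_of_quad_roots (A := B) (B := 0) (C := A) (Or.inl hqb)
          (s := Finset.univ.filter fun m => B * m ^ 2 + 0 * m + A = 0)
          fun m hm => (Finset.mem_filter.1 hm).2
        omega
      obtain ⟨m, hm⟩ := exists_not_mem_of_card hb5 (by omega)
      simp only [Finset.mem_union, Finset.mem_insert, Finset.mem_singleton, Finset.mem_filter,
        Finset.mem_univ, true_and, not_or] at hm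
      obtain ⟨⟨hm0, hm1, hm2⟩, hm3⟩ := hm
      have hN : A + m ^ 2 * B ≠ 0 := fun h0 => hm3 (by linear_combination h0)
      have hK : A + m * B ≠ 0 := fun h0 => hm2 (by field_simp; linear_combination h0)
      set τ := -2 * i * (A + m * B) / (A + m ^ 2 * B) with hτ
      have hτe : τ * (A + m ^ 2 * B) = -2 * i * (A + m * B) := by rw [hτ, div_mul_cancel₀ _ hN]
      have hτ0 : τ ≠ 0 := div_ne_zero
        (mul_ne_zero (mul_ne_zero (neg_ne_zero.2 h2) hi0) hK) hN
      refine ⟨i + m * τ, i + τ, fun h0 => ?_, fun h0 => ?_, ?_⟩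
      · have h1 : d₀ * (m * τ) * (2 * i + m * τ) = 0 := by linear_combination h0 - hi
        have h3 := (mul_eq_zero.1 h1).resolve_left (mul_ne_zero hd₀ (mul_ne_zero hm0 hτ0))
        have h4 : 2 * i * A * (1 - m) = 0 := by
          linear_combination (A + m ^ 2 * B) * h3 - m * hτe
        exact mul_ne_zero (mul_ne_zero (mul_ne_zero h2 hi0) hqa) (sub_ne_zero.2 (Ne.symm hm1)) h4
      · have h1 : d₀ * τ * (2 * i + τ) = 0 := by linear_combination h0 - hi
        have h3 := (mul_eq_zero.1 h1).resolve_left (mul_ne_zero hd₀ hτ0)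
        have h4 : 2 * i * B * m * (m - 1) = 0 := by
          linear_combination (A + m ^ 2 * B) * h3 - hτe
        exact mul_ne_zero (mul_ne_zero (mul_ne_zero (mul_ne_zero h2 hi0) hqb) hm0)
          (sub_ne_zero.2 hm1) h4
      · linear_combination (A + B) * hi + d₀ * τ * hτe
    · push Not at hi
      have hodd : Fintype.card F % 2 = 1 := FiniteField.odd_card_of_char_ne_two fun hcF => h2 (by
        haveI : CharP F 2 := (ringChar.eq_iff).1 hcF
        exact CharTwo.two_eq_zero)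
      obtain ⟨x, y, hxy⟩ := FiniteField.exists_root_sum_quadratic
        (f := (Polynomial.C (d₀ * B) * Polynomial.X ^ 2 + Polynomial.C (A + B) : Polynomial F))
        (g := (Polynomial.C (d₀ * A) * Polynomial.X ^ 2 + Polynomial.C 0 : Polynomial F))
        (by compute_degree!) (by compute_degree!) hodd
      refine ⟨x, y, hi x, hi y, ?_⟩
      simp at hxy
      linear_combination hxy
  let ι : Fin 5 → Fin t := Fin.castLE ht
  have hι : ∀ {i j : Fin 5}, i ≠ j → ι i ≠ ι j := fun hij h0 => hij (Fin.castLE_injective ht h0)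
  obtain ⟨u₀, hu₀, hq₀⟩ := exists_mem_norm_eq (h.inf_perp (ι 4)) (by rw [h.finrank_eq]) c
  have hsub2 : ∀ {l l' : Fin t} {y δ δ' : V}, InC M D c y → l ≠ l' → δ ∈ D l → δ' ∈ D l' → Q δ ≠ 0 →
      Q δ' ≠ 0 → ¬ IsSquare (Q δ / c) → ¬ IsSquare (Q δ' / c) → polar Q δ y = Q δ →
      polar Q δ' y = Q δ' → InC M D c (y - δ - δ') := by
    intro l l' y δ δ' hy hll hδ hδ' q q' n n' p p'
    have h1 := inC_sub_pair h hn hM hc hu₀ hq₀ hy hδ hδ' q q' n n'
    rw [refl_apply Q δ', p', inv_mul_cancel₀ q', one_smul, refl_apply, polar_sub_right, p,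
      h.polar_zero hll hδ hδ', sub_zero, inv_mul_cancel₀ q, one_smul] at h1
    convert h1 using 1
    abel
  by_cases hneg : IsSquare (-1 : F)
  · obtain ⟨r, hr, δ, hδ, δ', hδ', q₁, p₁, q₂, p₂⟩ := hpair (ι 0) (ι 1)
    have h01 := hι (show (0 : Fin 5) ≠ 1 by decide)
    have hsame : IsSquare (Q δ' / c) ↔ IsSquare (Q δ / c) := by
      rw [q₁, q₂]
      constructor <;> intro hh <;> [(have := hneg.mul hh); (have := hneg.mul hh)]
      · rwa [show (-1 : F) * (-r / c) = r / c by ring] at this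
      · rwa [show (-1 : F) * (r / c) = -r / c by ring] at this
    have hq' : Q δ' ≠ 0 := by rw [q₂]; exact neg_ne_zero.2 hr
    have hcd : ∀ i, i ≠ ι 0 → i ≠ ι 1 → h.cmp i (δ + δ') = 0 := fun i h1 h3 => by
      rw [map_add, h.cmp_other h1 hδ, h.cmp_other h3 hδ', add_zero]
    refine ⟨ι 4, z, δ + δ', hz, ?_, ?_, ?_, hcd _ (hι (by decide)) (hι (by decide)), hfull _,
      ⟨ι 0, ?_⟩, hmix0 (hι (show (3 : Fin 5) ≠ 4 by decide)) (hcd _ (hι (by decide)) (hι (by decide)))⟩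
    · rw [← sub_sub]
      by_cases hs1 : IsSquare (Q δ / c)
      · have h1 := inC_sub_single h hn hM hc hz hδ (by rw [q₁]; exact hr) hs1 (by rw [p₁, q₁])
        exact inC_sub_single h hn hM hc h1 hδ' hq' (hsame.2 hs1) (by
          rw [polar_sub_right, p₂, polar_comm (⇑Q) δ' δ, h.polar_zero h01 hδ hδ', sub_zero, q₂])
      · exact hsub2 hz h01 hδ hδ' (by rw [q₁]; exact hr) hq' hs1 (fun hh => hs1 (hsame.1 hh))
          (by rw [p₁, q₁]) (by rw [p₂, q₂])
    · rw [QuadraticMap.map_add (⇑Q), q₁, q₂, h.polar_zero h01 hδ hδ']; ring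
    · rw [polar_add_right, polar_comm (⇑Q) z δ, polar_comm (⇑Q) z δ', p₁, p₂]; ring
    · rw [map_add, h.cmp_same hδ, h.cmp_other h01 hδ', add_zero, q₁]; exact hr
  -- minus one is not a square: each pair has both classes
  have hsorted : ∀ a b : Fin t, a ≠ b → ∃ l l', (l = a ∧ l' = b ∨ l = b ∧ l' = a) ∧
      ∃ δ ∈ D l, ∃ δ' ∈ D l', Q δ ≠ 0 ∧ IsSquare (Q δ / c) ∧ polar Q δ z = Q δ ∧
        ¬ IsSquare (Q δ' / c) ∧ polar Q δ' z = Q δ' ∧ Q δ' = -Q δ := by
    intro a b hab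
    obtain ⟨r, hr, δ, hδ, δ', hδ', q₁, p₁, q₂, p₂⟩ := hpair a b
    by_cases hs : IsSquare (r / c)
    · refine ⟨a, b, Or.inl ⟨rfl, rfl⟩, δ, hδ, δ', hδ', by rw [q₁]; exact hr, by rwa [q₁],
        by rw [p₁, q₁], fun hh => hneg ?_, by rw [p₂, q₂], by rw [q₁, q₂]⟩
      rw [q₂] at hh
      have := hh.div hs
      rwa [show -r / c / (r / c) = (-1 : F) by field_simp] at this
    · refine ⟨b, a, Or.inr ⟨rfl, rfl⟩, δ', hδ', δ, hδ, by rw [q₂]; exact neg_ne_zero.2 hr, ?_,
        by rw [p₂, q₂], by rwa [q₁], by rw [p₁, q₁], by rw [q₁, q₂, neg_neg]⟩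
      have hm := H4.isSquare_mul_of_not hneg hs
      rwa [show (-1 : F) * (r / c) = -r / c by ring, ← q₂] at hm
  obtain ⟨a, b, hab', δa, hδa, δb, hδb, qa, sa, pa, nb, pb, eab⟩ :=
    hsorted (ι 0) (ι 1) (hι (by decide))
  obtain ⟨e, f, hef', δe, hδe, δf, hδf, qe, se, pe, nf, pf, eef⟩ :=
    hsorted (ι 2) (ι 3) (hι (by decide))
  have hne : a ≠ b ∧ a ≠ e ∧ a ≠ f ∧ b ≠ e ∧ b ≠ f ∧ e ≠ f ∧ ι 4 ≠ a ∧ ι 4 ≠ b ∧ ι 4 ≠ e ∧
      ι 4 ≠ f := by
    rcases hab' with ⟨rfl, rfl⟩ | ⟨rfl, rfl⟩ <;> rcases hef' with ⟨rfl, rfl⟩ | ⟨rfl, rfl⟩ <;>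
      refine ⟨?_, ?_, ?_, ?_, ?_, ?_, ?_, ?_, ?_, ?_⟩ <;> exact hι (by decide)
  obtain ⟨hab, hae, haf, hbe, hbf, hef, h4a, h4b, h4e, h4f⟩ := hne
  set ε := δa + δe + δb + δf with hε
  have hεcmp : ∀ i, h.cmp i ε = h.cmp i δa + h.cmp i δe + h.cmp i δb + h.cmp i δf := fun i => by
    rw [hε, map_add, map_add, map_add]
  have hεa : h.cmp a ε = δa := by
    rw [hεcmp, h.cmp_same hδa, h.cmp_other hae hδe, h.cmp_other hab hδb, h.cmp_other haf hδf]
    simp
  have hεb : h.cmp b ε = δb := by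
    rw [hεcmp, h.cmp_same hδb, h.cmp_other (Ne.symm hab) hδa, h.cmp_other hbe hδe,
      h.cmp_other hbf hδf]
    simp
  refine ⟨ι 4, z, ε, hz, ?_, ?_, ?_, ?_, hfull _, ⟨a, by rw [hεa]; exact qa⟩, fun γ hγ hns => ?_⟩
  · have h1 := inC_sub_single h hn hM hc hz hδa qa sa pa
    have h3 := inC_sub_single h hn hM hc h1 hδe qe se (by
      rw [polar_sub_right, pe, h.polar_zero (Ne.symm hae) hδe hδa, sub_zero])
    have h5 := hsub2 h3 hbf hδb hδf (by rw [eab]; exact neg_ne_zero.2 qa)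
      (by rw [eef]; exact neg_ne_zero.2 qe) nb nf
      (by rw [polar_sub_right, polar_sub_right, pb, h.polar_zero (Ne.symm hab) hδb hδa,
        h.polar_zero hbe hδb hδe, sub_zero, sub_zero])
      (by rw [polar_sub_right, polar_sub_right, pf, h.polar_zero (Ne.symm haf) hδf hδa,
        h.polar_zero (Ne.symm hef) hδf hδe, sub_zero, sub_zero])
    convert h5 using 1
    rw [hε]; abel
  · rw [hε, QuadraticMap.map_add (⇑Q), QuadraticMap.map_add (⇑Q), QuadraticMap.map_add (⇑Q),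
      polar_add_left, polar_add_left, polar_add_left, h.polar_zero hae hδa hδe,
      h.polar_zero hab hδa hδb, h.polar_zero (Ne.symm hbe) hδe hδb, h.polar_zero haf hδa hδf,
      h.polar_zero hef hδe hδf, h.polar_zero hbf hδb hδf, eab, eef]
    ring
  · rw [hε, polar_comm, polar_add_left, polar_add_left, polar_add_left, pa, pe, pb, pf, eab, eef]
    ring
  · rw [hεcmp, h.cmp_other h4a hδa, h.cmp_other h4e hδe, h.cmp_other h4b hδb, h.cmp_other h4f hδf]
    simp
  · obtain ⟨i, hi4, hqi, hsqi⟩ : ∃ i, i ≠ ι 4 ∧ Q (h.cmp i ε) ≠ 0 ∧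
        IsSquare (γ / (d₀ * Q (h.cmp i ε))) := by
      by_cases hq : IsSquare (γ / (d₀ * Q δa))
      · exact ⟨a, Ne.symm h4a, by rw [hεa]; exact qa, by rwa [hεa]⟩
      refine ⟨b, Ne.symm h4b, by rw [hεb, eab]; exact neg_ne_zero.2 qa, ?_⟩
      have hm := H4.isSquare_mul_of_not hq hneg
      rw [hεb, eab]
      rwa [show γ / (d₀ * Q δa) * (-1 : F) = γ / (d₀ * -Q δa) by
        rw [mul_neg d₀ (Q δa), div_neg]; ring] at hm
    obtain ⟨u, hu, hpu, hqu, -⟩ := hperp i _ (h.cmp_mem i ε)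
    obtain ⟨r, hr⟩ := hsqi
    refine ⟨i, hi4, r • u, (D i).smul_mem _ hu, ?_, ?_⟩
    · rw [QuadraticMap.map_smul, hqu, smul_eq_mul, ← hr, div_mul_cancel₀ _ (mul_ne_zero hd₀ hqi)]
    · rw [polar_smul_left, ← h.polar_cmp hu, polar_comm, hpu, smul_zero]

end Cfsg.Agent.H5
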