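import Cfsg.Agent.H5.DecTwoPair
import Cfsg.Agent.H5.DecCross
import Cfsg.Agent.H4.DiscClass

/-!
Decompositions into planes: a pairing vector outside every member.
-/

set_option autoImplicit false

namespace Cfsg.Agent.H5

open QuadraticMap hiding sq

variable {F V : Type*} [Field F] [AddCommGroup V] [Module F V] [FiniteDimensional F V]
  {Q : QuadraticForm F V} {t : ℕ} {D : Fin t → Submodule F V} {M : Subgroup (orth Q)}

/-- An element of `M` moving the decomposition and fixing an anisotropic member vector. -/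
def FixesAnis (M : Subgroup (orth Q)) (D : Fin t → Submodule F V) : Prop :=
  ∃ x ∈ M, ¬ PresD D x ∧ ∃ m, ∃ w ∈ D m, Q w ≠ 0 ∧ (x : V ≃ₗ[F] V) w = w

variable [Finite F] [Finite V] (h : OrthDec Q 2 D) (hP : ∀ i, GoodPlane Q (D i))
  (hn : 5 ≤ Module.finrank F V) (hM : ∀ g ∈ commutator (orth Q), PresD D g → g ∈ M)

include h hn hM in
/-- Member stabilising elements of `M` preserve the pairing vectors. -/
theorem inC_conj {k : orth Q} (hk : k ∈ M) (hkD : PresD D k) {c : F} (hc : c ≠ 0) {i : Fin t}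
    {u₀ : V} (hu₀ : u₀ ∈ D i) (hq₀ : Q u₀ = c) {z : V} (hz : InC M D c z) :
    InC M D c ((k : V ≃ₗ[F] V) z) := by
  refine ⟨by rw [orth_map, hz.1], fun j u hu hqu => ?_⟩
  obtain ⟨p, hp⟩ := hkD i
  have h1 := refl_pair_mem h hn hM hu (hp u₀ hu₀) (by rw [orth_map, hqu, hq₀])
    (by rw [hqu]; exact hc)
  have h2 := mul_mem (mul_mem hk (hz.2 i u₀ hu₀ hq₀)) (inv_mem hk)
  have e : refl Q u * refl Q ((k : V ≃ₗ[F] V) z) =
      (refl Q u * refl Q ((k : V ≃ₗ[F] V) u₀)) * (k * (refl Q u₀ * refl Q z) * k⁻¹) := by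
    rw [← refl_conj, ← refl_conj]
    simp [mul_assoc, ← mul_assoc (refl Q u₀) (refl Q u₀), refl_mul_self]
  rw [e]
  exact mul_mem h1 h2

include h hP in
/-- Two independent non-orthogonal vectors of equal value in a member. -/
theorem exists_rot (i : Fin t) : ∃ a ∈ D i, ∃ b ∈ D i, Q a ≠ 0 ∧ Q a = Q b ∧ polar Q a b ≠ 0 ∧
    ∀ s : F, b ≠ s • a := by
  obtain ⟨a, ha, hqa⟩ := exists_anisotropic (h.inf_perp i) (by rw [h.finrank_eq]; omega)
  obtain ⟨x, -, -, -, hne, hb, hind⟩ := (hP i).exists_nonorth h.nondeg ha hqa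
  exact ⟨a, ha, _, hb, hqa, (orth_map _ _).symm, hne, hind⟩

include h hP hn hM in
theorem exists_inC_out (hg : FixesAnis M D) :
    ∃ c : F, c ≠ 0 ∧ ∃ z, InC M D c z ∧ ∀ i, z ∉ D i := by
  obtain ⟨x, hxM, hxD, m, w, hw, hqw, hxw⟩ := hg
  obtain ⟨i, v, hv, hqv, hout⟩ : ∃ i, ∃ v ∈ D i, Q v = Q w ∧ ∀ j, (x : V ≃ₗ[F] V) v ∉ D j := by
    by_contra hcon
    push Not at hcon
    refine hxD fun i => ?_
    obtain ⟨v, hv, hqv⟩ := exists_mem_norm_eq (h.inf_perp i) (by rw [h.finrank_eq]) (Q w)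
    obtain ⟨y, hy, -, -, hne, hv', hind⟩ := (hP i).exists_nonorth h.nondeg hv (by rwa [hqv])
    obtain ⟨j, hj⟩ := hcon i v hv hqv
    obtain ⟨j', hj'⟩ := hcon i _ hv' (by rw [orth_map, hqv])
    have hjj : j = j' := by
      by_contra hjj
      exact hne (by rw [← orth_polar x]; exact h.polar_zero hjj hj hj')
    refine ⟨j, fun u hu => ?_⟩
    obtain ⟨α, β, rfl⟩ := mem_pair_span (h.finrank_eq i) hv hv'
      (fun h0 => hqw (by rw [← hqv, h0, QuadraticMap.map_zero])) hind hu
    rw [map_add, map_smul, map_smul]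
    exact add_mem ((D j).smul_mem _ hj) ((D j).smul_mem _ (hjj ▸ hj'))
  refine ⟨Q w, hqw, _, ⟨by rw [orth_map, hqv], fun j u hu hqu => ?_⟩, hout⟩
  have h1 := mul_mem (mul_mem hxM (refl_pair_mem h hn hM hw hv hqv.symm hqw)) (inv_mem hxM)
  have h2 := mul_mem (refl_pair_mem h hn hM hu hw hqu (by rw [hqu]; exact hqw)) h1
  have e1 : refl Q u * refl Q ((x : V ≃ₗ[F] V) v) = refl Q u * refl Q w *
      (x * (refl Q w * refl Q v) * x⁻¹) := by
    have hc1 : refl Q w = x * refl Q w * x⁻¹ := by rw [refl_conj, hxw]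
    rw [← refl_conj]
    conv_rhs => rw [show x * (refl Q w * refl Q v) * x⁻¹ =
      (x * refl Q w * x⁻¹) * (x * refl Q v * x⁻¹) by group, ← hc1]
    rw [mul_assoc (refl Q u), ← mul_assoc (refl Q w), refl_mul_self, one_mul]
  rw [e1]
  exact h2

include h hP hn hM in
/-- A member carried onto a member. -/
theorem fixesAnis_of_maps {g : orth Q} (hg : g ∈ M) (hgD : ¬ PresD D g) {m p : Fin t}
    (hmp : ∀ y ∈ D m, (g : V ≃ₗ[F] V) y ∈ D p) : FixesAnis M D := by
  have hgD' := hgD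
  simp only [PresD, not_forall, not_exists] at hgD'
  obtain ⟨i, hi⟩ := hgD'
  obtain ⟨a, ha, b, hb, hqa, hab, hne, hind⟩ := exists_rot h hP i
  have hmi : m ≠ i := fun he => by
    obtain ⟨y, hy, hy'⟩ := hi p
    exact hy' (hmp y (he ▸ hy))
  refine ⟨refl Q ((g : V ≃ₗ[F] V) a) * refl Q ((g : V ≃ₗ[F] V) b), ?_, fun hx => ?_, ?_⟩
  · have h1 := mul_mem (mul_mem hg (refl_pair_mem h hn hM ha hb hab hqa)) (inv_mem hg)
    rwa [← refl_conj, ← refl_conj, show g * refl Q a * g⁻¹ * (g * refl Q b * g⁻¹) =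
      g * (refl Q a * refl Q b) * g⁻¹ by group]
  · obtain ⟨j, hja, hjb⟩ := rotation_member h (by rw [orth_map, orth_map, hab])
      (by rw [orth_map, ← hab]; exact hqa)
      (fun s hs => hind s ((g : V ≃ₗ[F] V).injective (by rw [hs, map_smul])))
      (by rwa [orth_polar]) hx
    obtain ⟨y, hy, hy'⟩ := hi j
    refine hy' ?_
    obtain ⟨α, β, rfl⟩ := mem_pair_span (h.finrank_eq i) ha hb
      (fun h0 => hqa (by rw [h0, QuadraticMap.map_zero])) hind hy
    rw [map_add, map_smul, map_smul]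
    exact add_mem ((D j).smul_mem _ hja) ((D j).smul_mem _ hjb)
  · obtain ⟨w, hw, hqw⟩ := exists_anisotropic (h.inf_perp m) (by rw [h.finrank_eq]; omega)
    refine ⟨p, _, hmp w hw, by rw [orth_map]; exact hqw, ?_⟩
    rw [orth_mul_apply, refl_apply_of_ortho (v := (g : V ≃ₗ[F] V) b)
      (by rw [orth_polar]; exact h.polar_zero (Ne.symm hmi) hb hw),
      refl_apply_of_ortho (by rw [orth_polar]; exact h.polar_zero (Ne.symm hmi) ha hw)]

include h hP hn hM in
/-- An anisotropic member vector moved into the perp of a member. -/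
theorem fixesAnis_of_perp {g : orth Q} (hg : g ∈ M) (hgD : ¬ PresD D g) {m j : Fin t} {u : V}
    (hu : u ∈ D m) (hqu : Q u ≠ 0) (hperp : ∀ y ∈ D j, polar Q y ((g : V ≃ₗ[F] V) u) = 0) :
    FixesAnis M D := by
  obtain ⟨a, ha, b, hb, hqa, hab, hne, hind⟩ := exists_rot h hP j
  set a' := ((g⁻¹ : orth Q) : V ≃ₗ[F] V) a with ha'
  set b' := ((g⁻¹ : orth Q) : V ≃ₗ[F] V) b with hb'
  by_cases hx : PresD D (refl Q a' * refl Q b')
  · obtain ⟨p, hpa, hpb⟩ := rotation_member h (by rw [ha', hb', orth_map, orth_map, hab])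
      (by rw [hb', orth_map, ← hab]; exact hqa)
      (fun s hs => hind s (((g⁻¹ : orth Q) : V ≃ₗ[F] V).injective (by rw [← hb', hs, map_smul, ha'])))
      (by rwa [ha', hb', orth_polar]) hx
    refine fixesAnis_of_maps h hP hn hM hg hgD (m := p) (p := j) fun y hy => ?_
    obtain ⟨α, β, rfl⟩ := mem_pair_span (h.finrank_eq p) hpa hpb
      (fun h0 => hqa (by rw [← orth_map g⁻¹, ← ha', h0, QuadraticMap.map_zero]))
      (fun s hs => hind s (((g⁻¹ : orth Q) : V ≃ₗ[F] V).injective (by rw [← hb', hs, map_smul, ha']))) hy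
    rw [map_add, map_smul, map_smul, ha', hb', orth_apply_inv_apply, orth_apply_inv_apply]
    exact add_mem ((D j).smul_mem _ ha) ((D j).smul_mem _ hb)
  refine ⟨_, ?_, hx, m, u, hu, hqu, ?_⟩
  · have h1 := mul_mem (mul_mem (inv_mem hg) (refl_pair_mem h hn hM ha hb hab hqa)) hg
    rw [ha', hb', ← refl_conj, ← refl_conj]
    convert h1 using 1
    group
  · have e : ∀ y ∈ D j, polar Q (((g⁻¹ : orth Q) : V ≃ₗ[F] V) y) u = 0 := fun y hy => by
      rw [← orth_polar g, orth_apply_inv_apply]; exact hperp y hy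
    rw [orth_mul_apply, refl_apply_of_ortho (v := b') (e b hb),
      refl_apply_of_ortho (v := a') (e a ha)]

include h hP hn hM in
/-- A singular member vector fixed by the conjugated rotation. -/
theorem fixesAnis_of_singular_fixed (ht : 3 ≤ t) {x : orth Q} (hxM : x ∈ M) (hxD : ¬ PresD D x)
    {i' : Fin t} {e : V} (he : e ∈ D i') (he0 : e ≠ 0) (hqe : Q e = 0)
    (hxe : (x : V ≃ₗ[F] V) e = e) : FixesAnis M D := by
  classical
  haveI := Fintype.ofFinite F
  obtain ⟨f, hf, hp⟩ := exists_partner (h.inf_perp i') he he0 hqe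
  by_cases hxf : (x : V ≃ₗ[F] V) f = f
  · refine ⟨x, hxM, hxD, i', e + f, add_mem he hf, ?_, by rw [map_add, hxe, hxf]⟩
    rw [QuadraticMap.map_add (⇑Q), hp.left, hp.right, hp.pair]
    simp
  have h7 : 7 ≤ Nat.card F := (hP i').cases.resolve_left fun hc => he0 (hc.1 e he hqe)
  obtain ⟨μ, hμ⟩ := exists_not_mem_of_card (s := ({0, 1, -1} : Finset F)) Finset.card_le_three
    (by omega)
  simp only [Finset.mem_insert, Finset.mem_singleton, not_or] at hμ
  set f' := (x : V ≃ₗ[F] V) f with hf'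
  have hp' : HypPair Q e f' := ⟨hqe, by rw [hf', orth_map]; exact hp.right,
    by rw [← hp.pair, hf', ← orth_polar x e f, hxe]⟩
  obtain ⟨hea, hη⟩ := eich_map_partner hp hp'
  set a := f' - f - polar Q f f' • e with ha
  set η := eich Q e a with hηd
  have hfa : polar Q f a = 0 := by
    simp [ha, polar_sub_right, polar_smul_right, polar_self', hp.right, polar_comm (⇑Q) f e,
      hp.pair]
  have ha0 : a ≠ 0 := by
    intro h0
    refine hxf ?_
    have he' : f' = f + polar Q f f' • e := by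
      rw [ha, sub_sub, sub_eq_zero] at h0; exact h0
    have hq := hp'.right
    rw [he', map_add_smul, hp.right, hqe, polar_comm (⇑Q) f e, hp.pair] at hq
    rw [he', show polar Q f f' = 0 by simpa using hq, zero_smul, add_zero]
  -- the rotation of the plane
  set a₀ := μ • e + μ⁻¹ • f with ha₀
  set b₀ := e + f with hb₀
  have hqa₀ : Q a₀ = 1 := by
    rw [ha₀, map_smul_add_smul, hp.left, hp.right, hp.pair]; field_simp [hμ.1]; ring
  have hqb₀ : Q b₀ = 1 := by
    rw [hb₀, QuadraticMap.map_add (⇑Q), hp.left, hp.right, hp.pair]; ring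
  have ha₀D : a₀ ∈ D i' := add_mem ((D i').smul_mem _ he) ((D i').smul_mem _ hf)
  have hb₀D : b₀ ∈ D i' := add_mem he hf
  set r := refl Q a₀ * refl Q b₀ with hr
  have hrM : r ∈ M := refl_pair_mem h hn hM ha₀D hb₀D (hqa₀.trans hqb₀.symm)
    (by rw [hqa₀]; exact one_ne_zero)
  have hre : (r : V ≃ₗ[F] V) e = (μ * μ) • e := by
    rw [hr, orth_mul_apply, refl_apply Q b₀, hqb₀, hb₀]
    simp only [polar_add_left, polar_self', hp.left, polar_comm (⇑Q) f e, hp.pair, inv_one]
    rw [show e - (1 * (2 * 0 + 1) : F) • (e + f) = -f by module, map_neg, refl_apply, hqa₀, ha₀]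
    simp only [polar_add_left, polar_smul_left, polar_self', hp.right, hp.pair, smul_eq_mul, inv_one]
    match_scalars <;> field_simp [hμ.1] <;> ring
  have hη_on : ∀ y ∈ D i', (η : V ≃ₗ[F] V) y = (x : V ≃ₗ[F] V) y := by
    intro y hy
    have hind : ∀ s : F, f ≠ s • e := fun s hs => by
      have := congrArg (polar Q e) hs
      rw [hp.pair, polar_smul_right, polar_self', hqe, mul_zero, smul_zero] at this
      exact one_ne_zero this
    obtain ⟨α, β, rfl⟩ := mem_pair_span (h.finrank_eq i') he hf he0 hind hy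
    rw [map_add, map_smul, map_smul, map_add, map_smul, map_smul, hη, hxe, ← hf']
    congr 2
    rw [hηd, eich_apply hqe hea, polar_self', hqe, mul_zero, polar_comm (⇑Q) a e, hea]
    simp
  have hra : (r : V ≃ₗ[F] V) a = a := by
    have e1 : ∀ v ∈ D i', polar Q v a = 0 := fun v hv => by
      obtain ⟨α, β, rfl⟩ := mem_pair_span (h.finrank_eq i') he hf he0 (fun s hs => by
        have := congrArg (polar Q e) hs
        rw [hp.pair, polar_smul_right, polar_self', hqe, mul_zero, smul_zero] at this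
        exact one_ne_zero this) hv
      simp [polar_add_left, polar_smul_left, hea, hfa]
    rw [hr, orth_mul_apply, refl_apply_of_ortho (e1 b₀ hb₀D), refl_apply_of_ortho (e1 a₀ ha₀D)]
  set a' := a - (μ * μ) • a with ha'
  have hx' : x * r * x⁻¹ * r⁻¹ = eich Q e a' := by
    have e1 : x * r * x⁻¹ = η * r * η⁻¹ := by
      rw [hr, show ∀ g : orth Q, g * (refl Q a₀ * refl Q b₀) * g⁻¹ =
          (g * refl Q a₀ * g⁻¹) * (g * refl Q b₀ * g⁻¹) from fun g => by group,
        show ∀ g : orth Q, g * (refl Q a₀ * refl Q b₀) * g⁻¹ =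
          (g * refl Q a₀ * g⁻¹) * (g * refl Q b₀ * g⁻¹) from fun g => by group]
      rw [refl_conj, refl_conj, refl_conj, refl_conj, hη_on a₀ ha₀D, hη_on b₀ hb₀D]
    have hq' : polar Q e (-a) = 0 := by rw [polar_neg_right, hea, neg_zero]
    rw [e1, mul_assoc η r, mul_assoc η, hηd, eich_inv hqe hea, eich_conj, hre, map_neg, hra,
      eich_smul_smul hqe hq', eich_mul hqe hea (by rw [polar_smul_right, hq', smul_zero]), ha',
      smul_neg, ← sub_eq_add_neg]
  have ha'0 : a' ≠ 0 := by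
    intro h0
    rw [ha', ← one_smul F a, smul_smul, mul_one, ← sub_smul, smul_eq_zero, sub_eq_zero] at h0
    rcases h0 with h0 | h0
    · rcases mul_self_eq_one_iff.1 h0.symm with h1 | h1
      exacts [hμ.2.1 h1, hμ.2.2 h1]
    · exact ha0 h0
  have hea' : polar Q e a' = 0 := by
    rw [ha', polar_sub_right, polar_smul_right, hea]; simp
  have hfa' : polar Q f a' = 0 := by
    rw [ha', polar_sub_right, polar_smul_right, hfa]; simp
  have ha'i : h.cmp i' a' = 0 := h.cmp_perp (mem_perp.2 fun v hv => by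
    obtain ⟨α, β, rfl⟩ := mem_pair_span (h.finrank_eq i') he hf he0 (fun s hs => by
      have := congrArg (polar Q e) hs
      rw [hp.pair, polar_smul_right, polar_self', hqe, mul_zero, smul_zero] at this
      exact one_ne_zero this) hv
    simp [polar_add_left, polar_smul_left, hea', hfa'])
  obtain ⟨m, hmi, hm⟩ : ∃ m, m ≠ i' ∧ h.cmp m a' ≠ 0 := h.exists_cmp_ne fun hin =>
    ha'0 (by rw [← h.cmp_same hin, ha'i])
  obtain ⟨y, hy, hqy, hay⟩ := (hP m).exists_anis_polar (h.cmp_mem m a') hm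
  rw [polar_comm, h.polar_cmp hy, polar_comm] at hay
  have hey : polar Q e y = 0 := h.polar_zero (Ne.symm hmi) he hy
  have hxy : (eich Q e a' : V ≃ₗ[F] V) y = y - polar Q a' y • e := by
    rw [eich_apply hqe hea', hey]; simp
  have hmem : x * r * x⁻¹ * r⁻¹ ∈ M := mul_mem (mul_mem (mul_mem hxM hrM) (inv_mem hxM)) (inv_mem hrM)
  rw [hx'] at hmem
  have hy0 : y ≠ 0 := fun h0 => hqy (by rw [h0, QuadraticMap.map_zero])
  have hnotD : ¬ PresD D (eich Q e a') := by
    intro hD
    obtain ⟨j, hj⟩ := hD m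
    have hj' := hj y hy
    rw [hxy] at hj'
    rcases eq_or_ne j m with rfl | hjm
    · have h1 := h.cmp_other (Ne.symm hmi) hj'
      rw [map_sub, map_smul, h.cmp_other (Ne.symm hmi) hy, h.cmp_same he, zero_sub, neg_eq_zero,
        smul_eq_zero] at h1
      exact h1.elim hay he0
    · have h1 := h.cmp_other (Ne.symm hjm) hj'
      rw [map_sub, map_smul, h.cmp_other hmi he, h.cmp_same hy, smul_zero, sub_zero] at h1
      exact hy0 h1
  obtain ⟨j, -, hj⟩ := Finset.exists_mem_notMem_of_card_lt_card (t := (Finset.univ : Finset (Fin t)))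
    (s := ({m, i'} : Finset (Fin t))) (lt_of_le_of_lt Finset.card_le_two (by simp; omega))
  simp only [Finset.mem_insert, Finset.mem_singleton, not_or] at hj
  refine fixesAnis_of_perp h hP hn hM hmem hnotD hy hqy (j := j) fun v hv => ?_
  rw [hxy, polar_sub_right, polar_smul_right, h.polar_zero hj.1 hv hy,
    h.polar_zero hj.2 hv he]
  simp

include h hP in
/-- An anisotropic member vector with three anisotropic images among at least six members. -/
theorem exists_three_anis (j : Fin t) (T : Finset (Fin t)) (hT : 4 ≤ T.card) (ψ : Fin t → V →ₗ[F] V)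
    (hmem : ∀ i x, ψ i x ∈ D i) (hinj : ∀ i ∈ T, ∀ w ∈ D j, ψ i w = 0 → w = 0) :
    ∃ w ∈ D j, Q w ≠ 0 ∧ ∃ i₁ ∈ T, ∃ i₂ ∈ T, ∃ i₃ ∈ T, i₁ ≠ i₂ ∧ i₁ ≠ i₃ ∧ i₂ ≠ i₃ ∧
      Q (ψ i₁ w) ≠ 0 ∧ Q (ψ i₂ w) ≠ 0 ∧ Q (ψ i₃ w) ≠ 0 := by
  classical
  haveI := Fintype.ofFinite F
  obtain ⟨u, hu, v, hv, hqu, -, -, hind⟩ := exists_rot h hP j
  suffices ∃ w ∈ D j, Q w ≠ 0 ∧ 3 ≤ (T.filter fun i => Q (ψ i w) ≠ 0).card by
    obtain ⟨w, hw, hqw, hcard⟩ := this
    obtain ⟨i₁, h1, i₂, h2, i₃, h3, h12, h13, h23⟩ := Finset.two_lt_card.1 (by omega :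
      2 < (T.filter fun i => Q (ψ i w) ≠ 0).card)
    rw [Finset.mem_filter] at h1 h2 h3
    exact ⟨w, hw, hqw, i₁, h1.1, i₂, h2.1, i₃, h3.1, h12, h13, h23, h1.2, h2.2, h3.2⟩
  rcases le_or_gt 7 (Nat.card F) with h7 | h7
  swap
  · refine ⟨u, hu, hqu, ?_⟩
    have hanis : ∀ i, ∀ x ∈ D i, Q x = 0 → x = 0 := fun i => ((hP i).cases.resolve_right (by omega)).1
    rw [Finset.filter_true_of_mem (p := fun i => Q (ψ i u) ≠ 0) fun i hi h0 => hqu (by
      rw [hinj i hi u hu (hanis i _ (hmem i u) h0), QuadraticMap.map_zero])]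
    omega
  by_contra hcon
  push Not at hcon
  set S := Finset.univ.filter fun s : F => ¬ (Q v * s ^ 2 + polar Q u v * s + Q u = 0) with hS
  have hSc : 5 ≤ S.card := by
    have e1 := card_le_two_of_quad_roots (A := Q v) (B := polar Q u v) (C := Q u)
      (Or.inr (Or.inr hqu))
      (s := Finset.univ.filter fun s : F => Q v * s ^ 2 + polar Q u v * s + Q u = 0)
      fun x hx => (Finset.mem_filter.1 hx).2
    have e2 := Finset.card_filter_add_card_filter_not (s := (Finset.univ : Finset F))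
      fun s : F => Q v * s ^ 2 + polar Q u v * s + Q u = 0
    rw [Finset.card_univ, ← Nat.card_eq_fintype_card, ← hS] at e2
    omega
  have hval : ∀ (x y : V) (s : F), Q (x + s • y) = Q y * s ^ 2 + polar Q x y * s + Q x := fun x y s => by
    rw [map_add_smul]; ring
  have hbad : ∀ s ∈ S, T.card - 2 ≤ (T.filter fun i => Q (ψ i (u + s • v)) = 0).card := by
    intro s hs
    have h1 := hcon (u + s • v) (add_mem hu ((D j).smul_mem _ hv))
      (by rw [hval]; exact (Finset.mem_filter.1 hs).2)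
    have h2 := Finset.card_filter_add_card_filter_not (s := T) fun i => Q (ψ i (u + s • v)) = 0
    simp only [ne_eq] at h1 h2
    omega
  have hroots : ∀ i ∈ T, (S.filter fun s => Q (ψ i (u + s • v)) = 0).card ≤ 2 := by
    intro i hi
    refine card_le_two_of_quad_roots (A := Q (ψ i v)) (B := polar Q (ψ i u) (ψ i v))
      (C := Q (ψ i u)) ?_ fun s hs => ?_
    · by_contra hz
      push Not at hz
      obtain ⟨y, hy, hqy⟩ := exists_anisotropic (h.inf_perp i) (by rw [h.finrank_eq]; omega)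
      have hu0 : u ≠ 0 := fun h0 => hqu (by rw [h0, QuadraticMap.map_zero])
      obtain ⟨α, β, rfl⟩ := mem_pair_span (h.finrank_eq i) (hmem i u) (hmem i v)
        (fun h0 => hu0 (hinj i hi u hu h0))
        (fun s hs => hind s (sub_eq_zero.1 (hinj i hi _ (sub_mem hv ((D j).smul_mem _ hu))
          (by rw [map_sub, map_smul, hs, sub_self])))) hy
      exact hqy (by rw [map_smul_add_smul, hz.1, hz.2.1, hz.2.2]; ring)
    · rw [← hval, ← map_smul, ← map_add]; exact (Finset.mem_filter.1 hs).2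
  have h1 : S.card * (T.card - 2) ≤ ∑ s ∈ S, (T.filter fun i => Q (ψ i (u + s • v)) = 0).card :=
    Finset.card_nsmul_le_sum S _ _ hbad
  have h2 : ∑ s ∈ S, (T.filter fun i => Q (ψ i (u + s • v)) = 0).card =
      ∑ i ∈ T, (S.filter fun s => Q (ψ i (u + s • v)) = 0).card := by
    simp only [Finset.card_filter]
    exact Finset.sum_comm
  have h3 : ∑ i ∈ T, (S.filter fun s => Q (ψ i (u + s • v)) = 0).card ≤ T.card * 2 := by
    simpa using Finset.sum_le_card_nsmul T _ 2 hroots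
  have h4 : 5 * (T.card - 2) ≤ S.card * (T.card - 2) := Nat.mul_le_mul_right _ hSc
  omega

include h hP hn hM in
/-- An overgroup moving the decomposition fixes an anisotropic member vector while moving it. -/
theorem fixesAnis_of_not_presD (ht : 5 ≤ t) {g : orth Q} (hg : g ∈ M) (hgD : ¬ PresD D g) :
    FixesAnis M D := by
  classical
  have hgD' := hgD
  simp only [PresD, not_forall, not_exists] at hgD'
  obtain ⟨i, hi⟩ := hgD'
  obtain ⟨a, ha, b, hb, hqa, hab, hne, hind⟩ := exists_rot h hP i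
  set a' := (g : V ≃ₗ[F] V) a with ha'
  set b' := (g : V ≃ₗ[F] V) b with hb'
  have hqab : Q a' = Q b' := by rw [ha', hb', orth_map, orth_map, hab]
  have hqb' : Q b' ≠ 0 := by rw [← hqab, ha', orth_map]; exact hqa
  have hqa' : Q a' ≠ 0 := hqab ▸ hqb'
  have hind' : ∀ s : F, b' ≠ s • a' := fun s hs =>
    hind s ((g : V ≃ₗ[F] V).injective (by rw [← hb', hs, map_smul, ha']))
  have hind'' : ∀ s : F, a' ≠ s • b' := fun s hs => by
    rcases eq_or_ne s 0 with rfl | hs0
    · exact hqa' (by rw [hs, zero_smul, QuadraticMap.map_zero])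
    · exact hind' s⁻¹ (by rw [hs, inv_smul_smul₀ hs0])
  have hne' : polar Q a' b' ≠ 0 := by rwa [ha', hb', orth_polar]
  have hnot : ∀ m, ¬ (a' ∈ D m ∧ b' ∈ D m) := by
    rintro m ⟨hma, hmb⟩
    obtain ⟨y, hy, hy'⟩ := hi m
    refine hy' ?_
    obtain ⟨α, β, rfl⟩ := mem_pair_span (h.finrank_eq i) ha hb
      (fun h0 => hqa (by rw [h0, QuadraticMap.map_zero])) hind hy
    rw [map_add, map_smul, map_smul, ← ha', ← hb']
    exact add_mem ((D m).smul_mem _ hma) ((D m).smul_mem _ hmb)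
  set x := refl Q a' * refl Q b' with hxd
  have hxD : ¬ PresD D x := fun hx => by
    obtain ⟨m, hm⟩ := rotation_member h hqab hqb' hind' hne' hx
    exact hnot m hm
  have hxD' : ¬ PresD D x⁻¹ := fun hx => by
    rw [hxd, mul_inv_rev, refl_inv, refl_inv] at hx
    obtain ⟨m, hm⟩ := rotation_member h hqab.symm hqa' hind'' (by rwa [polar_comm]) hx
    exact hnot m hm.symm
  have hxM : x ∈ M := by
    have h1 := mul_mem (mul_mem hg (refl_pair_mem h hn hM ha hb hab hqa)) (inv_mem hg)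
    rw [hxd, ha', hb', ← refl_conj, ← refl_conj]
    convert h1 using 1
    group
  have hfix : ∀ {y}, polar Q a' y = 0 → polar Q b' y = 0 → (x : V ≃ₗ[F] V) y = y := fun h1 h2 => by
    rw [hxd, orth_mul_apply, refl_apply_of_ortho h2, refl_apply_of_ortho h1]
  -- a member meeting the fixed space
  by_cases hA : ∃ m, ∃ y ∈ D m, y ≠ 0 ∧ polar Q a' y = 0 ∧ polar Q b' y = 0
  · obtain ⟨m, y, hy, hy0, h1, h2⟩ := hA
    by_cases hqy : Q y = 0
    · exact fixesAnis_of_singular_fixed h hP hn hM (by omega) hxM hxD hy hy0 hqy (hfix h1 h2)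
    · exact ⟨x, hxM, hxD, m, y, hy, hqy, hfix h1 h2⟩
  push Not at hA
  have hker : ∀ i, ∀ p ∈ Submodule.span F {a'} ⊔ Submodule.span F {b'}, h.cmp i p = 0 → p = 0 := by
    intro i p hp hp0
    have hL : Function.Surjective (((polarBilin Q a').comp (D i).subtype).prod
        ((polarBilin Q b').comp (D i).subtype)) := by
      refine (LinearMap.injective_iff_surjective_of_finrank_eq_finrank ?_).1
        ((injective_iff_map_eq_zero _).2 fun y hy => ?_)
      · rw [h.finrank_eq, Module.finrank_prod, Module.finrank_self]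
      · have h1 := congrArg Prod.fst hy
        have h2 := congrArg Prod.snd hy
        simp at h1 h2
        by_contra hy0
        exact hA i y y.2 (fun h0 => hy0 (Subtype.ext h0)) h1 h2
    obtain ⟨p₁, hp₁, p₂, hp₂, rfl⟩ := Submodule.mem_sup.1 hp
    obtain ⟨α, rfl⟩ := Submodule.mem_span_singleton.1 hp₁
    obtain ⟨β, rfl⟩ := Submodule.mem_span_singleton.1 hp₂
    have hperp : ∀ y : D i, α * polar Q a' y + β * polar Q b' y = 0 := fun y => by
      have h1 := h.polar_cmp y.2 (α • a' + β • b')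
      rw [hp0, polar_zero_right, polar_comm, polar_add_left, polar_smul_left, polar_smul_left,
        smul_eq_mul, smul_eq_mul] at h1
      exact h1.symm
    obtain ⟨y₁, h1⟩ := hL (1, 0)
    obtain ⟨y₂, h2⟩ := hL (0, 1)
    simp [Prod.ext_iff] at h1 h2
    have e1 := hperp y₁
    have e2 := hperp y₂
    rw [h1.1, h1.2] at e1
    rw [h2.1, h2.2] at e2
    rw [show α = 0 by simpa using e1, show β = 0 by simpa using e2]
    simp
  set j : Fin t := ⟨0, by omega⟩ with hj
  obtain ⟨w, hw, hqw, i₁, hi₁, i₂, hi₂, i₃, hi₃, h12, h13, h23, q1, q2, q3⟩ :=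
    exists_three_anis h hP j (Finset.univ.erase j)
      (by rw [Finset.card_erase_of_mem (Finset.mem_univ j), Finset.card_univ, Fintype.card_fin]; omega)
      (fun i => (h.cmp i).comp ((x : V ≃ₗ[F] V) : V →ₗ[F] V)) (fun i y => h.cmp_mem i _)
      (fun i hi w hw h0 => by
        have hij : i ≠ j := (Finset.mem_erase.1 hi).1
        have h1 : h.cmp i ((x : V ≃ₗ[F] V) w - w) = 0 := by
          rw [map_sub, h.cmp_other hij hw, sub_zero]; exact h0
        have h2 := hker i _ (refl_mul_refl_sub_mem hqab w) h1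
        rw [sub_eq_zero, refl_mul_refl_apply hqab, sub_sub, sub_eq_self] at h2
        have hb0 : polar Q b' w = 0 := by
          by_contra hb0
          set c₁ := (Q b')⁻¹ * polar Q a' w
          set c₂ := (Q b')⁻¹ * polar Q b' w with hc₂
          set r := (Q b')⁻¹ * polar Q a' b'
          refine hind' (-(c₂⁻¹ * (c₁ - c₂ * r))) ?_
          have h3 : c₂ • b' = -((c₁ - c₂ * r) • a') := by
            refine eq_neg_of_add_eq_zero_left ?_
            rw [← h2]; module
          rw [neg_smul, mul_smul, ← smul_neg, ← h3,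
            inv_smul_smul₀ (mul_ne_zero (inv_ne_zero hqb') hb0)]
        rw [hb0, mul_zero, zero_smul, add_zero, smul_eq_zero] at h2
        have ha0 : polar Q a' w = 0 := by
          simpa [hqb'] using h2.resolve_right fun h0 => hqa' (by rw [h0, QuadraticMap.map_zero])
        by_contra hw0
        exact hA j w hw hw0 ha0 hb0)
  simp only [LinearMap.comp_apply, LinearEquiv.coe_coe] at q1 q2 q3
  obtain ⟨p, p', hpp, qp, qp', hsq⟩ : ∃ p p' : Fin t, p ≠ p' ∧
      Q (h.cmp p ((x : V ≃ₗ[F] V) w)) ≠ 0 ∧ Q (h.cmp p' ((x : V ≃ₗ[F] V) w)) ≠ 0 ∧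
      IsSquare (Q (h.cmp p' ((x : V ≃ₗ[F] V) w)) / Q (h.cmp p ((x : V ≃ₗ[F] V) w))) := by
    by_cases e1 : IsSquare (Q (h.cmp i₂ ((x : V ≃ₗ[F] V) w)) / Q (h.cmp i₁ ((x : V ≃ₗ[F] V) w)))
    · exact ⟨i₁, i₂, h12, q1, q2, e1⟩
    by_cases e2 : IsSquare (Q (h.cmp i₃ ((x : V ≃ₗ[F] V) w)) / Q (h.cmp i₁ ((x : V ≃ₗ[F] V) w)))
    · exact ⟨i₁, i₃, h13, q1, q3, e2⟩
    obtain ⟨s, hs⟩ := H4.isSquare_mul_of_not e1 e2
    refine ⟨i₂, i₃, h23, q2, q3,
      s * Q (h.cmp i₁ ((x : V ≃ₗ[F] V) w)) / Q (h.cmp i₂ ((x : V ≃ₗ[F] V) w)), ?_⟩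
    field_simp at hs ⊢
    linear_combination hs
  obtain ⟨d₀, hd₀, hperp⟩ := exists_perp_value h hP (by omega)
  set z := (x : V ≃ₗ[F] V) w with hz
  obtain ⟨u, hu, hzu, hqu, -⟩ := hperp p _ (h.cmp_mem p z)
  obtain ⟨u', hu', hzu', hqu', -⟩ := hperp p' _ (h.cmp_mem p' z)
  obtain ⟨s, hs⟩ := hsq
  have hqu0 : Q u ≠ 0 := by rw [hqu]; exact mul_ne_zero hd₀ qp
  have hqu0' : Q u' ≠ 0 := by rw [hqu']; exact mul_ne_zero hd₀ qp'
  have hs0 : s ≠ 0 := fun h0 => by
    rw [h0, mul_zero] at hs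
    exact qp' (by simpa [qp] using hs)
  have hqeq : Q (s • u) = Q u' := by
    rw [QuadraticMap.map_smul, hqu, hqu', smul_eq_mul, ← hs]
    field_simp
  have hyM : refl Q (s • u) * refl Q u' ∈ M :=
    refl_pair_mem h hn hM ((D p).smul_mem _ hu) hu' hqeq (by rw [hqeq]; exact hqu0')
  have huz : polar Q (s • u) z = 0 := by
    rw [polar_smul_left, ← h.polar_cmp hu, polar_comm, hzu, smul_zero]
  have hu'z : polar Q u' z = 0 := by rw [← h.polar_cmp hu', polar_comm, hzu']
  set a₂ := ((x⁻¹ : orth Q) : V ≃ₗ[F] V) (s • u) with ha₂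
  set b₂ := ((x⁻¹ : orth Q) : V ≃ₗ[F] V) u' with hb₂
  by_cases hx₂ : PresD D (refl Q a₂ * refl Q b₂)
  · obtain ⟨m, hm⟩ := exists_member_perp_of_pair h (by omega)
      (by rw [ha₂, hb₂, orth_map, orth_map, hqeq]) (by rw [hb₂, orth_map]; exact hqu0')
      (fun r hr => by
        have h0 := ((x⁻¹ : orth Q) : V ≃ₗ[F] V).injective (hr.trans (map_smul _ r _).symm)
        exact hqu0' (by
          rw [h.eq_zero_of_mem hpp (h0 ▸ (D p).smul_mem r ((D p).smul_mem s hu)) hu',
            QuadraticMap.map_zero]))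
      (by rw [ha₂, hb₂, orth_polar, polar_smul_left, h.polar_zero hpp hu hu', smul_zero]) hx₂
    refine fixesAnis_of_perp h hP hn hM (inv_mem hxM) hxD' ((D p).smul_mem s hu)
      (by rw [hqeq]; exact hqu0') (j := m) fun y hy => ?_
    rw [← ha₂, ← h.polar_cmp hy, hm, polar_zero_right]
  · refine ⟨_, ?_, hx₂, j, w, hw, hqw, ?_⟩
    · have h1 := mul_mem (mul_mem (inv_mem hxM) hyM) hxM
      rw [ha₂, hb₂, ← refl_conj, ← refl_conj]
      convert h1 using 1
      group
    · rw [orth_mul_apply, refl_apply_of_ortho (v := b₂) (by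
          rw [← orth_polar x, hb₂, orth_apply_inv_apply]; exact hu'z),
        refl_apply_of_ortho (v := a₂) (by rw [← orth_polar x, ha₂, orth_apply_inv_apply]; exact huz)]

end Cfsg.Agent.H5
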