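import Cfsg.Agent.H5.DecBasic
import Cfsg.Agent.H5.OmegaCriterion

/-!
Orthogonal frames with a common value, signed permutations of a frame.
-/

set_option autoImplicit false

namespace Cfsg.Agent.H5

open QuadraticMap hiding sq

variable {F V : Type*} [Field F] [AddCommGroup V] [Module F V] {Q : QuadraticForm F V} {n : ℕ}
  {e : Fin n → V} {c : F}

/-- The coordinate of a vector along a frame vector. -/
def coordAt (Q : QuadraticForm F V) (e : Fin n → V) (c : F) (i : Fin n) : V →ₗ[F] F :=
  (2 * c)⁻¹ • polarBilin Q (e i)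

/-- An orthogonal basis of vectors with a common value, in odd characteristic. -/
structure OrthFrame (Q : QuadraticForm F V) (e : Fin n → V) (c : F) : Prop where
  nondeg : (polarBilin Q).Nondegenerate
  two_ne : (2 : F) ≠ 0
  ne_zero : c ≠ 0
  val : ∀ i, Q (e i) = c
  ortho : ∀ {i j}, i ≠ j → polar Q (e i) (e j) = 0
  expand : ∀ x, ∑ i, coordAt Q e c i x • e i = x

/-- The isometry permutes the frame up to signs. -/
def Mono (e : Fin n → V) (g : orth Q) : Prop :=
  ∀ i, ∃ j, (g : V ≃ₗ[F] V) (e i) = e j ∨ (g : V ≃ₗ[F] V) (e i) = -e j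

/-- The root vectors of a frame. -/
def IsRootVec (e : Fin n → V) (f : V) : Prop :=
  (∃ i, f = e i) ∨ ∃ i j, i ≠ j ∧ (f = e i + e j ∨ f = e i - e j)

/-- Changing two signs. -/
noncomputable def flipTwo (Q : QuadraticForm F V) (e : Fin n → V) (i j : Fin n) : orth Q :=
  refl Q (e i) * refl Q (e j)

/-- A double transposition. -/
noncomputable def dblSwap (Q : QuadraticForm F V) (e : Fin n → V) (a b u v : Fin n) : orth Q :=
  refl Q (e a - e b) * refl Q (e u - e v)

theorem OrthFrame.polar_coord (h : OrthFrame Q e c) (i : Fin n) (x : V) :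
    polar Q (e i) x = 2 * c * coordAt Q e c i x := by
  have := h.two_ne
  have := h.ne_zero
  simp [coordAt]
  field_simp

theorem OrthFrame.coord_self (h : OrthFrame Q e c) (i : Fin n) : coordAt Q e c i (e i) = 1 := by
  simp [coordAt, h.val]
  field_simp [h.two_ne, h.ne_zero]

theorem OrthFrame.coord_other (h : OrthFrame Q e c) {i j : Fin n} (hij : i ≠ j) :
    coordAt Q e c i (e j) = 0 := by
  simp [coordAt, h.ortho hij]

theorem OrthFrame.coord_vec (h : OrthFrame Q e c) (i j : Fin n) :
    coordAt Q e c i (e j) = if i = j then 1 else 0 := by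
  split_ifs with hij
  · rw [hij]; exact h.coord_self j
  · exact h.coord_other hij

theorem OrthFrame.ext_coord (h : OrthFrame Q e c) {x y : V}
    (he : ∀ i, coordAt Q e c i x = coordAt Q e c i y) : x = y := by
  rw [← h.expand x, ← h.expand y]
  exact Finset.sum_congr rfl fun i _ => by rw [he]

theorem OrthFrame.polar_eq_sum (h : OrthFrame Q e c) (x y : V) :
    polar Q x y = 2 * c * ∑ i, coordAt Q e c i x * coordAt Q e c i y := by
  conv_lhs => rw [← h.expand x]
  rw [← QuadraticMap.polarBilin_apply_apply, map_sum, LinearMap.sum_apply, Finset.mul_sum]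
  refine Finset.sum_congr rfl fun i _ => ?_
  rw [map_smul, LinearMap.smul_apply, QuadraticMap.polarBilin_apply_apply, h.polar_coord, smul_eq_mul]
  ring

theorem OrthFrame.map_eq_sum (h : OrthFrame Q e c) (x : V) :
    Q x = c * ∑ i, coordAt Q e c i x ^ 2 := by
  refine mul_left_cancel₀ h.two_ne ?_
  rw [← polar_self', h.polar_eq_sum, mul_assoc]
  simp only [pow_two]

theorem OrthFrame.injective (h : OrthFrame Q e c) : Function.Injective e := by
  intro i j hij
  by_contra hne
  have h1 := h.coord_other hne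
  rw [← hij, h.coord_self] at h1
  exact one_ne_zero h1

theorem OrthFrame.ne_zero' (h : OrthFrame Q e c) (i : Fin n) : e i ≠ 0 := fun h0 => by
  have := h.coord_self i
  rw [h0, map_zero] at this
  exact zero_ne_one this

theorem OrthFrame.ne_neg (h : OrthFrame Q e c) (i j : Fin n) : e i ≠ -e j := fun h0 => by
  have h1 := h.coord_self i
  rw [h0, map_neg, h.coord_vec] at h1
  split_ifs at h1
  · exact h.two_ne (by linear_combination -h1)
  · simp at h1

theorem OrthFrame.val_sub (h : OrthFrame Q e c) {a b : Fin n} (hab : a ≠ b) :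
    Q (e a - e b) = 2 * c := by
  rw [map_sub', h.val, h.val, h.ortho hab]; ring

theorem OrthFrame.val_add (h : OrthFrame Q e c) {a b : Fin n} (hab : a ≠ b) :
    Q (e a + e b) = 2 * c := by
  rw [QuadraticMap.map_add (⇑Q), h.val, h.val, h.ortho hab]; ring

theorem OrthFrame.refl_self (h : OrthFrame Q e c) (i : Fin n) :
    (refl Q (e i) : V ≃ₗ[F] V) (e i) = -e i :=
  refl_apply_self (by rw [h.val]; exact h.ne_zero)

theorem OrthFrame.refl_other (h : OrthFrame Q e c) {i j : Fin n} (hij : i ≠ j) :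
    (refl Q (e i) : V ≃ₗ[F] V) (e j) = e j :=
  refl_apply_of_ortho (h.ortho hij)

theorem OrthFrame.swap_left (h : OrthFrame Q e c) {a b : Fin n} (hab : a ≠ b) :
    (refl Q (e a - e b) : V ≃ₗ[F] V) (e a) = e b := by
  refine refl_sub_apply (by rw [h.val, h.val]) ?_
  rw [h.val_sub hab]; exact mul_ne_zero h.two_ne h.ne_zero

theorem OrthFrame.swap_right (h : OrthFrame Q e c) {a b : Fin n} (hab : a ≠ b) :
    (refl Q (e a - e b) : V ≃ₗ[F] V) (e b) = e a := by
  have := congrArg (refl Q (e a - e b) : V ≃ₗ[F] V) (h.swap_left hab)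
  rw [← orth_mul_apply, refl_mul_self] at this
  exact this.symm

theorem OrthFrame.swap_other (h : OrthFrame Q e c) {a b i : Fin n} (ha : i ≠ a) (hb : i ≠ b) :
    (refl Q (e a - e b) : V ≃ₗ[F] V) (e i) = e i :=
  refl_apply_of_ortho (by rw [polar_sub_left, h.ortho (Ne.symm ha), h.ortho (Ne.symm hb), sub_zero])

theorem Mono.one : Mono e (1 : orth Q) := fun i => ⟨i, Or.inl rfl⟩

theorem Mono.mul {g g' : orth Q} (hg : Mono e g) (hg' : Mono e g') : Mono e (g * g') := by
  intro i
  obtain ⟨j, hj | hj⟩ := hg' i <;> obtain ⟨k, hk | hk⟩ := hg j <;>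
    refine ⟨k, ?_⟩ <;> rw [orth_mul_apply, hj] <;> simp [hk]

theorem OrthFrame.mono_refl (h : OrthFrame Q e c) (i : Fin n) : Mono e (refl Q (e i)) := fun j => by
  rcases eq_or_ne i j with rfl | hij
  · exact ⟨i, Or.inr (h.refl_self i)⟩
  · exact ⟨j, Or.inl (h.refl_other hij)⟩

theorem OrthFrame.mono_swap (h : OrthFrame Q e c) {a b : Fin n} (hab : a ≠ b) :
    Mono e (refl Q (e a - e b)) := fun j => by
  rcases eq_or_ne j a with rfl | ha
  · exact ⟨b, Or.inl (h.swap_left hab)⟩
  rcases eq_or_ne j b with rfl | hb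
  · exact ⟨a, Or.inl (h.swap_right hab)⟩
  exact ⟨j, Or.inl (h.swap_other ha hb)⟩

/-- The permutation and the signs of a signed permutation. -/
theorem Mono.exists_perm (h : OrthFrame Q e c) {g : orth Q} (hg : Mono e g) :
    ∃ π : Equiv.Perm (Fin n), ∃ s : Fin n → F, (∀ i, s i = 1 ∨ s i = -1) ∧
      ∀ i, (g : V ≃ₗ[F] V) (e i) = s i • e (π i) := by
  choose π hπ using hg
  have hinj : Function.Injective π := by
    intro i j hij
    by_contra hne
    have h1 : polar Q ((g : V ≃ₗ[F] V) (e i)) ((g : V ≃ₗ[F] V) (e j)) = 0 := by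
      rw [orth_polar]; exact h.ortho hne
    rcases hπ i with hi | hi <;> rcases hπ j with hj | hj <;>
      simp [hi, hj, hij, polar_neg_left, polar_neg_right, polar_self', h.val, h.two_ne, h.ne_zero] at h1
  have hs : ∀ i, ∃ s : F, (s = 1 ∨ s = -1) ∧ (g : V ≃ₗ[F] V) (e i) = s • e (π i) := fun i => by
    rcases hπ i with hi | hi
    · exact ⟨1, Or.inl rfl, by rw [one_smul, hi]⟩
    · exact ⟨-1, Or.inr rfl, by rw [neg_one_smul, hi]⟩
  choose s hs1 hs2 using hs
  exact ⟨Equiv.ofBijective π (Finite.injective_iff_bijective.1 hinj), s, hs1, hs2⟩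

theorem Mono.inv (h : OrthFrame Q e c) {g : orth Q} (hg : Mono e g) : Mono e g⁻¹ := by
  obtain ⟨π, s, hs, hg'⟩ := hg.exists_perm h
  intro i
  refine ⟨π.symm i, ?_⟩
  have h1 := congrArg ((g⁻¹ : orth Q) : V ≃ₗ[F] V) (hg' (π.symm i))
  rw [orth_inv_apply_apply, Equiv.apply_symm_apply, map_smul] at h1
  rcases hs (π.symm i) with hs' | hs' <;> rw [hs'] at h1
  · left; rw [one_smul] at h1; exact h1.symm
  · right; rw [neg_one_smul] at h1; rw [h1, neg_neg]

theorem OrthFrame.mono_flip (h : OrthFrame Q e c) (i j : Fin n) : Mono e (flipTwo Q e i j) :=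
  (h.mono_refl i).mul (h.mono_refl j)

theorem OrthFrame.mono_dblSwap (h : OrthFrame Q e c) {a b u v : Fin n} (hab : a ≠ b) (huv : u ≠ v) :
    Mono e (dblSwap Q e a b u v) :=
  (h.mono_swap hab).mul (h.mono_swap huv)

theorem OrthFrame.flip_comm (h : OrthFrame Q e c) (i j : Fin n) :
    refl Q (e i) * refl Q (e j) = refl Q (e j) * refl Q (e i) := by
  rcases eq_or_ne i j with rfl | hij
  · rfl
  have h1 := refl_conj (refl Q (e i)) (e j)
  rw [h.refl_other hij, refl_inv] at h1
  calc refl Q (e i) * refl Q (e j)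
      = refl Q (e i) * refl Q (e j) * refl Q (e i) * refl Q (e i) := by
        rw [mul_assoc _ (refl Q (e i)) (refl Q (e i)), refl_mul_self, mul_one]
    _ = refl Q (e j) * refl Q (e i) := by rw [h1]

variable [FiniteDimensional F V] [Finite F] [Finite V]

theorem OrthFrame.flip_mem (h : OrthFrame Q e c) (hn : 5 ≤ Module.finrank F V) {i j : Fin n} :
    flipTwo Q e i j ∈ commutator (orth Q) := by
  have hh := (list_prod_mem_commutator_iff h.nondeg (Or.inr (by omega)) (vs := [e i, e j])
    (by simp [h.val, h.ne_zero])).2 ⟨by simp, by simp [h.val, IsSquare.mul_self]⟩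
  simpa [flipTwo] using hh

theorem OrthFrame.dblSwap_mem (h : OrthFrame Q e c) (hn : 5 ≤ Module.finrank F V) {a b u v : Fin n}
    (hab : a ≠ b) (huv : u ≠ v) : dblSwap Q e a b u v ∈ commutator (orth Q) := by
  have hh := (list_prod_mem_commutator_iff h.nondeg (Or.inr (by omega)) (vs := [e a - e b, e u - e v])
    (by simp [h.val_sub hab, h.val_sub huv, h.two_ne, h.ne_zero])).2
    ⟨by simp, by simp [h.val_sub hab, h.val_sub huv, IsSquare.mul_self]⟩
  simpa [dblSwap] using hh

end Cfsg.Agent.H5
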