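import Cfsg.Agent.H5.FrameInvolution

/-!
Without a moved root, an overgroup of a frame stabiliser consists of signed permutations.
-/

set_option autoImplicit false

namespace Cfsg.Agent.H5

open QuadraticMap hiding sq

variable {F V : Type*} [Field F] [AddCommGroup V] [Module F V] {Q : QuadraticForm F V} {n : ℕ}
  {e : Fin n → V} {c : F}

theorem finrank_span_pair_le [FiniteDimensional F V] (a b : V) :
    Module.finrank F ↥(Submodule.span F {a} ⊔ Submodule.span F {b}) ≤ 2 := by
  refine (Submodule.finrank_add_le_finrank_add_finrank _ _).trans ?_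
  have h5 : ∀ z : V, Module.finrank F (Submodule.span F {z}) ≤ 1 := fun z => by
    simpa using finrank_span_le_card ({z} : Set V)
  have := h5 a; have := h5 b; omega

theorem conj_flip_eq (m : orth Q) (a b : Fin n) : m * flipTwo Q e a b * m⁻¹ =
    refl Q ((m : V ≃ₗ[F] V) (e a)) * refl Q ((m : V ≃ₗ[F] V) (e b)) := by
  simp only [flipTwo, ← refl_conj]; group

theorem flip_mul_self (h : OrthFrame Q e c) (a b : Fin n) : flipTwo Q e a b * flipTwo Q e a b = 1 := by
  simp only [flipTwo]
  rw [mul_assoc, ← mul_assoc (refl Q (e b)), ← h.flip_comm a b, mul_assoc (refl Q (e a)),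
    refl_mul_self, mul_one, refl_mul_self]

theorem flip_commute (h : OrthFrame Q e c) (p q p' q' : Fin n) :
    Commute (flipTwo Q e p q) (flipTwo Q e p' q') :=
  Commute.mul_left ((show Commute _ _ from h.flip_comm p p').mul_right (h.flip_comm p q'))
    ((show Commute _ _ from h.flip_comm q p').mul_right (h.flip_comm q q'))

theorem flip_apply (h : OrthFrame Q e c) {a b : Fin n} (hab : a ≠ b) (i : Fin n) :
    (flipTwo Q e a b : V ≃ₗ[F] V) (e i) = if i = a ∨ i = b then -e i else e i := by
  rw [flipTwo, orth_mul_apply]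
  rcases eq_or_ne i b with rfl | hib
  · rw [h.refl_self, map_neg, h.refl_other hab, if_pos (Or.inr rfl)]
  rw [h.refl_other (Ne.symm hib)]
  rcases eq_or_ne i a with rfl | hia
  · rw [h.refl_self, if_pos (Or.inl rfl)]
  rw [h.refl_other (Ne.symm hia), if_neg (by simp [hia, hib])]

theorem mono_conj_flip (h : OrthFrame Q e c) {g : orth Q} (hg : Mono e g) (a b : Fin n) :
    ∃ a' b', g * flipTwo Q e a b * g⁻¹ = flipTwo Q e a' b' ∧
      ((g : V ≃ₗ[F] V) (e a) = e a' ∨ (g : V ≃ₗ[F] V) (e a) = -e a') ∧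
      ((g : V ≃ₗ[F] V) (e b) = e b' ∨ (g : V ≃ₗ[F] V) (e b) = -e b') := by
  obtain ⟨π, s, hs, hπ⟩ := hg.exists_perm h
  refine ⟨π a, π b, ?_, ?_, ?_⟩
  · have hne : ∀ j, s j ≠ 0 := fun j => by rcases hs j with h' | h' <;> rw [h'] <;> simp
    rw [conj_flip_eq, hπ, hπ, refl_smul (hne a), refl_smul (hne b)]; rfl
  all_goals rw [hπ]
  · rcases hs a with h' | h' <;> simp [h']
  · rcases hs b with h' | h' <;> simp [h']

variable [FiniteDimensional F V] [Finite F] [Finite V] {M : Subgroup (orth Q)}
  (h : OrthFrame Q e c) (hn : 5 ≤ Module.finrank F V) (hn13 : 9 ≤ n)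
  (hM : ∀ g ∈ commutator (orth Q), Mono e g → g ∈ M)
  (hG : ∀ m ∈ M, ∀ f, IsRootVec e f → (m : V ≃ₗ[F] V) f = f → Mono e m)

include h hn hn13 hM hG in
/-- An element conjugating monomial involutions with small support is monomial. -/
theorem mono_of_conj {m z₁ z₂ : orth Q} (hm : m ∈ M) (hz1 : Mono e z₁) (hz2 : Mono e z₂)
    (hs1 : z₁ * z₁ = 1) (hs2 : z₂ * z₂ = 1) (hne1 : z₁ ≠ 1) (hmz : m * z₁ = z₂ * m)
    (S₁ S₂ : Finset (Fin n)) (hS1 : ∀ i, i ∈ S₁ ↔ (z₁ : V ≃ₗ[F] V) (e i) ≠ e i)
    (hS2 : ∀ i, i ∈ S₂ ↔ (z₂ : V ≃ₗ[F] V) (e i) ≠ e i) (hc1 : S₁.card ≤ 6) (hc1' : S₁.card + 5 ≤ n) (hc2 : S₂.card ≤ 6) (hc2' : S₂.card + 5 ≤ n) :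
    Mono e m := by
  classical
  -- pointwise fixers of the moved space
  have hroot : ∀ {z : orth Q}, Mono e z → z ≠ 1 →
      ∀ y ∈ M, (∀ u, (y : V ≃ₗ[F] V) ((z : V ≃ₗ[F] V) u - u) = (z : V ≃ₗ[F] V) u - u) →
      Mono e y := by
    intro z hz hz1' y hy hfix
    obtain ⟨v, hv⟩ : ∃ v, (z : V ≃ₗ[F] V) (e v) ≠ e v := by
      by_contra hc
      push Not at hc
      exact hz1' (h.orth_ext fun i => by rw [hc i]; rfl)
    obtain ⟨w, hw | hw⟩ := hz v
    · have hwv : w ≠ v := fun he => hv (by rw [hw, he])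
      refine hG y hy (e w - e v) (Or.inr ⟨w, v, hwv, Or.inr rfl⟩) ?_
      rw [← hw]; exact hfix (e v)
    · have h1 := hfix (e v)
      rw [hw] at h1
      rcases eq_or_ne w v with rfl | hwv
      · refine hG y hy (e w) (Or.inl ⟨w, rfl⟩) ?_
        rw [show -e w - e w = (-2 : F) • e w by module, map_smul] at h1
        exact (smul_right_injective V (neg_ne_zero.2 h.two_ne)) h1
      · refine hG y hy (e w + e v) (Or.inr ⟨w, v, hwv, Or.inl rfl⟩) ?_
        rw [show -e w - e v = -(e w + e v) by abel, map_neg, neg_inj] at h1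
        exact h1
  -- such elements preserve the moved coordinates
  have hpres : ∀ {z : orth Q}, Mono e z → z * z = 1 → ∀ (S : Finset (Fin n)),
      (∀ i, i ∈ S ↔ (z : V ≃ₗ[F] V) (e i) ≠ e i) → ∀ {y : orth Q}, Mono e y →
      (∀ u, (y : V ≃ₗ[F] V) ((z : V ≃ₗ[F] V) u - u) = (z : V ≃ₗ[F] V) u - u) →
      ∀ v w, ((y : V ≃ₗ[F] V) (e v) = e w ∨ (y : V ≃ₗ[F] V) (e v) = -e w) → (v ∈ S ↔ w ∈ S) := by
    intro z hz hzz S hS y hy hfix
    obtain ⟨π, s, hs, hπ⟩ := hy.exists_perm h
    have hone : ∀ v ∈ S, π v ∈ S := by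
      intro v hv
      rw [hS] at hv
      have h1 := hfix (e v)
      obtain ⟨q, t, ht, hq⟩ := hz.exists_perm h
      rw [hq, map_sub, map_smul, hπ, hπ] at h1
      have h2 := congrArg (coordAt Q e c (π v)) h1
      simp only [map_sub, map_smul, h.coord_self, smul_eq_mul, mul_one] at h2
      by_contra hmem
      rw [hS, not_not] at hmem
      have hpv : π v ≠ v := fun he => hv (by rw [← he]; exact hmem)
      have hqv : π v ≠ q v := fun he => by
        have h3 : (z : V ≃ₗ[F] V) ((z : V ≃ₗ[F] V) (e v)) = e v := by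
          rw [← orth_mul_apply, hzz]; rfl
        rw [hq, map_smul, ← he, hmem] at h3
        have := congrArg (coordAt Q e c v) h3
        rw [map_smul, h.coord_self, h.coord_other (Ne.symm hpv), smul_zero] at this
        exact zero_ne_one this
      rw [h.coord_other hpv, h.coord_other hqv, mul_zero, sub_zero] at h2
      by_cases hqq : q v = v
      · rw [hqq, h.coord_self, mul_one] at h2
        have hs0 : s v ≠ 0 := by rcases hs v with h' | h' <;> rw [h'] <;> simp
        rcases ht v with h' | h'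
        · exact hv (by rw [hq, hqq, h', one_smul])
        · rw [h'] at h2
          exact mul_ne_zero h.two_ne hs0 (by linear_combination -h2)
      · have hne : π v ≠ π (q v) := fun he => hqq (π.injective he).symm
        rw [h.coord_other hne, mul_zero, mul_zero, zero_sub, neg_eq_zero] at h2
        rcases hs v with h' | h' <;> rw [h'] at h2 <;> simp at h2
    have himg : S.image π = S := Finset.eq_of_subset_of_card_le
      (fun i hi => by obtain ⟨j, hj, rfl⟩ := Finset.mem_image.1 hi; exact hone j hj)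
      (by rw [Finset.card_image_of_injective _ π.injective])
    intro v w hvw
    have hw : π v = w := by
      by_contra hne
      have h1 : coordAt Q e c (π v) ((y : V ≃ₗ[F] V) (e v)) = 0 := by
        rcases hvw with h' | h' <;> simp [h', h.coord_other hne]
      rw [hπ, map_smul, h.coord_self] at h1
      rcases hs v with h' | h' <;> rw [h'] at h1 <;> simp at h1
    rw [← hw]
    refine ⟨hone v, fun hv => ?_⟩
    rw [← himg, Finset.mem_image] at hv
    obtain ⟨j, hj, hjv⟩ := hv
    rwa [← π.injective hjv]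
  have hne2 : z₂ ≠ 1 := fun he => hne1 (by
    rw [he, one_mul] at hmz
    exact mul_left_cancel (hmz.trans (mul_one m).symm))
  set T₁ : Finset (Fin n) := Finset.univ \ S₁ with hT1
  set T₂ : Finset (Fin n) := Finset.univ \ S₂ with hT2
  have hT1c : 5 ≤ T₁.card := by
    rw [hT1, Finset.card_sdiff, Finset.inter_univ, Finset.card_univ, Fintype.card_fin]; omega
  have hT2c : 5 ≤ T₂.card := by
    rw [hT2, Finset.card_sdiff, Finset.inter_univ, Finset.card_univ, Fintype.card_fin]; omega
  have hmT1 : ∀ {i}, i ∈ T₁ ↔ (z₁ : V ≃ₗ[F] V) (e i) = e i := by simp [hT1, hS1]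
  have hmT2 : ∀ {i}, i ∈ T₂ ↔ (z₂ : V ≃ₗ[F] V) (e i) = e i := by simp [hT2, hS2]
  have hmz' : ∀ u, (m : V ≃ₗ[F] V) ((z₁ : V ≃ₗ[F] V) u) = (z₂ : V ≃ₗ[F] V) ((m : V ≃ₗ[F] V) u) :=
    fun u => by rw [← orth_mul_apply, hmz]; rfl
  -- transport of pointwise fixers
  have hback : ∀ g : orth Q, (∀ u, (g : V ≃ₗ[F] V) ((z₂ : V ≃ₗ[F] V) u - u) = (z₂ : V ≃ₗ[F] V) u - u) →
      ∀ u, ((m⁻¹ * g * m : orth Q) : V ≃ₗ[F] V) ((z₁ : V ≃ₗ[F] V) u - u) =
        (z₁ : V ≃ₗ[F] V) u - u := by
    intro g hg u
    rw [orth_mul_apply, orth_mul_apply, map_sub (m : V ≃ₗ[F] V), hmz', hg, ← hmz', ← map_sub,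
      orth_inv_apply_apply]
  let X : Fin n → Fin n → orth Q := fun p q => m * flipTwo Q e p q * m⁻¹
  have hXfix : ∀ {p q}, p ∈ T₁ → q ∈ T₁ → ∀ u,
      (X p q : V ≃ₗ[F] V) ((z₂ : V ≃ₗ[F] V) u - u) = (z₂ : V ≃ₗ[F] V) u - u := by
    intro p q hp hq u
    obtain ⟨u', rfl⟩ := (m : V ≃ₗ[F] V).surjective u
    rw [← hmz', ← map_sub]
    simp only [X, orth_mul_apply, orth_inv_apply_apply]
    congr 1
    have hor : ∀ i ∈ T₁, polar Q (e i) ((z₁ : V ≃ₗ[F] V) u' - u') = 0 := fun i hi => by
      have := orth_polar z₁ (e i) u'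
      rw [hmT1.1 hi] at this
      rw [polar_sub_right, this, sub_self]
    rw [flipTwo, orth_mul_apply, refl_apply_of_ortho (hor q hq), refl_apply_of_ortho (hor p hp)]
  have hXM : ∀ p q, X p q ∈ M := fun p q => mul_mem (mul_mem hm (flip_mem_M h hn hM p q)) (inv_mem hm)
  have hXm : ∀ {p q}, p ∈ T₁ → q ∈ T₁ → Mono e (X p q) := fun hp hq =>
    hroot hz2 hne2 _ (hXM _ _) (hXfix hp hq)
  have hXsub : ∀ p q x, (X p q : V ≃ₗ[F] V) x - x ∈
      Submodule.span F {(m : V ≃ₗ[F] V) (e p)} ⊔ Submodule.span F {(m : V ≃ₗ[F] V) (e q)} :=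
    fun p q x => by simp only [X, conj_flip_eq]; exact pair_sub_mem _ _ x
  have hconj : ∀ g ∈ M, (∀ i ∉ T₂, (g : V ≃ₗ[F] V) (e i) = e i) → ∀ p ∈ T₁, ∀ q ∈ T₁,
      ∃ p' ∈ T₁, ∃ q' ∈ T₁, g * X p q * g⁻¹ = X p' q' := by
    intro g hgM hgfix p hp q hq
    have hg : ∀ u, (g : V ≃ₗ[F] V) ((z₂ : V ≃ₗ[F] V) u - u) = (z₂ : V ≃ₗ[F] V) u - u := by
      intro u
      set y := (z₂ : V ≃ₗ[F] V) u - u with hy
      conv_lhs => rw [← h.expand y]
      conv_rhs => rw [← h.expand y]
      rw [map_sum]
      refine Finset.sum_congr rfl fun i _ => ?_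
      rw [map_smul]
      by_cases hi : i ∈ T₂
      · have h0 : polar Q (e i) y = 0 := by
          have := orth_polar z₂ (e i) u
          rw [hmT2.1 hi] at this
          rw [hy, polar_sub_right, this, sub_self]
        rw [h.polar_coord, mul_eq_zero, or_iff_right (mul_ne_zero h.two_ne h.ne_zero)] at h0
        rw [h0, zero_smul, zero_smul]
      · rw [hgfix i hi]
    set g' := m⁻¹ * g * m with hg'
    have hg'M : g' ∈ M := mul_mem (mul_mem (inv_mem hm) hgM) hm
    have hg'm := hroot hz1 hne1 g' hg'M (hback g hg)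
    obtain ⟨p', q', he, hp', hq'⟩ := mono_conj_flip h hg'm p q
    have hP := hpres hz1 hs1 S₁ hS1 hg'm (hback g hg)
    refine ⟨p', ?_, q', ?_, ?_⟩
    · have := hP p p' hp'
      simp only [hT1, Finset.mem_sdiff, Finset.mem_univ, true_and] at hp ⊢
      exact fun h' => hp (this.2 h')
    · have := hP q q' hq'
      simp only [hT1, Finset.mem_sdiff, Finset.mem_univ, true_and] at hq ⊢
      exact fun h' => hq (this.2 h')
    · simp only [X, ← he, hg']; group
  have hdiag : ∀ {p q}, p ∈ T₁ → q ∈ T₁ → ∀ v ∈ T₂,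
      (X p q : V ≃ₗ[F] V) (e v) = e v ∨ (X p q : V ≃ₗ[F] V) (e v) = -e v := by
    intro p q hp hq
    refine line_fixed_of_comm h hn hM ?_ hT2c (hXm hp hq)
      _ (finrank_span_pair_le _ _) (fun i => hXsub p q (e i)) ?_ ?_
    · simp only [X]
      calc m * flipTwo Q e p q * m⁻¹ * (m * flipTwo Q e p q * m⁻¹)
          = m * (flipTwo Q e p q * flipTwo Q e p q) * m⁻¹ := by group
        _ = 1 := by rw [flip_mul_self h, mul_one, mul_inv_cancel]
    · intro v hv w hw
      have := hpres hz2 hs2 S₂ hS2 (hXm hp hq) (hXfix hp hq) v w hw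
      simp only [hT2, Finset.mem_sdiff, Finset.mem_univ, true_and] at hv ⊢
      exact fun h' => hv (this.2 h')
    · intro g hg _ hgfix
      obtain ⟨p', -, q', -, he⟩ := hconj g hg hgfix p hp q hq
      rw [he]
      simp only [X]
      calc m * flipTwo Q e p q * m⁻¹ * (m * flipTwo Q e p' q' * m⁻¹)
          = m * (flipTwo Q e p q * flipTwo Q e p' q') * m⁻¹ := by group
        _ = m * (flipTwo Q e p' q' * flipTwo Q e p q) * m⁻¹ := by rw [(flip_commute h _ _ _ _).eq]
        _ = _ := by group
  by_cases hflip : ∃ p ∈ T₁, ∃ q ∈ T₁, p ≠ q ∧ ∃ v ∈ T₂, (X p q : V ≃ₗ[F] V) (e v) = -e v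
  · obtain ⟨p, hp, q, hq, hpq, k, hk, hkx⟩ := hflip
    -- two changed signs outside the moved coordinates
    have htwo : ∀ {a b : Fin n}, a ≠ b → ∀ {k l : Fin n}, k ≠ l →
        (X a b : V ≃ₗ[F] V) (e k) = -e k → (X a b : V ≃ₗ[F] V) (e l) = -e l → Mono e m := by
      intro a b hab k l hkl hk hl
      have hminus : ∀ i, (X a b : V ≃ₗ[F] V) (e i) = -e i →
          ∀ r, r ≠ a → r ≠ b → coordAt Q e c r (((m⁻¹ : orth Q) : V ≃ₗ[F] V) (e i)) = 0 := by
        intro i hi r hra hrb
        have h1 : (flipTwo Q e a b : V ≃ₗ[F] V) (((m⁻¹ : orth Q) : V ≃ₗ[F] V) (e i)) =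
            -(((m⁻¹ : orth Q) : V ≃ₗ[F] V) (e i)) := by
          have h2 := congrArg ((m⁻¹ : orth Q) : V ≃ₗ[F] V) hi
          simp only [X, orth_mul_apply, orth_inv_apply_apply, map_neg] at h2
          exact h2
        have h3 := orth_polar (flipTwo Q e a b) (e r) (((m⁻¹ : orth Q) : V ≃ₗ[F] V) (e i))
        rw [h1, flip_apply h hab, if_neg (by simp [hra, hrb]), polar_neg_right, h.polar_coord] at h3
        exact mul_left_cancel₀ (mul_ne_zero (mul_ne_zero h.two_ne h.two_ne) h.ne_zero)
          (by linear_combination -h3)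
      have := (mono_of_plane h hn (by omega) hM hG (inv_mem hm) hkl hab (hminus k hk) (hminus l hl)).inv h
      rwa [inv_inv] at this
    by_cases hsec : ∃ l ∈ T₂, l ≠ k ∧ (X p q : V ≃ₗ[F] V) (e l) = -e l
    · obtain ⟨l, -, hlk, hlx⟩ := hsec
      exact htwo hpq (Ne.symm hlk) hkx hlx
    push Not at hsec
    obtain ⟨u, hu, huk⟩ := Finset.exists_mem_ne (by omega : 1 < T₂.card) k
    obtain ⟨u', hu', hu'n⟩ := Finset.exists_mem_notMem_of_card_lt_card (t := T₂)
      (s := ({k, u} : Finset (Fin n))) (lt_of_le_of_lt Finset.card_le_two (by omega))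
    simp only [Finset.mem_insert, Finset.mem_singleton, not_or] at hu'n
    obtain ⟨g, hgM, -, hgk, hgu, hgu', hgo⟩ :=
      exists_cycle h hn hM (Ne.symm huk) (Ne.symm hu'n.2) (Ne.symm hu'n.1)
    have hgfix : ∀ i ∉ T₂, (g : V ≃ₗ[F] V) (e i) = e i := fun i hi =>
      hgo i (fun he => hi (he ▸ hk)) (fun he => hi (he ▸ hu)) (fun he => hi (he ▸ hu'))
    obtain ⟨p', hp', q', hq', he⟩ := hconj g hgM hgfix p hp q hq
    have hgi : ∀ {a b : Fin n}, (g : V ≃ₗ[F] V) (e a) = e b →
        ((g⁻¹ : orth Q) : V ≃ₗ[F] V) (e b) = e a := fun hab => by rw [← hab, orth_inv_apply_apply]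
    have hplus : ∀ v ∈ T₂, v ≠ k → (X p q : V ≃ₗ[F] V) (e v) = e v := fun v hv hvk =>
      (hdiag hp hq v hv).resolve_right (hsec v hv hvk)
    have hprod : X p q * X p' q' = flipTwo Q e k u := by
      refine h.orth_ext fun v => ?_
      rw [← he, flip_apply h (Ne.symm huk)]
      simp only [orth_mul_apply]
      by_cases hvT : v ∈ T₂
      · rcases eq_or_ne v k with rfl | hvk
        · rw [hgi hgu', hplus u' hu' hu'n.1, hgu', hkx, if_pos (Or.inl rfl)]
        rcases eq_or_ne v u with rfl | hvu
        · rw [hgi hgk, hkx, map_neg, hgk, map_neg, hplus v hu hvk, if_pos (Or.inr rfl)]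
        rcases eq_or_ne v u' with rfl | hvu'
        · rw [hgi hgu, hplus u hu huk, hgu, hplus v hu' hvk, if_neg (by simp [hvk, hvu])]
        rw [hgi (hgo v hvk hvu hvu'), hplus v hvT hvk, hgo v hvk hvu hvu', hplus v hvT hvk,
          if_neg (by simp [hvk, hvu])]
      · rw [hgi (hgfix v hvT)]
        obtain ⟨w, hw⟩ := hXm hp hq v
        have hwT : w ∉ T₂ := fun hwT => by
          have := hpres hz2 hs2 S₂ hS2 (hXm hp hq) (hXfix hp hq) v w hw
          simp only [hT2, Finset.mem_sdiff, Finset.mem_univ, true_and] at hwT hvT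
          exact hwT (this.1 (not_not.1 hvT))
        have hgx : (g : V ≃ₗ[F] V) ((X p q : V ≃ₗ[F] V) (e v)) = (X p q : V ≃ₗ[F] V) (e v) := by
          rcases hw with hw | hw <;> simp [hw, hgfix w hwT]
        rw [hgx, ← orth_mul_apply]
        rw [show X p q * X p q = 1 by
          simp only [X]
          calc m * flipTwo Q e p q * m⁻¹ * (m * flipTwo Q e p q * m⁻¹)
              = m * (flipTwo Q e p q * flipTwo Q e p q) * m⁻¹ := by group
            _ = 1 := by rw [flip_mul_self h, mul_one, mul_inv_cancel],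
          if_neg (by rintro (rfl | rfl); exacts [hvT hk, hvT hu])]
        rfl
    set P := flipTwo Q e p q * flipTwo Q e p' q' with hP
    have hmP : flipTwo Q e k u = m * P * m⁻¹ := by rw [← hprod, hP]; simp only [X]; group
    by_cases hex : ∃ i j, i ≠ j ∧ (P : V ≃ₗ[F] V) (e i) = -e i ∧ (P : V ≃ₗ[F] V) (e j) = -e j
    · obtain ⟨i, j, hij, hi, hj⟩ := hex
      have hsupp : ∀ {i}, (P : V ≃ₗ[F] V) (e i) = -e i → ∀ r, r ≠ k → r ≠ u →
          coordAt Q e c r ((m : V ≃ₗ[F] V) (e i)) = 0 := by
        intro i hi r hrk hru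
        have h1 : (flipTwo Q e k u : V ≃ₗ[F] V) ((m : V ≃ₗ[F] V) (e i)) = -((m : V ≃ₗ[F] V) (e i)) := by
          rw [hmP, orth_mul_apply, orth_mul_apply, orth_inv_apply_apply, hi, map_neg]
        have h3 := orth_polar (flipTwo Q e k u) (e r) ((m : V ≃ₗ[F] V) (e i))
        rw [h1, flip_apply h (Ne.symm huk), if_neg (by simp [hrk, hru]), polar_neg_right,
          h.polar_coord] at h3
        exact mul_left_cancel₀ (mul_ne_zero (mul_ne_zero h.two_ne h.two_ne) h.ne_zero)
          (by linear_combination -h3)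
      exact mono_of_plane h hn (by omega) hM hG hm hij (Ne.symm huk) (hsupp hi) (hsupp hj)
    exfalso
    have hpq' : p' ≠ q' := by
      intro he'
      have e1 : g * X p q * g⁻¹ = 1 := by
        rw [he]; simp only [X, he', flipTwo, refl_mul_self, mul_one, mul_inv_cancel]
      have e2 : X p q = 1 := by
        calc X p q = g⁻¹ * (g * X p q * g⁻¹) * g := by group
          _ = 1 := by rw [e1, mul_one, inv_mul_cancel]
      rw [e2] at hkx
      exact h.ne_neg k k hkx
    have hval : ∀ i, (P : V ≃ₗ[F] V) (e i) =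
        if (i = p ∨ i = q) ↔ (i = p' ∨ i = q') then e i else -e i := by
      intro i
      rw [hP, orth_mul_apply, flip_apply h hpq']
      by_cases h1 : i = p' ∨ i = q' <;> by_cases h2 : i = p ∨ i = q <;>
        simp [h1, h2, flip_apply h hpq]
    have hsame : ({p, q} : Finset (Fin n)) = {p', q'} := by
      by_contra hd
      have hc : ({p, q} : Finset (Fin n)).card = ({p', q'} : Finset (Fin n)).card := by
        rw [Finset.card_pair hpq, Finset.card_pair hpq']
      obtain ⟨i, hi, hi'⟩ := Finset.not_subset.1 fun hs =>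
        hd (Finset.eq_of_subset_of_card_le hs (le_of_eq hc.symm))
      obtain ⟨j, hj, hj'⟩ := Finset.not_subset.1 fun hs =>
        hd (Finset.eq_of_subset_of_card_le hs (le_of_eq hc)).symm
      simp only [Finset.mem_insert, Finset.mem_singleton] at hi hi' hj hj'
      refine hex ⟨i, j, fun hij => hj' (hij ▸ hi), ?_, ?_⟩
      · rw [hval, if_neg (fun h' => hi' (h'.1 hi))]
      · rw [hval, if_neg (fun h' => hj' (h'.2 hj))]
    have hP1 : P = 1 := h.orth_ext fun i => by
      rw [hval, if_pos]
      · rfl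
      · have := congrArg (fun s : Finset (Fin n) => i ∈ s) hsame
        simpa using this
    rw [hP1, mul_one, mul_inv_cancel] at hmP
    have := congrArg (fun g : orth Q => (g : V ≃ₗ[F] V) (e k)) hmP
    simp only [flip_apply h (Ne.symm huk), if_pos (Or.inl rfl : k = k ∨ k = u)] at this
    exact h.ne_neg k k this.symm
  -- otherwise the images of the fixed coordinates are too small
  exfalso
  push Not at hflip
  obtain ⟨π, s, hs, hπ⟩ := hz2.exists_perm h
  set R := S₂.filter fun v => v < π v with hR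
  have hππ : ∀ v, π (π v) = v := by
    intro v
    have h1 : (z₂ : V ≃ₗ[F] V) ((z₂ : V ≃ₗ[F] V) (e v)) = e v := by rw [← orth_mul_apply, hs2]; rfl
    rw [hπ, map_smul, hπ, smul_smul] at h1
    by_contra hne
    have := congrArg (coordAt Q e c v) h1
    rw [map_smul, h.coord_self, h.coord_other (Ne.symm hne), smul_zero] at this
    exact zero_ne_one this
  have hRc : R.card + R.card ≤ 6 := by
    refine le_trans ?_ hc2
    have hsub : R ∪ R.image π ⊆ S₂ := by
      intro i hi
      rcases Finset.mem_union.1 hi with hi | hi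
      · exact (Finset.mem_filter.1 hi).1
      · obtain ⟨j, hj, rfl⟩ := Finset.mem_image.1 hi
        obtain ⟨hjS, hjlt⟩ := Finset.mem_filter.1 hj
        rw [hS2] at hjS ⊢
        intro h0
        rw [hπ, hππ] at h0
        have := congrArg (coordAt Q e c (π j)) h0
        rw [map_smul, h.coord_self, h.coord_other (ne_of_gt hjlt), smul_zero] at this
        exact zero_ne_one this
    refine le_trans (le_of_eq ?_) (Finset.card_le_card hsub)
    rw [Finset.card_union_of_disjoint, Finset.card_image_of_injective _ π.injective]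
    rw [Finset.disjoint_left]
    intro i hi hi'
    obtain ⟨j, hj, rfl⟩ := Finset.mem_image.1 hi'
    have h1 := (Finset.mem_filter.1 hi).2
    have h2 := (Finset.mem_filter.1 hj).2
    rw [hππ] at h1
    exact lt_asymm h1 h2
  let L : (T₁ → F) →ₗ[F] (R → F) :=
    { toFun := fun φ i => coordAt Q e c (i : Fin n) ((m : V ≃ₗ[F] V) (∑ p : T₁, φ p • e p))
      map_add' := fun a b => by ext i; simp [add_smul, Finset.sum_add_distrib]
      map_smul' := fun r a => by ext i; simp [mul_smul, ← Finset.smul_sum] }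
  have hinj : Function.Injective L := by
    rw [injective_iff_map_eq_zero]
    intro φ hφ
    set y := (m : V ≃ₗ[F] V) (∑ p : T₁, φ p • e p) with hy
    have hzy : (z₂ : V ≃ₗ[F] V) y = y := by
      rw [hy, ← hmz', map_sum]
      congr 1
      exact Finset.sum_congr rfl fun p _ => by rw [map_smul, hmT1.1 p.2]
    have hyR : ∀ i ∈ R, coordAt Q e c i y = 0 := fun i hi => congrFun hφ ⟨i, hi⟩
    have hyT : ∀ v ∈ T₂, coordAt Q e c v y = 0 := by
      intro v hv
      rw [hy, map_sum, map_sum]
      refine Finset.sum_eq_zero fun p _ => ?_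
      rw [map_smul, map_smul]
      obtain ⟨q, hq, hqp⟩ := Finset.exists_mem_ne (by omega : 1 < T₁.card) (p : Fin n)
      have hx : (X p q : V ≃ₗ[F] V) (e v) = e v :=
        (hdiag p.2 hq v hv).resolve_right (hflip p p.2 q hq (Ne.symm hqp) v hv)
      have hxm : (X p q : V ≃ₗ[F] V) ((m : V ≃ₗ[F] V) (e p)) = -(m : V ≃ₗ[F] V) (e p) := by
        simp only [X, orth_mul_apply, orth_inv_apply_apply]
        rw [flip_apply h (Ne.symm hqp), if_pos (Or.inl rfl), map_neg]
      have h3 := orth_polar (X p q) (e v) ((m : V ≃ₗ[F] V) (e p))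
      rw [hx, hxm, polar_neg_right, h.polar_coord] at h3
      rw [mul_left_cancel₀ (mul_ne_zero (mul_ne_zero h.two_ne h.two_ne) h.ne_zero)
        (show 2 * 2 * c * coordAt Q e c v ((m : V ≃ₗ[F] V) (e p)) = 2 * 2 * c * 0 by
          linear_combination -h3), smul_zero]
    have hall : y = 0 := h.ext_coord fun v => by
      rw [map_zero]
      by_cases hvT : v ∈ T₂
      · exact hyT v hvT
      have hvS : v ∈ S₂ := by simpa [hT2] using hvT
      have hrel : s v * coordAt Q e c (π v) y = coordAt Q e c v y := by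
        have h1 := orth_polar z₂ (e v) y
        rw [hzy, hπ, polar_smul_left, h.polar_coord, h.polar_coord, smul_eq_mul] at h1
        exact mul_left_cancel₀ (mul_ne_zero h.two_ne h.ne_zero) (by linear_combination h1)
      rcases lt_trichotomy v (π v) with hlt | heq | hgt
      · exact hyR v (Finset.mem_filter.2 ⟨hvS, hlt⟩)
      · rw [← heq] at hrel
        rw [hS2, hπ, ← heq] at hvS
        rcases hs v with h' | h'
        · rw [h', one_smul] at hvS; exact absurd rfl hvS
        · rw [h'] at hrel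
          exact (mul_eq_zero.1 (show (2 : F) * coordAt Q e c v y = 0 by
            linear_combination -hrel)).resolve_left h.two_ne
      · have hmem : π v ∈ R := Finset.mem_filter.2 ⟨by
          rw [hS2] at hvS ⊢
          intro h0
          rw [hπ, hππ] at h0
          have := congrArg (coordAt Q e c (π v)) h0
          rw [map_smul, h.coord_self, h.coord_other (ne_of_lt hgt), smul_zero] at this
          exact zero_ne_one this, by rw [hππ]; exact hgt⟩
        rw [← hrel, hyR _ hmem, mul_zero]
    have hsum : ∑ p : T₁, φ p • e p = 0 := (m : V ≃ₗ[F] V).map_eq_zero_iff.1 hall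
    funext p
    have h1 := congrArg (coordAt Q e c (p : Fin n)) hsum
    rw [map_sum, map_zero, Finset.sum_eq_single p (fun q _ hq => by
      rw [map_smul, h.coord_other (fun he => hq (Subtype.ext he.symm)), smul_zero]) (by simp),
      map_smul, h.coord_self, smul_eq_mul, mul_one] at h1
    exact h1
  have := LinearMap.finrank_le_finrank_of_injective hinj
  simp at this
  omega

include h hn hM hG in
/-- An involution centralising one with a negated and three fixed frame vectors. -/
theorem mono_of_three_fixed {x z : orth Q} (hx : x ∈ M) (hxx : x * x = 1) (hzz : z * z = 1)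
    (hzx : z * x = x * z) {U : Submodule F V} (hU : Module.finrank F U ≤ 2)
    (hsub : ∀ y, (x : V ≃ₗ[F] V) y - y ∈ U) (hneg : ∀ y ∈ U, (x : V ≃ₗ[F] V) y = -y)
    (hfix : ∀ i, (∀ y ∈ U, coordAt Q e c i y = 0) → (x : V ≃ₗ[F] V) (e i) = e i)
    {p : Fin n} (hp : (z : V ≃ₗ[F] V) (e p) = -e p) (hup : ∃ u ∈ U, coordAt Q e c p u ≠ 0)
    {T : Finset (Fin n)} (hT : ∀ v ∈ T, (z : V ≃ₗ[F] V) (e v) = e v) (hTc : 3 ≤ T.card) :
    Mono e x := by
  classical
  have hcz : ∀ y, (x : V ≃ₗ[F] V) ((z : V ≃ₗ[F] V) y) = (z : V ≃ₗ[F] V) ((x : V ≃ₗ[F] V) y) :=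
    fun y => by rw [← orth_mul_apply, ← hzx, orth_mul_apply]
  have hxx' : ∀ y, (x : V ≃ₗ[F] V) ((x : V ≃ₗ[F] V) y) = y := fun y => by
    rw [← orth_mul_apply, hxx]; rfl
  have hzz' : ∀ y, (z : V ≃ₗ[F] V) ((z : V ≃ₗ[F] V) y) = y := fun y => by
    rw [← orth_mul_apply, hzz]; rfl
  have hmem : ∀ y, (x : V ≃ₗ[F] V) y = -y → y ∈ U := fun y hy => by
    have h1 := hsub y
    rwa [hy, show -y - y = (-2 : F) • y by module,
      Submodule.smul_mem_iff _ (neg_ne_zero.2 h.two_ne)] at h1
  have hzU : ∀ y ∈ U, (z : V ≃ₗ[F] V) y ∈ U := fun y hy => hmem _ (by rw [hcz, hneg y hy, map_neg])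
  have h20 : (2 : F) * c ≠ 0 := mul_ne_zero h.two_ne h.ne_zero
  have hzc : ∀ v ∈ T, ∀ y, coordAt Q e c v ((z : V ≃ₗ[F] V) y) = coordAt Q e c v y := fun v hv y => by
    have h1 := orth_polar z (e v) y
    rw [hT v hv, h.polar_coord, h.polar_coord] at h1
    exact mul_left_cancel₀ h20 h1
  obtain ⟨u, hu, hup⟩ := hup
  set u' := u - (z : V ≃ₗ[F] V) u with hu'
  have hzu' : (z : V ≃ₗ[F] V) u' = -u' := by rw [hu', map_sub, hzz', neg_sub]
  have hu'0 : u' ≠ 0 := fun h0 => by
    have h1 := orth_polar z (e p) u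
    rw [hp, polar_neg_left, h.polar_coord, h.polar_coord, ← sub_eq_zero.1 h0] at h1
    exact mul_ne_zero (mul_ne_zero h.two_ne h20) hup (by linear_combination -h1)
  have hu'T : ∀ v ∈ T, coordAt Q e c v u' = 0 := fun v hv => by
    rw [hu', map_sub, hzc v hv, sub_self]
  by_cases hex : ∀ v ∈ T, ∃ y ∈ U, coordAt Q e c v y ≠ 0
  swap
  · push Not at hex
    obtain ⟨v, -, hv⟩ := hex
    exact hG x hx (e v) (Or.inl ⟨v, rfl⟩) (hfix v hv)
  obtain ⟨v₁, h1, v₂, h2, v₃, h3, h12, h13, h23⟩ := Finset.two_lt_card.1 (show 2 < T.card by omega)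
  obtain ⟨y₁, hy₁, hy₁'⟩ := hex v₁ h1
  set w := y₁ + (z : V ≃ₗ[F] V) y₁ with hw
  have hwU : w ∈ U := add_mem hy₁ (hzU y₁ hy₁)
  have hzw : (z : V ≃ₗ[F] V) w = w := by rw [hw, map_add, hzz', add_comm]
  have hw0 : w ≠ 0 := fun h0 => by
    have h4 := congrArg (coordAt Q e c v₁) h0
    rw [hw, map_add, hzc v₁ h1, map_zero, ← two_mul] at h4
    exact mul_ne_zero h.two_ne hy₁' h4
  have hli : LinearIndependent F ![u', w] := by
    refine LinearIndependent.pair_iff.2 fun α β hab => ?_
    have h4 := congrArg (z : V ≃ₗ[F] V) hab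
    rw [map_add, map_smul, map_smul, hzu', hzw, map_zero] at h4
    have h5 : (2 * β) • w = 0 := by linear_combination (norm := module) hab + h4
    have hβ : β = 0 := (mul_eq_zero.1 ((smul_eq_zero.1 h5).resolve_right hw0)).resolve_left h.two_ne
    exact ⟨(smul_eq_zero.1 (by simpa [hβ] using hab)).resolve_right hu'0, hβ⟩
  have hspan : ∀ y ∈ U, ∃ α β : F, α • u' + β • w = y := by
    have hs : Submodule.span F (Set.range ![u', w]) = U := by
      refine Submodule.eq_of_le_of_finrank_le (Submodule.span_le.2 (Set.range_subset_iff.2 ?_)) ?_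
      · intro k; fin_cases k
        exacts [sub_mem hu (hzU u hu), hwU]
      · rw [finrank_span_eq_card hli, Fintype.card_fin]; exact hU
    intro y hy
    rw [← hs, Matrix.range_cons, Matrix.range_cons, Matrix.range_empty, Set.union_empty,
      Set.singleton_union, Submodule.mem_span_pair] at hy
    exact hy
  have hwT : ∀ v ∈ T, coordAt Q e c v w ≠ 0 := fun v hv h0 => by
    obtain ⟨y, hy, hy'⟩ := hex v hv
    obtain ⟨α, β, rfl⟩ := hspan y hy
    simp [hu'T v hv, h0] at hy'
  clear_value w
  -- the images of the fixed vectors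
  have himg : ∀ v ∈ T, ∃ β, (x : V ≃ₗ[F] V) (e v) = e v + β • w ∧
      β * Q w = -(2 * c * coordAt Q e c v w) := by
    intro v hv
    obtain ⟨α, β, hab⟩ := hspan _ (hsub (e v))
    have hα : α = 0 := by
      have h4 := congrArg (z : V ≃ₗ[F] V) hab
      rw [map_add, map_smul, map_smul, hzu', hzw, map_sub, ← hcz, hT v hv] at h4
      have h5 : (2 * α) • u' = 0 := by linear_combination (norm := module) hab - h4
      exact (mul_eq_zero.1 ((smul_eq_zero.1 h5).resolve_right hu'0)).resolve_left h.two_ne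
    rw [hα, zero_smul, zero_add, eq_sub_iff_add_eq] at hab
    refine ⟨β, by rw [← hab, add_comm], ?_⟩
    have h4 := orth_polar x (e v) w
    rw [hneg w hwU, ← hab, polar_neg_right, polar_add_left, polar_smul_left, polar_self',
      h.polar_coord, smul_eq_mul] at h4
    exact mul_left_cancel₀ h.two_ne (by linear_combination -h4)
  have hqw : Q w ≠ 0 := fun h0 => by
    obtain ⟨β, -, hβ⟩ := himg v₁ h1
    rw [h0, mul_zero, eq_comm, neg_eq_zero] at hβ
    exact mul_ne_zero h20 (hwT v₁ h1) hβ
  set k := (Q w)⁻¹ * (2 * c) with hk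
  have hk0 : k ≠ 0 := mul_ne_zero (inv_ne_zero hqw) h20
  have hxe : ∀ v ∈ T, (x : V ≃ₗ[F] V) (e v) = e v + (-(k * coordAt Q e c v w)) • w := fun v hv => by
    obtain ⟨β, h4, h5⟩ := himg v hv
    rw [h4]
    congr 2
    rw [hk, ← mul_right_inj' hqw]
    linear_combination h5 + (2 * c * coordAt Q e c v w) * mul_inv_cancel₀ hqw
  -- two fixed vectors carry the whole value
  have key : ∀ a ∈ T, ∀ b ∈ T, ∀ d ∈ T, a ≠ b → a ≠ d → b ≠ d →
      k * (coordAt Q e c a w ^ 2 + coordAt Q e c b w ^ 2) = 1 := by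
    intro a ha b hb d hd hab had hbd
    set g := flipTwo Q e a b with hg
    have hgfix : ∀ y, coordAt Q e c a y = 0 → coordAt Q e c b y = 0 → (g : V ≃ₗ[F] V) y = y := by
      intro y hya hyb
      have za : polar Q (e a) y = 0 := by rw [h.polar_coord, hya, mul_zero]
      have zb : polar Q (e b) y = 0 := by rw [h.polar_coord, hyb, mul_zero]
      rw [hg, flipTwo, orth_mul_apply, refl_apply_of_ortho zb, refl_apply_of_ortho za]
    have hep : ∀ v ∈ T, coordAt Q e c v ((x : V ≃ₗ[F] V) (e p)) = 0 := fun v hv => by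
      have h4 := hzc v hv ((x : V ≃ₗ[F] V) (e p))
      rw [← hcz, hp, map_neg, map_neg] at h4
      exact (mul_eq_zero.1 (show (2 : F) * coordAt Q e c v ((x : V ≃ₗ[F] V) (e p)) = 0 by
        linear_combination -h4)).resolve_left h.two_ne
    have hmono : Mono e (x * g * x) := hG _ (mul_mem (mul_mem hx (flip_mem_M h hn hM a b)) hx) (e p)
      (Or.inl ⟨p, rfl⟩) (by rw [orth_mul_apply, orth_mul_apply, hgfix _ (hep a ha) (hep b hb), hxx'])
    set wa := coordAt Q e c a w
    set wb := coordAt Q e c b w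
    set wd := coordAt Q e c d w
    have hgw : (g : V ≃ₗ[F] V) w = w - ((2 * wa) • e a + (2 * wb) • e b) := by
      have hr : ∀ i y, (refl Q (e i) : V ≃ₗ[F] V) y = y - (2 * coordAt Q e c i y) • e i := fun i y => by
        rw [refl_apply, h.val, h.polar_coord]
        congr 2
        have := h.ne_zero
        field_simp
      rw [hg, flipTwo, orth_mul_apply, hr, hr, map_sub, map_smul, h.coord_other hab, smul_eq_mul,
        mul_zero, sub_zero]
      abel
    have himg' : ((x * g * x : orth Q) : V ≃ₗ[F] V) (e d) =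
        e d + (2 * k * wd * wa) • (x : V ≃ₗ[F] V) (e a) + (2 * k * wd * wb) • (x : V ≃ₗ[F] V) (e b) := by
      rw [orth_mul_apply, orth_mul_apply, hxe d hd, map_add, map_smul, hgw,
        hgfix (e d) (h.coord_other had) (h.coord_other hbd), map_add, map_smul, map_sub,
        map_add, map_smul, map_smul, hneg w hwU, hxe d hd]
      module
    obtain ⟨j, hj⟩ := hmono d
    by_contra hne
    have hco : ∀ i, i = a ∨ i = b → coordAt Q e c i (((x * g * x : orth Q) : V ≃ₗ[F] V) (e d)) =
        2 * k * wd * coordAt Q e c i w * (1 - k * (wa ^ 2 + wb ^ 2)) := by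
      intro i hi
      rw [himg', hxe a ha, hxe b hb]
      rcases hi with rfl | rfl <;>
        simp [h.coord_other had, h.coord_other hbd, h.coord_other hab, h.coord_other (Ne.symm hab),
          h.coord_self, wa, wb] <;> ring
    have hnz : ∀ i, i = a ∨ i = b → coordAt Q e c i w ≠ 0 → i = j := fun i hi hwi => by
      by_contra hij
      have h4 := hco i hi
      have h5 : coordAt Q e c i (((x * g * x : orth Q) : V ≃ₗ[F] V) (e d)) = 0 := by
        rcases hj with h' | h' <;> rw [h'] <;> simp [h.coord_other hij]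
      rw [h5, eq_comm] at h4
      exact mul_ne_zero (mul_ne_zero (mul_ne_zero (mul_ne_zero h.two_ne hk0) (hwT d hd)) hwi)
        (sub_ne_zero.2 (Ne.symm hne)) h4
    exact hab ((hnz a (Or.inl rfl) (hwT a ha)).trans (hnz b (Or.inr rfl) (hwT b hb)).symm)
  have hsq : coordAt Q e c v₂ w ^ 2 = coordAt Q e c v₃ w ^ 2 :=
    add_left_cancel (mul_left_cancel₀ hk0
      ((key v₁ h1 v₂ h2 v₃ h3 h12 h13 h23).trans (key v₁ h1 v₃ h3 v₂ h2 h13 h12 (Ne.symm h23)).symm))
  rcases eq_or_eq_neg_of_sq_eq_sq _ _ hsq with hs | hs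
  · refine hG x hx (e v₂ - e v₃) (Or.inr ⟨v₂, v₃, h23, Or.inr rfl⟩) ?_
    rw [map_sub, hxe v₂ h2, hxe v₃ h3, hs]
    abel
  · refine hG x hx (e v₂ + e v₃) (Or.inr ⟨v₂, v₃, h23, Or.inl rfl⟩) ?_
    rw [map_add, hxe v₂ h2, hxe v₃ h3, hs]
    module

include h hn hn13 hM hG in
/-- The overgroup consists of signed permutations. -/
theorem mono_of_no_fixed_root {m : orth Q} (hm : m ∈ M) : Mono e m := by
  classical
  let ι : Fin 4 → Fin n := Fin.castLE (by omega)
  have hι : ∀ {i j : Fin 4}, i ≠ j → ι i ≠ ι j := fun hij h0 =>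
    hij (Fin.castLE_injective (by omega) h0)
  set S0 : Finset (Fin n) := Finset.univ.image ι with hS0
  have hS0c : S0.card ≤ 4 := Finset.card_image_le.trans (by simp)
  have hmS0 : ∀ i, i ∈ S0 ↔ i = ι 0 ∨ i = ι 1 ∨ i = ι 2 ∨ i = ι 3 := fun i => by
    simp [hS0, Fin.exists_fin_succ, eq_comm]
  set t := flipTwo Q e (ι 0) (ι 1) * flipTwo Q e (ι 2) (ι 3) with ht
  have htv : ∀ i, (t : V ≃ₗ[F] V) (e i) = if i ∈ S0 then -e i else e i := by
    intro i
    rw [ht, orth_mul_apply, flip_apply h (hι (by decide : (2 : Fin 4) ≠ 3))]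
    have hne : ∀ (a b : Fin 4), a ≠ b → i = ι a → i ≠ ι b := fun a b hab he => he ▸ hι hab
    by_cases h1 : i = ι 2 ∨ i = ι 3
    · rw [if_pos h1, map_neg, flip_apply h (hι (by decide : (0 : Fin 4) ≠ 1)),
        if_neg, if_pos ((hmS0 i).2 (Or.inr (Or.inr h1)))]
      rcases h1 with h1 | h1 <;> intro h' <;> rcases h' with h' | h' <;>
        exact hne _ _ (by decide) h1 h'
    · rw [if_neg h1, flip_apply h (hι (by decide : (0 : Fin 4) ≠ 1))]
      by_cases h2 : i = ι 0 ∨ i = ι 1
      · rw [if_pos h2, if_pos ((hmS0 i).2 (h2.elim Or.inl (fun h' => Or.inr (Or.inl h'))))]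
      · rw [if_neg h2, if_neg (fun h' => by
          rcases (hmS0 i).1 h' with h' | h' | h' | h'
          exacts [h2 (Or.inl h'), h2 (Or.inr h'), h1 (Or.inl h'), h1 (Or.inr h')])]
  have htm : Mono e t := (h.mono_flip _ _).mul (h.mono_flip _ _)
  have htM : t ∈ M := mul_mem (flip_mem_M h hn hM _ _) (flip_mem_M h hn hM _ _)
  have htt : t * t = 1 := h.orth_ext fun i => by
    rw [orth_mul_apply, htv]
    split_ifs with hi
    · rw [map_neg, htv, if_pos hi, neg_neg]; rfl
    · rw [htv, if_neg hi]; rfl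
  have hmem0 : ∀ a, ι a ∈ S0 := fun a => Finset.mem_image.2 ⟨a, Finset.mem_univ a, rfl⟩
  have ht1 : t ≠ 1 := fun he => by
    have := htv (ι 0)
    rw [he, if_pos (hmem0 0)] at this
    exact h.ne_neg _ _ this
  have hSt : ∀ i, i ∈ S0 ↔ (t : V ≃ₗ[F] V) (e i) ≠ e i := fun i => by
    rw [htv]
    by_cases hi : i ∈ S0
    · simp only [if_pos hi, hi, true_iff]; exact Ne.symm (h.ne_neg i i)
    · simp [hi]
  set a := ι 0
  set b := ι 1
  have hab : a ≠ b := hι (by decide)
  set x := m * flipTwo Q e a b * m⁻¹ with hxd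
  have hxM : x ∈ M := mul_mem (mul_mem hm (flip_mem_M h hn hM a b)) (inv_mem hm)
  have hxx : x * x = 1 := by
    rw [hxd]
    calc m * flipTwo Q e a b * m⁻¹ * (m * flipTwo Q e a b * m⁻¹)
        = m * (flipTwo Q e a b * flipTwo Q e a b) * m⁻¹ := by group
      _ = 1 := by rw [flip_mul_self h, mul_one, mul_inv_cancel]
  set U := Submodule.span F {(m : V ≃ₗ[F] V) (e a)} ⊔ Submodule.span F {(m : V ≃ₗ[F] V) (e b)} with hU
  have hxsub : ∀ y, (x : V ≃ₗ[F] V) y - y ∈ U := fun y => by
    rw [hxd, conj_flip_eq]; exact pair_sub_mem _ _ y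
  have hnc : ∀ g ∈ Subgroup.closure ({t, x} : Set (orth Q)), g * t * g⁻¹ ≠ x := by
    intro g _ he
    have hmemU : ∀ i, (g : V ≃ₗ[F] V) (e (ι i)) ∈ U := fun i => by
      have h1 := hxsub ((g : V ≃ₗ[F] V) (e (ι i)))
      rw [← he, orth_mul_apply, orth_mul_apply, orth_inv_apply_apply, htv, if_pos (hmem0 i), map_neg,
        show ∀ y : V, -y - y = (-2 : F) • y from fun y => by module,
        Submodule.smul_mem_iff _ (neg_ne_zero.2 h.two_ne)] at h1
      exact h1
    let L : (Fin 4 → F) →ₗ[F] U :=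
      ∑ i, (LinearMap.proj i : (Fin 4 → F) →ₗ[F] F).smulRight ⟨_, hmemU i⟩
    have hL : Function.Injective L := by
      rw [injective_iff_map_eq_zero]
      intro φ hφ
      have h0 : ∑ i, φ i • (g : V ≃ₗ[F] V) (e (ι i)) = 0 := by
        have := congrArg Subtype.val hφ
        simpa [L] using this
      funext j
      have h1 := congrArg (polar Q ((g : V ≃ₗ[F] V) (e (ι j)))) h0
      rw [polar_zero_right, ← QuadraticMap.polarBilin_apply_apply, map_sum,
        Finset.sum_eq_single j (fun i _ hij => by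
          rw [map_smul, QuadraticMap.polarBilin_apply_apply, orth_polar,
            h.ortho (hι (Ne.symm hij)), smul_zero]) (by simp), map_smul,
        QuadraticMap.polarBilin_apply_apply, orth_polar, polar_self', h.val, smul_eq_mul,
        mul_eq_zero] at h1
      exact h1.resolve_right (mul_ne_zero h.two_ne h.ne_zero)
    have h1 := LinearMap.finrank_le_finrank_of_injective hL
    have h2 : Module.finrank F U ≤ 2 := finrank_span_pair_le _ _
    simp at h1
    omega
  have : Finite (V ≃ₗ[F] V) :=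
    Finite.of_injective (fun g : V ≃ₗ[F] V => (g : V → V)) DFunLike.coe_injective
  obtain ⟨z, hzH, hzz, hz1, hzt, hzx⟩ := exists_central_involution htt hxx
    (Subgroup.subset_closure (by simp : t ∈ ({t, x} : Set (orth Q))))
    (Subgroup.subset_closure (by simp : x ∈ ({t, x} : Set (orth Q)))) hnc
  have hzM : z ∈ M := by
    refine (Subgroup.closure_le M).2 ?_ hzH
    intro g hg
    rcases hg with rfl | rfl
    exacts [htM, hxM]
  have hzm : Mono e z := mono_of_conj h hn hn13 hM hG hzM htm htm htt htt ht1 hzt S0 S0 hSt hSt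
    (by omega) (by omega) (by omega) (by omega)
  -- the moved space of `z`
  have hzimg : ∀ y, ∃ u ∈ U, ∀ i, i ∉ S0 →
      coordAt Q e c i ((z : V ≃ₗ[F] V) y - y) = coordAt Q e c i u := by
    let W : Submodule F V :=
      { carrier := {y | ∃ u ∈ U, ∀ i, i ∉ S0 → coordAt Q e c i y = coordAt Q e c i u}
        zero_mem' := ⟨0, zero_mem U, fun i _ => rfl⟩
        add_mem' := by
          rintro y y' ⟨u, hu, hy⟩ ⟨u', hu', hy'⟩
          exact ⟨u + u', add_mem hu hu', fun i hi => by rw [map_add, map_add, hy i hi, hy' i hi]⟩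
        smul_mem' := by
          rintro r y ⟨u, hu, hy⟩
          exact ⟨r • u, U.smul_mem r hu, fun i hi => by rw [map_smul, map_smul, hy i hi]⟩ }
    let H : Subgroup (orth Q) :=
      { carrier := {g | ∀ y, (g : V ≃ₗ[F] V) y - y ∈ W}
        one_mem' := fun y => by simp
        mul_mem' := fun {g g'} hg hg' y => by
          rw [orth_mul_apply]
          have := W.add_mem (hg ((g' : V ≃ₗ[F] V) y)) (hg' y)
          convert this using 1; abel
        inv_mem' := fun {g} hg y => by
          have := W.neg_mem (hg (((g⁻¹ : orth Q) : V ≃ₗ[F] V) y))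
          rw [orth_apply_inv_apply] at this
          convert this using 1; abel }
    have hle : Subgroup.closure ({t, x} : Set (orth Q)) ≤ H := by
      rw [Subgroup.closure_le]
      intro g hg y
      rcases hg with hgt | hgx
      swap
      · rw [Set.mem_singleton_iff.1 hgx]
        exact ⟨_, hxsub y, fun i _ => rfl⟩
      rw [hgt]
      refine ⟨0, zero_mem U, fun i hi => ?_⟩
      have h1 := orth_polar t (e i) y
      rw [htv, if_neg hi, h.polar_coord, h.polar_coord] at h1
      rw [map_sub, map_zero, sub_eq_zero]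
      exact mul_left_cancel₀ (mul_ne_zero h.two_ne h.ne_zero) h1
    exact fun y => hle hzH y
  set Sz : Finset (Fin n) := Finset.univ.filter fun i => (z : V ≃ₗ[F] V) (e i) ≠ e i with hSz
  have hmSz : ∀ i, i ∈ Sz ↔ (z : V ≃ₗ[F] V) (e i) ≠ e i := fun i => by simp [hSz]
  -- moved coordinates of an involution
  have hmoved : ∀ {g : orth Q}, Mono e g → g * g = 1 → ∀ (T0 : Finset (Fin n)),
      (∀ i ∈ T0, ∀ j, ((g : V ≃ₗ[F] V) (e i) = e j ∨ (g : V ≃ₗ[F] V) (e i) = -e j) → j ∈ T0) →
      (∀ v, ∃ u ∈ U, ∀ i, i ∉ T0 →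
        coordAt Q e c i ((g : V ≃ₗ[F] V) (e v) - e v) = coordAt Q e c i u) →
      ((Finset.univ.filter fun i => (g : V ≃ₗ[F] V) (e i) ≠ e i) \ T0).card ≤ 4 := by
    intro g hg hgg T0 hT0 himg
    obtain ⟨π, s, hs, hπ⟩ := hg.exists_perm h
    have hline : ∀ i, (g : V ≃ₗ[F] V) (e i) = e (π i) ∨ (g : V ≃ₗ[F] V) (e i) = -e (π i) := fun i => by
      rcases hs i with h' | h' <;> rw [hπ, h'] <;> simp
    have hππ : ∀ v, π (π v) = v := by
      intro v
      have h1 : (g : V ≃ₗ[F] V) ((g : V ≃ₗ[F] V) (e v)) = e v := by rw [← orth_mul_apply, hgg]; rfl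
      rw [hπ, map_smul, hπ, smul_smul] at h1
      by_contra hne
      have := congrArg (coordAt Q e c v) h1
      rw [map_smul, h.coord_self, h.coord_other (Ne.symm hne), smul_zero] at this
      exact zero_ne_one this
    set A := (Finset.univ.filter fun i => (g : V ≃ₗ[F] V) (e i) ≠ e i) \ T0 with hA
    set R := A.filter fun i => i ≤ π i with hR
    have hmA : ∀ {i}, i ∈ A ↔ (g : V ≃ₗ[F] V) (e i) ≠ e i ∧ i ∉ T0 := by simp [hA]
    have hπA : ∀ i ∈ A, π i ∈ A := by
      intro i hi
      rw [hmA] at hi ⊢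
      refine ⟨fun h0 => hi.1 ?_, fun h0 => hi.2 ?_⟩
      · have := congrArg (coordAt Q e c (π i)) h0
        rw [h.coord_self, hπ, hππ, map_smul] at this
        by_cases hpi : π i = i
        · rw [hpi] at h0; exact h0
        · rw [h.coord_other hpi, smul_zero] at this; exact absurd this zero_ne_one
      · have := hT0 _ h0 i (by have := hline (π i); rwa [hππ] at this)
        exact this
    have hcov : A ⊆ R ∪ R.image π := by
      intro i hi
      rcases le_or_gt i (π i) with h' | h'
      · exact Finset.mem_union_left _ (Finset.mem_filter.2 ⟨hi, h'⟩)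
      · refine Finset.mem_union_right _ (Finset.mem_image.2 ⟨π i, ?_, hππ i⟩)
        exact Finset.mem_filter.2 ⟨hπA i hi, by rw [hππ]; exact h'.le⟩
    have h2 := card_le_of_image h hg T0 U himg R
      (fun i hi => ⟨(hmA.1 (Finset.mem_filter.1 hi).1).2, (hmA.1 (Finset.mem_filter.1 hi).1).1⟩)
      (fun i hi i' hi' hii => by
        rw [hπ, map_smul, h.coord_other, smul_zero]
        intro he
        have h3 := (Finset.mem_filter.1 hi').2
        have h4 := (Finset.mem_filter.1 hi).2
        rw [he, hππ] at h3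
        exact hii (le_antisymm h4 h3 |>.trans he.symm))
    have h3 := (Finset.card_le_card hcov).trans ((Finset.card_union_le _ _).trans
      (Nat.add_le_add_left Finset.card_image_le _))
    have h4 : Module.finrank F U ≤ 2 := finrank_span_pair_le _ _
    omega
  have hSz0 : (Sz \ S0).card ≤ 4 := by
    have h1 := hmoved hzm hzz S0 (fun i hi j hj => by
      by_contra hjn
      have h1 := congrArg (fun g : orth Q => (g : V ≃ₗ[F] V) (e i)) hzt
      simp only [orth_mul_apply, htv, if_pos hi, map_neg] at h1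
      rcases hj with hj | hj <;> rw [hj] at h1
      · rw [htv, if_neg hjn] at h1; exact h.ne_neg j j h1.symm
      · rw [map_neg, htv, if_neg hjn, neg_neg] at h1; exact h.ne_neg j j h1)
      (fun v => hzimg (e v))
    rwa [← hSz] at h1
  have hxm : Mono e x := by
    by_cases hSzc : Sz.card ≤ 6 ∧ Sz.card + 5 ≤ n
    · exact mono_of_conj h hn hn13 hM hG hxM hzm hzm hzz hzz hz1 hzx.symm Sz Sz hmSz hmSz hSzc.1 hSzc.2
        hSzc.1 hSzc.2
    -- the central involution moves so much that the conjugate fixes a frame vector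
    have h2 := Finset.card_le_card_sdiff_add_card (s := Sz) (t := S0)
    obtain ⟨i, -, hi⟩ := Finset.exists_mem_notMem_of_card_lt_card
      (t := (Finset.univ : Finset (Fin n))) (s := S0 ∪ Sz) (by
        rw [Finset.card_univ, Fintype.card_fin]
        have h3 : S0 ∪ Sz = (Sz \ S0) ∪ S0 := by rw [Finset.sdiff_union_self_eq_union, Finset.union_comm]
        rw [h3]
        have := Finset.card_union_le (Sz \ S0) S0
        omega)
    rw [Finset.mem_union, not_or] at hi
    obtain ⟨π, s, hs, hπ⟩ := hzm.exists_perm h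
    have hs0 : ∀ v, s v ≠ 0 := fun v => by rcases hs v with h' | h' <;> rw [h'] <;> simp
    have hfixc : ∀ y, coordAt Q e c i ((z : V ≃ₗ[F] V) y) = coordAt Q e c i y := fun y => by
      have h1 := orth_polar z (e i) y
      rw [not_not.1 (mt (hmSz i).2 hi.2), h.polar_coord, h.polar_coord] at h1
      exact mul_left_cancel₀ (mul_ne_zero h.two_ne h.ne_zero) h1
    by_cases hpq : ∃ p ∈ Sz \ S0, ∃ q ∈ Sz \ S0, q ≠ p ∧ q ≠ π p
    swap
    · -- the two moved coordinates outside are interchanged
      push Not at hpq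
      obtain ⟨p, hp⟩ := Finset.card_pos.1 (show 0 < (Sz \ S0).card by omega)
      by_cases hlt : (Sz \ S0).card ≤ 1
      · -- a single moved coordinate outside
        rw [Finset.mem_sdiff] at hp
        have hone : ∀ r ∈ Sz, r ∉ S0 → r = p := fun r hr hr' => Finset.card_le_one.1 hlt r
          (Finset.mem_sdiff.2 ⟨hr, hr'⟩) p (Finset.mem_sdiff.2 hp)
        have hzz' : ∀ y, (z : V ≃ₗ[F] V) ((z : V ≃ₗ[F] V) y) = y := fun y => by
          rw [← orth_mul_apply, hzz]; rfl
        have hπp : π p = p := by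
          refine hone _ ((hmSz _).2 fun h0 => ?_) fun h0 => ?_
          · have h1 := hzz' (e p)
            rw [hπ p, map_smul, h0, ← hπ p] at h1
            exact (hmSz p).1 hp.1 h1
          · have h1 := congrArg (fun g : orth Q => (g : V ≃ₗ[F] V) (e p)) hzt
            simp only [orth_mul_apply, htv, if_neg hp.2] at h1
            rw [hπ p, map_smul, htv, if_pos h0, smul_neg] at h1
            have h2 := congrArg (coordAt Q e c (π p)) h1
            simp only [map_smul, map_neg, h.coord_self, smul_eq_mul, mul_one] at h2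
            exact mul_ne_zero h.two_ne (hs0 p) (by linear_combination h2)
        have hzp : (z : V ≃ₗ[F] V) (e p) = -e p := by
          rcases hs p with h' | h'
          · exact absurd (by rw [hπ, hπp, h', one_smul]) ((hmSz p).1 hp.1)
          · rw [hπ, hπp, h', neg_one_smul]
        refine mono_of_three_fixed h hn hM hG hxM hxx hzz hzx (U := U) (finrank_span_pair_le _ _)
          hxsub (fun y hy => ?_) (fun i hi => ?_) hzp ?_
          (T := Finset.univ \ (S0 ∪ Sz)) (fun v hv => ?_) ?_
        · obtain ⟨u₁, hu₁, u₂, hu₂, rfl⟩ := Submodule.mem_sup.1 hy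
          obtain ⟨γ, rfl⟩ := Submodule.mem_span_singleton.1 hu₁
          obtain ⟨δ, rfl⟩ := Submodule.mem_span_singleton.1 hu₂
          rw [hxd]
          simp only [map_add, map_smul, orth_mul_apply, orth_inv_apply_apply]
          rw [flip_apply h hab, flip_apply h hab, if_pos (Or.inl rfl), if_pos (Or.inr rfl), map_neg,
            map_neg]
          module
        · have ho : ∀ w, (m : V ≃ₗ[F] V) (e w) ∈ U → polar Q ((m : V ≃ₗ[F] V) (e w)) (e i) = 0 :=
            fun w hw => by rw [polar_comm, h.polar_coord, hi _ hw, mul_zero]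
          rw [hxd, conj_flip_eq, orth_mul_apply,
            refl_apply_of_ortho (ho b (Submodule.mem_sup_right (Submodule.mem_span_singleton_self _))),
            refl_apply_of_ortho (ho a (Submodule.mem_sup_left (Submodule.mem_span_singleton_self _)))]
        · obtain ⟨u, hu, huv⟩ := hzimg (e p)
          refine ⟨u, hu, ?_⟩
          rw [← huv p hp.2, hzp, map_sub, map_neg, h.coord_self, ← neg_add', neg_ne_zero]
          exact fun h0 => h.two_ne (by linear_combination h0)
        · simp only [Finset.mem_sdiff, Finset.mem_union, hmSz, not_or, not_not] at hv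
          exact hv.2.2
        · have h3 : S0 ∪ Sz = (Sz \ S0) ∪ S0 := by rw [Finset.sdiff_union_self_eq_union, Finset.union_comm]
          have := Finset.card_union_le (Sz \ S0) S0
          rw [Finset.card_sdiff, Finset.inter_univ, Finset.card_univ, Fintype.card_fin, h3]
          omega
      obtain ⟨q, hq, hqp⟩ := Finset.exists_mem_ne (show 1 < (Sz \ S0).card by omega) p
      have hsub : Sz \ S0 ⊆ {p, π p} := fun r hr => by
        by_cases hrp : r = p
        · simp [hrp]
        · simp [hpq p hp r hr hrp]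
      have hqπ : q = π p := hpq p hp q hq hqp
      have hT3 : 2 < (Finset.univ \ (S0 ∪ Sz)).card := by
        have h1 := (Finset.card_le_card hsub).trans Finset.card_le_two
        have h2 : S0 ∪ Sz = (Sz \ S0) ∪ S0 := by
          rw [Finset.sdiff_union_self_eq_union, Finset.union_comm]
        have h3 := Finset.card_union_le (Sz \ S0) S0
        rw [Finset.card_sdiff, Finset.inter_univ, Finset.card_univ, Fintype.card_fin, h2]
        omega
      have hTfix : ∀ v ∈ Finset.univ \ (S0 ∪ Sz), (z : V ≃ₗ[F] V) (e v) = e v := fun v hv => by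
        simp only [Finset.mem_sdiff, Finset.mem_union, hmSz, not_or, not_not] at hv
        exact hv.2.2
      have hTne : ∀ v ∈ Finset.univ \ (S0 ∪ Sz), v ≠ p ∧ v ≠ q := fun v hv => by
        simp only [Finset.mem_sdiff, Finset.mem_union, not_or] at hv hp hq
        exact ⟨fun he => hv.2.2 (he ▸ hp.1), fun he => hv.2.2 (he ▸ hq.1)⟩
      set σ := s p with hσ
      have hσ2 : σ * σ = 1 := by rcases hs p with h' | h' <;> rw [hσ, h'] <;> ring
      have hσ0 : σ ≠ 0 := hs0 p
      have hzp : (z : V ≃ₗ[F] V) (e p) = σ • e q := by rw [hπ, hqπ]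
      have hzq : (z : V ≃ₗ[F] V) (e q) = σ • e p := by
        have h1 := congrArg (fun g : orth Q => (g : V ≃ₗ[F] V) (e p)) hzz
        simp only [orth_mul_apply, hzp, map_smul] at h1
        have h3 := congrArg (σ • ·) h1
        simp only [smul_smul, hσ2, one_smul] at h3
        rw [h3]
        rfl
      set f := σ • e q + e p with hf
      set f₀ := σ • e q - e p with hf₀
      have hzf : (z : V ≃ₗ[F] V) f = f := by
        rw [hf, map_add, map_smul, hzp, hzq, smul_smul, hσ2, one_smul, add_comm]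
      have hzf₀ : (z : V ≃ₗ[F] V) f₀ = -f₀ := by
        rw [hf₀, map_sub, map_smul, hzp, hzq, smul_smul, hσ2, one_smul, neg_sub]
      have hroot2 : ∀ y, y = f ∨ y = f₀ → ∀ g ∈ M, (g : V ≃ₗ[F] V) y = y → Mono e g := by
        intro y hy g hg hfix
        rcases hs p with hs' | hs'
        · rw [hf, hf₀, hσ, hs', one_smul] at hy
          exact hG g hg y (Or.inr ⟨q, p, hqp, hy⟩) hfix
        · rw [hf, hf₀, hσ, hs', neg_one_smul] at hy
          refine hG g hg (-y) (Or.inr ⟨q, p, hqp, ?_⟩) (by rw [map_neg, hfix])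
          rcases hy with hy | hy
          · right; rw [hy]; abel
          · left; rw [hy]; abel
      by_cases hxf : (x : V ≃ₗ[F] V) f = f
      · exact hroot2 f (Or.inl rfl) x hxM hxf
      by_cases hxf₀ : (x : V ≃ₗ[F] V) f₀ = f₀
      · exact hroot2 f₀ (Or.inr rfl) x hxM hxf₀
      have hcx : ∀ y, (x : V ≃ₗ[F] V) ((z : V ≃ₗ[F] V) y) = (z : V ≃ₗ[F] V) ((x : V ≃ₗ[F] V) y) :=
        fun y => by rw [← orth_mul_apply, ← hzx, orth_mul_apply]
      have hxx' : ∀ y, (x : V ≃ₗ[F] V) ((x : V ≃ₗ[F] V) y) = y := fun y => by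
        rw [← orth_mul_apply, hxx]; rfl
      -- a fixed coordinate orthogonal to the image of `f`
      obtain ⟨v, hv, hv0⟩ : ∃ v ∈ Finset.univ \ (S0 ∪ Sz),
          coordAt Q e c v ((x : V ≃ₗ[F] V) f) = 0 := by
        by_contra hcon
        push Not at hcon
        obtain ⟨v₁, h1, v₂, h2, v₃, h3, h12, h13, h23⟩ := Finset.two_lt_card.1 hT3
        set g := flipTwo Q e v₁ v₂
        set g' := x * g * x
        have hg'M : g' ∈ M := mul_mem (mul_mem hxM (flip_mem_M h hn hM v₁ v₂)) hxM
        have hor : ∀ w ∈ Finset.univ \ (S0 ∪ Sz), ∀ y,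
            polar Q (e w) ((z : V ≃ₗ[F] V) y - y) = 0 := fun w hw y => by
          have := orth_polar z (e w) y
          rw [hTfix w hw] at this
          rw [polar_sub_right, this, sub_self]
        have hg'fix : ∀ y, (g' : V ≃ₗ[F] V) ((z : V ≃ₗ[F] V) y - y) = (z : V ≃ₗ[F] V) y - y := by
          intro y
          have hgfix : (g : V ≃ₗ[F] V) ((z : V ≃ₗ[F] V) ((x : V ≃ₗ[F] V) y) - (x : V ≃ₗ[F] V) y) =
              (z : V ≃ₗ[F] V) ((x : V ≃ₗ[F] V) y) - (x : V ≃ₗ[F] V) y := by
            simp only [g, flipTwo]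
            rw [orth_mul_apply, refl_apply_of_ortho (hor v₂ h2 _), refl_apply_of_ortho (hor v₁ h1 _)]
          simp only [g', orth_mul_apply]
          rw [map_sub (x : V ≃ₗ[F] V), hcx, hgfix, map_sub, hcx, hxx']
        have hg'f₀ : (g' : V ≃ₗ[F] V) f₀ = f₀ := by
          have := hg'fix (e p)
          rwa [hzp] at this
        obtain ⟨π', s', hs', hπ'⟩ := (hroot2 f₀ (Or.inr rfl) g' hg'M hg'f₀).exists_perm h
        have hs0' : ∀ v, s' v ≠ 0 := fun v => by rcases hs' v with h' | h' <;> rw [h'] <;> simp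
        have hcase : (g' : V ≃ₗ[F] V) f = f ∨ (g' : V ≃ₗ[F] V) f = -f := by
          have e0 := hg'f₀
          rw [hf₀, map_sub, map_smul, hπ', hπ'] at e0
          have ep := congrArg (coordAt Q e c p) e0
          have eq' := congrArg (coordAt Q e c q) e0
          simp only [map_sub, map_smul, smul_eq_mul, h.coord_vec, if_neg (Ne.symm hqp), if_neg hqp,
            if_true, mul_zero, mul_one, zero_sub, sub_zero] at ep eq'
          by_cases hpp : p = π' p
          · left
            have hqp' : ¬ p = π' q := fun he => hqp (π'.injective (he.symm.trans hpp))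
            rw [if_pos hpp, if_neg hqp'] at ep
            have hsp : s' p = 1 := by linear_combination -ep
            have hqq : q = π' q := by
              by_contra hne
              rw [if_neg hne, if_neg (fun he : q = π' p => hqp (he.trans hpp.symm))] at eq'
              simp only [mul_zero, sub_zero] at eq'
              exact hσ0 eq'.symm
            rw [if_pos hqq, if_neg (fun he : q = π' p => hqp (he.trans hpp.symm))] at eq'
            have hsq : s' q = 1 := mul_left_cancel₀ hσ0 (by linear_combination eq')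
            rw [hf, map_add, map_smul, hπ', hπ', ← hpp, ← hqq, hsp, hsq, one_smul, one_smul]
          · right
            have hpq' : p = π' q := by
              by_contra hne
              rw [if_neg hne, if_neg hpp] at ep
              simp at ep
            rw [if_pos hpq', if_neg hpp] at ep
            have hqp' : q = π' p := by
              by_contra hne
              rw [if_neg (fun he : q = π' q => hqp (he.trans hpq'.symm)), if_neg hne] at eq'
              simp only [mul_zero, sub_zero] at eq'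
              exact hσ0 eq'.symm
            rw [if_neg (fun he : q = π' q => hqp (he.trans hpq'.symm)), if_pos hqp'] at eq'
            have hsp : s' p = -σ := by linear_combination -eq'
            have hsq : σ * s' q = -1 := by linear_combination ep
            rw [hf, map_add, map_smul, hπ', hπ', ← hpq', ← hqp', hsp, smul_smul, hsq]
            module
        have key : (g : V ≃ₗ[F] V) ((x : V ≃ₗ[F] V) f) = (x : V ≃ₗ[F] V) f ∨
            (g : V ≃ₗ[F] V) ((x : V ≃ₗ[F] V) f) = -(x : V ≃ₗ[F] V) f := by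
          refine hcase.imp (fun h' => ?_) fun h' => ?_ <;>
          · have h4 := congrArg (x : V ≃ₗ[F] V) h'
            simp only [g', orth_mul_apply, hxx', map_neg] at h4
            exact h4
        have hflip : ∀ w, coordAt Q e c w ((g : V ≃ₗ[F] V) ((x : V ≃ₗ[F] V) f)) =
            if w = v₁ ∨ w = v₂ then -coordAt Q e c w ((x : V ≃ₗ[F] V) f)
            else coordAt Q e c w ((x : V ≃ₗ[F] V) f) := fun w => by
          have h4 := orth_polar g (e w) ((x : V ≃ₗ[F] V) f)
          rw [flip_apply h h12] at h4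
          split_ifs at h4 ⊢
          · rw [polar_neg_left, h.polar_coord, h.polar_coord] at h4
            exact mul_left_cancel₀ (mul_ne_zero h.two_ne h.ne_zero) (by linear_combination -h4)
          · rw [h.polar_coord, h.polar_coord] at h4
            exact mul_left_cancel₀ (mul_ne_zero h.two_ne h.ne_zero) h4
        rcases key with key | key
        · have h4 := hflip v₁
          rw [key, if_pos (Or.inl rfl)] at h4
          exact mul_ne_zero h.two_ne (hcon v₁ h1) (by linear_combination h4)
        · have h4 := hflip v₃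
          rw [key, map_neg, if_neg (by simp [Ne.symm h13, Ne.symm h23])] at h4
          exact mul_ne_zero h.two_ne (hcon v₃ h3) (by linear_combination -h4)
      -- that coordinate is fixed
      refine hG x hxM (e v) (Or.inl ⟨v, rfl⟩) ?_
      set d := (x : V ≃ₗ[F] V) f - f with hd
      set d₀ := (x : V ≃ₗ[F] V) f₀ - f₀ with hd₀
      have hd0 : d ≠ 0 := sub_ne_zero.2 hxf
      have hd00 : d₀ ≠ 0 := sub_ne_zero.2 hxf₀
      have hzd : (z : V ≃ₗ[F] V) d = d := by rw [hd, map_sub, ← hcx, hzf]
      have hzd₀ : (z : V ≃ₗ[F] V) d₀ = -d₀ := by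
        rw [hd₀, map_sub, ← hcx, hzf₀, map_neg]; abel
      have hdd : polar Q d d₀ = 0 := by
        have h1 := orth_polar z d d₀
        rw [hzd, hzd₀, polar_neg_right] at h1
        exact (mul_eq_zero.1 (show (2 : F) * polar Q d d₀ = 0 by
          linear_combination -h1)).resolve_left h.two_ne
      have hli : LinearIndependent F ![d, d₀] := by
        refine LinearIndependent.pair_iff.2 fun α β hab => ?_
        have h1 := congrArg (z : V ≃ₗ[F] V) hab
        rw [map_add, map_smul, map_smul, hzd, hzd₀, map_zero] at h1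
        have h2 : (2 * α) • d = 0 := by
          linear_combination (norm := module) hab + h1
        have hα : α = 0 := (mul_eq_zero.1 ((smul_eq_zero.1 h2).resolve_right hd0)).resolve_left h.two_ne
        exact ⟨hα, (smul_eq_zero.1 (by simpa [hα] using hab)).resolve_right hd00⟩
      have hspan : Submodule.span F (Set.range ![d, d₀]) = U := by
        refine Submodule.eq_of_le_of_finrank_le (Submodule.span_le.2 (Set.range_subset_iff.2 ?_)) ?_
        · intro k; fin_cases k <;> exact hxsub _
        · rw [finrank_span_eq_card hli, Fintype.card_fin]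
          exact finrank_span_pair_le _ _
      set w := (x : V ≃ₗ[F] V) (e v) - e v with hw
      obtain ⟨α, β, hαβ⟩ : ∃ α β : F, α • d + β • d₀ = w := by
        have h1 : w ∈ Submodule.span F (Set.range ![d, d₀]) := hspan ▸ hxsub (e v)
        rw [Matrix.range_cons, Matrix.range_cons, Matrix.range_empty, Set.union_empty,
          Set.singleton_union, Submodule.mem_span_pair] at h1
        exact h1
      have hzw : (z : V ≃ₗ[F] V) w = w := by rw [hw, map_sub, ← hcx, hTfix v hv]
      have hβ : β = 0 := by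
        rw [← hαβ, map_add, map_smul, map_smul, hzd, hzd₀] at hzw
        have h2 : (2 * β) • d₀ = 0 := by linear_combination (norm := module) -hzw
        exact (mul_eq_zero.1 ((smul_eq_zero.1 h2).resolve_right hd00)).resolve_left h.two_ne
      rw [hβ, zero_smul, add_zero] at hαβ
      by_contra hne
      have hα : α ≠ 0 := fun h0 => hne (sub_eq_zero.1 (by rw [← hw, ← hαβ, h0, zero_smul]))
      have hwf : polar Q w f = 0 := by
        have h1 := orth_polar x ((x : V ≃ₗ[F] V) (e v)) f
        rw [hxx', h.polar_coord, hv0, mul_zero] at h1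
        rw [hw, polar_sub_left, ← h1, h.polar_coord, hf, map_add, map_smul,
          h.coord_other (hTne v hv).2, h.coord_other (hTne v hv).1]
        simp
      rw [← hαβ, polar_smul_left, smul_eq_mul, mul_eq_zero, or_iff_right hα] at hwf
      have hqd : Q d = 0 := by
        have h1 := orth_map x f
        rw [show (x : V ≃ₗ[F] V) f = d + f by rw [hd]; abel, QuadraticMap.map_add (⇑Q), hwf] at h1
        linear_combination h1
      have hperpU : ∀ u ∈ U, polar Q u d = 0 := fun u hu => by
        rw [← hspan, Matrix.range_cons, Matrix.range_cons, Matrix.range_empty, Set.union_empty,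
          Set.singleton_union, Submodule.mem_span_pair] at hu
        obtain ⟨a₁, a₂, rfl⟩ := hu
        rw [polar_add_left, polar_smul_left, polar_smul_left, polar_self', hqd, polar_comm Q d₀ d,
          hdd]
        simp
      refine hd0 ?_
      obtain ⟨u₁, hu₁, u₂, hu₂, hu⟩ := Submodule.mem_sup.1 (hxsub f)
      obtain ⟨γ, rfl⟩ := Submodule.mem_span_singleton.1 hu₁
      obtain ⟨δ, rfl⟩ := Submodule.mem_span_singleton.1 hu₂
      have e1 := hperpU _ (Submodule.mem_sup_left (Submodule.mem_span_singleton_self _))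
      have e2 := hperpU _ (Submodule.mem_sup_right (Submodule.mem_span_singleton_self _))
      rw [← hd] at hu
      rw [← hu] at e1 e2 ⊢
      simp only [polar_add_right, polar_smul_right, orth_polar, polar_self', orth_map, h.val,
        h.ortho hab, h.ortho (Ne.symm hab), smul_eq_mul, mul_zero, add_zero, zero_add] at e1 e2
      have h2c := mul_ne_zero h.two_ne h.ne_zero
      rw [(mul_eq_zero.1 e1).resolve_right h2c, (mul_eq_zero.1 e2).resolve_right h2c, zero_smul,
        zero_smul, add_zero]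
    obtain ⟨p, hp, q, hq, hqp, hqπ⟩ := hpq
    refine hG x hxM (e i) (Or.inl ⟨i, rfl⟩) (sub_eq_zero.1 ?_)
    rw [Finset.mem_sdiff] at hp hq
    have hdiag : ∀ v ∈ Sz, coordAt Q e c v ((z : V ≃ₗ[F] V) (e v) - e v) ≠ 0 := by
      intro v hv h0
      rw [hmSz] at hv
      rw [map_sub, hπ, map_smul, h.coord_self, sub_eq_zero, smul_eq_mul] at h0
      by_cases hvv : π v = v
      · rw [hvv, h.coord_self, mul_one] at h0
        exact hv (by rw [hπ, hvv, h0, one_smul])
      · rw [h.coord_other (Ne.symm hvv), mul_zero] at h0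
        exact zero_ne_one h0
    let T : V →ₗ[F] ({v : Fin n // v ∉ S0} → F) := LinearMap.pi fun v => coordAt Q e c (v : Fin n)
    let d : Fin 2 → ({v : Fin n // v ∉ S0} → F) :=
      ![T ((z : V ≃ₗ[F] V) (e p) - e p), T ((z : V ≃ₗ[F] V) (e q) - e q)]
    have hd : ∀ k, d k ∈ U.map T := by
      have key : ∀ y, T ((z : V ≃ₗ[F] V) y - y) ∈ U.map T := fun y => by
        obtain ⟨u, hu, huv⟩ := hzimg y
        exact ⟨u, hu, funext fun v => (huv v v.2).symm⟩
      intro k; fin_cases k <;> exact key _
    have hdli : LinearIndependent F d := by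
      refine LinearIndependent.pair_iff.2 fun a b hab => ?_
      have e1 : coordAt Q e c q ((z : V ≃ₗ[F] V) (e p) - e p) = 0 := by
        rw [map_sub, hπ, map_smul, h.coord_other hqπ, h.coord_other hqp, smul_zero, sub_zero]
      have hb : b = 0 := by
        have h1 := congrFun hab ⟨q, hq.2⟩
        simp only [T, Pi.add_apply, Pi.smul_apply, LinearMap.pi_apply, e1, smul_eq_mul,
          mul_zero, zero_add, Pi.zero_apply] at h1
        exact (mul_eq_zero.1 h1).resolve_right (hdiag q hq.1)
      refine ⟨?_, hb⟩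
      have h1 := congrFun hab ⟨p, hp.2⟩
      simp only [T, Pi.add_apply, Pi.smul_apply, LinearMap.pi_apply, hb, zero_smul, add_zero,
        smul_eq_mul, Pi.zero_apply] at h1
      exact (mul_eq_zero.1 h1).resolve_right (hdiag p hp.1)
    have hspan : Submodule.span F (Set.range d) = U.map T := by
      refine Submodule.eq_of_le_of_finrank_le (Submodule.span_le.2 (Set.range_subset_iff.2 hd)) ?_
      rw [finrank_span_eq_card hdli, Fintype.card_fin]
      exact (Submodule.finrank_map_le T U).trans (finrank_span_pair_le _ _)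
    have hzero : ∀ u ∈ U, coordAt Q e c i u = 0 := by
      intro u hu
      have h1 : T u ∈ Submodule.span F (Set.range d) := hspan ▸ Submodule.mem_map_of_mem hu
      have h2 : Submodule.span F (Set.range d) ≤
          LinearMap.ker (LinearMap.proj (⟨i, hi.1⟩ : {v : Fin n // v ∉ S0}) :
            ({v : Fin n // v ∉ S0} → F) →ₗ[F] F) := by
        rw [Submodule.span_le, Set.range_subset_iff]
        intro k
        rw [SetLike.mem_coe, LinearMap.mem_ker, LinearMap.proj_apply]
        fin_cases k <;> simp [d, T, map_sub, hfixc]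
      exact h2 h1
    have ho : ∀ w, (m : V ≃ₗ[F] V) (e w) ∈ U → polar Q ((m : V ≃ₗ[F] V) (e w)) (e i) = 0 :=
      fun w hw => by rw [polar_comm, h.polar_coord, hzero _ hw, mul_zero]
    rw [hxd, conj_flip_eq, orth_mul_apply,
      refl_apply_of_ortho (ho b (Submodule.mem_sup_right (Submodule.mem_span_singleton_self _))),
      refl_apply_of_ortho (ho a (Submodule.mem_sup_left (Submodule.mem_span_singleton_self _))),
      sub_self]
  set Sx : Finset (Fin n) := Finset.univ.filter fun i => (x : V ≃ₗ[F] V) (e i) ≠ e i with hSx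
  have hSxc : Sx.card ≤ 4 := by
    have := hmoved hxm hxx ∅ (fun i hi => absurd hi (Finset.notMem_empty i))
      (fun v => ⟨_, hxsub (e v), fun i _ => rfl⟩)
    rwa [Finset.sdiff_empty] at this
  refine mono_of_conj h hn hn13 hM hG hm (h.mono_flip a b) hxm (flip_mul_self h a b) hxx ?_ ?_
    {a, b} Sx ?_ (fun i => by simp [hSx]) (Finset.card_le_two.trans (by omega))
    (by have := Finset.card_le_two (a := a) (b := b); omega) (by omega) (by omega)
  · intro he
    have := flip_apply h hab a
    rw [he, if_pos (Or.inl rfl)] at this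
    exact h.ne_neg _ _ this
  · rw [hxd]; group
  · intro i
    rw [flip_apply h hab]
    simp only [Finset.mem_insert, Finset.mem_singleton]
    split_ifs with hi
    · simp [hi, Ne.symm (h.ne_neg i i)]
    · simp [hi]

end Cfsg.Agent.H5
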