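import Cfsg.Agent.H5.FrameSparse
import Cfsg.Agent.H5.DecTwoFull
import Cfsg.Agent.H5.FrameConjugate

/-!
Vectors whose reflection pairs with those of the roots of a frame, and subsets of vanishing norm.
-/

set_option autoImplicit false

namespace Cfsg.Agent.H5

open QuadraticMap hiding sq

variable {F V : Type*} [Field F] [AddCommGroup V] [Module F V] {Q : QuadraticForm F V} {n : ℕ}
  {e : Fin n → V} {c : F} {M : Subgroup (orth Q)}

/-- The reflection of `z` pairs inside `M` with a root reflection of the same square class. -/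
def InR (e : Fin n → V) (M : Subgroup (orth Q)) (z : V) : Prop :=
  Q z ≠ 0 ∧ ∃ f, IsRootVec e f ∧ IsSquare (Q f * Q z) ∧ refl Q f * refl Q z ∈ M

/-- A multiple of a root vector. -/
def RootLine (e : Fin n → V) (z : V) : Prop := ∃ f, IsRootVec e f ∧ ∃ t : F, z = t • f

/-- The coordinates where a vector does not vanish. -/
noncomputable def fsupp (Q : QuadraticForm F V) (e : Fin n → V) (c : F) (z : V) : Finset (Fin n) :=
  letI := Classical.decPred fun i => coordAt Q e c i z ≠ 0
  Finset.univ.filter fun i => coordAt Q e c i z ≠ 0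

/-- The part of a vector on a set of coordinates. -/
noncomputable def partOn (Q : QuadraticForm F V) (e : Fin n → V) (c : F) (S : Finset (Fin n))
    (z : V) : V :=
  ∑ i ∈ S, coordAt Q e c i z • e i

theorem mem_fsupp {z : V} {i : Fin n} : i ∈ fsupp Q e c z ↔ coordAt Q e c i z ≠ 0 := by
  simp [fsupp]

theorem OrthFrame.coord_partOn (h : OrthFrame Q e c) (S : Finset (Fin n)) (z : V) (i : Fin n) :
    coordAt Q e c i (partOn Q e c S z) = if i ∈ S then coordAt Q e c i z else 0 := by
  rw [partOn, map_sum]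
  simp only [map_smul, smul_eq_mul, h.coord_vec, mul_ite, mul_one, mul_zero]
  exact Finset.sum_ite_eq S i fun j => coordAt Q e c j z

theorem OrthFrame.polar_partOn (h : OrthFrame Q e c) (S : Finset (Fin n)) (z : V) :
    polar Q z (partOn Q e c S z) = 2 * c * ∑ i ∈ S, coordAt Q e c i z ^ 2 := by
  rw [h.polar_eq_sum]
  simp only [h.coord_partOn, mul_ite, mul_zero, Finset.sum_ite_mem, Finset.univ_inter, pow_two]

theorem OrthFrame.map_partOn (h : OrthFrame Q e c) (S : Finset (Fin n)) (z : V) :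
    Q (partOn Q e c S z) = c * ∑ i ∈ S, coordAt Q e c i z ^ 2 := by
  rw [h.map_eq_sum]
  simp only [h.coord_partOn, ite_pow, zero_pow two_ne_zero, Finset.sum_ite_mem, Finset.univ_inter]

theorem isSquare_trans {a b d : F} (hb : b ≠ 0) (h1 : IsSquare (a * b)) (h2 : IsSquare (b * d)) :
    IsSquare (a * d) := by
  obtain ⟨r, hr⟩ := h1
  obtain ⟨s, hs⟩ := h2
  exact ⟨r * s / b, by field_simp; linear_combination (b * d) * hr + (r * r) * hs⟩

theorem exists_sq_add [Finite F] (h2 : (2 : F) ≠ 0) (r : F) : ∃ a b : F, a ^ 2 + b ^ 2 = r := by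
  have := Fintype.ofFinite F
  open Polynomial in
  obtain ⟨a, b, hab⟩ := FiniteField.exists_root_sum_quadratic
    (f := X ^ 2 - C r) (g := (X ^ 2 : F[X])) (by compute_degree!) (by compute_degree!)
    (Nat.odd_iff.1 (by
      rw [Nat.odd_iff]
      refine FiniteField.odd_card_of_char_ne_two fun hc => h2 ?_
      have : CharP F 2 := (ringChar.eq_iff).1 hc
      exact CharTwo.two_eq_zero))
  exact ⟨a, b, by simp at hab; linear_combination hab⟩

theorem IsRootVec.ne_zero (h : OrthFrame Q e c) {f : V} (hf : IsRootVec e f) : Q f ≠ 0 := by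
  rcases hf with ⟨i, rfl⟩ | ⟨i, j, hij, rfl | rfl⟩
  · rw [h.val]; exact h.ne_zero
  · rw [h.val_add hij]; exact mul_ne_zero h.two_ne h.ne_zero
  · rw [h.val_sub hij]; exact mul_ne_zero h.two_ne h.ne_zero

theorem IsRootVec.mono_refl (h : OrthFrame Q e c) {f : V} (hf : IsRootVec e f) :
    Mono e (refl Q f) := by
  rcases hf with ⟨i, rfl⟩ | ⟨i, j, hij, rfl | rfl⟩
  · exact h.mono_refl i
  · have h1 := refl_conj (refl Q (e j)) (e i - e j)
    rw [map_sub, h.refl_self, h.refl_other (Ne.symm hij), sub_neg_eq_add, refl_inv] at h1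
    rw [← h1]
    exact ((h.mono_refl j).mul (h.mono_swap hij)).mul (h.mono_refl j)
  · exact h.mono_swap hij

theorem IsRootVec.exists_map (h : OrthFrame Q e c) {g : orth Q} (hg : Mono e g) {f : V}
    (hf : IsRootVec e f) : ∃ f', IsRootVec e f' ∧
      ((g : V ≃ₗ[F] V) f = f' ∨ (g : V ≃ₗ[F] V) f = -f') := by
  obtain ⟨π, s, hs, hπ⟩ := hg.exists_perm h
  rcases hf with ⟨i, rfl⟩ | ⟨i, j, hij, rfl | rfl⟩
  · refine ⟨e (π i), Or.inl ⟨_, rfl⟩, ?_⟩
    rw [hπ]
    rcases hs i with h' | h' <;> simp [h']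
  all_goals
    have hπij : π i ≠ π j := fun he => hij (π.injective he)
    simp only [map_add, map_sub, hπ]
    rcases hs i with h1 | h1 <;> rcases hs j with h2 | h2 <;> rw [h1, h2] <;>
      simp only [one_smul, neg_one_smul, sub_neg_eq_add]
  · exact ⟨_, Or.inr ⟨_, _, hπij, Or.inl rfl⟩, Or.inl rfl⟩
  · exact ⟨_, Or.inr ⟨_, _, hπij, Or.inr rfl⟩, Or.inl (by abel)⟩
  · exact ⟨_, Or.inr ⟨_, _, hπij, Or.inr rfl⟩, Or.inr (by abel)⟩
  · exact ⟨_, Or.inr ⟨_, _, hπij, Or.inl rfl⟩, Or.inr (by abel)⟩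
  · exact ⟨_, Or.inr ⟨_, _, hπij, Or.inr rfl⟩, Or.inl rfl⟩
  · exact ⟨_, Or.inr ⟨_, _, hπij, Or.inl rfl⟩, Or.inl rfl⟩
  · exact ⟨_, Or.inr ⟨_, _, hπij, Or.inl rfl⟩, Or.inr (by abel)⟩
  · exact ⟨_, Or.inr ⟨_, _, hπij, Or.inr rfl⟩, Or.inr (by abel)⟩

theorem refl_neg (v : V) : refl Q (-v) = refl Q v := by
  rw [← neg_one_smul F v, refl_smul (neg_ne_zero.2 one_ne_zero)]

theorem mul_cancel_refl (f a b : V) :
    (refl Q f * refl Q a)⁻¹ * (refl Q f * refl Q b) = refl Q a * refl Q b := by
  rw [mul_inv_rev, refl_inv, refl_inv, mul_assoc, ← mul_assoc (refl Q f), refl_mul_self, one_mul]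

/-- The class of a vector is a class of lines. -/
theorem InR.smul {z : V} (hz : InR e M z) {t : F} (ht : t ≠ 0) : InR e M (t • z) := by
  obtain ⟨hq, f, hf, hsq, hmem⟩ := hz
  refine ⟨by rw [QuadraticMap.map_smul]; exact mul_ne_zero (mul_ne_zero ht ht) hq, f, hf, ?_, ?_⟩
  · rw [QuadraticMap.map_smul, smul_eq_mul]
    obtain ⟨r, hr⟩ := hsq
    exact ⟨t * r, by linear_combination t * t * hr⟩
  · rwa [refl_smul ht]

variable [FiniteDimensional F V] [Finite F] [Finite V]
  (h : OrthFrame Q e c) (hn : 5 ≤ Module.finrank F V) (hn13 : 7 ≤ n)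
  (hM : ∀ g ∈ commutator (orth Q), Mono e g → g ∈ M) (hMle : M ≤ commutator (orth Q))
  (hF : ∀ t : F, ∃ k : ℕ, (k : F) = t)

include h hn hMle in
theorem isSquare_of_pair {u v : V} (hu : Q u ≠ 0) (hv : Q v ≠ 0)
    (hm : refl Q u * refl Q v ∈ M) : IsSquare (Q u * Q v) := by
  have hh := (list_prod_mem_commutator_iff h.nondeg (Or.inr (by omega)) (vs := [u, v])
    (by simp [hu, hv])).1 (by simpa using hMle hm)
  simpa using hh.2

include h hn hM in
theorem root_pair_mem {f f' : V} (hf : IsRootVec e f) (hf' : IsRootVec e f')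
    (hsq : IsSquare (Q f * Q f')) : refl Q f * refl Q f' ∈ M := by
  refine hM _ ?_ ((hf.mono_refl h).mul (hf'.mono_refl h))
  have hh := (list_prod_mem_commutator_iff h.nondeg (Or.inr (by omega)) (vs := [f, f'])
    (by simp [hf.ne_zero h, hf'.ne_zero h])).2 ⟨by simp, by simpa using hsq⟩
  simpa using hh

include h hn hM in
theorem inR_root {f : V} (hf : IsRootVec e f) : InR e M f :=
  ⟨hf.ne_zero h, f, hf, IsSquare.mul_self _, root_pair_mem h hn hM hf hf (IsSquare.mul_self _)⟩

include h hn hM in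
/-- Any root of the square class will do. -/
theorem InR.root_mem {z : V} (hz : InR e M z) {f' : V} (hf' : IsRootVec e f')
    (hsq : IsSquare (Q f' * Q z)) : refl Q f' * refl Q z ∈ M := by
  obtain ⟨hq, f, hf, hsq', hmem⟩ := hz
  have h1 : refl Q f' * refl Q f ∈ M :=
    root_pair_mem h hn hM hf' hf (isSquare_trans hq hsq (by rwa [mul_comm]))
  have := mul_mem h1 hmem
  rwa [mul_assoc, ← mul_assoc (refl Q f), refl_mul_self, one_mul] at this

include h hn hM in
theorem InR.pair {x y : V} (hx : InR e M x) (hy : InR e M y) (hsq : IsSquare (Q x * Q y)) :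
    refl Q x * refl Q y ∈ M := by
  obtain ⟨hq, f, hf, hsq', hmem⟩ := hx
  have := mul_mem (inv_mem hmem) (hy.root_mem h hn hM hf (isSquare_trans hq hsq' hsq))
  rwa [mul_cancel_refl] at this

include h hn hM in
theorem InR.reflect {x y : V} (hx : InR e M x) (hy : InR e M y) (hsq : IsSquare (Q x * Q y)) :
    InR e M ((refl Q x : V ≃ₗ[F] V) y) := by
  have hp := InR.pair h hn hM hy hx (by rwa [mul_comm])
  obtain ⟨hq, f, hf, hsq', hmem⟩ := hx
  refine ⟨by rw [orth_map]; exact hy.1, f, hf, by rw [orth_map]; exact isSquare_trans hq hsq' hsq, ?_⟩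
  have := mul_mem hmem hp
  rw [← refl_conj, refl_inv]
  simpa [mul_assoc] using this

include h hn hM in
/-- Conjugation by an element fixing a root of the class. -/
theorem InR.conj_fix {z : V} (hz : InR e M z) {g : orth Q} (hg : g ∈ M) {f : V}
    (hf : IsRootVec e f) (hsq : IsSquare (Q f * Q z)) (hgf : (g : V ≃ₗ[F] V) f = f) :
    InR e M ((g : V ≃ₗ[F] V) z) := by
  refine ⟨by rw [orth_map]; exact hz.1, f, hf, by rwa [orth_map], ?_⟩
  have := mul_mem (mul_mem hg (hz.root_mem h hn hM hf hsq)) (inv_mem hg)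
  rw [show g * (refl Q f * refl Q z) * g⁻¹ = (g * refl Q f * g⁻¹) * (g * refl Q z * g⁻¹) by group,
    refl_conj, refl_conj, hgf] at this
  exact this

include h in
theorem InR.conj_mono {z : V} (hz : InR e M z) {g : orth Q} (hg : g ∈ M) (hgm : Mono e g) :
    InR e M ((g : V ≃ₗ[F] V) z) := by
  obtain ⟨hq, f, hf, hsq, hmem⟩ := hz
  obtain ⟨f', hf', hgf⟩ := hf.exists_map h hgm
  have hr : refl Q ((g : V ≃ₗ[F] V) f) = refl Q f' := by
    rcases hgf with h' | h' <;> rw [h']
    exact refl_neg f'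
  refine ⟨by rw [orth_map]; exact hq, f', hf', ?_, ?_⟩
  · have : Q f' = Q ((g : V ≃ₗ[F] V) f) := by rcases hgf with h' | h' <;> simp [h']
    rw [this, orth_map, orth_map]; exact hsq
  have := mul_mem (mul_mem hg hmem) (inv_mem hg)
  rw [show g * (refl Q f * refl Q z) * g⁻¹ = (g * refl Q f * g⁻¹) * (g * refl Q z * g⁻¹) by group,
    refl_conj, refl_conj, hr] at this
  exact this

include h hn hM in
/-- Sign changes on a set of coordinates, corrected by one further sign. -/
theorem exists_flips (S : Finset (Fin n)) : ∃ g : orth Q, Mono e g ∧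
    (∀ i, (g : V ≃ₗ[F] V) (e i) = if i ∈ S then -e i else e i) ∧
    (Even S.card → g ∈ M) ∧ (¬ Even S.card → ∀ o, g * refl Q (e o) ∈ M) := by
  classical
  induction S using Finset.induction with
  | empty =>
    exact ⟨1, Mono.one, fun i => by simp, fun _ => one_mem M, fun h0 => by simp at h0⟩
  | insert a S ha ih =>
    obtain ⟨g, hgm, hgv, heven, hodd⟩ := ih
    refine ⟨g * refl Q (e a), hgm.mul (h.mono_refl a), fun i => ?_, fun hev => ?_, fun hev o => ?_⟩
    · rw [orth_mul_apply]
      rcases eq_or_ne i a with rfl | hia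
      · rw [h.refl_self, map_neg, hgv, if_neg ha, if_pos (Finset.mem_insert_self i S)]
      · rw [h.refl_other (Ne.symm hia), hgv]
        simp [hia]
    · rw [Finset.card_insert_of_notMem ha, Nat.even_add_one] at hev
      exact hodd hev a
    · rw [Finset.card_insert_of_notMem ha, Nat.even_add_one, not_not] at hev
      rw [mul_assoc]
      exact mul_mem (heven hev) (flip_mem_M h hn hM a o)

theorem OrthFrame.flips_apply (h : OrthFrame Q e c) {S : Finset (Fin n)} {g : orth Q}
    (hgv : ∀ i, (g : V ≃ₗ[F] V) (e i) = if i ∈ S then -e i else e i) (x : V) :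
    (g : V ≃ₗ[F] V) x = x - (2 : F) • partOn Q e c S x := by
  refine h.ext_coord fun i => ?_
  rw [map_sub, map_smul, h.coord_partOn]
  have h1 := orth_polar g (e i) x
  rw [hgv] at h1
  split_ifs at h1 ⊢ with hi
  · rw [polar_neg_left, h.polar_coord, h.polar_coord] at h1
    rw [smul_eq_mul]
    exact mul_left_cancel₀ (mul_ne_zero h.two_ne h.ne_zero) (by linear_combination -h1)
  · rw [h.polar_coord, h.polar_coord] at h1
    simp [mul_left_cancel₀ (mul_ne_zero h.two_ne h.ne_zero) h1]

include h hn hM in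
/-- Changing signs on an even set, or with a vanishing coordinate outside, keeps the class. -/
theorem InR.flips {z : V} (hz : InR e M z) {S : Finset (Fin n)}
    (hpar : Even S.card ∨ ∃ w ∉ S, coordAt Q e c w z = 0) :
    InR e M (z - (2 : F) • partOn Q e c S z) := by
  obtain ⟨g, hgm, hgv, heven, hodd⟩ := exists_flips h hn hM S
  rw [← h.flips_apply hgv]
  by_cases hev : Even S.card
  · exact hz.conj_mono h (heven hev) hgm
  obtain ⟨w, -, hw⟩ := hpar.resolve_left hev
  have := hz.conj_mono h (hodd hev w) (hgm.mul (h.mono_refl w))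
  rwa [orth_mul_apply, h.refl_coord, hw, mul_zero, zero_smul, sub_zero] at this

include h hn hn13 hM hF in
/-- A proper subset of vanishing norm leads to all of `Ω`. -/
theorem commutator_le_of_zero_sum {z : V} (hz : InR e M z) {S : Finset (Fin n)} {p : Fin n}
    (hp : p ∈ S) (hzp : coordAt Q e c p z ≠ 0) (hsum : ∑ i ∈ S, coordAt Q e c i z ^ 2 = 0)
    (hpar : Even S.card ∨ ∃ w ∉ S, coordAt Q e c w z = 0) (hc : S.card + 3 ≤ n) :
    commutator (orth Q) ≤ M := by
  classical
  set x := partOn Q e c S z with hx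
  have hzx : polar Q z x = 0 := by rw [hx, h.polar_partOn, hsum, mul_zero]
  have hqx : Q x = 0 := by rw [hx, h.map_partOn, hsum, mul_zero]
  set η := (2 : F) • x with hη
  have hqη : Q η = 0 := by rw [hη, QuadraticMap.map_smul, hqx, smul_zero]
  have hpη : polar Q z η = 0 := by rw [hη, polar_smul_right, hzx, smul_zero]
  have hzη : Q (z - η) = Q z := by rw [map_sub', hqη, hpη, sub_zero, add_zero]
  have hz' : InR e M (z - η) := hz.flips h hn hM hpar
  have hroot : RootIn M η ((-(Q z)⁻¹) • z) :=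
    rootIn_of_pair hz.1 hqη hpη (hz.pair h hn hM hz' (by rw [hzη]; exact IsSquare.mul_self _))
  have hηc : ∀ i, coordAt Q e c i η = if i ∈ S then 2 * coordAt Q e c i z else 0 := fun i => by
    rw [hη, map_smul, hx, h.coord_partOn, smul_eq_mul, mul_ite, mul_zero]
  obtain ⟨v, hv, hvz⟩ : ∃ v, v ∉ S ∧ coordAt Q e c v z ≠ 0 := by
    by_contra hcon
    push Not at hcon
    refine hz.1 ?_
    rw [h.map_eq_sum, ← Finset.sum_subset (Finset.subset_univ S) (fun i _ hi => by
      rw [hcon i hi]; ring), hsum, mul_zero]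
  have hout := rootIn_outside h hn hM hF hroot hc (fun i hi => by rw [hηc, if_neg hi]) hv
    (by rw [map_smul, smul_eq_mul]; exact mul_ne_zero (neg_ne_zero.2 (inv_ne_zero hz.1)) hvz)
  obtain ⟨i, hi, -, -⟩ := exists_notMem_two p p (S := S) (by omega)
  obtain ⟨l, hl, hli, -⟩ := exists_notMem_two i i (S := S) (by omega)
  obtain ⟨w, hw, hwi, hwl⟩ := exists_notMem_two i l (S := S) (by omega)
  obtain ⟨q, hq, hqp, hzq⟩ : ∃ q ∈ S, q ≠ p ∧ coordAt Q e c q z ≠ 0 := by
    by_contra hcon
    push Not at hcon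
    rw [Finset.sum_eq_single p (fun j hj hjp => by rw [hcon j hj hjp]; ring)
      (fun h0 => absurd hp h0)] at hsum
    exact hzp (pow_eq_zero_iff two_ne_zero |>.1 hsum)
  have hne : ∀ {a b}, a ∈ S → b ∉ S → a ≠ b := fun ha hb he => hb (he ▸ ha)
  set B := -(4 * c * coordAt Q e c p η ^ 2) with hB
  have hηp : coordAt Q e c p η ≠ 0 := by
    rw [hηc, if_pos hp]; exact mul_ne_zero h.two_ne hzp
  have hB0 : B ≠ 0 := by
    rw [hB, show (4 : F) = 2 * 2 by norm_num]
    exact neg_ne_zero.2 (mul_ne_zero (mul_ne_zero (mul_ne_zero h.two_ne h.two_ne) h.ne_zero)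
      (pow_ne_zero 2 hηp))
  obtain ⟨α, β, hαβ⟩ := exists_sq_add h.two_ne (B * c)⁻¹
  set a := α • e i + β • e l with ha
  have hqa : B * Q a = 1 := by
    rw [ha, map_smul_add_smul, h.val, h.val, h.ortho (Ne.symm hli)]
    field_simp [hB0, h.ne_zero] at hαβ
    linear_combination hαβ
  have haη : RootIn M η a := (mem_rootSpace hF hroot).1
    ((rootSpace hF hroot).add_mem ((rootSpace hF hroot).smul_mem α (hout i hi))
      ((rootSpace hF hroot).smul_mem β (hout l hl)))
  have hca : ∀ j, j ≠ i → j ≠ l → coordAt Q e c j a = 0 := fun j h1 h2 => by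
    rw [ha, map_add, map_smul, map_smul, h.coord_other h1, h.coord_other h2]; simp
  set g := flipTwo Q e p w with hg
  have hgη : (g : V ≃ₗ[F] V) η = η - (2 * coordAt Q e c p η) • e p := by
    rw [hg, h.flip_coord (hne hp hw)]
    simp [hηc w, hw]
  have hga : (g : V ≃ₗ[F] V) a = a := by
    rw [hg, h.flip_coord (hne hp hw), hca p (hne hp hi) (hne hp hl), hca w hwi hwl]
    simp
  have hpB : polar Q η ((g : V ≃ₗ[F] V) η) = B := by
    rw [hgη, polar_sub_right, polar_self', hqη, polar_smul_right, polar_comm, h.polar_coord, hB]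
    simp; ring
  have hpa : polar Q a ((g : V ≃ₗ[F] V) η) = 0 := by
    have := orth_polar g a η
    rwa [hga, polar_comm (⇑Q) a η, haη.2.1] at this
  have hconj := (haη.conj (flip_mem_M h hn hM p w)).conj haη.2.2
  rw [← hg, hga] at hconj
  have e1 : (eich Q η a : V ≃ₗ[F] V) ((g : V ≃ₗ[F] V) η) =
      B • a - (2 * coordAt Q e c p η) • e p := by
    rw [eich_apply hqη haη.2.1, hpB, hpa, mul_comm (Q a), hqa, hgη]
    simp only [zero_smul, one_smul, sub_zero]
    abel
  have e2 : (eich Q η a : V ≃ₗ[F] V) a = a - (2 * Q a) • η := by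
    rw [eich_apply hqη haη.2.1, haη.2.1, polar_self']
    simp
  rw [e1, e2] at hconj
  refine commutator_le_of_sparse h hn hn13 hM hF hconj ?_ (J := {p, i, l}) (v := q)
    (Finset.card_le_three.trans (by norm_num)) ?_ ?_ ?_
  · intro h0
    have := congrArg (coordAt Q e c p) h0
    rw [map_sub, map_smul, map_smul, hca p (hne hp hi) (hne hp hl), h.coord_self, map_zero] at this
    simp [h.two_ne, hηp] at this
  · intro j hj
    simp only [Finset.mem_insert, Finset.mem_singleton, not_or] at hj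
    rw [map_sub, map_smul, map_smul, hca j hj.2.1 hj.2.2, h.coord_other hj.1]
    simp
  · simp [hqp, hne hq hi, hne hq hl]
  · rw [map_sub, map_smul, hca q (hne hq hi) (hne hq hl), zero_sub, hηc, if_pos hq, smul_eq_mul,
      neg_ne_zero]
    exact mul_ne_zero (mul_ne_zero h.two_ne (right_ne_zero_of_mul (a := B) (by rw [hqa]; exact one_ne_zero)))
      (mul_ne_zero h.two_ne hzq)

end Cfsg.Agent.H5
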