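import Cfsg.Agent.H5.FrameOrbit

/-!
Overgroups of a frame stabiliser moving the frame contain elements moving it and fixing a root.
-/

set_option autoImplicit false

namespace Cfsg.Agent.H5

open QuadraticMap hiding sq

variable {F V : Type*} [Field F] [AddCommGroup V] [Module F V] {Q : QuadraticForm F V} {n : ℕ}
  {e : Fin n → V} {c : F}

/-- Isometries agreeing on a frame are equal. -/
theorem OrthFrame.orth_ext (h : OrthFrame Q e c) {g g' : H5.orth Q}
    (hg : ∀ i, (g : V ≃ₗ[F] V) (e i) = (g' : V ≃ₗ[F] V) (e i)) : g = g' :=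
  H5.orth_ext fun x => by
    conv_lhs => rw [← h.expand x]
    conv_rhs => rw [← h.expand x]
    simp only [map_sum, map_smul, hg]

/-- A vector orthogonal to two orthonormal vectors on two coordinates vanishes there. -/
theorem two_support_zero (h : OrthFrame Q e c) {k l : Fin n} (hkl : k ≠ l) {a b z : V}
    (ha : ∀ i, i ≠ k → i ≠ l → coordAt Q e c i a = 0) (hb : ∀ i, i ≠ k → i ≠ l → coordAt Q e c i b = 0)
    (hqa : Q a = c) (hqb : Q b = c) (hab : polar Q a b = 0) (haz : polar Q a z = 0)
    (hbz : polar Q b z = 0) : coordAt Q e c k z = 0 ∧ coordAt Q e c l z = 0 := by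
  classical
  have hpol : ∀ {x y : V}, (∀ i, i ≠ k → i ≠ l → coordAt Q e c i x = 0) →
      polar Q x y = 2 * c * (coordAt Q e c k x * coordAt Q e c k y +
        coordAt Q e c l x * coordAt Q e c l y) := fun {x y} hx => by
    rw [h.polar_eq_sum, Finset.sum_eq_add k l hkl (fun i _ hi => by rw [hx i hi.1 hi.2, zero_mul])
      (by simp) (by simp)]
  have h20 : (2 : F) * c ≠ 0 := mul_ne_zero h.two_ne h.ne_zero
  have e1 : coordAt Q e c k a * coordAt Q e c k a + coordAt Q e c l a * coordAt Q e c l a = 1 := by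
    have := polar_self' Q a
    rw [hpol ha, hqa] at this
    exact mul_left_cancel₀ h20 (by linear_combination this)
  have e2 : coordAt Q e c k b * coordAt Q e c k b + coordAt Q e c l b * coordAt Q e c l b = 1 := by
    have := polar_self' Q b
    rw [hpol hb, hqb] at this
    exact mul_left_cancel₀ h20 (by linear_combination this)
  have e3 := (hpol (y := b) ha).symm.trans hab
  have e4 := (hpol (y := z) ha).symm.trans haz
  have e5 := (hpol (y := z) hb).symm.trans hbz
  rw [mul_eq_zero, or_iff_right h20] at e3 e4 e5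
  set p := coordAt Q e c k a
  set q := coordAt Q e c l a
  set p' := coordAt Q e c k b
  set q' := coordAt Q e c l b
  have hdet : p * q' - q * p' ≠ 0 := fun h0 => by
    have : (1 : F) = 0 := by
      linear_combination (p * q' - q * p') * h0 + (p * p' + q * q') * e3 -
        (p' * p' + q' * q') * e1 - e2
    exact one_ne_zero this
  refine ⟨(mul_eq_zero.1 (?_ : (p * q' - q * p') * coordAt Q e c k z = 0)).resolve_left hdet,
    (mul_eq_zero.1 (?_ : (p * q' - q * p') * coordAt Q e c l z = 0)).resolve_left hdet⟩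
  · linear_combination q' * e4 - q * e5
  · linear_combination -p' * e4 + p * e5

/-- A product of two reflections moves vectors within their span. -/
theorem pair_sub_mem (a b x : V) : ((refl Q a * refl Q b : orth Q) : V ≃ₗ[F] V) x - x ∈
    Submodule.span F {a} ⊔ Submodule.span F {b} := by
  have hre : ∀ x p r : V, x - p - r - x = -(p + r) := fun x p r => by abel
  rw [orth_mul_apply, refl_apply Q b, map_sub, map_smul, refl_apply, refl_apply, hre]
  exact neg_mem (add_mem (Submodule.mem_sup_left (Submodule.smul_mem _ _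
    (Submodule.mem_span_singleton_self a))) (Submodule.smul_mem _ _ (sub_mem
      (Submodule.mem_sup_right (Submodule.mem_span_singleton_self b))
      (Submodule.mem_sup_left (Submodule.smul_mem _ _ (Submodule.mem_span_singleton_self a))))))

theorem coord_inv_image (h : OrthFrame Q e c) (g : orth Q) (i : Fin n) (x : V) :
    polar Q ((g : V ≃ₗ[F] V) (e i)) ((g : V ≃ₗ[F] V) x) = 2 * c * coordAt Q e c i x := by
  rw [orth_polar, h.polar_coord]

variable [FiniteDimensional F V] [Finite F] [Finite V] {M : Subgroup (orth Q)}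
  (h : OrthFrame Q e c) (hn : 5 ≤ Module.finrank F V) (hn13 : 7 ≤ n)
  (hM : ∀ g ∈ commutator (orth Q), Mono e g → g ∈ M)
  (hG : ∀ m ∈ M, ∀ f, IsRootVec e f → (m : V ≃ₗ[F] V) f = f → Mono e m)

include h hn hn13 hM hG in
theorem mono_of_maps_vec {m : orth Q} (hm : m ∈ M) {a k : Fin n}
    (hak : (m : V ≃ₗ[F] V) (e a) = e k ∨ (m : V ≃ₗ[F] V) (e a) = -e k) : Mono e m := by
  obtain ⟨g, hgM, hgm, hgk⟩ : ∃ g ∈ M, Mono e g ∧ (g : V ≃ₗ[F] V) (e k) = e a := by
    rcases eq_or_ne k a with rfl | hka
    · exact ⟨1, one_mem M, Mono.one, rfl⟩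
    obtain ⟨u, -, hu⟩ := Finset.exists_mem_notMem_of_card_lt_card (t := (Finset.univ : Finset (Fin n)))
      (s := ({k, a} : Finset (Fin n))) (lt_of_le_of_lt Finset.card_le_two (by simp; omega))
    simp only [Finset.mem_insert, Finset.mem_singleton, not_or] at hu
    obtain ⟨g, hg, hgm, hk, -⟩ := exists_cycle h hn hM hka (Ne.symm hu.2) (Ne.symm hu.1)
    exact ⟨g, hg, hgm, hk⟩
  obtain ⟨g', hg'M, hg'm, hg'⟩ : ∃ g' ∈ M, Mono e g' ∧ (g' : V ≃ₗ[F] V) ((m : V ≃ₗ[F] V) (e a)) = e a := by
    rcases hak with hak | hak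
    · exact ⟨g, hgM, hgm, by rw [hak, hgk]⟩
    obtain ⟨u, -, hu⟩ := Finset.exists_mem_notMem_of_card_lt_card (t := (Finset.univ : Finset (Fin n)))
      (s := ({a} : Finset (Fin n))) (by simp; omega)
    rw [Finset.mem_singleton] at hu
    refine ⟨flipTwo Q e a u * g, mul_mem (flip_mem_M h hn hM a u) hgM,
      (h.mono_flip a u).mul hgm, ?_⟩
    rw [hak, orth_mul_apply, map_neg, hgk, flipTwo, orth_mul_apply, map_neg, h.refl_other hu,
      map_neg, h.refl_self, neg_neg]
  have h1 := hG _ (mul_mem hg'M hm) (e a) (Or.inl ⟨a, rfl⟩) (by rw [orth_mul_apply, hg'])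
  have := (hg'm.inv h).mul h1
  rwa [inv_mul_cancel_left] at this

include h hn hM in
/-- An involution commuting with its conjugates by three-cycles fixes the lines. -/
theorem line_fixed_of_comm {x : orth Q} (hx2 : x * x = 1) {T : Finset (Fin n)}
    (hT : 5 ≤ T.card) (hxm : Mono e x) (U : Submodule F V) (hU : Module.finrank F U ≤ 2)
    (himg : ∀ v, (x : V ≃ₗ[F] V) (e v) - e v ∈ U)
    (hTx : ∀ v ∈ T, ∀ w, ((x : V ≃ₗ[F] V) (e v) = e w ∨ (x : V ≃ₗ[F] V) (e v) = -e w) → w ∈ T)
    (hcomm : ∀ g ∈ M, Mono e g → (∀ i ∉ T, (g : V ≃ₗ[F] V) (e i) = e i) →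
      x * (g * x * g⁻¹) = g * x * g⁻¹ * x) :
    ∀ v ∈ T, (x : V ≃ₗ[F] V) (e v) = e v ∨ (x : V ≃ₗ[F] V) (e v) = -e v := by
  classical
  obtain ⟨π, s, hs, hπ⟩ := hxm.exists_perm h
  have hs0 : ∀ i, s i ≠ 0 := fun i => by
    rcases hs i with h' | h' <;> rw [h'] <;> simp
  have hline : ∀ i, (x : V ≃ₗ[F] V) (e i) = e (π i) ∨ (x : V ≃ₗ[F] V) (e i) = -e (π i) := fun i => by
    rcases hs i with h' | h' <;> rw [hπ, h'] <;> simp
  have hππ : ∀ i, π (π i) = i := by
    intro i
    have h1 : (x : V ≃ₗ[F] V) ((x : V ≃ₗ[F] V) (e i)) = e i := by rw [← orth_mul_apply, hx2]; rfl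
    rw [hπ, map_smul, hπ, smul_smul] at h1
    by_contra hne
    have := congrArg (coordAt Q e c i) h1
    rw [map_smul, h.coord_self, h.coord_other (Ne.symm hne), smul_zero] at this
    exact zero_ne_one this
  suffices hsuf : ∀ v ∈ T, π v = v by
    intro v hv
    have := hline v
    rwa [hsuf v hv] at this
  intro v hv
  by_contra hvw
  set w := π v with hw
  have hwT : w ∈ T := hTx v hv w (hline v)
  obtain ⟨u, hu, huu⟩ : ∃ u ∈ T, π u = u := by
    by_contra hc
    push Not at hc
    set R := T.filter fun i => i < π i with hR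
    have hcov : T ⊆ R ∪ R.image π := by
      intro i hi
      rcases lt_or_gt_of_ne (hc i hi) with h' | h'
      · refine Finset.mem_union_right _ (Finset.mem_image.2 ⟨π i, ?_, hππ i⟩)
        rw [hR, Finset.mem_filter, hππ]
        exact ⟨hTx i hi _ (hline i), h'⟩
      · exact Finset.mem_union_left _ (Finset.mem_filter.2 ⟨hi, h'⟩)
    have h1 := (Finset.card_le_card hcov).trans ((Finset.card_union_le _ _).trans
      (Nat.add_le_add_left Finset.card_image_le _))
    have h2 := card_le_of_image h hxm ∅ U (fun i => ⟨_, himg i, fun _ _ => rfl⟩) R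
      (fun i hi => ⟨by simp, fun h0 => by
        rw [hπ] at h0
        have := congrArg (coordAt Q e c i) h0
        rw [map_smul, h.coord_self,
          h.coord_other (ne_of_lt (Finset.mem_filter.1 hi).2), smul_zero] at this
        exact zero_ne_one this⟩)
      (fun i hi i' hi' hii => by
        rw [hπ, map_smul, h.coord_other, smul_zero]
        intro he
        have h3 := (Finset.mem_filter.1 hi').2
        have h4 := (Finset.mem_filter.1 hi).2
        rw [he, hππ] at h3
        exact lt_asymm h3 h4)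
    omega
  have hwu : w ≠ u := fun he => hvw (by
    have e1 := hππ v
    rw [← hw, he, huu] at e1
    exact he.trans e1)
  have hvu : v ≠ u := fun he => hvw (by rw [hw, he]; exact huu)
  obtain ⟨g, hg, hgm, hgv, hgw, hgu, hgo⟩ := exists_cycle h hn hM (Ne.symm hvw) hwu hvu
  have hc := hcomm g hg hgm fun i hi => hgo i (fun he => hi (he ▸ hv)) (fun he => hi (he ▸ hwT))
    (fun he => hi (he ▸ hu))
  have hgi : ∀ {p q : Fin n}, (g : V ≃ₗ[F] V) (e p) = e q →
      ((g⁻¹ : orth Q) : V ≃ₗ[F] V) (e q) = e p := fun {p q} hpq => by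
    rw [← hpq, orth_inv_apply_apply]
  have hh := congrArg (fun k : orth Q => coordAt Q e c w ((k : V ≃ₗ[F] V) (e v))) hc
  simp only [orth_mul_apply, hgi hgu, hπ u, huu, map_smul, hgu, hπ v, ← hw, hgi hgv, hgw,
    h.coord_self, h.coord_other hwu, smul_eq_mul, mul_zero, mul_one] at hh
  exact mul_ne_zero (hs0 u) (hs0 v) hh

include h hn hn13 hM hG in
/-- A plane of frame vectors mapped to another one. -/
theorem mono_of_plane {m : orth Q} (hm : m ∈ M) {a b k l : Fin n} (hab : a ≠ b) (hkl : k ≠ l)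
    (ha : ∀ i, i ≠ k → i ≠ l → coordAt Q e c i ((m : V ≃ₗ[F] V) (e a)) = 0)
    (hb : ∀ i, i ≠ k → i ≠ l → coordAt Q e c i ((m : V ≃ₗ[F] V) (e b)) = 0) : Mono e m := by
  classical
  set mm : V → V := fun x => (m : V ≃ₗ[F] V) x with hmm
  have hq : ∀ i, Q (mm (e i)) = c := fun i => by rw [hmm]; exact (orth_map m _).trans (h.val i)
  have ho : ∀ {i j}, i ≠ j → polar Q (mm (e i)) (mm (e j)) = 0 := fun hij =>
    (orth_polar m _ _).trans (h.ortho hij)
  have hz : ∀ d, d ≠ a → d ≠ b → coordAt Q e c k (mm (e d)) = 0 ∧ coordAt Q e c l (mm (e d)) = 0 :=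
    fun d hda hdb => two_support_zero h hkl ha hb (hq a) (hq b) (ho hab) (ho (Ne.symm hda))
      (ho (Ne.symm hdb))
  let X : Fin n → Fin n → orth Q := fun d d' => m * flipTwo Q e d d' * m⁻¹
  have hXe : ∀ d d', X d d' = refl Q (mm (e d)) * refl Q (mm (e d')) := fun d d' => by
    simp only [X, hmm, flipTwo, ← refl_conj]; group
  have hXM : ∀ d d', X d d' ∈ M := fun d d' =>
    mul_mem (mul_mem hm (flip_mem_M h hn hM d d')) (inv_mem hm)
  have hkfix : ∀ {d d'}, d ≠ a → d ≠ b → d' ≠ a → d' ≠ b → ∀ i, i = k ∨ i = l →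
      (X d d' : V ≃ₗ[F] V) (e i) = e i := by
    intro d d' hda hdb hda' hdb' i hi
    rw [hXe, orth_mul_apply]
    have hd : ∀ j, j ≠ a → j ≠ b → polar Q (mm (e j)) (e i) = 0 := fun j h1 h2 => by
      rw [polar_comm, h.polar_coord]
      rcases hi with rfl | rfl <;> simp [hz j h1 h2]
    rw [refl_apply_of_ortho (hd d' hda' hdb'), refl_apply_of_ortho (hd d hda hdb)]
  have hXm : ∀ {d d'}, d ≠ a → d ≠ b → d' ≠ a → d' ≠ b → Mono e (X d d') := fun hda hdb hda' hdb' =>
    hG _ (hXM _ _) (e k) (Or.inl ⟨k, rfl⟩) (hkfix hda hdb hda' hdb' k (Or.inl rfl))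
  set T : Finset (Fin n) := (Finset.univ.erase k).erase l with hT
  have hTc : 5 ≤ T.card := by
    rw [hT, Finset.card_erase_of_mem (by simp [Ne.symm hkl]), Finset.card_erase_of_mem (by simp)]
    simp; omega
  have hmemT : ∀ {i}, i ∈ T ↔ i ≠ l ∧ i ≠ k := by simp [hT]
  have hdiag : ∀ {d d'}, d ≠ a → d ≠ b → d' ≠ a → d' ≠ b → ∀ v,
      (X d d' : V ≃ₗ[F] V) (e v) = e v ∨ (X d d' : V ≃ₗ[F] V) (e v) = -e v := by
    intro d d' hda hdb hda' hdb' v
    by_cases hv : v = k ∨ v = l
    · exact Or.inl (hkfix hda hdb hda' hdb' v hv)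
    push Not at hv
    have hxm := hXm hda hdb hda' hdb'
    refine line_fixed_of_comm h hn hM (x := X d d') ?_ hTc hxm
      (Submodule.span F {mm (e d)} ⊔ Submodule.span F {mm (e d')}) ?_ (fun i => ?_) ?_ ?_ v
      (hmemT.2 ⟨hv.2, hv.1⟩)
    · simp only [X, flipTwo]
      calc m * (refl Q (e d) * refl Q (e d')) * m⁻¹ * (m * (refl Q (e d) * refl Q (e d')) * m⁻¹)
          = m * (refl Q (e d) * (refl Q (e d') * refl Q (e d)) * refl Q (e d')) * m⁻¹ := by group
        _ = 1 := by
            rw [← h.flip_comm d d', ← mul_assoc (refl Q (e d)), refl_mul_self, one_mul,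
              refl_mul_self, mul_one, mul_inv_cancel]
    · refine (Submodule.finrank_add_le_finrank_add_finrank _ _).trans ?_
      have h5 : ∀ z : V, Module.finrank F (Submodule.span F {z}) ≤ 1 := fun z => by
        simpa using finrank_span_le_card ({z} : Set V)
      have := h5 (mm (e d)); have := h5 (mm (e d')); omega
    · rw [hXe]; exact pair_sub_mem _ _ _
    · intro i hi w hw
      rw [hmemT] at hi ⊢
      have key : ∀ q, q = k ∨ q = l → w ≠ q := fun q hq hwq => by
        have e1 : polar Q ((X d d' : V ≃ₗ[F] V) (e i)) ((X d d' : V ≃ₗ[F] V) (e q)) = 0 := by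
          rw [orth_polar]; exact h.ortho (by rcases hq with rfl | rfl; exacts [hi.2, hi.1])
        rw [hkfix hda hdb hda' hdb' q hq] at e1
        rcases hw with hw | hw <;>
          simp [hw, hwq, polar_neg_left, polar_self', h.val, h.two_ne, h.ne_zero] at e1
      exact ⟨key l (Or.inr rfl), key k (Or.inl rfl)⟩
    · intro g hg hgm hgfix
      set g' := m⁻¹ * g * m with hg'
      have hg'M : g' ∈ M := mul_mem (mul_mem (inv_mem hm) hg) hm
      have hsupp : ∀ j, (∀ i, i ≠ k → i ≠ l → coordAt Q e c i (mm (e j)) = 0) →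
          (g' : V ≃ₗ[F] V) (e j) = e j := fun j hj => by
        rw [hg', orth_mul_apply, orth_mul_apply]
        have : (g : V ≃ₗ[F] V) (mm (e j)) = mm (e j) := by
          conv_lhs => rw [← h.expand (mm (e j))]
          rw [map_sum]
          conv_rhs => rw [← h.expand (mm (e j))]
          refine Finset.sum_congr rfl fun i _ => ?_
          rw [map_smul]
          by_cases hik : i = k ∨ i = l
          · rw [hgfix i (fun hiT => by rw [hmemT] at hiT; exact hik.elim hiT.2 hiT.1)]
          · push Not at hik; rw [hj i hik.1 hik.2, zero_smul, zero_smul]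
        rw [show (m : V ≃ₗ[F] V) (e j) = mm (e j) from rfl, this]
        exact orth_inv_apply_apply m _
      have hg'a := hsupp a ha
      have hg'b := hsupp b hb
      obtain ⟨π, s, hs, hπ⟩ := (hG _ hg'M (e a) (Or.inl ⟨a, rfl⟩) hg'a).exists_perm h
      have hconj : g * X d d' * g⁻¹ = X (π d) (π d') := by
        have e1 : g * X d d' * g⁻¹ = m * (g' * flipTwo Q e d d' * g'⁻¹) * m⁻¹ := by
          simp only [X, hg']; group
        have e2 : g' * flipTwo Q e d d' * g'⁻¹ = flipTwo Q e (π d) (π d') := by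
          have hne : ∀ j, s j ≠ 0 := fun j => by rcases hs j with h' | h' <;> rw [h'] <;> simp
          simp only [flipTwo]
          rw [show g' * (refl Q (e d) * refl Q (e d')) * g'⁻¹ =
            (g' * refl Q (e d) * g'⁻¹) * (g' * refl Q (e d') * g'⁻¹) by group, refl_conj, refl_conj,
            hπ, hπ, refl_smul (hne d), refl_smul (hne d')]
        rw [e1, e2]
      rw [hconj]
      simp only [X]
      have hfc : ∀ p q p' q' : Fin n, Commute (flipTwo Q e p q) (flipTwo Q e p' q') := fun p q p' q' =>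
        Commute.mul_left ((show Commute _ _ from h.flip_comm p p').mul_right (h.flip_comm p q'))
          ((show Commute _ _ from h.flip_comm q p').mul_right (h.flip_comm q q'))
      calc m * flipTwo Q e d d' * m⁻¹ * (m * flipTwo Q e (π d) (π d') * m⁻¹)
          = m * (flipTwo Q e d d' * flipTwo Q e (π d) (π d')) * m⁻¹ := by group
        _ = m * (flipTwo Q e (π d) (π d') * flipTwo Q e d d') * m⁻¹ := by rw [(hfc _ _ _ _).eq]
        _ = _ := by group
  -- the images are supported on the changed signs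
  obtain ⟨d, -, hd⟩ := Finset.exists_mem_notMem_of_card_lt_card (t := (Finset.univ : Finset (Fin n)))
    (s := ({a, b} : Finset (Fin n))) (lt_of_le_of_lt Finset.card_le_two (by simp; omega))
  simp only [Finset.mem_insert, Finset.mem_singleton, not_or] at hd
  by_cases hone : ∃ v, ∀ i, i ≠ v → coordAt Q e c i (mm (e d)) = 0
  · obtain ⟨v, hv⟩ := hone
    have hex : mm (e d) = coordAt Q e c v (mm (e d)) • e v := by
      conv_lhs => rw [← h.expand (mm (e d)), Finset.sum_eq_single v
        (fun i _ hi => by rw [hv i hi, zero_smul]) (by simp)]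
    have hsq : coordAt Q e c v (mm (e d)) * coordAt Q e c v (mm (e d)) = 1 := by
      have := hq d
      rw [hex, QuadraticMap.map_smul, h.val, smul_eq_mul] at this
      exact mul_right_cancel₀ h.ne_zero (by rw [this, one_mul])
    refine mono_of_maps_vec h hn hn13 hM hG hm (a := d) (k := v) ?_
    rcases mul_self_eq_one_iff.1 hsq with h' | h' <;> rw [h'] at hex
    · left; rw [← one_smul F (e v)]; exact hex
    · right; rw [← neg_one_smul F (e v)]; exact hex
  exfalso
  push Not at hone
  obtain ⟨v, -, hv⟩ := hone k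
  obtain ⟨w, hwv, hw⟩ := hone v
  have hkey : ∀ d', d' ≠ a → d' ≠ b → d' ≠ d → ∀ i, i ≠ v → i ≠ w →
      coordAt Q e c i (mm (e d')) = 0 := by
    intro d' hda hdb hdd i hiv hiw
    have hxm := hXm hd.1 hd.2 hda hdb
    have hneg : ∀ j, (j = d ∨ j = d') →
        (X d d' : V ≃ₗ[F] V) (mm (e j)) = -mm (e j) := by
      intro j hj
      rw [hXe, orth_mul_apply]
      rcases hj with rfl | rfl
      · rw [refl_apply_of_ortho (ho hdd), refl_apply_self (by rw [hq]; exact h.ne_zero)]
      · rw [refl_apply_self (by rw [hq]; exact h.ne_zero), map_neg, refl_apply_of_ortho (ho (Ne.symm hdd))]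
    have hflip : ∀ j, (j = d ∨ j = d') → ∀ i, coordAt Q e c i (mm (e j)) ≠ 0 →
        (X d d' : V ≃ₗ[F] V) (e i) = -e i := by
      intro j hj i hi
      rcases hdiag hd.1 hd.2 hda hdb i with h1 | h1
      swap
      · exact h1
      exfalso
      have e1 := orth_polar (X d d') (e i) (mm (e j))
      rw [h1, hneg j hj, polar_neg_right, h.polar_coord] at e1
      exact hi ((mul_eq_zero.1 (show (2 * c) * (2 * coordAt Q e c i (mm (e j))) = 0 by
        linear_combination -e1)).resolve_left (mul_ne_zero h.two_ne h.ne_zero) |> fun e2 =>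
          (mul_eq_zero.1 e2).resolve_left h.two_ne)
    by_contra hne
    have hR := card_le_of_image h hxm ∅ (Submodule.span F {mm (e d)} ⊔ Submodule.span F {mm (e d')})
      (fun j => ⟨_, by rw [hXe]; exact pair_sub_mem _ _ (e j),
        fun _ _ => rfl⟩) {v, w, i}
      (fun j hj => ⟨by simp, fun h0 => by
        have h1 : (X d d' : V ≃ₗ[F] V) (e j) = -e j := by
          simp only [Finset.mem_insert, Finset.mem_singleton] at hj
          rcases hj with rfl | rfl | rfl
          exacts [hflip d (Or.inl rfl) _ hv, hflip d (Or.inl rfl) _ hw, hflip d' (Or.inr rfl) _ hne]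
        exact h.ne_neg j j (h0.symm.trans h1)⟩)
      (fun j hj j' _ hjj => by
        simp only [Finset.mem_insert, Finset.mem_singleton] at hj
        have h1 : (X d d' : V ≃ₗ[F] V) (e j) = -e j := by
          rcases hj with rfl | rfl | rfl
          exacts [hflip d (Or.inl rfl) _ hv, hflip d (Or.inl rfl) _ hw, hflip d' (Or.inr rfl) _ hne]
        rw [h1, map_neg, h.coord_other (Ne.symm hjj), neg_zero])
    have h2 : Module.finrank F ↥(Submodule.span F {mm (e d)} ⊔ Submodule.span F {mm (e d')}) ≤ 2 := by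
      refine (Submodule.finrank_add_le_finrank_add_finrank _ _).trans ?_
      have h5 : ∀ z : V, Module.finrank F (Submodule.span F {z}) ≤ 1 := fun z => by
        simpa using finrank_span_le_card ({z} : Set V)
      have := h5 (mm (e d)); have := h5 (mm (e d')); omega
    rw [Finset.card_eq_three.2 ⟨v, w, i, Ne.symm hwv, Ne.symm hiv, Ne.symm hiw, rfl⟩] at hR
    omega
  obtain ⟨d', -, hd'⟩ := Finset.exists_mem_notMem_of_card_lt_card (t := (Finset.univ : Finset (Fin n)))
    (s := ({a, b, d} : Finset (Fin n))) (lt_of_le_of_lt Finset.card_le_three (by simp; omega))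
  simp only [Finset.mem_insert, Finset.mem_singleton, not_or] at hd'
  obtain ⟨d'', -, hd''⟩ := Finset.exists_mem_notMem_of_card_lt_card (t := (Finset.univ : Finset (Fin n)))
    (s := ({a, b, d, d'} : Finset (Fin n))) (lt_of_le_of_lt Finset.card_le_four (by simp; omega))
  simp only [Finset.mem_insert, Finset.mem_singleton, not_or] at hd''
  have h1 := hkey d' hd'.1 hd'.2.1 hd'.2.2
  have h2 := hkey d'' hd''.1 hd''.2.1 hd''.2.2.1
  obtain ⟨e1, e2⟩ := two_support_zero h (Ne.symm hwv) h1 h2 (hq d') (hq d'') (ho (Ne.symm hd''.2.2.2))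
    (ho hd'.2.2) (ho hd''.2.2.1)
  exact hv e1

end Cfsg.Agent.H5
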