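import Cfsg.Agent.H5.FrameBasic

/-!
Moved coordinates of signed permutations, elements inside the stabiliser of a frame, dihedral groups.
-/

set_option autoImplicit false

namespace Cfsg.Agent.H5

open QuadraticMap hiding sq

/-- Two involutions which are not conjugate by their product have a common central involution. -/
theorem exists_central_involution {G : Type*} [Group G] [Finite G] {H : Subgroup G} {t x : G}
    (ht : t * t = 1) (hx : x * x = 1) (htH : t ∈ H) (hxH : x ∈ H)
    (hnc : ∀ g ∈ H, g * t * g⁻¹ ≠ x) :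
    ∃ z ∈ H, z * z = 1 ∧ z ≠ 1 ∧ z * t = t * z ∧ z * x = x * z := by
  set u := t * x with hu
  have huH : u ∈ H := mul_mem htH hxH
  have hti : t⁻¹ = t := inv_eq_of_mul_eq_one_right ht
  have hxi : x⁻¹ = x := inv_eq_of_mul_eq_one_right hx
  have hui : u⁻¹ = x * t := by rw [hu, mul_inv_rev, hxi, hti]
  have hflip : ∀ j : ℕ, t * u ^ j = (u ^ j)⁻¹ * t := by
    intro j
    induction j with
    | zero => simp
    | succ j ih =>
      rw [pow_succ, ← mul_assoc, ih, mul_assoc, mul_inv_rev, mul_assoc u⁻¹]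
      rw [show t * u = u⁻¹ * t by rw [hui, hu, ← mul_assoc, ht, one_mul, mul_assoc, ht, mul_one]]
      rw [← mul_assoc, ← mul_assoc u⁻¹]
      congr 1
      exact ((Commute.refl u).pow_left j).inv_inv.eq
  have hpos : 0 < orderOf u := orderOf_pos u
  rcases Nat.even_or_odd' (orderOf u) with ⟨j, hj | hj⟩
  · refine ⟨u ^ j, pow_mem huH j, ?_, ?_, ?_, ?_⟩
    · rw [← pow_add, ← two_mul, ← hj, pow_orderOf_eq_one]
    · intro h0
      have := orderOf_le_of_pow_eq_one (by omega : 0 < j) h0
      omega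
    · have hinv : (u ^ j)⁻¹ = u ^ j := inv_eq_of_mul_eq_one_right
        (by rw [← pow_add, ← two_mul, ← hj, pow_orderOf_eq_one])
      rw [hflip, hinv]
    · have hinv : (u ^ j)⁻¹ = u ^ j := inv_eq_of_mul_eq_one_right
        (by rw [← pow_add, ← two_mul, ← hj, pow_orderOf_eq_one])
      have hxe : x = t * u := by rw [hu, ← mul_assoc, ht, one_mul]
      have c1 : Commute (u ^ j) t := by
        show _ = _
        rw [hflip, hinv]
      rw [hxe]
      exact c1.mul_right ((Commute.refl u).pow_left j)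
  · exfalso
    refine hnc (u ^ j) (pow_mem huH j) ?_
    have hinv : (u ^ j)⁻¹ = u ^ j * u := inv_eq_of_mul_eq_one_right (by
      rw [← mul_assoc, ← pow_add, ← pow_succ, ← two_mul, ← hj, pow_orderOf_eq_one])
    calc u ^ j * t * (u ^ j)⁻¹ = u ^ j * t * (u ^ j * u) := by rw [hinv]
      _ = u ^ j * ((u ^ j)⁻¹ * t) * u := by rw [← hflip]; group
      _ = x := by rw [mul_inv_cancel_left, hu, ← mul_assoc, ht, one_mul]

variable {F V : Type*} [Field F] [AddCommGroup V] [Module F V] {Q : QuadraticForm F V} {n : ℕ}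
  {e : Fin n → V} {c : F}

/-- Moved coordinates with distinct lines span an image of the same dimension. -/
theorem card_le_of_image [FiniteDimensional F V] (h : OrthFrame Q e c) {g : orth Q} (hg : Mono e g)
    (S0 : Finset (Fin n)) (U : Submodule F V)
    (himg : ∀ v, ∃ u ∈ U, ∀ i, i ∉ S0 →
      coordAt Q e c i ((g : V ≃ₗ[F] V) (e v) - e v) = coordAt Q e c i u)
    (R : Finset (Fin n)) (hR : ∀ v ∈ R, v ∉ S0 ∧ (g : V ≃ₗ[F] V) (e v) ≠ e v)
    (hsep : ∀ v ∈ R, ∀ w ∈ R, v ≠ w → coordAt Q e c w ((g : V ≃ₗ[F] V) (e v)) = 0) :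
    R.card ≤ Module.finrank F U := by
  classical
  let L : U →ₗ[F] (R → F) :=
    { toFun := fun u i => coordAt Q e c (i : Fin n) (u : V)
      map_add' := fun a b => by ext i; simp
      map_smul' := fun r a => by ext i; simp }
  have hsurj : Function.Surjective L := by
    intro φ
    choose u hu hu' using himg
    have hne : ∀ v ∈ R, coordAt Q e c v ((g : V ≃ₗ[F] V) (e v) - e v) ≠ 0 := by
      intro v hv h0
      rw [map_sub, h.coord_self, sub_eq_zero] at h0
      obtain ⟨j, hj | hj⟩ := hg v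
      · rw [hj, h.coord_vec] at h0
        split_ifs at h0 with hvj
        · exact (hR v hv).2 (by rw [hj, hvj])
        · exact zero_ne_one h0
      · rw [hj, map_neg, h.coord_vec] at h0
        split_ifs at h0
        · exact h.two_ne (by linear_combination -h0)
        · simp at h0
    refine ⟨∑ v : R, (φ v / coordAt Q e c (v : Fin n) ((g : V ≃ₗ[F] V) (e v) - e v)) •
      ⟨u v, hu v⟩, ?_⟩
    ext w
    rw [map_sum, Finset.sum_apply, Finset.sum_eq_single w]
    · simp only [map_smul, Pi.smul_apply, smul_eq_mul]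
      change _ * coordAt Q e c (w : Fin n) (u w) = _
      rw [← hu' w w (hR w w.2).1, div_mul_cancel₀ _ (hne w w.2)]
    · intro v _ hvw
      simp only [map_smul, Pi.smul_apply, smul_eq_mul]
      change _ * coordAt Q e c (w : Fin n) (u v) = _
      rw [← hu' v w (hR w w.2).1, map_sub (coordAt Q e c (w : Fin n)), hsep v v.2 w w.2 (fun he => hvw (Subtype.ext he)),
        h.coord_other (fun he => hvw (Subtype.ext he.symm)), sub_zero, mul_zero]
    · simp
  have := LinearMap.finrank_le_finrank_of_surjective hsurj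
  simpa using this

variable [FiniteDimensional F V] [Finite F] [Finite V] {M : Subgroup (orth Q)}
  (h : OrthFrame Q e c) (hn : 5 ≤ Module.finrank F V)
  (hM : ∀ g ∈ commutator (orth Q), Mono e g → g ∈ M)

include h hn hM in
theorem flip_mem_M (i j : Fin n) : flipTwo Q e i j ∈ M := hM _ (h.flip_mem hn) (h.mono_flip i j)

include h hn hM in
theorem dblSwap_mem_M {a b u v : Fin n} (hab : a ≠ b) (huv : u ≠ v) : dblSwap Q e a b u v ∈ M :=
  hM _ (h.dblSwap_mem hn hab huv) (h.mono_dblSwap hab huv)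

include h hn hM in
/-- A three-cycle of frame vectors, fixing the others. -/
theorem exists_cycle {a b d : Fin n} (hab : a ≠ b) (hbd : b ≠ d) (had : a ≠ d) :
    ∃ g ∈ M, Mono e g ∧ (g : V ≃ₗ[F] V) (e a) = e b ∧ (g : V ≃ₗ[F] V) (e b) = e d ∧
      (g : V ≃ₗ[F] V) (e d) = e a ∧ ∀ i, i ≠ a → i ≠ b → i ≠ d → (g : V ≃ₗ[F] V) (e i) = e i := by
  refine ⟨dblSwap Q e a b b d, dblSwap_mem_M h hn hM hab hbd, h.mono_dblSwap hab hbd, ?_, ?_, ?_,
    fun i ha hb hd => ?_⟩ <;> rw [dblSwap, orth_mul_apply]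
  · rw [h.swap_other hab had, h.swap_left hab]
  · rw [h.swap_left hbd, h.swap_other (Ne.symm had) (Ne.symm hbd)]
  · rw [h.swap_right hbd, h.swap_right hab]
  · rw [h.swap_other hb hd, h.swap_other ha hb]

end Cfsg.Agent.H5
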