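import Cfsg.Agent.H5.FrameOrbit
import Cfsg.Agent.H5.RootClosure
import Cfsg.Agent.H5.StabSingular

/-!
A root element with sparse singular vector and the stabiliser of a frame generate `Ω`.
-/

set_option autoImplicit false

namespace Cfsg.Agent.H5

open QuadraticMap hiding sq

variable {F V : Type*} [Field F] [AddCommGroup V] [Module F V] {Q : QuadraticForm F V} {n : ℕ}
  {e : Fin n → V} {c : F} {M : Subgroup (orth Q)}

/-- The additive group of members of a root group inside `M`, as a subspace over a prime field. -/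
def rootSpace (hF : ∀ t : F, ∃ k : ℕ, (k : F) = t) {η a : V} (ha : RootIn M η a) :
    Submodule F V where
  carrier := {x | RootIn M η x}
  zero_mem' := by simpa using ha.sub ha
  add_mem' hx hy := hx.add hy
  smul_mem' t x hx := by
    obtain ⟨k, rfl⟩ := hF t
    rw [Nat.cast_smul_eq_nsmul]
    induction k with
    | zero =>
      show RootIn M η _
      rw [zero_nsmul]; simpa using ha.sub ha
    | succ k ih =>
      show RootIn M η _
      rw [succ_nsmul]; exact RootIn.add ih hx

theorem mem_rootSpace (hF : ∀ t : F, ∃ k : ℕ, (k : F) = t) {η a x : V} (ha : RootIn M η a) :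
    x ∈ rootSpace hF ha ↔ RootIn M η x := Iff.rfl

theorem OrthFrame.refl_coord (h : OrthFrame Q e c) (i : Fin n) (x : V) :
    (refl Q (e i) : V ≃ₗ[F] V) x = x - (2 * coordAt Q e c i x) • e i := by
  rw [refl_apply, h.val, h.polar_coord]
  have := h.ne_zero
  congr 2
  field_simp

theorem OrthFrame.flip_coord (h : OrthFrame Q e c) {i j : Fin n} (hij : i ≠ j) (x : V) :
    (flipTwo Q e i j : V ≃ₗ[F] V) x =
      x - (2 * coordAt Q e c i x) • e i - (2 * coordAt Q e c j x) • e j := by
  rw [flipTwo, orth_mul_apply, h.refl_coord j, map_sub, map_smul, h.refl_other hij, h.refl_coord i]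

/-- Coordinates follow frame vectors. -/
theorem OrthFrame.coord_map (h : OrthFrame Q e c) {g : orth Q} {i l : Fin n}
    (hg : (g : V ≃ₗ[F] V) (e i) = e l) (x : V) :
    coordAt Q e c l ((g : V ≃ₗ[F] V) x) = coordAt Q e c i x := by
  have h1 := orth_polar g (e i) x
  rw [hg, h.polar_coord, h.polar_coord] at h1
  exact mul_left_cancel₀ (mul_ne_zero h.two_ne h.ne_zero) h1

/-- An isometry fixing the frame vectors of the support fixes the vector. -/
theorem OrthFrame.apply_eq (h : OrthFrame Q e c) {g : orth Q} {x : V}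
    (hg : ∀ i, coordAt Q e c i x ≠ 0 → (g : V ≃ₗ[F] V) (e i) = e i) :
    (g : V ≃ₗ[F] V) x = x := by
  conv_lhs => rw [← h.expand x]
  conv_rhs => rw [← h.expand x]
  rw [map_sum]
  refine Finset.sum_congr rfl fun i _ => ?_
  rw [map_smul]
  by_cases hi : coordAt Q e c i x = 0
  · rw [hi, zero_smul, zero_smul]
  · rw [hg i hi]

theorem OrthFrame.mem_of_coord (h : OrthFrame Q e c) (A : Submodule F V) {x : V}
    (hx : ∀ i, coordAt Q e c i x ≠ 0 → e i ∈ A) : x ∈ A := by
  rw [← h.expand x]
  refine sum_mem fun i _ => ?_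
  by_cases hi : coordAt Q e c i x = 0
  · rw [hi, zero_smul]; exact A.zero_mem
  · exact A.smul_mem _ (hx i hi)

theorem exists_notMem_two {S : Finset (Fin n)} (a b : Fin n) (hS : S.card + 2 < n) :
    ∃ t, t ∉ S ∧ t ≠ a ∧ t ≠ b := by
  classical
  obtain ⟨t, -, ht⟩ := Finset.exists_mem_notMem_of_card_lt_card (t := (Finset.univ : Finset (Fin n)))
    (s := insert a (insert b S)) (by
      have h1 := Finset.card_insert_le a (insert b S)
      have h2 := Finset.card_insert_le b S
      simp; omega)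
  simp only [Finset.mem_insert, not_or] at ht
  exact ⟨t, ht.2.2, ht.1, ht.2.1⟩

variable [FiniteDimensional F V] [Finite F] [Finite V]
  (h : OrthFrame Q e c) (hn : 5 ≤ Module.finrank F V) (hn13 : 7 ≤ n)
  (hM : ∀ g ∈ commutator (orth Q), Mono e g → g ∈ M) (hF : ∀ t : F, ∃ k : ℕ, (k : F) = t)

include h hn hM hF in
/-- A member outside the support gives all coordinates outside. -/
theorem rootIn_outside {η a : V} (ha : RootIn M η a) {J : Finset (Fin n)} (hJ : J.card + 3 ≤ n)
    (hsupp : ∀ i ∉ J, coordAt Q e c i η = 0) {v : Fin n} (hv : v ∉ J)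
    (hav : coordAt Q e c v a ≠ 0) : ∀ i ∉ J, RootIn M η (e i) := by
  set A := rootSpace hF ha with hA
  have hfix : ∀ g ∈ M, (∀ i ∈ J, (g : V ≃ₗ[F] V) (e i) = e i) →
      ∀ x ∈ A, (g : V ≃ₗ[F] V) x ∈ A := by
    intro g hg hgJ x hx
    have h1 := RootIn.conj hg ((mem_rootSpace hF ha).1 hx)
    rwa [h.apply_eq (x := η) (fun i hi => hgJ i (by_contra fun h0 => hi (hsupp i h0)))] at h1
  obtain ⟨u, hu, huv, -⟩ := exists_notMem_two v v (S := J) (by omega)
  obtain ⟨w, hw, hwv, hwu⟩ := exists_notMem_two v u (S := J) (by omega)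
  have hy : ∀ p q, p ∉ J → q ∉ J → p ≠ q →
      coordAt Q e c p a • e p + coordAt Q e c q a • e q ∈ A := by
    intro p q hp hq hpq
    have h1 := hfix _ (flip_mem_M h hn hM p q) (fun i hi => by
      have hip : i ≠ p := fun he => hp (he ▸ hi)
      have hiq : i ≠ q := fun he => hq (he ▸ hi)
      rw [h.flip_coord hpq, h.coord_other (Ne.symm hip), h.coord_other (Ne.symm hiq)]
      simp) a ha
    have h2 : (2 : F)⁻¹ • (a - (flipTwo Q e p q : V ≃ₗ[F] V) a) ∈ A :=
      A.smul_mem _ (A.sub_mem ha h1)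
    have h3 := h.two_ne
    rw [h.flip_coord hpq] at h2
    convert h2 using 1
    match_scalars <;> field_simp <;> ring
  have hev : e v ∈ A := by
    have h1 := A.smul_mem (2 * coordAt Q e c v a)⁻¹ (A.sub_mem
      (A.add_mem (hy v u hv hu (Ne.symm huv)) (hy v w hv hw (Ne.symm hwv))) (hy u w hu hw (Ne.symm hwu)))
    convert h1 using 1
    have := h.two_ne
    match_scalars <;> field_simp <;> ring
  intro i hi
  rcases eq_or_ne i v with rfl | hiv
  · exact hev
  obtain ⟨t, ht, htv, hti⟩ := exists_notMem_two v i (S := J) (by omega)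
  obtain ⟨g, hg, -, hgv, -, -, hgo⟩ := exists_cycle h hn hM (Ne.symm hiv) (Ne.symm hti) (Ne.symm htv)
  have h1 := hfix g hg (fun j hj => hgo j (fun he => hv (he ▸ hj)) (fun he => hi (he ▸ hj))
    (fun he => ht (he ▸ hj))) _ hev
  rwa [hgv] at h1

include h hn hn13 hM in
/-- A sparse vector can be moved off its support. -/
theorem exists_disjoint (η : V) {J : Finset (Fin n)} (hJ : J.card ≤ 3)
    (hsupp : ∀ i ∉ J, coordAt Q e c i η = 0) :
    ∃ g ∈ M, Mono e g ∧ ∃ J' : Finset (Fin n), J'.card ≤ 3 ∧ Disjoint J J' ∧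
      ∀ i ∉ J', coordAt Q e c i ((g : V ≃ₗ[F] V) η) = 0 := by
  classical
  suffices hs : ∀ k, ∀ g ∈ M, Mono e g → ∀ S : Finset (Fin n), S.card ≤ 3 → (J ∩ S).card ≤ k →
      (∀ i ∉ S, coordAt Q e c i ((g : V ≃ₗ[F] V) η) = 0) →
      ∃ g ∈ M, Mono e g ∧ ∃ J' : Finset (Fin n), J'.card ≤ 3 ∧ Disjoint J J' ∧
        ∀ i ∉ J', coordAt Q e c i ((g : V ≃ₗ[F] V) η) = 0 from
    hs _ 1 (one_mem M) Mono.one J hJ le_rfl (by simpa using hsupp)
  intro k
  induction k with
  | zero =>
    intro g hg hgm S hS hk hgS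
    exact ⟨g, hg, hgm, S, hS, Finset.disjoint_iff_inter_eq_empty.2
      (Finset.card_eq_zero.1 (by omega)), hgS⟩
  | succ k ih =>
    intro g hg hgm S hS hk hgS
    by_cases hd : J ∩ S = ∅
    · exact ⟨g, hg, hgm, S, hS, Finset.disjoint_iff_inter_eq_empty.2 hd, hgS⟩
    obtain ⟨j, hj⟩ := Finset.nonempty_iff_ne_empty.2 hd
    have hjJ := (Finset.mem_inter.1 hj).1
    have hjS := (Finset.mem_inter.1 hj).2
    have hc : (J ∪ S).card < n := by
      have h1 := Finset.card_union_add_card_inter J S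
      have h2 := Finset.card_pos.2 ⟨j, hj⟩
      omega
    have hjU : j ∈ J ∪ S := Finset.mem_union_left _ hjJ
    obtain ⟨t, -, ht⟩ := Finset.exists_mem_notMem_of_card_lt_card (t := (Finset.univ : Finset (Fin n)))
      (s := J ∪ S) (by simp; omega)
    obtain ⟨t', -, ht'n⟩ := Finset.exists_mem_notMem_of_card_lt_card
      (t := (Finset.univ : Finset (Fin n))) (s := insert t S)
      (by simp only [Finset.card_univ, Fintype.card_fin]; have := Finset.card_insert_le t S; omega)
    rw [Finset.mem_insert, not_or] at ht'n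
    obtain ⟨ht't, ht'⟩ := ht'n
    have htj : t ≠ j := fun he => ht (he ▸ hjU)
    have ht'j : t' ≠ j := fun he => ht' (he ▸ hjS)
    rw [Finset.mem_union, not_or] at ht
    obtain ⟨f, hf, hfm, hfj, hft, hft', hfo⟩ :=
      exists_cycle h hn hM (Ne.symm htj) (Ne.symm ht't) (Ne.symm ht'j)
    refine ih (f * g) (mul_mem hf hg) (hfm.mul hgm) (insert t (S.erase j)) ?_ ?_ ?_
    · refine (Finset.card_insert_le _ _).trans ?_
      rw [Finset.card_erase_of_mem hjS]
      have := Finset.card_pos.2 ⟨j, hjS⟩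
      omega
    · refine (Finset.card_le_card (t := (J ∩ S).erase j) fun i hi => ?_).trans ?_
      · simp only [Finset.mem_inter, Finset.mem_insert, Finset.mem_erase] at hi ⊢
        rcases hi.2 with rfl | h2
        · exact absurd hi.1 ht.1
        · exact ⟨h2.1, hi.1, h2.2⟩
      · rw [Finset.card_erase_of_mem hj]; omega
    · intro i hi
      simp only [Finset.mem_insert, Finset.mem_erase, not_or, not_and] at hi
      rw [orth_mul_apply]
      rcases eq_or_ne i j with rfl | hij
      · rw [h.coord_map hft', hgS t' ht']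
      rcases eq_or_ne i t' with rfl | hit'
      · rw [h.coord_map hft, hgS t ht.2]
      rw [h.coord_map (hfo i hij hi.1 hit'), hgS i (hi.2 hij)]

include h hn hn13 hM hF in
/-- A sparse singular vector with a member outside its support leads to all of `Ω`. -/
theorem commutator_le_of_sparse {η a : V} (ha : RootIn M η a) (hη : η ≠ 0) {J : Finset (Fin n)}
    (hJ : J.card ≤ 3) (hsupp : ∀ i ∉ J, coordAt Q e c i η = 0) {v : Fin n} (hv : v ∉ J)
    (hav : coordAt Q e c v a ≠ 0) : commutator (orth Q) ≤ M := by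
  classical
  set A := rootSpace hF ha with hA
  have hout := rootIn_outside h hn hM hF ha (by omega) hsupp hv hav
  obtain ⟨g, hg, hgm, J₀, hJ₀, hdis₀, hgJ₀⟩ := exists_disjoint h hn hn13 hM η hJ hsupp
  set η' := (g : V ≃ₗ[F] V) η with hη'
  set J' := J₀.filter fun i => coordAt Q e c i η' ≠ 0 with hJ'd
  have hJ' : J'.card ≤ 3 := (Finset.card_filter_le _ _).trans hJ₀
  have hdis : Disjoint J J' := hdis₀.mono_right (Finset.filter_subset _ _)
  have hgJ' : ∀ i ∉ J', coordAt Q e c i η' = 0 := fun i hi => by_contra fun h0 =>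
    hi (Finset.mem_filter.2 ⟨by_contra fun h1 => h0 (hgJ₀ i h1), h0⟩)
  obtain ⟨l, hl⟩ : ∃ l, coordAt Q e c l η' ≠ 0 := by
    by_contra hc
    push Not at hc
    refine hη ((g : V ≃ₗ[F] V).map_eq_zero_iff.1 (h.ext_coord fun i => ?_))
    rw [map_zero]; exact hc i
  have hlJ' : l ∈ J' := by_contra fun h0 => hl (hgJ' l h0)
  have hnotJ : ∀ i ∈ J', i ∉ J := fun i hi hiJ => Finset.disjoint_left.1 hdis hiJ hi
  -- the members of the moved root group on the old support
  obtain ⟨o, ho, -, -⟩ := exists_notMem_two v v (S := J) (by omega)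
  have ha' : ∃ a', RootIn M η' a' ∧ ∃ w ∉ J', coordAt Q e c w a' ≠ 0 := by
    have h0 := (hout o ho).conj hg
    obtain ⟨π, s, hs, hπ⟩ := hgm.exists_perm h
    have hs0 : s o ≠ 0 := by rcases hs o with h' | h' <;> rw [h'] <;> simp
    refine ⟨_, h0, π o, ?_, ?_⟩
    swap
    · rw [hπ, map_smul, h.coord_self, smul_eq_mul, mul_one]; exact hs0
    intro hmem
    have h1 := orth_polar g (e o) η
    rw [hπ, polar_smul_left, h.polar_coord, h.polar_coord, hsupp o ho, mul_zero, smul_eq_mul,
      mul_eq_zero, or_iff_right hs0, mul_eq_zero,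
      or_iff_right (mul_ne_zero h.two_ne h.ne_zero)] at h1
    exact (Finset.mem_filter.1 hmem).2 h1
  obtain ⟨a', ha', w, hw, haw⟩ := ha'
  have hout' := rootIn_outside h hn hM hF ha' (by omega) hgJ' hw haw
  have hηη' : polar Q η η' = 0 := by
    rw [h.polar_eq_sum, Finset.sum_eq_zero, mul_zero]
    intro i _
    by_cases hi : i ∈ J
    · rw [hgJ' i fun h0 => hnotJ i h0 hi, mul_zero]
    · rw [hsupp i hi, zero_mul]
  have hη'A : η' ∈ A := h.mem_of_coord A fun i hi =>
    hout i (hnotJ i (by_contra fun h0 => hi (hgJ' i h0)))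
  have hfull : FullRoot M η := by
    refine ⟨ha.1, fun y hy => (show RootIn M η y from ?_).2.2⟩
    set yJ := ∑ i ∈ J, coordAt Q e c i y • e i with hyJ
    have hcoord : ∀ i, coordAt Q e c i yJ = if i ∈ J then coordAt Q e c i y else 0 := by
      intro i
      rw [hyJ, map_sum]
      simp only [map_smul, smul_eq_mul, h.coord_vec, mul_ite, mul_one, mul_zero]
      exact Finset.sum_ite_eq J i fun j => coordAt Q e c j y
    have hrest : y - yJ ∈ A := h.mem_of_coord A fun i hi => hout i fun hiJ => hi (by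
      rw [map_sub, hcoord, if_pos hiJ, sub_self])
    have hpy : polar Q η yJ = 0 := by
      have h1 := (show RootIn M η (y - yJ) from hrest).2.1
      rw [polar_sub_right, hy, zero_sub, neg_eq_zero] at h1
      exact h1
    have hyJ' : RootIn M η' yJ :=
      (mem_rootSpace hF ha').1 (h.mem_of_coord (rootSpace hF ha') fun i hi => hout' i fun hiJ' =>
        hi (by rw [hcoord, if_neg (hnotJ i hiJ')]))
    set t := (2 * c * coordAt Q e c l η')⁻¹ with ht
    set x₀ := t • e l with hx₀
    have hx₀A : x₀ ∈ A := A.smul_mem t (hout l (hnotJ l hlJ'))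
    have hp1 : polar Q η' x₀ = 1 := by
      rw [hx₀, polar_smul_right, polar_comm, h.polar_coord, smul_eq_mul, ht,
        inv_mul_cancel₀ (mul_ne_zero (mul_ne_zero h.two_ne h.ne_zero) hl)]
    have hp2 : polar Q yJ x₀ = 0 := by
      rw [hx₀, polar_smul_right, polar_comm, h.polar_coord, hcoord, if_neg (hnotJ l hlJ'),
        mul_zero, smul_zero]
    have h1 : (eich Q η' yJ : V ≃ₗ[F] V) x₀ ∈ A := by
      have h2 := RootIn.conj hyJ'.2.2 (show RootIn M η x₀ from hx₀A)
      rw [eich_fix hyJ'.1 hyJ'.2.1 (by rw [polar_comm]; exact hηη')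
        (by rw [polar_comm]; exact hpy)] at h2
      exact h2
    rw [eich_apply hyJ'.1 hyJ'.2.1, hp1, hp2, one_smul, zero_smul, sub_zero, mul_one] at h1
    have h2 := A.add_mem (A.sub_mem h1 hx₀A) (A.smul_mem (Q yJ) hη'A)
    have h3 := A.add_mem h2 hrest
    show y ∈ A
    convert h3 using 1
    abel
  obtain ⟨p, hp⟩ : ∃ p, coordAt Q e c p η ≠ 0 := by
    by_contra hc
    push Not at hc
    exact hη (h.ext_coord fun i => by rw [map_zero]; exact hc i)
  have hpv : p ≠ v := fun he => hp (he ▸ hsupp v hv)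
  refine commutator_le_of_fullRoot h.nondeg hn hfull
    (hfull.conj (flip_mem_M h hn hM p v)) ?_
  rw [h.flip_coord hpv, hsupp v hv, mul_zero, zero_smul, sub_zero, polar_sub_right, polar_self',
    ha.1, mul_zero, polar_smul_right, polar_comm, h.polar_coord, zero_sub, smul_eq_mul,
    neg_ne_zero]
  exact mul_ne_zero (mul_ne_zero h.two_ne hp) (mul_ne_zero (mul_ne_zero h.two_ne h.ne_zero) hp)

end Cfsg.Agent.H5
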