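import Cfsg.Agent.H5.FrameClass

/-!
Three-dimensional subspaces with two root groups inside a subgroup: all root elements, transitivity
on vectors of a given norm, reflection pairs.
-/

set_option autoImplicit false

namespace Cfsg.Agent.H5

open QuadraticMap hiding sq

variable {F V : Type*} [Field F] [AddCommGroup V] [Module F V] {Q : QuadraticForm F V}
  {M : Subgroup (orth Q)}

/-- Two opposite root groups of a three-dimensional space lying in `M`. -/
structure RootTri (M : Subgroup (orth Q)) (W : Submodule F V) (u u' g : V) : Prop where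
  mem : u ∈ W
  mem' : u' ∈ W
  memg : g ∈ W
  sing : Q u = 0
  sing' : Q u' = 0
  pair : polar Q u u' = 1
  perp : polar Q u g = 0
  perp' : polar Q u' g = 0
  anis : Q g ≠ 0
  span : ∀ x ∈ W, ∃ α β γ : F, x = α • u + β • u' + γ • g
  root : ∀ t : F, RootIn M u (t • g)
  root' : ∀ t : F, RootIn M u' (t • g)

/-- The isometries in `M` fixing the vectors orthogonal to `W`. -/
def fixPerp (M : Subgroup (orth Q)) (W : Submodule F V) : Subgroup (orth Q) :=
  M ⊓
  { carrier := {k | ∀ y ∈ perp Q W, (k : V ≃ₗ[F] V) y = y}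
    one_mem' := fun y _ => rfl
    mul_mem' := fun {a b} ha hb y hy => by rw [orth_mul_apply, hb y hy, ha y hy]
    inv_mem' := fun {a} ha y hy => by
      conv_lhs => rw [← ha y hy]
      rw [orth_inv_apply_apply] }

theorem mem_fixPerp {W : Submodule F V} {k : orth Q} :
    k ∈ fixPerp M W ↔ k ∈ M ∧ ∀ y ∈ perp Q W, (k : V ≃ₗ[F] V) y = y := Iff.rfl

theorem eich_mem_fixPerp {W : Submodule F V} {x y : V} (hx : x ∈ W) (hy : y ∈ W)
    (hr : RootIn M x y) : eich Q x y ∈ fixPerp M W :=
  ⟨hr.2.2, fun v hv => eich_apply_of_ortho hr.1 hr.2.1 (mem_perp.1 hv x hx) (mem_perp.1 hv y hy)⟩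

variable {W : Submodule F V} {u u' g : V}

theorem RootTri.symm (h : RootTri M W u u' g) : RootTri M W u' u g where
  mem := h.mem'
  mem' := h.mem
  memg := h.memg
  sing := h.sing'
  sing' := h.sing
  pair := by rw [polar_comm]; exact h.pair
  perp := h.perp'
  perp' := h.perp
  anis := h.anis
  span := fun x hx => by
    obtain ⟨α, β, γ, rfl⟩ := h.span x hx
    exact ⟨β, α, γ, by abel⟩
  root := h.root'
  root' := h.root

theorem RootTri.polar_left (h : RootTri M W u u' g) (α β γ : F) :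
    polar Q u (α • u + β • u' + γ • g) = β := by
  simp [polar_add_right, polar_smul_right, polar_self', h.sing, h.pair, h.perp]

theorem RootTri.polar_mid (h : RootTri M W u u' g) (α β γ : F) :
    polar Q g (α • u + β • u' + γ • g) = 2 * γ * Q g := by
  simp [polar_add_right, polar_smul_right, polar_self', polar_comm (⇑Q) g u, polar_comm (⇑Q) g u',
    h.perp, h.perp', smul_eq_mul]
  ring

theorem RootTri.map_combo (h : RootTri M W u u' g) (α β γ : F) :
    Q (α • u + β • u' + γ • g) = α * β + γ ^ 2 * Q g := by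
  rw [map_add_smul, map_smul_add_smul, h.sing, h.sing', h.pair, polar_add_left, polar_smul_left,
    polar_smul_left, h.perp, h.perp']
  simp only [smul_eq_mul, mul_zero, add_zero, zero_add, mul_one]
  ring

/-- The root group of `u` moves along the vectors with a given `polar Q u`. -/
theorem RootTri.shift (h : RootTri M W u u' g) (α β γ t : F) :
    (eich Q u (t • g) : V ≃ₗ[F] V) (α • u + β • u' + γ • g) =
      (α - 2 * t * γ * Q g - t ^ 2 * Q g * β) • u + β • u' + (γ + β * t) • g := by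
  rw [eich_apply h.sing (h.root t).2.1, h.polar_left, polar_smul_left, h.polar_mid,
    QuadraticMap.map_smul]
  simp only [smul_eq_mul]
  module

theorem RootTri.step (h : RootTri M W u u' g) {v v' : V} (hv : v ∈ W) (hv' : v' ∈ W)
    (hq : Q v = Q v') (hb : polar Q u v = polar Q u v') (hb0 : polar Q u v ≠ 0) :
    ∃ k ∈ fixPerp M W, (k : V ≃ₗ[F] V) v = v' := by
  obtain ⟨α, β, γ, rfl⟩ := h.span v hv
  obtain ⟨α', β', γ', rfl⟩ := h.span v' hv'
  rw [h.polar_left, h.polar_left] at hb
  rw [h.polar_left] at hb0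
  subst hb
  rw [h.map_combo, h.map_combo] at hq
  set t := (γ' - γ) / β with ht
  refine ⟨eich Q u (t • g), eich_mem_fixPerp h.mem (W.smul_mem t h.memg) (h.root t), ?_⟩
  rw [h.shift]
  have h1 : γ + β * t = γ' := by rw [ht]; field_simp; ring
  have h2 : α - 2 * t * γ * Q g - t ^ 2 * Q g * β = α' := by
    refine mul_right_cancel₀ hb0 ?_
    rw [← h1] at hq
    linear_combination hq
  rw [h1, h2]

theorem mul_two_ne {t : F} (h2 : (2 : F) ≠ 0) (ht : t ≠ 0) : 2 * t ≠ 0 := mul_ne_zero h2 ht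

/-- A conic has a point off an axis. -/
theorem exists_conic_off [Finite F] (h2 : (2 : F) ≠ 0) (h3 : (3 : F) ≠ 0) {d r : F} (hd : d ≠ 0)
    (hr : r ≠ 0) : ∃ X l : F, l ≠ 0 ∧ X ^ 2 - d * l ^ 2 = r := by
  have := Fintype.ofFinite F
  open Polynomial in
  obtain ⟨X₀, l₀, hab⟩ := FiniteField.exists_root_sum_quadratic
    (f := X ^ 2 - C r) (g := C (-d) * X ^ 2) (by compute_degree!)
    (by compute_degree! <;> simp [hd])
    (Nat.odd_iff.1 (by
      rw [Nat.odd_iff]
      refine FiniteField.odd_card_of_char_ne_two fun hc => h2 ?_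
      have : CharP F 2 := (ringChar.eq_iff).1 hc
      exact CharTwo.two_eq_zero))
  simp at hab
  by_cases hl : l₀ = 0
  swap
  · exact ⟨X₀, l₀, hl, by linear_combination hab⟩
  have hX : X₀ ^ 2 = r := by rw [hl] at hab; linear_combination hab
  have hX0 : X₀ ≠ 0 := fun h0 => hr (by rw [← hX, h0]; ring)
  obtain ⟨T, hT0, hT⟩ : ∃ T : F, T ≠ 0 ∧ T ^ 2 - d ≠ 0 := by
    by_cases h1 : (1 : F) ^ 2 - d = 0
    · exact ⟨2, h2, fun h4 => h3 (by linear_combination h4 - h1)⟩
    · exact ⟨1, one_ne_zero, h1⟩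
  refine ⟨X₀ + T * (-2 * X₀ * T / (T ^ 2 - d)), -2 * X₀ * T / (T ^ 2 - d),
    div_ne_zero (mul_ne_zero (mul_ne_zero (neg_ne_zero.2 h2) hX0) hT0) hT, ?_⟩
  field_simp
  linear_combination (T ^ 2 - d) ^ 2 * hX

theorem RootTri.move [Finite F] (h : RootTri M W u u' g) (h2 : (2 : F) ≠ 0) (h3 : (3 : F) ≠ 0)
    {q : F} (hq : q ≠ 0) {β β' : F} (hβ : β ≠ 0) (hβ' : β' ≠ 0) :
    ∃ v ∈ W, ∃ v' ∈ W, Q v = q ∧ Q v' = q ∧ polar Q u v = β ∧ polar Q u v' = β' ∧
      ∃ k ∈ fixPerp M W, (k : V ≃ₗ[F] V) v = v' := by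
  obtain ⟨X, l, hl, hX⟩ := exists_conic_off h2 h3 (mul_ne_zero hq h.anis) (mul_ne_zero hβ hβ')
  set γ := (β - X) / (l * Q g) with hγ
  set α := (q - γ ^ 2 * Q g) / β with hα
  set v := α • u + β • u' + γ • g with hv
  have hvW : v ∈ W :=
    add_mem (add_mem (W.smul_mem _ h.mem) (W.smul_mem _ h.mem')) (W.smul_mem _ h.memg)
  set k := eich Q u' (l • g) with hk
  have hkm : k ∈ fixPerp M W := eich_mem_fixPerp h.mem' (W.smul_mem l h.memg) (h.root' l)
  have e1 : (k : V ≃ₗ[F] V) v = α • u + (β - 2 * l * γ * Q g - l ^ 2 * Q g * α) • u' +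
      (γ + α * l) • g := by
    have := h.symm.shift β α γ l
    rw [add_comm (β • u') (α • u)] at this
    rw [hv, hk, this]; abel
  have hQv : Q v = q := by
    rw [hv, h.map_combo, hα]; field_simp; ring
  refine ⟨v, hvW, _, ?_, hQv, by rw [orth_map]; exact hQv, h.polar_left α β γ, ?_, k, hkm, rfl⟩
  · rw [e1]
    exact add_mem (add_mem (W.smul_mem _ h.mem) (W.smul_mem _ h.mem')) (W.smul_mem _ h.memg)
  · rw [e1, h.polar_left]
    refine mul_right_cancel₀ hβ ?_
    have := h.anis
    rw [hα, hγ]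
    field_simp
    linear_combination hX

theorem RootTri.off [Finite F] (h : RootTri M W u u' g) (h2 : (2 : F) ≠ 0) {v : V} (hv : v ∈ W)
    (hq : Q v ≠ 0) : ∃ k ∈ fixPerp M W, (k : V ≃ₗ[F] V) v ∈ W ∧
      polar Q u ((k : V ≃ₗ[F] V) v) ≠ 0 := by
  by_cases hb : polar Q u v = 0
  swap
  · exact ⟨1, one_mem _, hv, hb⟩
  obtain ⟨α, β, γ, rfl⟩ := h.span v hv
  rw [h.polar_left] at hb
  subst hb
  rw [h.map_combo] at hq
  have key : ∀ t : F, t ≠ 0 → 2 * γ + t * α ≠ 0 → ∃ k ∈ fixPerp M W,
      (k : V ≃ₗ[F] V) (α • u + (0 : F) • u' + γ • g) ∈ W ∧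
        polar Q u ((k : V ≃ₗ[F] V) (α • u + (0 : F) • u' + γ • g)) ≠ 0 := by
    intro t ht hne
    refine ⟨eich Q u' (t • g), eich_mem_fixPerp h.mem' (W.smul_mem t h.memg) (h.root' t), ?_⟩
    have := h.symm.shift 0 α γ t
    rw [add_comm ((0 : F) • u') (α • u)] at this
    rw [this]
    refine ⟨add_mem (add_mem (W.smul_mem _ h.mem') (W.smul_mem _ h.mem)) (W.smul_mem _ h.memg), ?_⟩
    rw [add_comm (_ • u') (α • u), h.polar_left]
    intro h0
    exact mul_ne_zero (mul_ne_zero ht h.anis) hne (by linear_combination -h0)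
  by_cases h1 : 2 * γ + 1 * α = 0
  · refine key 2 h2 fun h0 => hq ?_
    have hα : α = 0 := by linear_combination h0 - h1
    have hγ : γ = 0 := (mul_eq_zero.1 (show 2 * γ = 0 by linear_combination h1 - hα)).resolve_left h2
    rw [hγ]; ring
  · exact key 1 one_ne_zero h1

/-- Transitivity on the vectors of a given non-zero norm. -/
theorem RootTri.exists_map [Finite F] (h : RootTri M W u u' g) (h2 : (2 : F) ≠ 0)
    (h3 : (3 : F) ≠ 0) {v v' : V} (hv : v ∈ W) (hv' : v' ∈ W) (hq : Q v = Q v') (hq0 : Q v ≠ 0) :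
    ∃ k ∈ fixPerp M W, (k : V ≃ₗ[F] V) v = v' := by
  obtain ⟨k, hk, hw, hb⟩ := h.off h2 hv hq0
  obtain ⟨k', hk', hw', hb'⟩ := h.off h2 hv' (by rwa [← hq])
  obtain ⟨x, hx, x', hx', hqx, hqx', hbx, hbx', m, hm, hmx⟩ := h.move h2 h3 hq0 hb hb'
  obtain ⟨s, hs, hsv⟩ := h.step hw hx (by rw [orth_map, hqx]) hbx.symm hb
  obtain ⟨s', hs', hsv'⟩ := h.step hw' hx' (by rw [orth_map, hqx', hq]) hbx'.symm hb'
  refine ⟨k'⁻¹ * (s'⁻¹ * (m * (s * k))),
    mul_mem (inv_mem hk') (mul_mem (inv_mem hs') (mul_mem hm (mul_mem hs hk))), ?_⟩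
  simp only [orth_mul_apply]
  rw [hsv, hmx, ← hsv', orth_inv_apply_apply, orth_inv_apply_apply]

variable (hF : ∀ t : F, ∃ k : ℕ, (k : F) = t)

include hF in
/-- Every root element of the subspace lies in `M`. -/
theorem RootTri.eich_mem (h : RootTri M W u u' g) {x y : V} (hx : x ∈ W) (hy : y ∈ W) :
    eich Q x y ∈ M := by
  by_cases hc : Q x = 0 ∧ polar Q x y = 0
  swap
  · rw [eich_eq_one_of_not hc]; exact one_mem M
  obtain ⟨hqx, hxy⟩ := hc
  obtain ⟨α, β, γ, rfl⟩ := h.span x hx
  obtain ⟨a, b, d, rfl⟩ := h.span y hy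
  rw [h.map_combo] at hqx
  by_cases hβ : β = 0
  · subst hβ
    have hγ : γ = 0 := by
      have hg : γ ^ 2 * Q g = 0 := by linear_combination hqx
      simpa [h.anis] using hg
    subst hγ
    simp only [zero_smul, add_zero] at hxy ⊢
    by_cases hα : α = 0
    · rw [hα, zero_smul]
      have : ∀ y : V, eich Q (0 : V) y = 1 := fun y => orth_ext fun v => by
        rw [eich_apply (by simp) (by simp)]; simp
      rw [this]; exact one_mem M
    rw [polar_smul_left, h.polar_left, smul_eq_mul, mul_eq_zero, or_iff_right hα] at hxy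
    subst hxy
    have hp : polar Q u (a • u + (0 : F) • u' + d • g) = 0 := h.polar_left a 0 d
    rw [eich_smul_smul h.sing hp, smul_add, smul_add, smul_smul, smul_smul, smul_smul, mul_zero,
      zero_smul, add_zero, add_comm, eich_add_smul h.sing (h.root _).2.1]
    exact (h.root _).2.2
  set t := γ / β with ht
  set k := eich Q u (t • g) with hkd
  have hk : k ∈ M := (h.root t).2.2
  have e1 : (k : V ≃ₗ[F] V) u' = (-(t ^ 2 * Q g)) • u + u' + t • g := by
    have := h.shift 0 1 0 t
    simp only [one_smul, zero_smul, add_zero, zero_add] at this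
    rw [hkd, this]; module
  have e2 : (k : V ≃ₗ[F] V) g = g - (2 * t * Q g) • u := by
    have := h.shift 0 0 1 t
    simp only [one_smul, zero_smul, add_zero, zero_add] at this
    rw [hkd, this]; module
  have hbase : RootIn M ((k : V ≃ₗ[F] V) u') ((k : V ≃ₗ[F] V) g) := by
    have := RootIn.conj hk (h.root' 1)
    rwa [one_smul] at this
  set A := rootSpace hF hbase
  have hxk : α • u + β • u' + γ • g = β • (k : V ≃ₗ[F] V) u' := by
    rw [e1]
    match_scalars <;> simp only [ht, mul_one, mul_neg] <;> field_simp <;> linear_combination hqx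
  rw [hxk] at hxy ⊢
  rw [polar_smul_left, smul_eq_mul, mul_eq_zero, or_iff_right hβ] at hxy
  rw [eich_smul_smul hbase.1 hxy]
  refine (show RootIn M _ _ from ?_).2.2
  show _ ∈ A
  refine A.smul_mem β ?_
  have hxy' := hxy
  rw [e1] at hxy'
  simp only [polar_add_left, polar_add_right, polar_smul_left, polar_smul_right, polar_self', h.sing,
    h.sing', h.pair, h.perp, h.perp', polar_comm (⇑Q) u' u, polar_comm (⇑Q) g u,
    polar_comm (⇑Q) g u', smul_eq_mul] at hxy'
  have hu'A : (k : V ≃ₗ[F] V) u' ∈ A := by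
    show RootIn M _ _
    have h0 := hbase.1
    refine ⟨h0, by rw [polar_self', h0, mul_zero], ?_⟩
    have h1 := eich_add_smul h0 (polar_zero_right Q ((k : V ≃ₗ[F] V) u')) 1
    rw [one_smul, zero_add, eich_zero] at h1
    rw [h1]
    exact one_mem M
  have hgA : (k : V ≃ₗ[F] V) g ∈ A := hbase
  convert A.add_mem (A.smul_mem b hu'A) (A.smul_mem (d - b * t) hgA) using 1
  rw [e1, e2]
  match_scalars <;> first | ring1 | linear_combination hxy'

include hF in
/-- Reflections in vectors of equal norm pair inside `M`. -/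
theorem RootTri.pair_mem [Finite F] (h : RootTri M W u u' g) (h2 : (2 : F) ≠ 0) (h3 : (3 : F) ≠ 0)
    {f v : V} (hf : f ∈ W) (hv : v ∈ W) (hq : Q f = Q v) (hq0 : Q f ≠ 0) :
    refl Q f * refl Q v ∈ M := by
  let K : Subgroup (orth Q) :=
    Subgroup.closure {k | ∃ x ∈ W, ∃ y ∈ W, RootIn M x y ∧ k = eich Q x y}
  have hKM : K ≤ M := (Subgroup.closure_le M).2 (by
    rintro _ ⟨x, hx, y, hy, -, rfl⟩; exact h.eich_mem hF hx hy)
  have hKf : ∀ k ∈ K, refl Q f * k * refl Q f ∈ M := by
    intro k hk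
    induction hk using Subgroup.closure_induction with
    | mem k hk =>
      obtain ⟨x, hx, y, hy, -, rfl⟩ := hk
      have := eich_conj (refl Q f) x y
      rw [refl_inv] at this
      rw [this]
      refine h.eich_mem hF ?_ ?_ <;>
        (rw [refl_apply]; exact W.sub_mem (by assumption) (W.smul_mem _ hf))
    | one => rw [mul_one, refl_mul_self]; exact one_mem M
    | mul a b _ _ iha ihb =>
      have := mul_mem iha ihb
      simpa [mul_assoc, ← mul_assoc (refl Q f) (refl Q f), refl_mul_self] using this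
    | inv a _ iha =>
      have := inv_mem iha
      simpa [mul_assoc, refl_inv] using this
  -- transitivity inside the closure
  let M' : Subgroup (orth Q) := K
  have hroot' : ∀ {x y}, x ∈ W → y ∈ W → RootIn M x y → RootIn M' x y := fun hx hy hr =>
    ⟨hr.1, hr.2.1, Subgroup.subset_closure ⟨_, hx, _, hy, hr, rfl⟩⟩
  have h' : RootTri M' W u u' g :=
    { h with
      root := fun t => hroot' h.mem (W.smul_mem t h.memg) (h.root t)
      root' := fun t => hroot' h.mem' (W.smul_mem t h.memg) (h.root' t) }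
  obtain ⟨k, hk, hkv⟩ := h'.exists_map h2 h3 hf hv hq hq0
  have := mul_mem (hKf k (mem_fixPerp.1 hk).1) (inv_mem (hKM (mem_fixPerp.1 hk).1))
  rw [← hkv, ← refl_conj]
  simpa [mul_assoc] using this

include hF in
/-- A root element and an element moving its point give two opposite root groups. -/
theorem exists_rootTri [FiniteDimensional F V] (h2 : (2 : F) ≠ 0) (hW3 : Module.finrank F W = 3)
    (hrad : ∀ x ∈ W, (∀ y ∈ W, polar Q x y = 0) → x = 0) {x a : V} (hx : x ∈ W) (ha : a ∈ W)
    (hxa : RootIn M x a) (hqa : Q a ≠ 0) {m : orth Q} (hm : m ∈ M)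
    (hmW : ∀ y ∈ W, (m : V ≃ₗ[F] V) y ∈ W)
    (hmx : (m : V ≃ₗ[F] V) x ∉ Submodule.span F {x}) : ∃ u u' g, RootTri M W u u' g := by
  have hx0 : x ≠ 0 := fun h0 => hmx (by rw [h0, map_zero]; exact Submodule.zero_mem _)
  have hspan : ∀ w₁ w₂ w₃ : V, w₁ ∈ W → w₂ ∈ W → w₃ ∈ W →
      LinearIndependent F ![w₁, w₂, w₃] → ∀ y ∈ W, ∃ α β γ : F, y = α • w₁ + β • w₂ + γ • w₃ := by
    intro w₁ w₂ w₃ hw₁ hw₂ hw₃ hind y hy
    have hle : Submodule.span F (Set.range ![w₁, w₂, w₃]) ≤ W :=
      Submodule.span_le.2 (by rintro _ ⟨i, rfl⟩; fin_cases i <;> assumption)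
    have := Submodule.eq_of_le_of_finrank_eq hle
      (by rw [finrank_span_eq_card hind, hW3]; simp)
    rw [← this, Submodule.mem_span_range_iff_exists_fun] at hy
    obtain ⟨φ, hφ⟩ := hy
    exact ⟨φ 0, φ 1, φ 2, by rw [← hφ, Fin.sum_univ_three]; rfl⟩
  set y := (m : V ≃ₗ[F] V) x with hy
  have hqy : Q y = 0 := by rw [hy, orth_map, hxa.1]
  have hxy : polar Q x y ≠ 0 := by
    intro h0
    have hind : LinearIndependent F ![x, a, y] := by
      rw [Fintype.linearIndependent_iff]
      intro φ hφ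
      simp [Fin.sum_univ_three] at hφ
      have h2a : φ 2 = 0 := by
        by_contra hne
        have hy' : y = (-(φ 0 / φ 2)) • x + (-(φ 1 / φ 2)) • a := by
          refine smul_right_injective V hne ?_
          simp only [smul_add, smul_smul]
          linear_combination (norm := (match_scalars <;> field_simp <;> ring)) hφ
        have hb := hqy
        rw [hy', map_smul_add_smul, hxa.1, hxa.2.1] at hb
        have h1 : φ 1 / φ 2 = 0 := by simpa [hqa] using hb
        exact hmx (Submodule.mem_span_singleton.2 ⟨-(φ 0 / φ 2), by rw [hy', h1]; simp⟩)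
      rw [h2a, zero_smul, add_zero] at hφ
      have h1a : φ 1 = 0 := by
        have := congrArg (polar Q a) hφ
        simpa [polar_add_right, polar_smul_right, polar_comm (⇑Q) a x, hxa.2.1, polar_self', h2,
          hqa] using this
      rw [h1a, zero_smul, add_zero] at hφ
      have h0a : φ 0 = 0 := by simpa [hx0] using hφ
      intro i; fin_cases i <;> assumption
    refine hx0 (hrad x hx fun w hw => ?_)
    obtain ⟨α, β, γ, rfl⟩ := hspan x a y hx ha (hmW x hx) hind w hw
    simp [polar_add_right, polar_smul_right, polar_self', hxa.1, hxa.2.1, h0]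
  set u' := (polar Q x y)⁻¹ • y with hu'
  have hu'q : Q u' = 0 := by rw [hu', QuadraticMap.map_smul, hqy, smul_zero]
  have hxu' : polar Q x u' = 1 := by
    rw [hu', polar_smul_right, smul_eq_mul, inv_mul_cancel₀ hxy]
  have hu'W : u' ∈ W := W.smul_mem _ (hmW x hx)
  set g := a - polar Q u' a • x with hg
  have hgW : g ∈ W := W.sub_mem ha (W.smul_mem _ hx)
  have hxg : polar Q x g = 0 := by
    simp [hg, polar_sub_right, polar_smul_right, polar_self', hxa.1, hxa.2.1]
  have hu'g : polar Q u' g = 0 := by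
    simp [hg, polar_sub_right, polar_smul_right, polar_comm (⇑Q) u' x, hxu']
  have hqg : Q g = Q a := by
    rw [hg, map_sub_smul, hxa.1, polar_comm (⇑Q) a x, hxa.2.1]; ring
  have hgroot : RootIn M x g := by
    refine ⟨hxa.1, hxg, ?_⟩
    rw [hg, sub_eq_add_neg, ← neg_smul, eich_add_smul hxa.1 hxa.2.1]
    exact hxa.2.2
  have hind : LinearIndependent F ![x, u', g] := by
    rw [Fintype.linearIndependent_iff]
    intro φ hφ
    simp [Fin.sum_univ_three] at hφ
    have e1 := congrArg (polar Q x) hφ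
    have e2 := congrArg (polar Q u') hφ
    have e3 := congrArg (polar Q g) hφ
    simp [polar_add_right, polar_smul_right, polar_self', hxa.1, hu'q, hxu', hxg, hu'g,
      polar_comm (⇑Q) u' x, polar_comm (⇑Q) g x, polar_comm (⇑Q) g u', hqg, h2, hqa] at e1 e2 e3
    intro i; fin_cases i <;> assumption
  have hsp := hspan x u' g hx hu'W hgW hind
  obtain ⟨α, β, γ, hma⟩ := hsp _ (hmW a ha)
  have hA : RootIn M y ((m : V ≃ₗ[F] V) a) := hxa.conj hm
  have hyu : y = polar Q x y • u' := by rw [hu', smul_smul, mul_inv_cancel₀ hxy, one_smul]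
  have hA' : RootIn M u' (polar Q x y • (m : V ≃ₗ[F] V) a) :=
    RootIn.smul_left (by rwa [← hyu]) hxy
  have hα : α = 0 := by
    have := hA.2.1
    rw [hyu, polar_smul_left, smul_eq_mul, mul_eq_zero, or_iff_right hxy, hma] at this
    simpa [polar_add_right, polar_smul_right, polar_self', hu'q, polar_comm (⇑Q) u' x, hxu',
      hu'g] using this
  have hγ : γ ≠ 0 := by
    intro h0
    refine hqa ?_
    rw [← orth_map m a, hma, hα, h0]
    simp [QuadraticMap.map_smul, hu'q]
  have hroot' : RootIn M u' g := by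
    set A := rootSpace hF hA'
    have h1 : u' ∈ A := by
      refine ⟨hu'q, by rw [polar_self', hu'q, mul_zero], ?_⟩
      rw [show eich Q u' u' = eich Q u' (0 + (1 : F) • u') by simp,
        eich_add_smul hu'q (polar_zero_right Q _), eich_zero]
      exact one_mem M
    have h2' : (m : V ≃ₗ[F] V) a ∈ A := by
      have := A.smul_mem (polar Q x y)⁻¹ (show _ ∈ A from hA')
      rwa [smul_smul, inv_mul_cancel₀ hxy, one_smul] at this
    have h3 := A.smul_mem γ⁻¹ (A.sub_mem h2' (A.smul_mem β h1))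
    rw [hma, hα, zero_smul, zero_add, add_sub_cancel_left, smul_smul, inv_mul_cancel₀ hγ,
      one_smul] at h3
    exact h3
  exact ⟨x, u', g,
    { mem := hx, mem' := hu'W, memg := hgW, sing := hxa.1, sing' := hu'q, pair := hxu',
      perp := hxg, perp' := hu'g, anis := by rw [hqg]; exact hqa, span := hsp,
      root := fun t => (rootSpace hF hgroot).smul_mem t (show g ∈ rootSpace hF hgroot from hgroot),
      root' := fun t => (rootSpace hF hroot').smul_mem t (show g ∈ rootSpace hF hroot' from hroot') }⟩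

end Cfsg.Agent.H5
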