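import Cfsg.Agent.H5.OmegaForms
import Cfsg.Agent.H2.Form

/-!
In characteristic two the isometry group of `x₀² + Σ x i y i` is the symplectic group.
-/

set_option autoImplicit false

namespace Cfsg.Agent.H5

open QuadraticMap hiding sq
open scoped Matrix

variable {F : Type*} [Field F] [CharP F 2] {m : ℕ}

theorem sympForm_eq_polar (u v : Fin m ⊕ Fin m → F) :
    Cfsg.sympForm m F u v = polar (qPlus m F) u v := by
  rw [H2.sympForm_apply, polar_qPlus]
  refine Finset.sum_congr rfl fun i _ => ?_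
  rw [CharTwo.sub_eq_add]; ring

theorem qOdd_apply_elim (t : F) (u : Fin m ⊕ Fin m → F) :
    Cfsg.quadFormOdd m F (Sum.elim (fun _ => t) u) = t ^ 2 + qPlus m F u := by
  simp [Cfsg.quadFormOdd, coe_qPlus, Cfsg.quadFormPlus]

/-- The distinguished vector spanning the radical. -/
def radVec (m : ℕ) (F : Type*) [Field F] : Unit ⊕ (Fin m ⊕ Fin m) → F :=
  Sum.elim (fun _ => 1) 0

theorem mulVec_radVec (g : Cfsg.isometryGroup F (Cfsg.quadFormOdd m F)) :
    ((g : Matrix.GeneralLinearGroup (Unit ⊕ (Fin m ⊕ Fin m)) F) : Matrix (Unit ⊕ (Fin m ⊕ Fin m)) (Unit ⊕ (Fin m ⊕ Fin m)) F) *ᵥ radVec m F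
      = radVec m F := by
  set k := isoEquiv (qOdd m F) (coe_qOdd m) g with hk
  rw [← isoEquiv_apply (qOdd m F) (coe_qOdd m)]
  set w := (k : (Unit ⊕ (Fin m ⊕ Fin m) → F) ≃ₗ[F] (Unit ⊕ (Fin m ⊕ Fin m) → F)) (radVec m F) with hw
  have h2 : (2 : F) = 0 := CharTwo.two_eq_zero
  have hrad : ∀ y, polar (qOdd m F) w y = 0 := by
    intro y
    obtain ⟨z, rfl⟩ : ∃ z, (k : (Unit ⊕ (Fin m ⊕ Fin m) → F) ≃ₗ[F] (Unit ⊕ (Fin m ⊕ Fin m) → F)) z = y :=
      (k : (Unit ⊕ (Fin m ⊕ Fin m) → F) ≃ₗ[F] (Unit ⊕ (Fin m ⊕ Fin m) → F)).surjective y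
    rw [hw, orth_polar, polar_qOdd, h2]
    simp [radVec]
  have hy : w ∘ Sum.inr = 0 := by
    funext i
    rcases i with i | i
    · simpa [polar_qOdd, Pi.single_apply, h2] using hrad (Pi.single (.inr (.inr i)) 1)
    · simpa [polar_qOdd, Pi.single_apply, h2] using hrad (Pi.single (.inr (.inl i)) 1)
  have hq : qOdd m F w = 1 := by
    rw [hw, orth_map, coe_qOdd, radVec, qOdd_apply_elim, QuadraticMap.map_zero]
    simp
  have hwd : w = Sum.elim (fun _ => w (.inl ())) 0 := by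
    funext i
    rcases i with i | i
    · rfl
    · exact congrFun hy i
  rw [coe_qOdd, hwd, qOdd_apply_elim, QuadraticMap.map_zero, add_zero] at hq
  have h1 : w (.inl ()) = 1 := by
    have : (w (.inl ()) + 1) * (w (.inl ()) + 1) = 0 := by
      linear_combination hq + (w (.inl ()) + 1) * h2
    rw [mul_self_eq_zero] at this
    linear_combination this - h2
  rw [hwd, h1]; rfl

/-- The symplectic block of an isometry. -/
def spBlock (g : Cfsg.isometryGroup F (Cfsg.quadFormOdd m F)) :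
    Matrix (Fin m ⊕ Fin m) (Fin m ⊕ Fin m) F :=
  ((g : Matrix.GeneralLinearGroup (Unit ⊕ (Fin m ⊕ Fin m)) F) : Matrix (Unit ⊕ (Fin m ⊕ Fin m)) (Unit ⊕ (Fin m ⊕ Fin m)) F).toBlocks₂₂

theorem toBlocks₂₁_eq_zero (g : Cfsg.isometryGroup F (Cfsg.quadFormOdd m F)) :
    ((g : Matrix.GeneralLinearGroup (Unit ⊕ (Fin m ⊕ Fin m)) F) : Matrix (Unit ⊕ (Fin m ⊕ Fin m)) (Unit ⊕ (Fin m ⊕ Fin m)) F).toBlocks₂₁ = 0 := by
  ext i j
  have := congrFun (mulVec_radVec g) (.inr i)
  simp [radVec, Matrix.mulVec, dotProduct, Fintype.sum_sum_type] at this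
  simpa [Matrix.toBlocks₂₁] using this

theorem mulVec_elim (g : Cfsg.isometryGroup F (Cfsg.quadFormOdd m F)) (u : Fin m ⊕ Fin m → F) :
    ((g : Matrix.GeneralLinearGroup (Unit ⊕ (Fin m ⊕ Fin m)) F) : Matrix (Unit ⊕ (Fin m ⊕ Fin m)) (Unit ⊕ (Fin m ⊕ Fin m)) F) *ᵥ
      Sum.elim (fun _ => 0) u =
      Sum.elim (((g : Matrix.GeneralLinearGroup (Unit ⊕ (Fin m ⊕ Fin m)) F) : Matrix (Unit ⊕ (Fin m ⊕ Fin m)) (Unit ⊕ (Fin m ⊕ Fin m)) F).toBlocks₁₂ *ᵥ u)
        (spBlock g *ᵥ u) := by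
  conv_lhs => rw [← Matrix.fromBlocks_toBlocks
    ((g : Matrix.GeneralLinearGroup (Unit ⊕ (Fin m ⊕ Fin m)) F) : Matrix (Unit ⊕ (Fin m ⊕ Fin m)) (Unit ⊕ (Fin m ⊕ Fin m)) F)]
  rw [Matrix.fromBlocks_mulVec, Sum.elim_comp_inl, Sum.elim_comp_inr,
    show (fun _ : Unit => (0 : F)) = 0 from rfl, Matrix.mulVec_zero, Matrix.mulVec_zero, zero_add,
    zero_add]
  rfl

theorem spBlock_mem (g : Cfsg.isometryGroup F (Cfsg.quadFormOdd m F)) :
    spBlock g ∈ Matrix.symplecticGroup (Fin m) F := by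
  rw [H2.mem_symplecticGroup_iff]
  intro u v
  have h := orth_polar (isoEquiv (qOdd m F) (coe_qOdd m) g) (Sum.elim (fun _ => 0) u)
    (Sum.elim (fun _ => 0) v)
  rw [isoEquiv_apply, isoEquiv_apply, mulVec_elim, mulVec_elim, polar_qOdd, polar_qOdd] at h
  rw [sympForm_eq_polar, sympForm_eq_polar, polar_qPlus, polar_qPlus]
  simpa [CharTwo.two_eq_zero] using h

/-- Restriction to the symplectic quotient. -/
def spRestrict : Cfsg.isometryGroup F (Cfsg.quadFormOdd m F) →* Matrix.symplecticGroup (Fin m) F :=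
  MonoidHom.mk' (fun g => ⟨spBlock g, spBlock_mem g⟩) fun g h => Subtype.ext (by
    change spBlock (g * h) = spBlock g * spBlock h
    have e := Matrix.fromBlocks_toBlocks
      ((g : Matrix.GeneralLinearGroup (Unit ⊕ (Fin m ⊕ Fin m)) F) : Matrix (Unit ⊕ (Fin m ⊕ Fin m)) (Unit ⊕ (Fin m ⊕ Fin m)) F)
    have e' := Matrix.fromBlocks_toBlocks
      ((h : Matrix.GeneralLinearGroup (Unit ⊕ (Fin m ⊕ Fin m)) F) : Matrix (Unit ⊕ (Fin m ⊕ Fin m)) (Unit ⊕ (Fin m ⊕ Fin m)) F)
    rw [spBlock, Subgroup.coe_mul, Units.val_mul]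
    conv_lhs => rw [← e, ← e']
    rw [Matrix.fromBlocks_multiply, Matrix.toBlocks_fromBlocks₂₂, toBlocks₂₁_eq_zero g, Matrix.zero_mul, zero_add]
    rfl)

variable [Finite F]

theorem spRestrict_bijective : Function.Bijective (spRestrict (F := F) (m := m)) := by
  classical
  have h2 : (2 : F) = 0 := CharTwo.two_eq_zero
  constructor
  · rw [injective_iff_map_eq_one]
    intro g hg
    have hA : spBlock g = 1 := congrArg Subtype.val hg
    have hα : ∀ u, ((g : Matrix.GeneralLinearGroup (Unit ⊕ (Fin m ⊕ Fin m)) F) :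
        Matrix (Unit ⊕ (Fin m ⊕ Fin m)) (Unit ⊕ (Fin m ⊕ Fin m)) F).toBlocks₁₂ *ᵥ u = 0 := by
      intro u
      have h := mem_isometryGroup.1 g.2 (Sum.elim (fun _ => 0) u)
      rw [mulVec_elim, hA, Matrix.one_mulVec] at h
      funext i
      obtain ⟨⟩ := i
      rw [show (((g : Matrix.GeneralLinearGroup (Unit ⊕ (Fin m ⊕ Fin m)) F) :
          Matrix (Unit ⊕ (Fin m ⊕ Fin m)) (Unit ⊕ (Fin m ⊕ Fin m)) F).toBlocks₁₂ *ᵥ u) = fun _ =>
          (((g : Matrix.GeneralLinearGroup (Unit ⊕ (Fin m ⊕ Fin m)) F) :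
          Matrix (Unit ⊕ (Fin m ⊕ Fin m)) (Unit ⊕ (Fin m ⊕ Fin m)) F).toBlocks₁₂ *ᵥ u) () from rfl, qOdd_apply_elim, qOdd_apply_elim] at h
      simpa using h
    refine Subtype.ext (Units.ext (Matrix.ext_of_mulVec_single fun i => ?_))
    rw [Subgroup.coe_one, Units.val_one, Matrix.one_mulVec]
    rcases i with i | i
    · have hs : (Pi.single (Sum.inl i) 1 : Unit ⊕ (Fin m ⊕ Fin m) → F) = radVec m F := by
        funext k; rcases k with k | k <;> simp [radVec]
      rw [hs, mulVec_radVec]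
    · have hs : (Pi.single (Sum.inr i) 1 : Unit ⊕ (Fin m ⊕ Fin m) → F) =
          Sum.elim (fun _ => 0) (Pi.single i 1) := by
        funext k; rcases k with k | k <;> simp [Pi.single_apply]
      rw [hs, mulVec_elim, hA, Matrix.one_mulVec, hα]
      rfl
  · rintro ⟨A, hA⟩
    rw [H2.mem_symplecticGroup_iff] at hA
    let R : QuadraticForm F (Fin m ⊕ Fin m → F) := (qPlus m F).comp (Matrix.mulVecLin A) + qPlus m F
    have hR : ∀ u v, polar R u v = 0 := fun u v => by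
      have : polar R u v = polar (qPlus m F) (A *ᵥ u) (A *ᵥ v) + polar (qPlus m F) u v := by
        simp only [polar, R, QuadraticMap.add_apply, QuadraticMap.comp_apply, Matrix.mulVecLin_apply,
          Matrix.mulVec_add]
        ring
      rw [this, ← sympForm_eq_polar, ← sympForm_eq_polar, hA, CharTwo.add_self_eq_zero]
    choose s hs using fun i => isSquare_of_two_eq_zero h2 (R (Pi.single i 1))
    have hsum : ∀ u : Fin m ⊕ Fin m → F, (∑ i, s i * u i) ^ 2 = R u := by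
      intro u
      have hadd : ∀ t : Finset (Fin m ⊕ Fin m),
          R (∑ i ∈ t, u i • Pi.single i 1) = ∑ i ∈ t, R (u i • Pi.single i 1) := by
        intro t
        induction t using Finset.induction_on with
        | empty => simp
        | insert a t ha ih =>
          rw [Finset.sum_insert ha, Finset.sum_insert ha, QuadraticMap.map_add (⇑R), hR, ih, add_zero]
      conv_rhs => rw [pi_eq_sum_univ' u]
      rw [hadd, sum_pow_char 2]
      refine Finset.sum_congr rfl fun i _ => ?_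
      rw [QuadraticMap.map_smul, hs i, smul_eq_mul]
      ring
    let M : Matrix (Unit ⊕ (Fin m ⊕ Fin m)) (Unit ⊕ (Fin m ⊕ Fin m)) F :=
      Matrix.fromBlocks 1 (Matrix.of fun _ i => s i) 0 A
    have hM : ∀ x, Cfsg.quadFormOdd m F (M *ᵥ x) = Cfsg.quadFormOdd m F x := by
      intro x
      have hx : x = Sum.elim (fun _ => x (.inl ())) (x ∘ Sum.inr) := by
        funext k; rcases k with k | k <;> rfl
      have hrow : (1 : Matrix Unit Unit F) *ᵥ (x ∘ Sum.inl) + Matrix.of (fun _ i => s i) *ᵥ (x ∘ Sum.inr)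
          = fun _ => x (.inl ()) + ∑ i, s i * x (.inr i) := by
        funext k; simp [Matrix.mulVec, dotProduct]
      rw [Matrix.fromBlocks_mulVec, hrow, Matrix.zero_mulVec, zero_add, qOdd_apply_elim]
      conv_rhs => rw [hx, qOdd_apply_elim]
      rw [CharTwo.add_sq, show ∑ i, s i * x (.inr i) = ∑ i, s i * (x ∘ Sum.inr) i from rfl, hsum]
      simp only [R, QuadraticMap.add_apply, QuadraticMap.comp_apply, Matrix.mulVecLin_apply]
      linear_combination qPlus m F (A *ᵥ (x ∘ Sum.inr)) * h2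
    have hdet : M.det ≠ 0 := by
      rw [Matrix.det_fromBlocks_zero₂₁, Matrix.det_one, one_mul]
      exact (SymplecticGroup.symplectic_det (H2.mem_symplecticGroup_iff.2 hA)).ne_zero
    refine ⟨⟨Matrix.GeneralLinearGroup.mkOfDetNeZero M hdet, mem_isometryGroup.2 hM⟩, Subtype.ext ?_⟩
    change spBlock _ = A
    exact Matrix.toBlocks_fromBlocks₂₂ 1 (Matrix.of fun _ i => s i) 0 A

end Cfsg.Agent.H5
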